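import Cfsg.Agent.Lib.L33.Fb

/-! A copy of `L₃(3)` in a group and the action of its normaliser (helper3, for S3140). -/

set_option autoImplicit false

namespace Cfsg.Lib.L33

open Subgroup
open MulAut (conj)

/-- A copy of `L₃(3)`. -/
structure St (G : Type*) [Group G] where
  α : L3 →* G
  inj : Function.Injective α

namespace St

variable {G : Type*} [Group G] (S : St G) {g h k u w : G} {a x y : L3}

/-- The normaliser. -/
def N : Subgroup G := normalizer (S.α.range : Set G)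
/-- The centraliser. -/
def K : Subgroup G := centralizer (S.α.range : Set G)

/-- The action of the normaliser. -/
noncomputable def φ : S.N →* MulAut L3 :=
  (MulAut.congr (MonoidHom.ofInjective S.inj).symm).toMonoidHom.comp S.α.range.normalizerMonoidHom

open Classical in
/-- The action of the normaliser. -/
noncomputable def π (g : G) : MulAut L3 := if h : g ∈ S.N then S.φ ⟨g, h⟩ else 1

theorem πφ (g : S.N) : S.π g = S.φ g := dif_pos g.2

theorem πa (p : g ∈ S.N) (x : L3) : S.α (S.π g x) = g * S.α x * g⁻¹ := by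
  rw [S.πφ ⟨g, p⟩]
  exact congrArg Subtype.val ((MonoidHom.ofInjective S.inj).apply_symm_apply _)

theorem mK : k ∈ S.K ↔ ∀ x, S.α x * k = k * S.α x := ⟨fun p x => p _ ⟨x, rfl⟩, by rintro p _ ⟨x, rfl⟩; exact p x⟩
theorem aN (x : L3) : S.α x ∈ S.N := le_normalizer ⟨x, rfl⟩
theorem KN (p : k ∈ S.K) : k ∈ S.N := centralizer_le_normalizer _ p
theorem πm (p : g ∈ S.N) (q : h ∈ S.N) : S.π (g * h) = S.π g * S.π h := by
  rw [S.πφ ⟨g, p⟩, S.πφ ⟨h, q⟩, ← map_mul, ← πφ]; rfl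
theorem πi (p : g ∈ S.N) : S.π g⁻¹ = (S.π g)⁻¹ := by rw [S.πφ ⟨g, p⟩, ← map_inv, ← πφ]; rfl
theorem πp (p : g ∈ S.N) (n : ℕ) : S.π (g ^ n) = S.π g ^ n := by rw [S.πφ ⟨g, p⟩, ← map_pow, ← πφ]; rfl
theorem πc (p : g ∈ S.N) (q : h ∈ S.N) : S.π (g * h * g⁻¹) = S.π g * S.π h * (S.π g)⁻¹ := by
  rw [S.πm (mul_mem p q) (inv_mem p), S.πm p q, S.πi p]
theorem π1 (p : g ∈ S.N) : S.π g = 1 ↔ g ∈ S.K :=
  ⟨fun e => S.mK.2 fun x => by rw [← eq_mul_inv_iff_mul_eq.trans Iff.rfl, ← S.πa p, e, MulAut.one_apply], fun e => MulEquiv.ext fun x =>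
    S.inj (by rw [S.πa p, ← S.mK.1 e, mul_inv_cancel_right, MulAut.one_apply])⟩
theorem πK (p : k ∈ S.K) : S.π k = 1 := (S.π1 (S.KN p)).2 p
theorem π_one : S.π 1 = 1 := S.πK (one_mem _)
theorem πα (x : L3) : S.π (S.α x) = conj x := MulEquiv.ext fun y => S.inj (by rw [S.πa (S.aN x), MulAut.conj_apply, map_mul, map_mul, map_inv])
theorem π2 (p : u ∈ S.N) (q : u * u = 1) : S.π u * S.π u = 1 := by rw [← S.πm p p, q, S.π_one]
theorem πcm (p : g ∈ S.N) (q : h ∈ S.N) (c : g * h = h * g) : S.π g * S.π h = S.π h * S.π g := by rw [← S.πm p q, c, S.πm q p]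
theorem πfix (p : g ∈ S.N) : S.π g x = x ↔ g * S.α x = S.α x * g := by rw [← S.inj.eq_iff, S.πa p, mul_inv_eq_iff_eq_mul]
theorem LK (p : S.α x ∈ S.K) : x = 1 := cen1 fun y => S.inj (by rw [map_mul, map_mul, S.mK.1 p])
theorem a1 : S.α x = 1 ↔ x = 1 := map_eq_one_iff _ S.inj
theorem cK (p : g ∈ S.N) (q : k ∈ S.K) : g * k * g⁻¹ ∈ S.K :=
  (S.π1 (mul_mem (mul_mem p (S.KN q)) (inv_mem p))).1 (by rw [S.πc p (S.KN q), S.πK q, mul_one, mul_inv_cancel])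
theorem πd (q : k ∈ S.K) : S.π (S.α x * k) = conj x := by rw [S.πm (S.aN x) (S.KN q), S.πK q, mul_one, πα]

theorem dec (p : g ∈ S.N) (i : S.π g ∈ Inn L3) : ∃ x, ∃ k ∈ S.K, g = S.α x * k :=
  let ⟨x, e⟩ := i
  ⟨x, _, (S.π1 (mul_mem (inv_mem (S.aN x)) p)).1 (by rw [S.πm (inv_mem (S.aN x)) p, S.πi (S.aN x), πα, e, inv_mul_cancel]),
    (mul_inv_cancel_left _ _).symm⟩

theorem uniq (p : k ∈ S.K) (q : h ∈ S.K) (e : S.α x * k = S.α y * h) : x = y ∧ k = h := by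
  obtain rfl := cj_inj ((S.πd p).symm.trans (e ▸ S.πd q))
  exact ⟨rfl, mul_left_cancel e⟩

theorem mul_d (p : k ∈ S.K) : S.α x * k * (S.α y * h) = S.α (x * y) * (k * h) := by
  rw [mul_assoc, ← mul_assoc k, ← S.mK.1 p, map_mul]; simp only [mul_assoc]

theorem pow_d (p : k ∈ S.K) (n : ℕ) : (S.α x * k) ^ n = S.α (x ^ n) * k ^ n := by rw [Commute.mul_pow (S.mK.1 p x), map_pow]

theorem one_d (p : k ∈ S.K) (e : S.α x * k = 1) : x = 1 ∧ k = 1 := S.uniq p (one_mem _) (by rw [e, map_one, mul_one])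

theorem cj_d (p : g ∈ S.N) : g * (S.α x * k) * g⁻¹ = S.α (S.π g x) * (g * k * g⁻¹) := by rw [S.πa p, conj_mul]

theorem fix_d (p : g ∈ S.N) (q : k ∈ S.K) (e : g * (S.α x * k) = S.α x * k * g) : S.π g x = x ∧ g * k = k * g :=
  (S.uniq (S.cK p q) q (by rw [← S.cj_d p, e, mul_inv_cancel_right])).imp_right mul_inv_eq_iff_eq_mul.1

/-- Outer involutions in one coset are conjugate. -/
theorem ocj (p : w ∈ S.N) (w2 : w * w = 1) (o : S.π w ∉ Inn L3) (e : S.α y * w * (S.α y * w) = 1) :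
    ∃ c, S.α c * w * (S.α c)⁻¹ = S.α y * w := by
  have q := mul_mem (S.aN y) p
  obtain ⟨a, e1⟩ := outc (S.π2 p w2) o
  obtain ⟨b, e2⟩ := outc (S.π2 q e) (by rw [S.πm (S.aN y) p, πα]; exact fun h => o ((mul_mem_cancel_left (inn_cj y)).1 h))
  refine ⟨b * a⁻¹, ?_⟩
  have k : S.α (b * a⁻¹) * w * (S.α (b * a⁻¹))⁻¹ * (S.α y * w)⁻¹ = S.α (b * a⁻¹ * S.π w (b * a⁻¹)⁻¹ * y⁻¹) := by
    rw [map_mul S.α _ y⁻¹, map_mul S.α (b * a⁻¹), S.πa p, map_inv, map_inv]; group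
  have := S.LK (k ▸ (S.π1 (k ▸ S.aN _)).1 (by
    rw [S.πm (mul_mem (mul_mem (S.aN _) p) (inv_mem (S.aN _))) (inv_mem q), S.πc (S.aN _) p, S.πi q, e2, πα, e1, map_mul, map_inv]; group))
  rwa [this, map_one, mul_inv_eq_one] at k

/-- The conjugate copy. -/
def cj (g : G) : St G := ⟨(conj g).toMonoidHom.comp S.α, (conj g).injective.comp S.inj⟩

theorem cj_α (x : L3) : (S.cj g).α x = g * S.α x * g⁻¹ := rfl
theorem cj_range : (S.cj g).α.range = S.α.range.map (conj g).toMonoidHom := MonoidHom.range_comp _ _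
theorem cj_K : k ∈ (S.cj g).K ↔ g⁻¹ * k * g ∈ S.K := by
  simp only [mK, cj_α]
  exact forall_congr' fun x => by rw [← mul_right_inj g⁻¹, ← mul_left_inj g]; simp only [mul_assoc, inv_mul_cancel_left, inv_mul_cancel, mul_one]
theorem nrm [Finite G] (p : ∀ x, ∃ y, S.α y = g * S.α x * g⁻¹) : g ∈ S.N := mem_normalizer_fintype (by rintro _ ⟨x, rfl⟩; exact p x)
theorem cj_N [Finite G] : k ∈ (S.cj g).N ↔ g⁻¹ * k * g ∈ S.N :=
  ⟨fun p => S.nrm fun x => ⟨_, by simpa [cj_α, mul_assoc] using congrArg (fun y => g⁻¹ * y * g) ((S.cj g).πa p x)⟩,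
    fun p => (S.cj g).nrm fun x => ⟨S.π (g⁻¹ * k * g) x, by rw [cj_α, S.πa p x, cj_α]; group⟩⟩

end St

end Cfsg.Lib.L33
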