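import Cfsg.Agent.Lib.L33.Def
import Cfsg.Agent.Lib.H33.Pkg
import Cfsg.Agent.Lib.H33.Rd2
import Cfsg.Agent.Lib.L33.Fc
import Cfsg.Agent.Lib.PF.Main
import Cfsg.Agent.Lib.ZStar.Main

/-! For S3140 (helper5, helper3): basic consequences of `Ctx`. `L = α.range`, `K = C(L)`, `C(t) ≤ N(L)`, `|N(L) : LK| ≤ 2` (S0813 or
Lib.H33.Pk1), `K` has a normal 2-complement (cyclic Sylow), an involution of `K` commuting with `t` is `t`; the centraliser in `L` of an
involution of `Aut L` is `GL₂(3)` or `S₄` (only solvability is needed: a proper subgroup of even order containing the centraliser...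
e.g. order `∣ 48`; or use that `L₃(3)` is minimal simple). `p0` is `H33.pkg`, `ni` is the Z*-theorem (see S3139.lean).
`inL`: `2⁷ ∤ |C(t)|` by `P0.exg`, `P0.Sle`, `P0.pg5/pg6` (Lib.H33.Rd2), so `C(t)/L O(C(t))` has order ≤ 4 and is abelian. -/

set_option autoImplicit false
set_option linter.unusedSectionVars false

namespace Cfsg.Lib.L33

open Subgroup Matrix
open scoped MatrixGroups commutatorElement

theorem ord2 {G : Type*} [Group G] {x : G} (h : x * x = 1) (n : x ≠ 1) : orderOf x = 2 := orderOf_eq_prime ((sq x).trans h) n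

theorem one_of_odd {G : Type*} [Group G] {x : G} {n : ℕ} (o : Odd (orderOf x)) (h : x ^ 2 ^ n = 1) : x = 1 :=
  orderOf_eq_one_iff.1 (Nat.eq_one_of_dvd_coprimes ((Nat.coprime_two_right.2 o).pow_right n) dvd_rfl (orderOf_dvd_of_pow_eq_one h))

theorem odd_res {G : Type*} [Group G] [Finite G] (h : ∀ P : Subgroup G, IsPGroup 2 P → IsCyclic P) : Odd (Nat.card (pResidual 2 G)) :=
  let ⟨P⟩ : Nonempty (Sylow 2 G) := inferInstance
  Nat.coprime_two_right.1 (Transfer.hasNormalPComplement_iff_card_pResidual.1 (Inv.hasNormalPComplement_of_isCyclic P (h _ P.2)))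

theorem comm4 {G : Type*} [Group G] (h : Nat.card G ∣ 2 ^ 2) : IsMulCommutative G := by
  obtain ⟨k, l, e⟩ := (Nat.dvd_prime_pow Nat.prime_two).1 h
  rcases l.eq_or_lt with rfl | l
  · exact IsPGroup.isMulCommutative_of_card_eq_prime_sq e
  · have := isCyclic_of_card_dvd_prime (α := G) (p := 2) (e ▸ pow_dvd_pow 2 (Nat.le_of_lt_succ l))
    infer_instance

namespace Ctx

variable {G : Type*} [Group G] [Finite G] (C : Ctx G)

/-- The copy of `L₃(3)`. -/
def st : St G := ⟨C.α, C.inj⟩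

omit [Finite G] in
theorem tt : C.t * C.t = 1 := by rw [← sq, ← C.t2, pow_orderOf_eq_one]
omit [Finite G] in
theorem t1 : C.t ≠ 1 := fun e => by simpa [e] using C.t2
omit [Finite G] in
theorem LC : C.α.range ≤ centralizer {C.t} := fun x p => mem_centralizer_singleton_iff.2 (C.tL x p)

theorem cN : centralizer {C.t} ≤ normalizer (C.α.range : Set G) := fun g p =>
  C.tight _ C.tL C.t2 g (by rw [mem_centralizer_singleton_iff.1 p, mul_inv_cancel_right]; exact C.tL)

theorem min (N : Subgroup G) [N.Normal] : N = ⊥ ∨ C.X ≤ N := by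
  have := C.sX
  have := C.nX
  refine ((inferInstance : (N.subgroupOf C.X).Normal).eq_bot_or_eq_top).imp (fun p => eq_bot_iff.2 fun x hx => C.cX.le fun y hy => ?_)
    subgroupOf_eq_top.1
  exact mul_inv_eq_iff_eq_mul.1 (mul_inv_eq_one.1 (congrArg Subtype.val (mem_bot.1 (p.le (show (⟨y * x * y⁻¹ * x⁻¹, by
    simpa [mul_assoc] using mul_mem hy (Normal.conj_mem inferInstance _ (inv_mem hy) x)⟩ : C.X) ∈ _ from
    mul_mem (Normal.conj_mem inferInstance _ hx y) (inv_mem hx))))))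

theorem cardX : 5616 ∣ Nat.card C.X := card_L3 ▸ Nat.card_congr (MonoidHom.ofInjective C.inj).toEquiv ▸ card_dvd_of_le C.le

include C in
theorem hO : oddCore G = ⊥ := (C.min _).resolve_right fun h =>
  absurd ((Core.odd_card_oddCore G).of_dvd_nat (C.cardX.trans (card_dvd_of_le h))) (by decide)

theorem p0 : Nonempty (H33.P0 C.t) := by
  let e := (subgroupOfEquivOfLe C.LC).trans (MonoidHom.ofInjective C.inj).symm
  have := simple
  have s := e.isSimpleGroup
  have c : Nat.card (C.α.range.subgroupOf (centralizer {C.t})) = 5616 := (Nat.card_congr e.toEquiv).trans card_L3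
  have o : oddCore (C.α.range.subgroupOf (centralizer {C.t})) = ⊥ := (Normal.eq_bot_or_eq_top inferInstance).resolve_right fun h =>
    absurd (Core.odd_card_oddCore _) (by rw [h, card_top, c]; decide)
  refine H33.pkg C.t C.t2 (C.α.range.subgroupOf _) (Comp.isPComponent_of_isComponent ⟨(normal_subgroupOf_of_le_normalizer C.cN).isSubnormal,
    Comp.isQuasisimple_of_isSimpleGroup fun h => absurd (cen1 (e.surjective.forall.2 fun y => e.symm.injective (by
      simpa using h.1.1 y (e.symm z3)))) z3_ne⟩ (c ▸ by decide)) (ZMod.card 3)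
    ⟨((QuotientGroup.quotientMulEquivOfEq o).trans QuotientGroup.quotientBot).trans (e.trans eP.symm)⟩ fun P p h => ?_
  refine (P.equivMapOfInjective _ (subtype_injective _)).isCyclic.2 (C.cyc _ ?_ (p.map _))
  rintro _ ⟨g, m, rfl⟩ l q
  obtain ⟨u, v, w⟩ := h g m ⟨l, C.LC q⟩ q
  rw [mem_bot.1 (o.le v)] at w
  exact (mul_inv_eq_iff_eq_mul.1 ((congrArg Subtype.val w).trans (mul_one l))).symm

theorem ni : ¬ IsIsolatedInvolution C.t := fun h => C.t1 (mem_bot.1 (C.cX.le fun g _ =>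
  (mul_inv_eq_iff_eq_mul.1 (mul_inv_eq_one.1 (mem_bot.1 (C.hO ▸ ZStar.zstar h g)))).symm))

theorem dec (x : G) : x ∈ C.X ∨ x * C.t ∈ C.X := by
  have := C.nX
  obtain ⟨y, p, _, ⟨k, rfl⟩, rfl⟩ := mem_sup_of_normal_left.1 (C.gen.ge (mem_top x))
  obtain ⟨k, rfl | rfl⟩ := Int.even_or_odd' k
  · exact .inl (by simpa [_root_.zpow_mul, sq, C.tt])
  · exact .inr (by simpa [_root_.zpow_add, _root_.zpow_mul, sq, mul_assoc, C.tt])

theorem idx {N : Subgroup G} (h : N.index = 2) : N = C.X := by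
  have := normal_of_index_eq_two h
  have l := (C.min N).resolve_left fun e => absurd (C.cardX.trans (card_subgroup_dvd_card _)) (by rw [← index_bot, ← e, h]; decide)
  refine le_antisymm (fun x p => (C.dec x).resolve_right fun q => ?_) l
  rw [eq_top_iff.2 (C.gen.ge.trans (sup_le l (zpowers_le.2 ((mul_mem_cancel_left p).1 (l q))))), index_top] at h
  omega

theorem odd_mem {x : G} (h : Odd (orderOf x)) : x ∈ C.X := by
  have s : x * x ∈ C.X := (C.dec x).elim (fun p => mul_mem p p) fun p => by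
    simpa [mul_assoc, ← mul_assoc C.t C.t, C.tt] using mul_mem p (C.nX.conj_mem _ p C.t)
  obtain ⟨k, e⟩ := h
  have := pow_mem s (k + 1)
  rwa [← sq, ← pow_mul, show 2 * (k + 1) = 2 * k + 1 + 1 from rfl, pow_succ, ← e, pow_orderOf_eq_one, one_mul] at this

/-- `X` has no subgroup of index 2. -/
theorem noidx {N : Subgroup G} (h : N.relIndex C.X = 2) : False := by
  have := C.sX
  rcases (normal_of_index_eq_two h).eq_bot_or_eq_top with e | e <;> rw [relIndex, e] at h
  · exact absurd (index_bot.symm.trans h ▸ C.cardX) (by decide)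
  · rw [index_top] at h; omega

omit [Finite G] in
theorem cycK {H : Type*} [Group H] (f : H →* G) (i : Function.Injective f) (l : ∀ x, f x ∈ C.st.K) (P : Subgroup H) (p : IsPGroup 2 P) :
    IsCyclic P := (P.equivMapOfInjective _ i).isCyclic.2 (C.cyc _ (by rintro _ ⟨x, -, rfl⟩; exact l x) (p.map _))

theorem uq {y : G} (y2 : y * y = 1) (y1 : y ≠ 1) (c : y * C.t = C.t * y) (m : y ∈ C.st.K) : y = C.t := by
  have p : IsPGroup 2 (H33.gen [y, C.t]) := H33.pg_cons (n := 1) (H33.pg_one (n := 1) ((sq _).trans C.tt)) ((sq _).trans y2) (by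
    simpa [H33.cg_eq_iff.2 c.symm] using H33.mem_gen (.head _))
  have := C.cyc _ (H33.gen_le.2 (by simpa using ⟨m, C.tL⟩)) p
  by_contra n
  classical
  have := Fintype.ofFinite (H33.gen [y, C.t])
  have := (Finset.card_le_card (s := {1, ⟨y, H33.mem_gen (.head _)⟩, ⟨C.t, H33.mem_gen (.tail _ (.head _))⟩}) (by
    intro x; simp only [Finset.mem_insert, Finset.mem_singleton, Finset.mem_filter, Finset.mem_univ, true_and]
    rintro (rfl | rfl | rfl)
    exacts [one_pow 2, Subtype.ext ((sq y).trans y2), Subtype.ext ((sq _).trans C.tt)])).trans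
      (IsCyclic.card_pow_eq_one_le (α := H33.gen [y, C.t]) two_pos)
  rw [Finset.card_eq_three.2 ⟨_, _, _, fun f => y1 (congrArg Subtype.val f).symm, fun f => C.t1 (congrArg Subtype.val f).symm,
    fun f => n (congrArg Subtype.val f), rfl⟩] at this
  omega

theorem sol {y : G} (y2 : y * y = 1) (y1 : y ≠ 1) (yt : y ≠ C.t) (c : y * C.t = C.t * y) :
    Group.IsSolvable ↥(centralizer {C.t} ⊓ centralizer {y}) := by
  have yN : y ∈ C.st.N := C.cN (mem_centralizer_singleton_iff.2 c)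
  have l : centralizer {C.t} ⊓ centralizer {y} ≤ C.st.N := inf_le_left.trans C.cN
  let f := (C.st.φ.comp (inclusion l)).codRestrict (centralizer {C.st.π y}) fun x => mem_centralizer_singleton_iff.2 (by
    exact (C.st.πφ ⟨x, l x.2⟩) ▸ C.st.πcm (l x.2) yN (mem_centralizer_singleton_iff.1 x.2.2))
  refine Core.isSolvable_of_ker f (Core.isSolvable_of_normal_quotient (pResidual 2 _) (PF.isSolvable_of_odd _ (odd_res
    (C.cycK ((Subgroup.subtype _).comp f.ker.subtype) (Subtype.val_injective.comp Subtype.val_injective) fun x => ?_)))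
    (Core.isSolvable_of_isPGroup (Transfer.isPGroup_quotient_pResidual (p := 2))))
    (sol_cent (C.st.π2 yN y2) fun e => yt (C.uq y2 y1 c ((C.st.π1 yN).1 e)))
  exact (C.st.π1 (l x.1.2)).1 ((C.st.πφ ⟨_, l x.1.2⟩).trans (congrArg Subtype.val x.2))

theorem oddK {x : G} (h : x ∈ centralizer {C.t}) (k : x ∈ C.st.K) (o : Odd (orderOf x)) : x ∈ centralizerPPrimeCore 2 C.t := by
  let f := C.st.φ.comp (inclusion C.cN)
  have k1 : ∀ x : centralizer {C.t}, x ∈ f.ker ↔ x.1 ∈ C.st.K := fun x => by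
    rw [← C.st.π1 (C.cN x.2), C.st.πφ ⟨x, C.cN x.2⟩]; rfl
  refine ⟨⟨x, h⟩, Core.le_pPrimeCore (N := (pResidual 2 f.ker).map f.ker.subtype) ConjAct.normal_of_characteristic_of_normal ?_
    (Transfer.mem_map_subtype_pResidual ((k1 _).2 k) (by rw [← orderOf_coe]; exact Nat.coprime_two_right.2 o)), rfl⟩
  rw [card_subtype]
  exact Nat.coprime_two_right.2 (odd_res (C.cycK ((Subgroup.subtype _).comp f.ker.subtype) (Subtype.val_injective.comp Subtype.val_injective)
    fun x => (k1 _).1 x.2))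

/-- Elements of odd order of `C(t)` lie in `L × O(C(t))`. -/
theorem oddC {x : G} (h : x ∈ centralizer {C.t}) (o : Odd (orderOf x)) :
    ∃ g, ∃ y ∈ centralizerPPrimeCore 2 C.t, x = C.α g * y := by
  obtain ⟨g, k, p, rfl⟩ := C.st.dec (C.cN h) (inn_odd o (by rw [← C.st.πp (C.cN h), pow_orderOf_eq_one, C.st.π_one]; exact one_mem _))
  exact ⟨g, k, C.oddK ((mul_mem_cancel_left (C.LC ⟨g, rfl⟩)).1 h) p (o.of_dvd_nat (orderOf_dvd_of_pow_eq_one
    (C.st.one_d (pow_mem p _) (by rw [← C.st.pow_d p, pow_orderOf_eq_one])).2)), rfl⟩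

theorem oddO {x : G} (h : x ∈ centralizerPPrimeCore 2 C.t) : Odd (orderOf x) :=
  (Nat.coprime_two_right.1 (Core.pPrimeCoreOf_coprime 2 _)).of_dvd_nat (orderOf_dvd_natCard _ h)

theorem coreC : centralizerPPrimeCore 2 C.t ≤ centralizer (C.α.range : Set G) := fun x h => C.st.mK.2 fun y => by
  have := simple
  have k : ∀ b {x}, x ∈ centralizerPPrimeCore 2 C.t → C.α b * x * (C.α b)⁻¹ ∈ centralizerPPrimeCore 2 C.t := fun b _ p =>
    (mem_normalizer_iff.1 (Core.le_normalizer_pPrimeCoreOf 2 _ (C.LC ⟨b, rfl⟩)) _).1 p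
  have n : ((centralizerPPrimeCore 2 C.t).comap C.α).Normal := ⟨fun a p b => by
    rw [mem_comap, map_mul, map_mul, map_inv]; exact k b p⟩
  have e := n.eq_bot_or_eq_top.resolve_right fun e => z3_ne (C.st.a1.1 (one_of_odd (n := 1) (C.oddO (e.ge (mem_top z3)))
    (by rw [← map_pow]; exact C.st.a1.2 ((sq _).trans z3_sq))))
  have xN : x ∈ C.st.N := C.cN (Core.pPrimeCoreOf_le 2 _ h)
  have := mem_bot.1 (e.le (show C.α (y * C.st.π x y⁻¹) ∈ centralizerPPrimeCore 2 C.t by
    rw [map_mul, show C.α (C.st.π x y⁻¹) = _ from C.st.πa xN _]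
    simpa [mul_assoc, st] using mul_mem (k y h) (inv_mem h)))
  rw [map_inv, mul_inv_eq_one] at this
  exact ((C.st.πfix xN).1 this.symm).symm

theorem n128 : ¬ 2 ^ 7 ∣ Nat.card (centralizer {C.t}) := fun h => by
  obtain ⟨P⟩ := C.p0
  obtain ⟨g, hg, -, e⟩ := P.exg C.t2 C.ni
  have : Nat.card P.S ∣ 2 ^ 6 := by
    cases he : P.eps
    · refine Dvd.dvd.trans ?_ ((P.pg5 C.t2).card.dvd.trans (by decide))
      exact card_dvd_of_le (P.Sle C.t2 hg e (H33.mem_gen (by simp)) (H33.mem_gen (by simp [H33.P0.gd]))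
        (H33.mem_gen (by simp [H33.P0.gd])) (by simp [he]))
    · refine Dvd.dvd.trans ?_ (P.pg6 C.t2 he (one_mem _) ((P.ff C.t2 hg e he).trans (H33.el_zero _).symm)).card.dvd
      exact card_dvd_of_le (P.Sle C.t2 hg e (H33.mem_gen (by simp)) (H33.mem_gen (by simp [H33.P0.gd]))
        (H33.mem_gen (by simp [H33.P0.gd])) fun _ => H33.mem_gen (by simp))
  rw [← Transfer.card_mul_relIndex P.le] at h
  exact absurd (((Nat.coprime_two_left.2 (Nat.odd_iff.2 (Nat.two_dvd_ne_zero.1 P.syl))).pow_left 7).dvd_of_dvd_mul_right h |>.trans this)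
    (by decide)

/-- 2-elements of `C(t)'` lie in `L`. -/
theorem inL {y : G} (h : y ∈ ⁅centralizer {C.t}, centralizer {C.t}⁆) {n : ℕ} (y2 : y ^ 2 ^ n = 1) : y ∈ C.α.range := by
  let M := C.α.range.subgroupOf (centralizer {C.t}) ⊔ pPrimeCore 2 (centralizer {C.t})
  have := normal_subgroupOf_of_le_normalizer C.cN
  have pg : IsPGroup 2 (centralizer {C.t} ⧸ M) := QuotientGroup.mk_surjective.forall.2 fun x => by
    obtain ⟨k, m, o, e⟩ := Nat.exists_eq_two_pow_mul_odd (orderOf_pos x).ne'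
    obtain ⟨g, _, ⟨u, p, rfl⟩, q⟩ := C.oddC (x ^ 2 ^ k).2 (o.of_dvd_nat (by
      rw [orderOf_coe]; exact orderOf_dvd_of_pow_eq_one (by rw [← pow_mul, ← e, pow_orderOf_eq_one])))
    exact ⟨k, (QuotientGroup.eq_one_iff (x ^ 2 ^ k)).2 ((Subtype.ext q : _ = ⟨C.α g, C.LC ⟨g, rfl⟩⟩ * u) ▸ mul_mem_sup ⟨g, rfl⟩ p)⟩
  obtain ⟨k, e⟩ := pg.exists_card_eq
  have c : 2 ^ 4 ∣ Nat.card M := .trans (by
    rw [Nat.card_congr ((subgroupOfEquivOfLe C.LC).trans (MonoidHom.ofInjective C.inj).symm).toEquiv, card_L3]; decide)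
    (card_dvd_of_le le_sup_left)
  have := comm4 (G := centralizer {C.t} ⧸ M) (e ▸ pow_dvd_pow 2 (by
    by_contra! l
    exact C.n128 (by rw [M.card_eq_card_quotient_mul_card_subgroup, e, pow_add 2 3 4]; exact mul_dvd_mul (pow_dvd_pow 2 l) c)))
  have l : ⁅centralizer {C.t}, centralizer {C.t}⁆ ≤ M.map (Subgroup.subtype _) := commutator_le.2 fun a p b q =>
    ⟨⁅⟨a, p⟩, ⟨b, q⟩⁆, (QuotientGroup.eq_one_iff _).1 ((map_commutatorElement (QuotientGroup.mk' M) _ _).trans
      (commutatorElement_eq_one_iff_mul_comm.2 (this.1.1 _ _))), rfl⟩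
  obtain ⟨_, p, rfl⟩ := l h
  obtain ⟨⟨_, _⟩, ⟨g, rfl⟩, u, q, rfl⟩ := mem_sup_of_normal_left.1 p
  have m : u.1 ∈ centralizerPPrimeCore 2 C.t := ⟨u, q, rfl⟩
  have := one_of_odd (C.oddO m) (C.st.one_d (pow_mem (C.coreC m) _) ((C.st.pow_d (C.coreC m) _).symm.trans y2)).2
  exact ⟨g, by simp [this]⟩

/-- Local balance of `L₃(3)`. -/
theorem bal {g : L3} (g1 : g ≠ 1) (g2 : g * g = 1) {N : Subgroup G} (o : Odd (Nat.card N)) (l : N ≤ centralizer {C.t})
    (l' : N ≤ centralizer {C.α g}) (n : (centralizer {g}).map C.α ≤ normalizer (N : Set G)) : N ≤ centralizerPPrimeCore 2 C.t := fun x p => by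
  have lN : N ≤ C.st.N := l.trans C.cN
  have o' : ∀ x ∈ N, Odd (orderOf x) := fun x p => o.of_dvd_nat (orderOf_dvd_natCard _ p)
  obtain ⟨a, y, q, rfl⟩ := C.oddC (l p) (o' x p)
  have := odd_nrm g2 g1 (M := ((N.subgroupOf C.st.N).map C.st.φ).comap MulAut.conj) (x := a) ?_ ?_ ?_
    ⟨⟨_, lN p⟩, p, (C.st.πφ _).symm.trans (C.st.πd (C.coreC q))⟩
  · simpa [this] using q
  · rintro b ⟨u, v, w⟩
    exact (o' u v).of_dvd_nat (orderOf_dvd_of_pow_eq_one (cj_inj (by
      rw [map_pow, ← w, ← map_pow, orderOf_coe, pow_orderOf_eq_one, map_one, map_one])))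
  · rintro b ⟨u, v, w⟩
    have := (C.st.πfix u.2).2 (mem_centralizer_singleton_iff.1 (l' v))
    rwa [C.st.πφ, w, MulAut.conj_apply, mul_inv_eq_iff_eq_mul] at this
  · rintro c e b ⟨u, v, w⟩
    refine ⟨⟨_, C.st.aN c⟩ * u * ⟨_, C.st.aN c⟩⁻¹, (mem_normalizer_iff.1 (n ⟨c, mem_centralizer_singleton_iff.2 e, rfl⟩) _).1 v, ?_⟩
    rw [map_mul, map_mul, map_inv, w, ← C.st.πφ, C.st.πα, map_mul, map_mul, map_inv]

theorem au : ∃ A : Au C.X, A.τ ≠ 1 ∧ (∀ x : C.X, (A.τ x : G) = C.t * x * C.t⁻¹) ∧ ∀ g, (A.α g : G) = C.α g := by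
  have := C.nX
  refine ⟨⟨MulAut.conjNormal C.t, C.α.codRestrict _ fun g => C.le ⟨g, rfl⟩, by rw [← map_mul, C.tt, map_one],
    fun _ _ e => C.inj (congrArg Subtype.val e), fun g => Subtype.ext (mul_inv_eq_iff_eq_mul.2 (C.tL _ ⟨g, rfl⟩).symm), fun g g1 g2 => ?_⟩,
    fun e => C.t1 (mem_bot.1 (C.cX.le fun x p => (mul_inv_eq_iff_eq_mul.1 (congrArg (fun β : MulAut C.X => (β ⟨x, p⟩).1) e)).symm)),
    fun _ => rfl, fun _ => rfl⟩
  have := C.sol (y := C.α g) (by rw [← map_mul, g2, map_one]) (fun e => g1 (C.st.a1.1 e)) (fun e => g1 (C.st.LK (e ▸ C.tL)))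
    (C.tL _ ⟨g, rfl⟩)
  refine Group.isSolvable_of_isSolvable_injective (f := (C.X.subtype.comp (Subgroup.subtype _)).codRestrict
    (centralizer {C.t} ⊓ centralizer {C.α g}) fun x => ⟨mem_centralizer_singleton_iff.2 ?_, mem_centralizer_singleton_iff.2 ?_⟩)
    fun _ _ e => Subtype.ext (Subtype.ext (congrArg (fun x : ↥(centralizer {C.t} ⊓ centralizer {C.α g}) => x.1) e))
  · exact (mul_inv_eq_iff_eq_mul.1 (congrArg Subtype.val x.2.1)).symm
  · exact congrArg Subtype.val (mem_centralizer_singleton_iff.1 x.2.2)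

end Ctx

end Cfsg.Lib.L33
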