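import Cfsg.Agent.Lib.L33.Tl

/-! S3140: counting codes (helper21). -/

set_option autoImplicit false

namespace Cfsg.Lib.L33.Ec

open Subgroup H33 Calc

/-- The number of `i < n` with `P i`. -/
noncomputable def cn (n : ℕ) (P : ℕ → Prop) [DecidablePred P] : ℕ :=
  Nat.rec 0 (fun i ih => forceN ih fun u => cnd (decide (P i)) (Nat.succ u) u) n

theorem cn_eq (n : ℕ) (P : ℕ → Prop) [DecidablePred P] : cn n P = ((List.range n).filter fun i => decide (P i)).length := by
  induction n with
  | zero => rfl
  | succ n ih =>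
    rw [List.range_succ, List.filter_append, List.length_append, ← ih]
    change forceN (cn n P) (fun u => cnd (decide (P n)) (Nat.succ u) u) = _
    by_cases h : P n <;> simp [h]

theorem cnt {G : Type*} [Group G] {gs : List G} {D : Dat} {N : ℕ} (h : PG gs D N) {w : G} {P Q : ℕ → Prop} [DecidablePred P]
    [DecidablePred Q] (a : ∀ x < N, P x → ∃ y < N, Q y ∧ Mp h h w x y) : cn N P ≤ cn N Q := by
  rw [cn_eq, cn_eq]
  refine h.count h (w := w) ?_ fun x p => ?_
  · rw [List.map_congr_left (f := (· % N)) (g := id) fun x p => Nat.mod_eq_of_lt (List.mem_range.1 (List.mem_filter.1 p).1), List.map_id]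
    exact List.nodup_range.filter _
  · obtain ⟨l, p⟩ := List.mem_filter.1 p
    obtain ⟨y, l', q, e⟩ := a x (List.mem_range.1 l) (of_decide_eq_true p)
    exact ⟨y, List.mem_filter.2 ⟨List.mem_range.2 l', decide_eq_true q⟩, e⟩

end Cfsg.Lib.L33.Ec
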