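import Cfsg.Agent.Lib.L33.Def
import Cfsg.Agent.Lib.Chev.MultSmall

/-! For S3140 (helper5, helper3). Every central extension of `Sp₄(3)` splits (`Chev.splits_Sp`), so `Sp₄(3)` maps onto `K`;
the orders agree. -/

set_option autoImplicit false

namespace Cfsg.Lib.L33

open Subgroup Matrix
open scoped MatrixGroups

theorem cov {K : Type*} [Group K] [Finite K] (p : commutator K = ⊤) (π : K →* PSp 2 F3) (s : Function.Surjective π)
    (c : Nat.card π.ker = 2) : Nonempty (K ≃* symplecticGroup (Fin 2) F3) := by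
  have st : IsStemExtension π := ⟨s, fun x m => mem_center_iff.2 fun g => by
    obtain ⟨y, -, u⟩ := (Nat.card_eq_two_iff' (1 : π.ker)).1 c
    by_cases e : x = 1
    · simp [e]
    have := (u ⟨_, π.normal_ker.conj_mem x m g⟩ (by simpa using e)).trans (u ⟨x, m⟩ (by simpa using e)).symm
    exact mul_inv_eq_iff_eq_mul.1 (congrArg Subtype.val this), p ▸ le_top⟩
  obtain ⟨Δ, _, _, e, h⟩ := Schur.exists_stem_univ.{0} st
  obtain ⟨τ, hτ⟩ := Chev.splits_Sp (F := F3) (n := 2) le_rfl (by simp) _ _
    (Chev.CExt.pullback ⟨h.1, h.2.1⟩ (QuotientGroup.mk' _))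
  have su := e.surjective.comp (Schur.surjective_of_stem (QuotientGroup.mk'_surjective _) h
    (η := ((MonoidHom.snd _ Δ).comp (Subgroup.subtype _)).comp τ) (MonoidHom.ext fun g =>
      (τ g).2.symm.trans (congrArg (QuotientGroup.mk' _) (DFunLike.congr_fun hτ g))))
  refine ⟨(MulEquiv.ofBijective (e.toMonoidHom.comp _) (su.bijective_of_nat_card_le (le_of_eq ?_))).symm⟩
  rw [card_eq_card_quotient_mul_card_subgroup π.ker, c, Nat.card_congr (QuotientGroup.quotientKerEquivOfSurjective π s).toEquiv,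
    card_eq_card_quotient_mul_card_subgroup (center _), Symp.card_center_sp]
  rfl

end Cfsg.Lib.L33
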