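import Cfsg.Agent.Lib.H33.Red

/-! Presentations of images and of lifts to subgroups (helper5). -/

set_option autoImplicit false

namespace Cfsg.Lib.H33

open Cfsg.Lib.Calc Subgroup

variable {G H : Type*} [Group G] [Group H]

/-- The check that the elements with codes `cs` satisfy `D'` modulo the codes `x` with `Z x`. -/
def ImOK (D : Dat) (Z : ℕ → Prop) : List ℕ → Dat → Prop
  | [], [] => True
  | c :: cs, d :: D' => Z (mul D (inv D (mul D c c)) (hm (mul D) cs d.1)) ∧
      List.Forall₂ (fun h e => Z (mul D (inv D (cj D h c)) (hm (mul D) cs e))) cs d.2 ∧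
      (∀ x < 2 ^ cs.length, ¬ Z (mul D (inv D c) (hm (mul D) cs x))) ∧ ImOK D Z cs D'
  | _, _ => False

noncomputable instance decImOK (D : Dat) (Z : ℕ → Prop) [DecidablePred Z] : ∀ cs D', Decidable (ImOK D Z cs D')
  | [], [] => isTrue trivial
  | _ :: cs, _ :: D' => haveI := decImOK D Z cs D'; instDecidableAnd
  | [], _ :: _ => isFalse id
  | _ :: _, [] => isFalse id

theorem PG.img' {gs : List G} {D : Dat} {N : ℕ} (h : PG gs D N) (φ : G →* H) {Z : ℕ → Prop} (k : ∀ x, φ (el gs x) = 1 ↔ Z x)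
    {cs : List ℕ} {D' : Dat} (e : ImOK D Z cs D') : PG ((cs.map (el gs)).map φ) D' (2 ^ cs.length) := by
  have q : ∀ x y, φ (el gs x) = φ (el gs y) ↔ Z (H33.mul D (H33.inv D x) y) := fun x y => by
    rw [← k, ← h.mul, ← h.inv, map_mul, map_inv, inv_mul_eq_one]
  induction cs generalizing D' with
  | nil =>
    obtain _ | _ := D'
    exacts [⟨trivial, trivial, rfl⟩, e.elim]
  | cons c cs ih =>
    obtain _ | ⟨d, D'⟩ := D'
    · exact e.elim
    obtain ⟨e1, e2, e3, e4⟩ := e
    have p := ih e4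
    rw [List.length_cons, pow_succ']
    refine p.cons (fun m => ?_) (by rw [el_mapl, h.el_map, ← map_mul, h.mul, q]; exact e1) ?_
    · obtain ⟨x, a, b⟩ := p.ex m
      rw [el_mapl, h.el_map, q] at b
      exact e3 x a b
    · rw [List.forall₂_map_left_iff, List.forall₂_map_left_iff]
      exact e2.imp fun a b e => by rw [el_mapl, h.el_map, ← cg_map, h.cg, q]; exact e

theorem PG.of_map {gs : List G} {D : Dat} {N : ℕ} (ι : G →* H) (i : Function.Injective ι) (h : PG (gs.map ι) D N) : PG gs D N := by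
  induction gs generalizing D N with
  | nil => exact ⟨by cases D; exacts [trivial, h.rel], trivial, h.len⟩
  | cons g gs ih =>
    obtain _ | ⟨d, D⟩ := D
    · exact h.rel.elim
    obtain rfl : 2 * 2 ^ (gs.map ι).length = N := (pow_succ' _ _).symm.trans h.len
    refine (ih h.tail).cons (fun m => h.ind.1 ?_) (i (by rw [map_mul, h.rel.1, el_mapl]))
      ((List.forall₂_map_left_iff.1 h.rel.2.1).imp fun _ _ e => i (by rw [cg_map, e, el_mapl]))
    obtain ⟨x, -, e⟩ := (ih h.tail).ex m
    exact (congrArg ι e).trans (el_mapl _ _ _).symm ▸ el_mem _ _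

/-- Lifting to a subgroup. -/
theorem PG.lift {gs : List G} {D : Dat} {N : ℕ} (h : PG gs D N) {K : Subgroup G} (l : gen gs ≤ K) :
    ∃ gs' : List K, PG gs' D N ∧ ∀ x, ((el gs' x : K) : G) = el gs x := by
  obtain ⟨gs', rfl⟩ : ∃ gs' : List K, gs'.map K.subtype = gs :=
    ⟨gs.pmap Subtype.mk fun x m => l (mem_gen m), by simp [List.map_pmap]⟩
  exact ⟨gs', h.of_map _ K.subtype_injective, fun x => (el_mapl K.subtype _ _).symm⟩

end Cfsg.Lib.H33
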