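import Cfsg.Agent.Lib.H33.Main
import Cfsg.Agent.Lib.L33.Img

/-! S3140 (helper5): the configuration `Cfg0` of Lib/H33 in a group `G = X⟨t, f⟩` with `X` simple, and transfer tools. -/

set_option autoImplicit false
set_option synthInstance.maxSize 2048

namespace Cfsg.Lib.H33

open Cfsg.Lib.Calc Cfsg.Lib.Transfer Subgroup
open scoped Cfsg.Lib.Transfer

variable {G : Type*} [Group G] [Finite G]

set_option quotPrecheck false in
local notation "dk" => by clear_aux_decl; clear * -; decide +kernel +revert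

namespace PG

variable {gs : List G} {D : Dat} {N : ℕ} (h : PG gs D N)
include h

theorem idx (s : ¬ 2 * N ∣ Nat.card G) : ¬ 2 ∣ (gen gs).relIndex ⊤ := fun a => s (by
  rw [← (gen gs).card_mul_index, h.card, mul_comm, ← relIndex_top_right]; exact Nat.mul_dvd_mul_left _ a)

/-- Sylow's theorem. -/
theorem syl (s : ¬ 2 * N ∣ Nat.card G) {P : Subgroup G} (hP : IsPGroup 2 P) : ∃ g, ∀ y ∈ P, H33.cg y g ∈ gen gs :=
  haveI : Fact (Nat.Prime 2) := ⟨Nat.prime_two⟩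
  let ⟨x, _, e⟩ := exists_conj_le_of_not_dvd_relIndex' (h.idx s) hP le_top
  ⟨x⁻¹, fun y a => by simpa [H33.cg] using conj_le_iff.1 e y a⟩

/-- Extremal conjugates: 2-subgroups centralising conjugate elements `x`, `y` are moved into `T` with `x`, `y` going to one `w`. -/
theorem ext (s : ¬ 2 * N ∣ Nat.card G) {P Q : Subgroup G} (hP : IsPGroup 2 P) (hQ : IsPGroup 2 Q) {x y : G} (c : IsConj x y)
    (a : ∀ u ∈ P, H33.cg x u = x) (b : ∀ u ∈ Q, H33.cg y u = y) :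
    ∃ g g', H33.cg x g = H33.cg y g' ∧ (∀ u ∈ P, H33.cg u g ∈ gen gs) ∧ ∀ u ∈ Q, H33.cg u g' ∈ gen gs := by
  haveI : Fact (Nat.Prime 2) := ⟨Nat.prime_two⟩
  obtain ⟨k, rfl⟩ := exists_cg c
  obtain ⟨R, l, m, hR, i⟩ := exists_sylowIn_ge hP (fun u p => mem_cent.2 (a u p) : P ≤ centralizer {x})
  obtain ⟨v, vC, e⟩ := exists_conj_le_of_not_dvd_relIndex' i (hQ.map (cgH k⁻¹)) (by
    rintro _ ⟨u, p, rfl⟩
    rw [mem_cent, cgH_apply, ← cg_cg_inv x k, ← cg_cg', b u p])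
  obtain ⟨g, f⟩ := h.syl s hR
  refine ⟨g, k⁻¹ * (v⁻¹ * g), by rw [← cg_cg, cg_cg_inv, ← cg_cg, mem_cent.1 (inv_mem vC)], fun u p => f u (l p), fun u p => ?_⟩
  rw [← cg_cg, ← cg_cg]
  exact f _ (by simpa [H33.cg] using conj_le_iff.1 e _ ⟨u, p, cgH_apply _ _⟩)

/-- Moving a conjugate of a central element of the Sylow subgroup. -/
theorem into (s : ¬ 2 * N ∣ Nat.card G) {z : ℕ} (zc : ∀ i < N.log2, EQ N (cj D z (2 ^ i)) z) {P : Subgroup G} (hP : IsPGroup 2 P)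
    {x : G} (c : IsConj (el gs z) x) (a : ∀ u ∈ P, H33.cg x u = x) : ∃ g, H33.cg x g = el gs z ∧ ∀ u ∈ P, H33.cg u g ∈ gen gs := by
  obtain ⟨g, g', e, p, q⟩ := h.ext s hP h.pgroup c.symm a fun u m =>
    mem_cent.1 (h.gen_le_iff.2 (fun i l => mem_cent.2 (Mp.sf h _ _ _ (zc i l))) m)
  have n := inv_mem (mem_norm_of_cg q)
  exact ⟨g * g'⁻¹, by rw [← cg_cg, e, cg_cg_inv], fun u m => by rw [← cg_cg]; exact cg_mem_norm (p u m) n⟩

theorem zx (s : ¬ 2 * N ∣ Nat.card G) {z : ℕ} (zc : ∀ i < N.log2, EQ N (cj D z (2 ^ i)) z)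
    (k : ∀ x < N, EQ N (H33.mul D x x) 0 → EQ N x 0 ∨ EQ N x z ∨ ∃ v < N, EQ N (cj D x v) (H33.mul D x z))
    {x y : G} (c : IsConj (el gs z) y) (a : H33.cg y x = y) (x2 : x * x = 1) (x1 : x ≠ 1) (n : x ≠ y) : IsConj x (x * y) := by
  obtain ⟨g, e, p⟩ := h.into s zc (pg_zpowers (n := 1) ((sq x).trans x2)) c fun u m => mem_cent.1 (zpowers_le.2 (mem_cent.2 a) m)
  obtain ⟨u, l, f⟩ := h.ex (p x (mem_zpowers x))
  obtain q | q | ⟨v, -, q⟩ := k u l (by rw [← h.eq, ← h.mul, ← f, ← cg_mul, x2, cg_one, el_zero])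
  · exact absurd (cg_eq_one.1 (f.trans (((h.eq _ _).2 q).trans (el_zero _)))) x1
  · exact absurd (cg_inj.1 (f.trans (((h.eq _ _).2 q).trans e.symm))) n
  · refine ((isConj_cg x g).trans ?_).trans (isConj_cg _ g).symm
    rw [cg_mul, e, f, h.mul]; exact (Mp.sf h v _ _ q).conj

/-- `P` describes a subgroup of index at most 2. -/
def parOK (D : Dat) (N : ℕ) (P : ℕ → Prop) : Prop :=
  P 0 ∧ ∀ x < N, ∀ i < N.log2, P (H33.mul D x (2 ^ i) % N) ↔ (P x ↔ P (2 ^ i))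

noncomputable instance decParOK (D : Dat) (N : ℕ) (P : ℕ → Prop) [DecidablePred P] : Decidable (parOK D N P) := by
  unfold parOK; infer_instance

theorem par {P : ℕ → Prop} (k : parOK D N P) {x y u : ℕ} (a : x < N) (b : y < N) (c : u < N) (e : el gs x * el gs y = el gs u) :
    P u ↔ (P x ↔ P y) := by
  have I : ∀ {x y}, x < N → y < N → el gs x = el gs y → x = y := fun a b e => ((h.eq _ _).1 e).eq a b
  have : el gs y ∈ Submonoid.closure {g | ∃ i, (N - 1).testBit i = true ∧ g = el gs (2 ^ i)} := by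
    rw [← Subgroup.closure_toSubmonoid_of_finite]; exact (h.ms_top ▸ el_mem gs y : _ ∈ MS gs (N - 1))
  generalize f : el gs y = g at this e
  induction this using Submonoid.closure_induction_right generalizing y u with
  | one =>
    obtain rfl := I b h.pos (f.trans (el_zero _).symm)
    obtain rfl := I a c (by simpa using e)
    simp [k.1]
  | mul_right g hg _ hy ih =>
    obtain ⟨i, p, rfl⟩ := hy
    have li : i < N.log2 := by rw [← h.len, Nat.testBit_two_pow_sub_one] at p; simpa [← h.len, Nat.log2_two_pow] using p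
    obtain ⟨y1, l1, rfl⟩ := h.ex (g := g) (h.ms_top ▸ (by rwa [← Subgroup.closure_toSubmonoid_of_finite] at hg))
    have L := fun x => Nat.mod_lt x h.pos
    have := ih l1 (L _) rfl (by rw [el_modN h, h.mul])
    obtain rfl := I b (L (H33.mul D y1 (2 ^ i))) (by rw [el_modN h, ← h.mul, f])
    obtain rfl := I c (L (H33.mul D (H33.mul D x y1 % N) (2 ^ i))) (by rw [el_modN h, ← h.mul, el_modN h, ← h.mul, ← e, mul_assoc])
    rw [k.2 _ (L _) i li, k.2 _ l1 i li]; tauto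

end PG

/-- `G = X⟨t⟩`, or `G = X⟨t⟩ × ⟨f⟩` if `e = false`. -/
structure Cx (G : Type*) [Group G] (e : Bool) extends Cfg0 G e where
  X : Subgroup G
  nX : X.Normal
  sX : IsSimpleGroup X
  dec : ∀ x, x ∈ X ∨ x * el gs 8 ∈ X ∨ e = false ∧ (x * el gs 16 ∈ X ∨ x * el gs 24 ∈ X)

namespace Cx

variable {e : Bool} (C : Cx G e)

set_option hygiene false in
local notation "𝔰" => el (Cfg0.gs (Cx.toCfg0 C))
set_option hygiene false in
local notation "𝔪" => Mp (Cfg0.pg (Cx.toCfg0 C)) (Cfg0.pg (Cx.toCfg0 C))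

theorem dec' (x : G) : ∃ i < 4, x * 𝔰 (8 * i) ∈ C.X := by
  rcases C.dec x with h | h | ⟨-, h | h⟩
  exacts [⟨0, by decide, by simpa [el_zero]⟩, ⟨1, by decide, h⟩, ⟨2, by decide, h⟩, ⟨3, by decide, h⟩]

theorem cgX {x : G} (h : x ∈ C.X) (g : G) : cg x g ∈ C.X := C.nX.conj_mem' _ h g

theorem cmX (x y : G) : cm x y ∈ C.X := by
  obtain ⟨i, l, a⟩ := C.dec' x
  obtain ⟨j, l', b⟩ := C.dec' y
  have e : cg (𝔰 (8 * i)) (𝔰 (8 * j)) = 𝔰 (8 * i) := Mp.sf C.pg _ _ _ (by clear_aux_decl; clear * - l l'; decide +kernel +revert)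
  have := C.nX
  rw [← QuotientGroup.eq_one_iff, QuotientGroup.mk_mul, mul_eq_one_iff_eq_inv] at a b
  have e := congrArg (QuotientGroup.mk' C.X) (cg_eq_iff.1 e)
  rw [← QuotientGroup.eq_one_iff, cm, cg]
  simp only [QuotientGroup.mk_mul, QuotientGroup.mk_inv, a, b, map_mul, QuotientGroup.mk'_apply, inv_inv] at e ⊢
  rw [← mul_assoc, ← mul_assoc, e]; simp

theorem sqX (x : G) : x * x ∈ C.X := by
  obtain ⟨i, l, a⟩ := C.dec' x
  have e : 𝔰 (8 * i) * 𝔰 (8 * i) = 1 := by rw [C.pg.mul, C.pg.one]; exact (by clear_aux_decl; clear * - l; decide +kernel +revert)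
  have := mul_mem a (C.cgX a (𝔰 (8 * i)))
  rwa [cg, inv_eq_of_mul_eq_one_right e, mul_assoc (𝔰 _), mul_assoc x (𝔰 _) (𝔰 _), e, mul_one, mul_assoc, ← mul_assoc (𝔰 _), e, one_mul] at this

theorem cjX {x y : G} (h : IsConj x y) : x⁻¹ * y ∈ C.X := let ⟨g, e⟩ := exists_cg h; e ▸ C.cmX x g

theorem cjX' {x y : G} (h : IsConj x y) : x ∈ C.X ↔ y ∈ C.X := 
  ⟨fun a => (mul_mem_cancel_left (inv_mem a)).1 (C.cjX h), fun a => by simpa using (mul_mem_cancel_right a).1 (C.cjX h)⟩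

/-- `D = ⟨a, r⟩ ≤ X`. -/
theorem DX {x : ℕ} (h : IM 39 x := by decide) : 𝔰 x ∈ C.X := by
  obtain ⟨ρ, -, -, r1, r2⟩ := C.rho
  obtain ⟨σ, -, s1, -⟩ := C.sig0
  have K : ∀ {x y} u, IsConj (𝔰 x) (𝔰 y) → EQ 64 (mul (DS e) (inv (DS e) x) y) u → 𝔰 u ∈ C.X := fun u a b => by
    rw [← (C.pg.eq _ _).2 b, ← C.pg.mul, ← C.pg.inv]; exact C.cjX a
  have z := K 32 r2.conj dk
  have r := (C.cjX' r1.conj).1 z
  have c : 𝔰 4 ∈ C.X := by rw [← (C.pg.eq (mul (DS e) 1 1) 4).2 dk, ← C.pg.mul]; exact C.sqX _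
  have a : 𝔰 1 ∈ C.X := by
    rw [← (C.pg.eq (mul (DS e) 3 2) 1).2 dk, ← C.pg.mul]; exact mul_mem ((C.cjX' s1.conj).1 c) r
  refine (ms_le_iff C.pg).2 (fun i p q => ?_) (el_mem_ms h)
  obtain rfl | rfl | rfl | rfl : i = 0 ∨ i = 1 ∨ i = 2 ∨ i = 5 := (by clear_aux_decl; clear * - p q; decide +kernel +revert)
  exacts [a, r, c, z]

theorem noidx {N : Subgroup C.X} (h : N.index = 2) : False := by
  have := C.sX
  rcases (normal_of_index_eq_two h).eq_bot_or_eq_top with rfl | rfl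
  · rw [index_bot] at h
    have := (Nat.card_eq_two_iff' (1 : C.X)).1 h
    exact absurd ((C.pg.eq _ _).1 (congrArg Subtype.val (this.unique (y₁ := ⟨_, C.DX (x := 2)⟩) (y₂ := ⟨_, C.DX (x := 32)⟩)
      (fun e => absurd ((C.pg.one _).1 (congrArg Subtype.val e)) (by decide))
      fun e => absurd ((C.pg.one _).1 (congrArg Subtype.val e)) (by decide)))) (by decide)
  · simp at h

theorem leK {K : Subgroup G} (h : ∀ x y, cm x y ∈ K) : C.X ≤ K := by
  have := C.sX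
  rcases (inferInstance : (commutator C.X).Normal).eq_bot_or_eq_top with a | a
  · have := a.le (commutator_mem_commutator (mem_top (⟨_, C.DX (x := 1)⟩ : C.X)) (mem_top ⟨_, C.DX (x := 2)⟩))
    rw [mem_bot, commutatorElement_eq_one_iff_mul_comm] at this
    exact absurd (Mp.of_el (h := C.pg) (cg_eq_iff.2 (congrArg Subtype.val this))) (by cases e <;> decide +kernel)
  · refine fun x m => (commutator_le.2 (fun u _ v _ => ?_) : commutator C.X ≤ K.comap C.X.subtype) (a.ge (mem_top ⟨x, m⟩))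
    simpa [cm, cg, commutatorElement_def, mul_assoc, mem_subgroupOf] using h (u : G)⁻¹ (v : G)⁻¹

theorem fX (he : e = false) {x : ℕ} (h : 𝔰 x ∈ C.X) : x / 16 % 2 = 0 :=
  let ⟨_, a, _, b, _⟩ := C.chi he; (b x).1 (C.leK a h)

variable {gs : List G} {D : Dat} {N : ℕ}

theorem sylX (h : PG gs D N) (s : ¬ 2 * N ∣ Nat.card G) : ¬ 2 ∣ (gen gs).relIndex C.X :=
  haveI : Fact (Nat.Prime 2) := ⟨Nat.prime_two⟩
  haveI := C.nX
  not_dvd_relIndex_of_le_normalizer (h.idx s) le_top le_normalizer_of_normal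

theorem card (h : PG gs D N) (s : ¬ 2 * N ∣ Nat.card G) {gs' : List G} {D' : Dat} {N' : ℕ} (h' : PG gs' D' N')
    (e : gen gs' = gen gs ⊓ C.X) : ¬ 2 * N' ∣ Nat.card C.X := fun a => C.sylX h s (by
  rw [← inf_relIndex_right, ← e]
  rw [← card_mul_relIndex (e.le.trans inf_le_right), h'.card, mul_comm] at a
  exact Nat.dvd_of_mul_dvd_mul_left h'.pos a)

/-- Thompson's transfer lemma in `X`. -/
theorem th (h : PG gs D N) (s : ¬ 2 * N ∣ Nat.card G) (P : ℕ → Prop) (k : PG.parOK D N P) {u : ℕ} (m : el gs u ∈ C.X)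
    (a : u < N ∧ EQ N (mul D u u) 0 ∧ ¬ P u) : ∃ y < N, P y ∧ el gs y ∈ C.X ∧ IsConj (el gs u) (el gs y) := by
  haveI : Fact (Nat.Prime 2) := ⟨Nat.prime_two⟩
  have L := fun x => Nat.mod_lt x h.pos
  let Q : Subgroup G :=
    { carrier := {g | ∃ x < N, P x ∧ g = el gs x}
      one_mem' := ⟨0, h.pos, k.1, (el_zero _).symm⟩
      mul_mem' := by
        rintro _ _ ⟨x, a, b, rfl⟩ ⟨y, c, d, rfl⟩
        have e : el gs x * el gs y = el gs (mul D x y % N) := by rw [el_modN h, h.mul]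
        exact ⟨_, L _, (h.par k a c (L _) e).2 (iff_of_true b d), e⟩
      inv_mem' := by
        rintro _ ⟨x, a, b, rfl⟩
        have e : (el gs x)⁻¹ = el gs (inv D x % N) := by rw [el_modN h, h.inv]
        exact ⟨_, L _, ((h.par k a (L _) h.pos (by rw [← e, mul_inv_cancel, el_zero])).1 k.1).1 b, e⟩ }
  have Qe : ∀ x < N, el gs x ∈ Q ↔ P x := fun x l => ⟨fun ⟨y, a, b, c⟩ => ((h.eq _ _).1 c).eq l a ▸ b, fun a => ⟨x, l, a, rfl⟩⟩
  obtain ⟨S, hS⟩ := exists_sylow_of_not_dvd_relIndex h.pgroup (C.sylX h s)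
  by_contra! n
  refine thompson_transfer S (Q := Q.subgroupOf C.X) (u := ⟨_, m⟩) ?_ (Subtype.ext (by
    rw [sq]; exact (h.mul _ _).trans (((h.eq _ _).2 a.2.1).trans (el_zero _)))) (hS ▸ el_mem gs u) (fun g ⟨y, l, p, q⟩ => ?_)
    (mem_sup_left (pResidual_two_eq_top_iff.2 (fun _ => C.noidx) ▸ mem_top _))
  · rw [hS]
    refine relIndex_eq_two_iff.2 ⟨⟨_, m⟩, el_mem gs u, fun y hy => ?_⟩
    obtain ⟨x, l, e⟩ := h.ex hy
    have f : el gs x * el gs u = el gs (mul D x u % N) := by rw [el_modN h, h.mul]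
    replace e : (y : G) = el gs x := e
    simp only [mem_subgroupOf, coe_mul, e, f, Qe _ l, Qe _ (L _), h.par k l a.1 (L _) f, Xor']
    have := a.2.2; tauto
  · exact n y l p (by rw [← q]; exact (g * (⟨el gs u, m⟩ : C.X) * g⁻¹).2) (isConj_iff.2 ⟨g, q⟩)

/-- Replacing `f` by `t f`. -/
theorem rename (C : Cx G true) : ∃ C' : Cx G true, C'.X = C.X ∧ gen C'.gs = gen C.gs ∧
    ∀ x, el C'.gs x = el C.gs (hm (mul (DS true)) [1, 2, 4, 8, 24, 32] x) := by
  obtain ⟨C', a, b⟩ := C.toCfg0.rename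
  refine ⟨⟨C', C.X, C.nX, C.sX, fun x => (C.dec x).imp_right (Or.imp (fun h => ?_) fun h => nomatch h.1)⟩, rfl, a, b⟩
  rwa [b, (C.pg.eq _ 8).2 dk]

end Cx

end Cfsg.Lib.H33
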