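import Cfsg.Agent.Lib.L33.Fc
import Cfsg.Agent.Lib.Transfer.SylowIn

/-! Two copies of `L₃(3)` with tightly embedded centralisers (helper3, for S3140). -/

set_option autoImplicit false

namespace Cfsg.Lib.L33

open Subgroup Cfsg.Lib.Transfer
open scoped Cfsg.Lib.Transfer
open MulAut (conj)

variable {G : Type*} [Group G] {S T : St G} {a b g h k r s t u w x y z : G} {R : Subgroup G}

/-- Generators of `SL₂(3)` (or of `A₄` if `z = 1`). -/
structure Qt (a b s z : G) : Prop where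
  a2 : a * a = z
  b2 : b * b = z
  z2 : z * z = 1
  sa : s * a * s⁻¹ = b
  sb : s * b * s⁻¹ = a * b

theorem Qt.map {H : Type*} [Group H] (f : G →* H) (q : Qt a b s z) : Qt (f a) (f b) (f s) (f z) :=
  ⟨by rw [← map_mul, q.a2], by rw [← map_mul, q.b2], by rw [← map_mul, q.z2, map_one], by rw [← map_inv, ← map_mul, ← map_mul, q.sa],
    by rw [← map_inv, ← map_mul, ← map_mul, q.sb, map_mul]⟩

theorem Qt.ab (q : Qt a b s z) : a * b = b * a * z := by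
  have h : a * b * (a * b) = b * b := by rw [← q.sb, conj_mul, q.b2, ← q.a2, ← conj_mul, q.sa, q.a2, q.b2]
  have h' : a * b * a = b := mul_right_cancel (b := b) (by rw [← h]; group)
  calc a * b = a * b * (z * z) := by rw [q.z2, mul_one]
    _ = a * b * a * a * z := by rw [← q.a2]; group
    _ = _ := by rw [h']

theorem Qt.az (q : Qt a b s z) : a * z = z * a := by rw [← q.a2, mul_assoc]
theorem Qt.bz (q : Qt a b s z) : b * z = z * b := by rw [← q.b2, mul_assoc]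
theorem Qt.sz (q : Qt a b s z) : s * z = z * s := mul_inv_eq_iff_eq_mul.1 (by rw [← q.a2, ← conj_mul, q.sa, q.b2, q.a2])

theorem exQ' {z : L3} (z2 : z * z = 1) (z1 : z ≠ 1) : ∃ i j s, Qt i j s z :=
  let ⟨i, j, s, _, ⟨a, b, _, c, d, _⟩, _⟩ := exQ z2 z1; ⟨i, j, s, a, b, z2, c, d⟩

theorem exF {τ : MulAut L3} (t2 : τ * τ = 1) (t1 : τ ≠ 1) : ∃ a b s z, Qt a b s z ∧ a ≠ 1 ∧ τ a = a ∧ τ b = b ∧ τ s = s ∧ (τ ∉ Inn L3 → z = 1) := by
  by_cases o : τ ∈ Inn L3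
  · obtain ⟨z, rfl⟩ := o
    have z1 : z ≠ 1 := fun e => t1 (by rw [e, map_one])
    obtain ⟨a, b, s, q⟩ := exQ' (cj_inj (by rw [map_mul, t2, map_one])) z1
    have k : ∀ {a : L3}, a * z = z * a → conj z a = a := fun e => by rw [MulAut.conj_apply, ← e, mul_inv_cancel_right]
    exact ⟨a, b, s, z, q, fun e => z1 (by rw [← q.a2, e, mul_one]), k q.az, k q.bz, k q.sz, fun n => absurd (inn_cj z) n⟩
  · obtain ⟨a, b, s, p1, p2, p3, a2, a1, p4, p5⟩ := exA t2 o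
    exact ⟨a, b, s, 1, ⟨a2, by rw [← p4, conj_mul, a2, mul_one, mul_inv_cancel], one_mul 1, p4, p5⟩, a1, p1, p2, p3, fun _ => rfl⟩

theorem cyc_of (h1 : ∀ r ∈ R, ∀ r' ∈ R, r ∈ zpowers k ∨ r' ∈ zpowers k ∨ r * r' ∈ zpowers k) (h2 : ∀ r ∈ R, r ∉ zpowers k → k ∈ zpowers r) :
    IsCyclic R := by
  by_cases e : R ≤ zpowers k
  · exact isCyclic_of_le e
  obtain ⟨r, p, q⟩ := SetLike.not_le_iff_exists.1 e
  have l := zpowers_le.2 (h2 r p q)
  exact isCyclic_of_le (H' := zpowers r) fun x m => (h1 x m r p).elim (fun e => l e) fun e =>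
    (mul_mem_cancel_right (mem_zpowers r)).1 (l (e.resolve_left q))

theorem ex_inv (p : IsPGroup 2 R) (m : r ∈ R) (n : r ≠ 1) : ∃ t ∈ zpowers r, t * t = 1 ∧ t ≠ 1 := by
  obtain ⟨n, e⟩ := p ⟨r, m⟩
  replace e : r ^ 2 ^ n = 1 := congrArg Subtype.val e
  induction n with
  | zero => exact absurd (by simpa using e) n
  | succ i ih => exact (em (r ^ 2 ^ i = 1)).elim ih fun f => ⟨_, pow_mem (mem_zpowers r) _, by rwa [← sq, ← pow_mul, ← pow_succ], f⟩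

namespace St

theorem qt (T : St G) (q : Qt a b s z) (ha : a ∈ T.N) (hb : b ∈ T.N) (hs : s ∈ T.N) : ∃ a' b', T.π a = conj a' ∧ T.π b = conj b' ∧
    T.π z = conj (a' * a') ∧ a' * a' = b' * b' ∧ a' * a' * (a' * a') = 1 ∧ T.π s a' = b' ∧ T.π s b' = a' * b' ∧ a' * b' = b' * a' * (a' * a') := by
  obtain ⟨a', e⟩ : T.π a ∈ Inn L3 := by
    rw [eq_mul_inv_of_mul_eq q.sb.symm, T.πm (mul_mem (mul_mem hs hb) (inv_mem hs)) (inv_mem hb), T.πc hs hb, T.πi hb]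
    exact inn_cm _ _
  have f : T.π b = conj (T.π s a') := by rw [← q.sa, T.πc hs ha, ← e, cj_cj]
  have g : T.π z = conj (a' * a') := by rw [← q.a2, T.πm ha ha, map_mul, e]
  have hz : z ∈ T.N := q.a2 ▸ mul_mem ha ha
  refine ⟨a', _, e.symm, f, g, cj_inj ?_, cj_inj ?_, rfl, cj_inj ?_, cj_inj ?_⟩
  · rw [← g, map_mul, ← f, ← T.πm hb hb, q.b2]
  · rw [map_mul, ← g, T.π2 hz q.z2, map_one]
  · rw [← cj_cj, ← f, ← T.πc hs hb, q.sb, T.πm ha hb, map_mul, e, f]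
  · rw [map_mul, map_mul _ _ (a' * a'), map_mul _ _ a', ← g, e, ← f, ← T.πm ha hb, q.ab, T.πm (mul_mem hb ha) hz, T.πm hb ha]

/-- The centraliser of `A₄` contains no inner automorphism. -/
theorem lA (T : St G) (q : Qt a b s z) (ha : a ∈ T.N) (hb : b ∈ T.N) (hs : s ∈ T.N) (hz : z ∈ T.K) (n : a ∉ T.K) (hr : r ∈ T.N)
    (i : T.π r ∈ Inn L3) (ra : a * r = r * a) (rb : b * r = r * b) (rs : s * r = r * s) : r ∈ T.K := by
  obtain ⟨a', b', ea, eb, ez, h1, -, h2, h3, h4⟩ := T.qt q ha hb hs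
  obtain ⟨x, e⟩ := i
  have a2 : a' * a' = 1 := cj_inj (by rw [← ez, T.πK hz, map_one])
  have a1 : a' ≠ 1 := fun e => n ((T.π1 ha).1 (by rw [ea, e, map_one]))
  have b1 : b' ≠ 1 := fun e => a1 (by rwa [e, EmbeddingLike.map_eq_one_iff] at h2)
  have ab : b' ≠ a' := fun e => a1 (by rwa [e, a2, EmbeddingLike.map_eq_one_iff] at h3)
  have xs : T.π s x = x := fix_iff.1 (by rw [e, T.πcm hs hr rs])
  rw [a2, mul_one] at h4
  rw [← T.π1 hr, ← e]
  rcases fV0 a2 a1 (h1 ▸ a2) b1 ab h4.symm (x := x) (cj_inj (by rw [map_mul, map_mul, e, ← ea, T.πcm ha hr ra]))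
    (cj_inj (by rw [map_mul, map_mul, e, ← eb, T.πcm hb hr rb])) with rfl | rfl | rfl | rfl
  · exact map_one _
  · exact absurd (h2.symm.trans xs) ab
  · exact absurd (mul_eq_right.1 (h3.symm.trans xs)) a1
  · rw [map_mul, h2, h3, ← mul_assoc, ← h4, mul_assoc, ← h1, a2, mul_one] at xs
    exact absurd (mul_eq_left.1 xs.symm) b1

/-- The centraliser of `Q₈`. -/
theorem lQ (T : St G) (q : Qt a b s z) (ha : a ∈ T.N) (hb : b ∈ T.N) (hs : s ∈ T.N) (hz : z ∉ T.K) (hr : r ∈ T.N)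
    (i : T.π r ∈ Inn L3 ∨ r * r = 1) (ra : a * r = r * a) (rb : b * r = r * b) : r ∈ T.K ∨ r * z ∈ T.K := by
  obtain ⟨a', b', ea, eb, ez, h1, z2, -, -, h4⟩ := T.qt q ha hb hs
  have zN : z ∈ T.N := q.a2 ▸ mul_mem ha ha
  have z1 : a' * a' ≠ 1 := fun e => hz ((T.π1 zN).1 (by rw [ez, e, map_one]))
  have n : a' * b' ≠ b' * a' := fun e => z1 (by rwa [e, left_eq_mul] at h4)
  have fa : T.π r a' = a' := fix_iff.1 (by rw [← ea, T.πcm ha hr ra])
  have fb : T.π r b' = b' := fix_iff.1 (by rw [← eb, T.πcm hb hr rb])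
  obtain ⟨x, e⟩ : T.π r ∈ Inn L3 := by_contra fun o => n (fQ2 (T.π2 hr (i.resolve_left o)) o fa fb h1 z1)
  rw [← e, MulAut.conj_apply, mul_inv_eq_iff_eq_mul] at fa fb
  refine ((fQ z2 z1 rfl h1.symm).2 n x fa.symm fb.symm).imp (fun f => ?_) fun f => ?_
  · rw [← T.π1 hr, ← e, f, map_one]
  · rw [← T.π1 (mul_mem hr zN), T.πm hr zN, ← e, ez, f, ← map_mul, z2, map_one]

end St

/-- One half of the symmetric situation. -/
structure Hf (S : St G) : Prop where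
  cn : ∀ u ∈ S.K, u * u = 1 → u ≠ 1 → ∀ g, g * u = u * g → g ∈ S.N
  nc : ∃ P ≤ S.K, IsPGroup 2 P ∧ ¬ IsCyclic P

/-- The symmetric situation. -/
structure Pr (S T : St G) : Prop where
  l : Hf S
  r : Hf T
  od : ∀ u ∈ S.K, u ∈ T.K → u * u = 1 → u = 1

theorem Pr.symm (P : Pr S T) : Pr T S := ⟨P.r, P.l, fun u p q => P.od u q p⟩

theorem Pr.od' (P : Pr S T) (p : IsPGroup 2 R) (m : r ∈ R) (h : r ∈ S.K) (h' : r ∈ T.K) : r = 1 := by_contra fun n =>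
  let ⟨t, a, b, c⟩ := ex_inv p m n
  c (P.od t (zpowers_le.2 h a) (zpowers_le.2 h' a) b)

/-- An involution of `L` in `K'` makes `L'` centralise `L`. -/
theorem Pr.c2 (P : Pr S T) {z : L3} (z2 : z * z = 1) (z1 : z ≠ 1) (hz : S.α z ∈ T.K) (x : L3) : T.α x ∈ S.K := by
  obtain ⟨i, j, s, q⟩ := exQ' z2 z1
  replace q := q.map S.α
  have n1 := P.r.cn _ hz q.z2 (fun e => z1 (S.a1.1 e))
  have zK : S.α z ∉ S.K := fun e => z1 (S.LK e)
  have iK : S.α i ∉ S.K := fun e => zK (q.a2 ▸ mul_mem e e)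
  obtain ⟨R, l, p, nc⟩ := P.l.nc
  have RN : ∀ r ∈ R, r ∈ T.N := fun r m => n1 r (S.mK.1 (l m) z).symm
  have hi : S.α i ∈ T.K := by_contra fun n => nc (cyc_of (k := 1) (fun r m r' m' => by
    have k : ∀ r ∈ R, T.π r ∈ Inn L3 → r ∈ zpowers (1 : G) := fun r m e => mem_zpowers_iff.2 ⟨0, (zpow_zero _).trans (P.od' p m (l m) (T.lA q
      (n1 _ q.az) (n1 _ q.bz) (n1 _ q.sz) hz n (RN r m) e (S.mK.1 (l m) i) (S.mK.1 (l m) j) (S.mK.1 (l m) s))).symm⟩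
    exact (out2 _ _).imp (k r m) (.imp (k r' m') fun e => k _ (mul_mem m m') (by rwa [T.πm (RN r m) (RN r' m')]))) fun _ _ _ => one_mem _)
  have hj : S.α j ∈ T.K := q.sa ▸ T.cK (n1 _ q.sz) hi
  obtain ⟨t, m, t2, t1⟩ : ∃ t ∈ R, t * t = 1 ∧ t ≠ 1 := by
    obtain ⟨r, m, n⟩ := (R.bot_or_exists_ne_one).resolve_left fun e => nc (e ▸ inferInstance)
    obtain ⟨t, a, b⟩ := ex_inv p m n
    exact ⟨t, zpowers_le.2 m a, b⟩
  obtain ⟨y, y2, y1, hy⟩ : ∃ y : L3, y * y = 1 ∧ y ≠ 1 ∧ T.α y ∈ S.K := by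
    obtain ⟨a, b, c, y, q', a1, fa, fb, fc, -⟩ := exF (T.π2 (RN t m) t2) fun e => t1 (P.od t (l m) ((T.π1 (RN t m)).1 e) t2)
    have k : ∀ {a}, T.π t a = a → T.α a ∈ S.N := fun e => P.l.cn t (l m) t2 t1 _ ((T.πfix (RN t m)).1 e).symm
    have i1 : S.π (S.α i) ∈ Inn L3 := S.πα i ▸ inn_cj i
    have hy : T.α y ∈ S.K := by_contra fun n => (S.lQ (q'.map T.α) (k fa) (k fb) (k fc) n (S.aN i) (.inl i1) (T.mK.1 hi a)
      (T.mK.1 hi b)).elim iK fun e => zK (by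
        have := mul_mem e e
        rwa [← T.mK.1 hi, T.mul_d hi, q'.z2, q.a2, map_one, one_mul] at this)
    by_cases y1 : y = 1
    · exact ⟨a, q'.a2.trans y1, a1, by_contra fun n => iK (S.lA (q'.map T.α) (k fa) (k fb) (k fc) hy n (S.aN i) i1 (T.mK.1 hi a)
        (T.mK.1 hi b) (T.mK.1 hi c))⟩
    · exact ⟨y, q'.z2, y1, hy⟩
  have n2 := P.l.cn _ hy (by rw [← map_mul, y2, map_one]) fun e => y1 (T.a1.1 e)
  obtain ⟨-, -, -, r, ⟨-, -, -, -, -, r2, r1, ry⟩, gen⟩ := exQ y2 y1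
  have r2' : T.α r * T.α r = 1 := by rw [← map_mul, r2, map_one]
  have top := gen (S.N.comap T.α) (fun x e => n2 _ (by rw [← map_mul, e, map_mul])) fun x e => by
    have e' : T.α x * T.α r = T.α r * T.α x := by rw [← map_mul, e, map_mul]
    rcases S.lQ q (S.aN i) (S.aN j) (S.aN s) zK (n2 (T.α r) (by rw [← map_mul, ry, map_mul])) (.inr r2') (T.mK.1 hi r).symm
      (T.mK.1 hj r).symm with f | f
    · exact P.l.cn _ f r2' (fun e => r1 (T.a1.1 e)) _ e'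
    · exact P.l.cn _ f (by rw [T.mul_d hz, r2, q.z2, map_one, one_mul]) (fun e => r1 (T.one_d hz e).1) _
        (by rw [← mul_assoc, e', mul_assoc, T.mK.1 hz, mul_assoc])
  have := simple
  have n : (S.K.comap T.α).Normal := ⟨fun a p b => by
    rw [mem_comap, map_mul, map_mul, map_inv]; exact S.cK (top.ge (mem_top b)) p⟩
  exact (n.eq_bot_or_eq_top.resolve_left fun e => y1 (mem_bot.1 (e.le hy))).ge (mem_top x)

variable [Finite G]

theorem Hf.syl (H : Hf S) (h : ¬ 2 ∣ R.relIndex S.K) : ¬ IsCyclic R := fun c => by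
  obtain ⟨P, a, b, n⟩ := H.nc
  obtain ⟨g, -, e⟩ := exists_conj_le_of_not_dvd_relIndex' h b a
  exact n ((P.equivMapOfInjective _ (conj g).injective).isCyclic.2 (isCyclic_of_le e))

theorem pg_inv (h : u * u = 1) : IsPGroup 2 (zpowers u) := by
  rw [IsPGroup.iff_card, Nat.card_zpowers]
  exact ((Nat.dvd_prime_pow Nat.prime_two).1 (orderOf_dvd_of_pow_eq_one (n := 2 ^ 1) ((sq u).trans h))).imp fun _ e => e.2

/-- An involution of `K' ∩ N` is outer. -/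
theorem Pr.ca (P : Pr S T) (h : ∀ z, z * z = 1 → S.α z ∈ T.K → z = 1) (hu : u ∈ T.K) (uN : u ∈ S.N) (u2 : u * u = 1) (u1 : u ≠ 1) :
    S.π u ∉ Inn L3 := fun i => by
  obtain ⟨x, k, hk, rfl⟩ := S.dec uN i
  have n1 := P.r.cn _ hu u2 u1
  obtain ⟨x2, k2⟩ := S.one_d (mul_mem hk hk) (S.mul_d hk ▸ u2)
  have x1 : x ≠ 1 := fun e => u1 (P.od _ (by simpa [e]) hu u2)
  have k1 : k ≠ 1 := fun e => x1 (h x x2 (by simpa [e] using hu))
  obtain ⟨i, j, s, q⟩ := exQ' x2 x1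
  have n2 : ∀ {a}, a * x = x * a → S.α a ∈ T.N := fun e => n1 _ (by rw [← mul_assoc, ← map_mul, e, map_mul, mul_assoc, S.mK.1 hk, mul_assoc])
  obtain ⟨R, kR, l, p, sy⟩ := exists_sylowIn_ge (pg_inv k2) (zpowers_le.2 hk)
  replace kR := zpowers_le.1 kR
  have nc := P.l.syl sy
  have n3 : ∀ r ∈ R, r * k = k * r → r ∈ T.N := fun r m e => n1 _ (by rw [← mul_assoc, ← S.mK.1 (l m), mul_assoc, e, mul_assoc])
  have key : ∀ r ∈ R, r * k = k * r → T.π r ∈ Inn L3 ∨ r * r = 1 → r = 1 ∨ r = k := fun r m c e =>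
    (T.lQ (q.map S.α) (n2 q.az) (n2 q.bz) (n2 q.sz) (fun e => x1 (h x x2 e)) (n3 r m c) e (S.mK.1 (l m) i) (S.mK.1 (l m) j)).imp
      (P.od' p m (l m)) fun f => by
        have := mul_mem f hu
        rw [mul_assoc, ← mul_assoc (S.α x), ← map_mul, x2, map_one, one_mul] at this
        exact (eq_inv_of_mul_eq_one_left (P.od' p (mul_mem m kR) (l (mul_mem m kR)) this)).trans (inv_eq_of_mul_eq_one_right k2)
  have : Nontrivial R := (R.nontrivial_iff_exists_ne_one).2 ⟨k, kR, k1⟩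
  have := p.center_nontrivial
  obtain ⟨⟨⟨t, m⟩, c⟩, n⟩ := exists_ne (1 : center R)
  obtain ⟨t', a, t2, t1⟩ := ex_inv p m fun e => n (Subtype.ext (Subtype.ext e))
  have c' : ∀ r ∈ R, r * t' = t' * r := fun r m' => (mem_centralizer_singleton_iff.1 (zpowers_le.2 (mem_centralizer_singleton_iff.2
    (congrArg Subtype.val (mem_center_iff.1 c ⟨r, m'⟩)).symm) a)).symm
  obtain rfl := (key t' (zpowers_le.2 m a) (c' k kR).symm (.inr t2)).resolve_left t1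
  have z : ∀ {r}, r = 1 ∨ r = t' → r ∈ zpowers t' := by
    rintro _ (rfl | rfl)
    exacts [one_mem _, mem_zpowers _]
  refine nc (cyc_of (k := t') (fun r m r' m' => (out2 _ _).imp (fun e => z (key r m (c' r m) (.inl e))) (.imp (fun e => z (key r' m' (c' r' m')
    (.inl e))) fun e => z (key _ (mul_mem m m') (c' _ (mul_mem m m')) (.inl (by rwa [T.πm (n3 r m (c' r m)) (n3 r' m' (c' r' m'))])))))
    fun r m n => ?_)
  rcases key _ (mul_mem m m) (c' _ (mul_mem m m)) (.inl (by rw [T.πm (n3 r m (c' r m)) (n3 r m (c' r m))]; exact inn_sq _)) with e | e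
  · exact absurd (z (key r m (c' r m) (.inr e))) n
  · exact e ▸ mul_mem (mem_zpowers r) (mem_zpowers r)

/-- Elements of `C_K(u)` are outer on `L'`. -/
theorem Pr.one (P : Pr S T) (h : ∀ z, z * z = 1 → S.α z ∈ T.K → z = 1) (hu : u ∈ T.K) (uN : u ∈ S.N) (u2 : u * u = 1) (u1 : u ≠ 1)
    (p : IsPGroup 2 R) (m : r ∈ R) (l : r ∈ S.K) (c : r * u = u * r) (i : T.π r ∈ Inn L3) : r = 1 := by
  have o := P.ca h hu uN u2 u1
  have n1 := P.r.cn _ hu u2 u1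
  obtain ⟨a, b, s, z, q, a1, fa, fb, fs, z1⟩ := exF (S.π2 uN u2) fun e => o (e ▸ one_mem _)
  obtain rfl := z1 o
  have k : ∀ {a}, S.π u a = a → S.α a ∈ T.N := fun e => n1 _ ((S.πfix uN).1 e).symm
  exact P.od' p m l (T.lA (q.map S.α) (k fa) (k fb) (k fs) (map_one S.α ▸ one_mem _) (fun e => a1 (h a q.a2 e)) (n1 r c) i (S.mK.1 l a)
    (S.mK.1 l b) (S.mK.1 l s))

theorem Pr.ext (P : Pr S T) (h : ∀ z, z * z = 1 → S.α z ∈ T.K → z = 1) (hu : u ∈ T.K) (uN : u ∈ S.N) (u2 : u * u = 1) (u1 : u ≠ 1) :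
    ∃ x, ∃ t ∈ S.K, t ≠ 1 ∧ t * t = 1 ∧ t * u = u * t ∧ x * u * x⁻¹ = t * u := by
  obtain ⟨U, uU, l, p, sy⟩ := exists_sylowIn_ge (pg_inv u2) (zpowers_le.2 uN)
  have n1 := P.r.cn _ hu u2 u1
  have nc := P.l.syl (R := U ⊓ S.K) (inf_relIndex_right U S.K ▸ not_dvd_relIndex_of_le_normalizer sy (fun _ => S.KN) fun g m =>
    mem_normalizer_fintype fun _ => S.cK m)
  have un : zpowers u ≤ normalizer ((U ⊓ S.K : Subgroup G) : Set G) := zpowers_le.2 (mem_normalizer_fintype fun x m =>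
    ⟨U.mul_mem (U.mul_mem (uU (mem_zpowers u)) m.1) (U.inv_mem (uU (mem_zpowers u))), S.cK uN m.2⟩)
  by_cases e : (U ⊓ S.K) ⊔ zpowers u ≤ ((U ⊓ S.K) ⊔ zpowers u) ⊓ centralizer {u}
  swap
  · obtain ⟨y, ⟨m, n⟩, c⟩ := SetLike.exists_of_lt (lt_inf_normalizer_of_lt (p.to_le (sup_le inf_le_left uU)) (lt_of_le_not_ge inf_le_left e))
    obtain ⟨x, hx, _, ⟨k, rfl⟩, rfl⟩ := exists_mul_of_mem_sup un m
    have e : x * u ^ k * u * (x * u ^ k)⁻¹ = x * u * x⁻¹ := by group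
    have c1 := mem_centralizer_singleton_iff.1 ((mem_normalizer_iff.1 n u).1
      ⟨mem_sup_right (mem_zpowers u), mem_centralizer_singleton_iff.2 rfl⟩).2
    rw [e] at c1
    have ui := inv_eq_of_mul_eq_one_right u2
    refine ⟨x, x * u * x⁻¹ * u, by simpa [ui, mul_assoc] using mul_mem hx.2 (S.cK uN (inv_mem hx.2)), fun e' => c ⟨m, ?_⟩, ?_, ?_,
      by rw [mul_assoc _ u u, u2, mul_one]⟩
    · rw [mul_eq_one_iff_eq_inv, ui, ← e, mul_inv_eq_iff_eq_mul] at e'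
      exact mem_centralizer_singleton_iff.2 e'
    · rw [(show Commute _ u from c1).symm.mul_mul_mul_comm, conj_mul, u2, mul_one, mul_one, mul_inv_cancel]
    · rw [← mul_assoc u, ← c1]
  · have c : ∀ r ∈ U ⊓ S.K, r * u = u * r := fun r m => mem_centralizer_singleton_iff.1 (e (mem_sup_left m)).2
    have k : ∀ r ∈ U ⊓ S.K, T.π r ∈ Inn L3 → r ∈ zpowers (1 : G) := fun r m i =>
      mem_zpowers_iff.2 ⟨0, (zpow_zero _).trans (P.one h hu uN u2 u1 p m.1 m.2 (c r m) i).symm⟩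
    exact (nc (cyc_of (k := 1) (fun r m r' m' => (out2 _ _).imp (k r m) (.imp (k r' m') fun e => k _ (mul_mem m m')
      (by rwa [T.πm (n1 r (c r m)) (n1 r' (c r' m'))]))) fun _ _ _ => one_mem _)).elim

/-- No involution of `L` is conjugate into `K`: contradiction. -/
theorem c1 (pr : ∀ g ∉ S.N, Pr S (S.cj g)) (h : ∀ z, ∀ k ∈ S.K, z * z = 1 → IsConj (S.α z) k → z = 1) (n : g ∉ S.N)
    (hu : u ∈ (S.cj g).K) (uN : u ∈ S.N) (u2 : u * u = 1) (u1 : u ≠ 1) : False := by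
  have cj : ∀ {g k}, k ∈ (S.cj g).K → ∃ k' ∈ S.K, IsConj k k' := fun {g k} m => ⟨_, S.cj_K.1 m, isConj_iff.2 ⟨g⁻¹, by rw [inv_inv]⟩⟩
  have h1 : ∀ g z, z * z = 1 → S.α z ∈ (S.cj g).K → z = 1 := fun g z z2 m => let ⟨k, p, c⟩ := cj m; h z k p z2 c
  have h2 : ∀ z, ∀ k ∈ S.K, z * z = 1 → IsConj ((S.cj g).α z) k → z = 1 := fun z k p z2 c =>
    h z k p z2 ((isConj_iff.2 ⟨g, rfl⟩).trans c)
  have h3 : ∀ z, z * z = 1 → (S.cj g).α z ∈ S.K → z = 1 := fun z z2 m => h2 z _ m z2 (.refl _)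
  have P := pr g n
  obtain ⟨u', hu', uu⟩ := cj hu
  have h4 := h1 g
  generalize S.cj g = T at P hu h2 h3 h4
  obtain ⟨x, t, ht, t1, t2, tu, e⟩ := P.ext h4 hu uN u2 u1
  have n1 := P.r.cn _ hu u2 u1
  have tN := n1 t tu
  have o := P.ca h4 hu uN u2 u1
  have o' := P.symm.ca h3 ht tN t2 t1
  obtain ⟨a, _, _, z, q, a1, fa, -, -, z1⟩ := exF (S.π2 uN u2) fun e => o (e ▸ one_mem _)
  have a2 := q.a2.trans (z1 o)
  have A2 : S.α a * S.α a = 1 := by rw [← map_mul, a2, map_one]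
  have au := ((S.πfix uN).1 fa).symm
  have at' := S.mK.1 ht a
  have aN := n1 _ au
  have key : ∀ y ∈ T.N, T.π y ∈ Inn L3 → y * y = 1 → t * y = y * t → u * y = y * u → ∃ s, s * s = 1 ∧ (y = T.α s ∨ y * u = T.α s) :=
    fun y m i y2 yt yu => by
      obtain ⟨s, k, hk, rfl⟩ := T.dec m i
      obtain ⟨s2, k2⟩ := T.one_d (mul_mem hk hk) (T.mul_d hk ▸ y2)
      have kt := (T.fix_d tN hk yt).2
      have ku := (T.fix_d (T.KN hu) hk yu).2
      have kN := P.l.cn _ ht t2 t1 _ kt.symm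
      refine ⟨s, s2, ((out2 (S.π k) (S.π u)).imp (fun i => ?_) fun i => ?_)⟩
      · rw [P.symm.one h3 ht tN t2 t1 (pg_inv k2) (mem_zpowers k) hk kt.symm i, mul_one]
      · rw [mul_assoc, P.symm.one h3 ht tN t2 t1 (pg_inv (u := k * u) (by rw [(show Commute u k from ku).mul_mul_mul_comm, k2, u2, mul_one]))
          (mem_zpowers _) (mul_mem hk hu) (by rw [mul_assoc, ← tu, ← mul_assoc, ← kt, mul_assoc]) (S.πm kN uN ▸ i.resolve_left o), mul_one]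
  have At : S.α a * t * (S.α a * t) = 1 := by rw [S.mul_d ht, a2, t2, map_one, mul_one]
  rcases out2 (T.π (S.α a)) (T.π t) with i | i | i
  · obtain ⟨s, s2, f | f⟩ := key _ aN i A2 at'.symm au.symm
    · obtain ⟨c, w⟩ := T.ocj tN t2 o' (f ▸ At)
      have m : S.α a * t ∈ (S.cj (T.α c)).K := S.cj_K.2 (by simpa [f, ← w, mul_assoc] using ht)
      have m' : S.α a * t ∉ S.K := fun m => a1 (S.LK ((mul_mem_cancel_right ht).1 m))
      exact (pr (T.α c) fun y => m' (by rw [f, ← w]; exact S.cK y ht)).ca (h1 _) m (mul_mem (S.aN a) (S.KN ht)) At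
        (fun y => m' (y ▸ one_mem _)) (S.πd ht ▸ inn_cj a)
    · obtain ⟨c, w⟩ := S.ocj uN u2 o (y := a) (by rw [f, ← map_mul, s2, map_one])
      rw [h2 s u' hu' s2 ((isConj_iff.2 ⟨_, w.trans f⟩).symm.trans uu), map_one, mul_eq_one_iff_eq_inv] at f
      exact a1 (h4 a a2 (f ▸ inv_mem hu))
  · exact o' i
  obtain ⟨s, s2, f | f⟩ := key _ (mul_mem aN tN) (T.πm aN tN ▸ i) At (by rw [← mul_assoc, ← at']) (by
    rw [← mul_assoc, ← au, mul_assoc, ← tu, mul_assoc])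
  · have f' : T.α s * t = S.α a := by rw [← f, mul_assoc, t2, mul_one]
    obtain ⟨c, w⟩ := T.ocj tN t2 o' (f' ▸ A2)
    exact a1 (h a t ht a2 (isConj_iff.2 ⟨_, w.trans f'⟩).symm)
  · have w2 : t * u * (t * u) = 1 := by rw [← e, conj_mul, u2, mul_one, mul_inv_cancel]
    have f' : T.α s * (t * u) = S.α a := by rw [← f, mul_assoc (S.α a), mul_assoc, w2, mul_one]
    obtain ⟨c, w⟩ := T.ocj (mul_mem tN (T.KN hu)) w2 (by rwa [T.πm tN (T.KN hu), T.πK hu, mul_one]) (f' ▸ A2)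
    exact a1 (h a u' hu' a2 (((isConj_iff.2 ⟨_, w.trans f'⟩).symm.trans (isConj_iff.2 ⟨x, e⟩).symm).trans uu))

end Cfsg.Lib.L33
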