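import Cfsg.Agent.Lib.L33.Out
import Cfsg.Agent.Lib.L33.Cn

/-! S3140 (helper5; proof helper21): the case `St8`, `α = 1` (Lib/H33/E8a-d; codes `a g h r c t f z`).
`T* = gen X.gs` is Sylow, `R₀ = C_{T*}(f)` (mask 254) is not Sylow in `C(f)`, so some `x` with `f^x = z` normalises `R₀`. -/

set_option autoImplicit false
set_option synthInstance.maxSize 2048
set_option maxRecDepth 100000

namespace Cfsg.Lib.L33

open Subgroup H33 Calc Ec Transfer

set_option quotPrecheck false in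
local notation "dk" => by clear_aux_decl; clear * -; decide +kernel +revert

variable {G : Type*} [Group G] [Finite G]

theorem Ec.idx2 {H K : Subgroup G} (l : H ≤ K) (c : Nat.card K ≤ 2 * Nat.card H) {u v : G} (a : u ∈ K) (b : v ∈ K) :
    u ∈ H ∨ v ∈ H ∨ u * v ∈ H := by
  have e := card_mul_relIndex l
  have p : 0 < Nat.card K := Nat.card_pos
  obtain c1 | c1 : H.relIndex K = 1 ∨ H.relIndex K = 2 := by
    have : H.relIndex K ≠ 0 := fun h => by rw [h] at e; omega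
    have : H.relIndex K < 3 := by by_contra; have : 0 < Nat.card H := Nat.card_pos; nlinarith
    omega
  · exact .inl (relIndex_eq_one.1 c1 a)
  · have : u * v ∈ H ↔ (u ∈ H ↔ v ∈ H) := mul_mem_iff_of_index_two c1 (a := ⟨_, a⟩) (b := ⟨_, b⟩)
    tauto

set_option hygiene false in
local notation "𝔯" => el (St8.gs X)
set_option hygiene false in
local notation "𝔫" => Mp (St8.pg X) (St8.pg X)
set_option hygiene false in
local notation "𝔑" m:max => normalizer (MS (St8.gs X) m : Set G)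

variable {β γ : Bool}

theorem Ec.ok8 : ∀ m ∈ [64, 232, 254], msOK (D8 true β γ) 256 m := dk

theorem Ec.c128 {C : Cfg0 G true} (X : St8 C true β γ) : 128 ≤ Nat.card (MS X.gs 254) := by
  simpa using Nat.card_le_card_of_injective (fun i : Fin 128 => (⟨𝔯 (2 * i), el_mem_ms (by revert i; decide)⟩ : MS X.gs 254))
    fun i j e => Fin.ext (by have := (X.pg.inj _ _).1 (congrArg Subtype.val e); omega)

theorem Ec.exT {C : Cfg0 G true} (X : St8 C true β γ) :
    ∃ T : Subgroup G, IsPGroup 2 T ∧ MS X.gs 254 ≤ T ∧ (∀ w ∈ T, 𝔫 w 64 64) ∧ 256 ≤ Nat.card T := by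
  obtain ⟨ρ, r1, r2, r3, r4⟩ := C.rho
  rw [Mp, X.lk _ (by decide)] at r1 r2
  rw [Mp, X.lk _ (by decide), X.lk _ (by decide)] at r3 r4
  replace r1 : 𝔫 ρ 32 32 := r1
  replace r2 : 𝔫 ρ 64 64 := r2
  replace r3 : 𝔫 ρ 128 8 := r3
  replace r4 : 𝔫 ρ 8 136 := r4
  have ok := ok8 (β := β) (γ := γ)
  have N : ∀ {w}, w ∈ 𝔑 232 → w ∈ 𝔑 200 → w ∈ 𝔑 64 →
      w ∈ normalizer ((𝔑 232 ⊓ rcK (MS X.gs 200) (MS X.gs 64) : Subgroup G) : Set G) := fun a b c =>
    norm_inf (norm_norm a) (norm_rcK b c)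
  have K : ∀ m, IM 232 m → (m.testBit 7 = true → m.testBit 3 = true) → (m.testBit 3 = true → m.testBit 7 = true) → ρ ∈ 𝔑 m :=
    fun m a b c => X.pg.nm_ms fun i p q => by
      have q' : (232 : ℕ).testBit i = true := by
        have := congrArg (Nat.testBit · i) a
        simpa only [Nat.testBit_and, q, Bool.true_and] using this
      obtain rfl | rfl | rfl | rfl : i = 3 ∨ i = 5 ∨ i = 6 ∨ i = 7 := (by clear_aux_decl; clear * - p q'; decide +kernel +revert)
      · rw [show 2 ^ 3 = 8 from rfl, r4.e, ← (X.pg.eq (mul (D8 true β γ) 8 128) 136).2 dk, ← X.pg.mul]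
        exact mul_mem (ms_gen q) (ms_gen (c q))
      exacts [Set.mem_of_eq_of_mem r1.e (ms_gen q), Set.mem_of_eq_of_mem r2.e (ms_gen q), Set.mem_of_eq_of_mem r3.e (ms_gen (b q))]
  obtain ⟨T, hT, a, b, c⟩ := syl_fr (X.pg.pgroup.to_le (ms_le _ 254)) fun x p =>
    N (X.pg.le_nm dk p) (X.pg.le_nm dk p) (X.pg.le_nm dk p)
  obtain ⟨m, hm, d⟩ := c ρ (N (K _ (by decide) (by decide) (by decide)) (K _ (by decide) (by decide) (by decide))
    (K _ (by decide) (by decide) (by decide)))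
  have F : ∀ {w}, w ∈ 𝔑 64 → 𝔫 w 64 64 := fun p => by
    obtain ⟨y, l, q, e⟩ := Mp.exm (h := X.pg) (ok _ (by simp)) p 64
    have := e.ne .zero
    exact e.r _ (by clear_aux_decl; clear * - l q this; decide +kernel +revert)
  have Tf : ∀ w ∈ T, 𝔫 w 64 64 := fun w p => F (b.trans (sup_le (fun _ p => p.2.1) (X.pg.le_nm dk)) p)
  have yT := d (𝔯 28) (a (el_mem_ms (by decide))) ⟨X.pg.nm_el dk, X.pg.mem_rcK dk (X.pg.nm_el dk) fun i p q => by
    rw [X.pg.cm, X.pg.mem_ms (ok _ (by simp))]; exact (by clear_aux_decl; clear * - p q; decide +kernel +revert)⟩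
  have yR : cg (𝔯 28) (ρ * m) ∉ MS X.gs 254 := fun p => by
    obtain ⟨v, l, q, e⟩ := X.pg.ex_ms (ok _ (by simp)) p
    obtain ⟨t1, l1, q1, m1⟩ := Mp.exm (h := X.pg) (ok _ (by simp)) hm.1 32
    obtain ⟨u, l2, q2, m2⟩ := X.pg.ex_ms (ok _ (by simp)) (hm.2.2 _ (el_mem_ms (x := 8) (by decide)))
    have m3 : 𝔫 m 8 (mul (D8 true β γ) 8 u) := by rw [Mp, ← X.pg.mul 8 u, ← m2, cm, mul_inv_cancel_left]
    have := (Mp.sf X.pg 28 32 224).act (r1.trans m1)
      ((((r1.trans m1).mul (r2.trans (F hm.2.1))).mul (r3.trans m3)).l 224) e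
    obtain rfl | rfl : u = 0 ∨ u = 64 := (by clear_aux_decl; clear * - l2 q2; decide +kernel +revert)
    all_goals exact absurd this (by clear_aux_decl; clear * - l q l1 q1; decide +kernel +revert)
  have c1 := c128 X
  have c2 : 256 ≤ Nat.card T := by
    have e := card_mul_relIndex a
    have : (MS X.gs 254).relIndex T ≠ 0 := fun h => (Nat.card_pos (α := T)).ne' (by rw [← e, h, mul_zero])
    have : (MS X.gs 254).relIndex T ≠ 1 := fun h => yR (relIndex_eq_one.1 h yT)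
    have : 2 ≤ (MS X.gs 254).relIndex T := by omega
    nlinarith
  exact ⟨T, hT, a, Tf, c2⟩

theorem Ec.exX {C : Cfg0 G true} (X : St8 C true β γ) :
    ∃ x ∈ 𝔑 254, 𝔫 x 64 128 ∧ ∃ z1, (z1 = 64 ∨ z1 = 192) ∧ 𝔫 x 128 z1 := by
  obtain ⟨T, hT, a, Tf, c2⟩ := exT X
  have ok := ok8 (β := β) (γ := γ)
  have c1 := c128 X
  obtain ⟨x, hx⟩ := X.pg.syl (StY.al X) hT
  have inj : Function.Injective (cgH x) := fun x y h => cg_inj.1 (by simpa [cgH_apply] using h)
  have le : T.map (cgH x) ≤ gen X.gs := by rintro _ ⟨y, p, rfl⟩; exact cgH_apply x y ▸ hx y p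
  have E : T.map (cgH x) = gen X.gs := Subgroup.eq_of_le_of_card_ge le (by rw [X.pg.card, card_map_of_injective inj]; exact c2)
  have I : ∀ u, IM 254 u → ∃ y < 256, 𝔫 x u y := fun u p => Mp.ex _ _ (hx _ (a (el_mem_ms p)))
  have J : ∀ {S : Subgroup G} {u y}, (∀ w ∈ S, 𝔫 w u u) → 𝔫 x u y → ∀ v, 𝔯 v ∈ S.map (cgH x) → EQ 256 (cj (D8 true β γ) y v) y :=
    fun p q v ⟨w, s, e⟩ => (p w s).act q q ((cgH_apply _ _).symm.trans e)
  obtain ⟨f1, l1, m1⟩ := I 64 (by decide)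
  have p1 := m1.ne .zero
  have p2 : ∀ i < 8, EQ 256 (cj (D8 true β γ) f1 (2 ^ i)) f1 := fun i _ => J Tf m1 _ (E ▸ el_mem _ _)
  obtain rfl : f1 = 128 := (by clear_aux_decl; clear * - l1 p1 p2; decide +kernel +revert)
  obtain ⟨z1, l2, m2⟩ := I 128 (by decide)
  have Rz : ∀ w ∈ MS X.gs 254, 𝔫 w 128 128 := fun w p => mem_cent.1 (X.pg.gen_le_iff.2 (fun i l => mem_cent.2
    (Mp.sf X.pg _ _ _ (by clear_aux_decl; clear * - l; decide +kernel +revert))) (ms_le _ _ p))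
  have p3 := m2.ne .zero
  have p4 := m2.ne m1
  have p5 := m2.sq
  have p6 : ∀ i < 8, ∀ j < 8, EQ 256 (cj (D8 true β γ) z1 (2 ^ i)) z1 ∨ EQ 256 (cj (D8 true β γ) z1 (2 ^ j)) z1 ∨
      EQ 256 (cj (D8 true β γ) z1 (mul (D8 true β γ) (2 ^ i) (2 ^ j))) z1 := fun i _ j _ =>
    (idx2 ((map_mono a).trans le) (by rw [X.pg.card, card_map_of_injective inj]; omega) (el_mem _ _) (el_mem _ _)).imp (J Rz m2 _)
      (.imp (J Rz m2 _) fun p => J Rz m2 _ (X.pg.mul _ _ ▸ p))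
  have p7 : z1 = 64 ∨ z1 = 192 := (by clear_aux_decl; clear * - l2 p3 p4 p5 p6; decide +kernel +revert)
  have n : x ∈ 𝔑 254 := mem_norm_of_cg fun w p => by
    obtain ⟨u, -, q, rfl⟩ := X.pg.ex_ms (ok _ (by simp)) p
    obtain ⟨y, l, e⟩ := I u q
    have := J Rz m2 y ⟨_, p, (cgH_apply _ _).trans e⟩
    exact e.mem (by clear_aux_decl; clear * - l l2 p7 this; decide +kernel +revert)
  exact ⟨x, n, m1, z1, p7, m2⟩

theorem al1 {β γ : Bool} (C : Cx G true) (X : St8 C.toCfg0 true β γ) : False := by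
  obtain ⟨x, n, m1, z1, p7, m2⟩ := exX X
  have ok := ok8 (β := β) (γ := γ)
  have l2 : z1 < 256 := by omega
  cases β
  · cases γ
    · obtain ⟨y, l, q, e⟩ := Mp.exm (h := X.pg) (ok _ (by simp)) n 2
      have q1 := e.sq
      have q2 := e.ne .zero
      have q3 := e.ne m1
      have q4 := e.ne m2
      have q5 := e.ne (m1.mul m2)
      have q6 : ∀ i < 8, i ≠ 0 → EQ 256 (ck (D8 true false false) y (2 ^ i)) 0 ∨ EQ 256 (ck (D8 true false false) y (2 ^ i)) 128 :=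
        fun i l p => by
          obtain ⟨u, l', q, e'⟩ := Mp.exm (h := X.pg) (ok _ (by simp)) (inv_mem n) (2 ^ i) (by clear_aux_decl; clear * - l p; decide +kernel +revert)
          have e' : 𝔫 x u (2 ^ i) := inv_inv x ▸ e'.symm
          have : EQ 256 (ck (D8 true false false) 2 u) 0 ∨ EQ 256 (ck (D8 true false false) 2 u) 64 := (by clear_aux_decl; clear * - l' q; decide +kernel +revert)
          exact this.imp (fun a => (e.ck e').eq .zero a) fun a => (e.ck e').eq m1 a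
      exact absurd q6 (by clear_aux_decl; clear * - l q q1 q2 q3 q4 q5 l2 p7; decide +kernel +revert)
    · exact StY.al2 X
  · exact absurd (cnt X.pg (w := x⁻¹) (P := fun u => IM 254 u ∧ EQ 256 (mul (D8 true true γ) u u) 128)
      (Q := fun u => IM 254 u ∧ EQ 256 (mul (D8 true true γ) u u) 64) fun u _ p =>
      let ⟨y, l, q, e⟩ := Mp.exm (h := X.pg) (ok _ (by simp)) (inv_mem n) u p.1
      ⟨y, l, ⟨q, (e.mul e).eq m1.symm p.2⟩, e⟩) dk

end Cfsg.Lib.L33
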