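import Cfsg.Agent.Lib.L33.Out
import Cfsg.Agent.Lib.L33.Cn

/-! S3140 (helper5; proof helper21): the case `St10`, `γ = 1` (Lib/H33/E8f, E8g; codes `r t g d p q c j k z`).
`T = gen X.gs` is Sylow, an element `ρ` with `z ↦ k` normalises `C_T(k)` (`rho`); counting square roots gives `β = 0, ε = 1` and `T ⊓ X = S₀`. -/

set_option autoImplicit false
set_option synthInstance.maxSize 2048
set_option maxRecDepth 100000

namespace Cfsg.Lib.L33

open Subgroup H33 Calc

set_option quotPrecheck false in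
local notation "dk" => by clear_aux_decl; clear * -; decide +kernel +revert

variable {G : Type*} [Group G] [Finite G]

namespace Ec

variable {gs : List G} {D : Dat}

omit [Finite G] in
theorem cntR (h : PG gs D 1024) {ρ : G} (n : ρ ∈ normalizer ((gen gs ⊓ centralizer {el gs 256} : Subgroup G) : Set G))
    (m : Mp h h ρ 512 256) (P : ℕ → Prop) [DecidablePred P] (a : ∀ x < 1024, ∀ y < 1024, Mp h h ρ x y → P x → P y) :
    cn 1024 (fun x => P x ∧ EQ 1024 (mul D x x) 512 ∧ EQ 1024 (cj D 256 x) 256) ≤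
      cn 1024 (fun x => P x ∧ EQ 1024 (mul D x x) 256 ∧ EQ 1024 (cj D 256 x) 256) := by
  refine cnt h (w := ρ) fun x l ⟨p1, p2, p3⟩ => ?_
  have c := cg_mem_norm (H := gen gs ⊓ centralizer {el gs 256}) ⟨el_mem _ x, mem_cent.2 (Mp.sf h _ _ _ p3)⟩ n
  obtain ⟨y, l', e⟩ := Mp.ex h h c.1
  exact ⟨y, l', ⟨a x l y l' e p1, (e.mul e).eq m p2, Mp.of_el (h := h) (mem_cent.1 (e.e ▸ c.2))⟩, e⟩

theorem syl_eq {N : ℕ} (h : PG gs D N) (s : ¬ 2 * N ∣ Nat.card G) {T : Subgroup G} (hT : IsPGroup 2 T) (l : gen gs ≤ T) :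
    T ≤ gen gs := by
  obtain ⟨g, e⟩ := h.syl s hT
  exact (Subgroup.eq_of_le_of_card_ge l (Nat.card_le_card_of_injective (fun y : T => (⟨cg y g, e y y.2⟩ : gen gs))
    fun y u h => Subtype.ext (cg_inj.1 (congrArg Subtype.val h)))).ge

variable {β ε : Bool} {C : Cfg0 G true} (X : St10 C β true ε)

set_option hygiene false in
local notation "𝔰" => el (Cfg0.gs C)
set_option hygiene false in
local notation "𝔪" => Mp (Cfg0.pg C) (Cfg0.pg C)
set_option hygiene false in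
local notation "𝔯" => el (St10.gs X)
set_option hygiene false in
local notation "𝔫" => Mp (St10.pg X) (St10.pg X)

omit [Finite G] in
theorem hz : 𝔯 512 = 𝔰 32 := by
  rw [← (X.pg.eq (mul (D10 β true ε) 64 64) 512).2 dk, ← X.pg.mul, X.c, C.pg.mul, C.pg.eq]; exact dk

theorem rho : ∃ ρ ∈ normalizer ((gen X.gs ⊓ centralizer {𝔯 256} : Subgroup G) : Set G), 𝔫 ρ 512 256 := by
  obtain ⟨ρ, -, -, r1, r2⟩ := C.rho
  have r3 : 𝔫 ρ 512 1 := by rw [Mp, hz, X.r]; exact r1
  have r4 : 𝔫 ρ 1 513 := by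
    rw [Mp, ← (X.pg.eq (mul (D10 β true ε) 1 512) 513).2 dk, ← X.pg.mul, hz, X.r, C.pg.mul, (C.pg.eq (mul (DS true) 2 32) 34).2 dk]; exact r2
  obtain ⟨g, g1, g2⟩ := X.pg.into X.ga1 (z := 512) dk (X.pg.pgroup.to_le (inf_le_left : gen X.gs ⊓ centralizer {𝔯 1} ≤ _))
    r3.conj fun u m => mem_cent.1 m.2
  replace g1 : 𝔫 g 1 512 := g1
  obtain ⟨y, l, m⟩ := Mp.ex X.pg X.pg (g2 _ ⟨el_mem _ (cond ε 18 82), mem_cent.2 (Mp.sf X.pg _ 1 1)⟩)
  have m1 := ((m.mul m).mul (m.mul m)).l 512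
  obtain ⟨v, hv, e⟩ : ∃ v, (v = 256 ∨ v = 768) ∧ 𝔫 g 512 v := by
    have p1 := m1.ne .zero
    have p2 := m1.ne g1
    have : EQ 1024 (mul (D10 β true ε) (mul (D10 β true ε) y y) (mul (D10 β true ε) y y)) 256 ∨
      EQ 1024 (mul (D10 β true ε) (mul (D10 β true ε) y y) (mul (D10 β true ε) y y)) 768 := (by clear_aux_decl; clear * - l p1 p2; decide +kernel +revert)
    exact this.elim (fun a => ⟨_, .inl rfl, m1.r _ a⟩) fun a => ⟨_, .inr rfl, m1.r _ a⟩
  have a1 := r3.cjg e g1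
  have a2 := r4.cjg g1 ((g1.mul e).l 513)
  generalize cg ρ g = ρ₁ at a1 a2
  have ok := St10.ok (β := β) (γ := true) (ε := ε) 768 (by simp)
  have nV : ρ₁ ∈ normalizer (MS X.gs 768 : Set G) := X.pg.nm_ms fun i p q => by
    obtain rfl | rfl : i = 8 ∨ i = 9 := (by clear_aux_decl; clear * - p q; decide +kernel +revert)
    · rcases hv with rfl | rfl
      exacts [a1.mem, ((a1.mul a2).cast 256 768).mem (m := 768)]
    · rcases hv with rfl | rfl
      exacts [(a2.r 768).mem (m := 768), (a2.r 256).mem (m := 768)]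
  have N : ∀ {w}, w ∈ normalizer (MS X.gs 768 : Set G) → w ∈ normalizer (rcK (MS X.gs 768) (MS X.gs 0) : Set G) := fun a =>
    norm_rcK a (PG.nm_zero _ _)
  have hM : gen X.gs ≤ normalizer (rcK (MS X.gs 768) (MS X.gs 0) : Set G) := fun x a => N (X.zz (X.top.2 (le_normalizer a))).2.1
  obtain ⟨T, hT, a, -, c⟩ := syl_fr X.pg.pgroup hM
  obtain ⟨w, hw, d⟩ := c ρ₁ (N nV)
  have K : ∀ {x} u, x ∈ rcK (MS X.gs 768) (MS X.gs 0) → IM 768 u → 𝔫 x u u := fun u a b =>
    cm_eq_one.1 (ms_zero.1 (a.2 _ (el_mem_ms b)))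
  have n : ρ₁ * w ∈ normalizer ((gen X.gs ⊓ centralizer {𝔯 256} : Subgroup G) : Set G) := mem_norm_of_cg fun x p => by
    have q : x ∈ rcK (MS X.gs 768) (MS X.gs 0) := X.pg.mem_rcK dk (PG.nm_zero _ _) fun i s t => by
      rw [ms_zero, cm_eq_one]
      obtain rfl | rfl : i = 8 ∨ i = 9 := (by clear_aux_decl; clear * - s t; decide +kernel +revert)
      exacts [mem_cent.1 p.2, (X.zz (X.top.2 (le_normalizer p.1))).2.2.1]
    exact ⟨syl_eq X.pg X.ga1 hT a (d x (a p.1) q), mem_cent.2 (K 256 (cg_mem_norm q (mul_mem (N nV) (le_normalizer hw))) (by decide))⟩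
  rcases hv with rfl | rfl
  · exact ⟨_, inv_mem n, (a1.trans (K 512 hw (by decide))).symm⟩
  · exact ⟨_, n, (a2.r 256).trans (K 256 hw (by decide))⟩

include X in
theorem be : β = false ∧ ε = true := by
  obtain ⟨ρ, n, m⟩ := rho X
  have := cntR X.pg n m (fun _ => True) fun _ _ _ _ _ => id
  exact (by clear_aux_decl; clear * - this; decide +kernel +revert)

theorem sig (X : St10 C false true true) : ∃ σ, ∀ x y, x % 2 = 0 ∧ x < 1024 ∧
    EQ 1024 (hm (mul (D10 false true true)) [2, 36, 584, 16, 20, 8, 128, 256, 512] (x / 2)) y → 𝔫 σ x y := by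
  obtain ⟨σ, δ, s⟩ := X.sig
  have S : ∀ x y, x % 2 = 0 ∧ x < 1024 ∧ EQ 1024 (hm (mul (D10 false true true))
      [2, cond δ 548 36, 584, 16, 20, 8, 128, 256, 512] (x / 2)) y → 𝔫 σ x y := fun x y ⟨a, b, c⟩ =>
    (Mp.hom s (x / 2)).cast _ _ ⟨(by clear_aux_decl; clear * - a b; decide +kernel +revert), c⟩
  cases δ
  · exact ⟨σ, S⟩
  have K : ∀ x y a b c d, EQ 1024 (cj (D10 false true true) x 1) a ∧ (a % 2 = 0 ∧ a < 1024 ∧ EQ 1024 (hm (mul (D10 false true true))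
      [2, 548, 584, 16, 20, 8, 128, 256, 512] (a / 2)) b) ∧ EQ 1024 (cj (D10 false true true) b 1) c ∧
      (c % 2 = 0 ∧ c < 1024 ∧ EQ 1024 (hm (mul (D10 false true true)) [2, 548, 584, 16, 20, 8, 128, 256, 512] (c / 2)) d) ∧
      EQ 1024 (cj (D10 false true true) d 714) y → 𝔫 (𝔯 1 * σ * 𝔯 1 * σ * 𝔯 714) x y := fun x y a b c d h =>
    ((((Mp.sf X.pg 1 x a h.1).trans (S a b h.2.1)).trans (Mp.sf X.pg 1 b c h.2.2.1)).trans (S c d h.2.2.2.1)).trans
      (Mp.sf X.pg 714 d y h.2.2.2.2)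
  generalize 𝔯 1 * σ * 𝔯 1 * σ * 𝔯 714 = w at K
  obtain ⟨m, n, o, e⟩ := exists_odd_pow w
  obtain ⟨i, l, f⟩ := C.cY e (by rw [Mp, ← X.t]; exact (K 2 2 2 2 2 2 dk).pow m) (by rw [Mp, ← X.c]; exact (K 64 64 576 520 72 576 dk).pow m)
    (by rw [Mp, ← X.d]; exact (K 8 8 584 64 576 520 dk).pow m) (by rw [Mp, ← X.j]; exact (K 128 128 640 640 128 128 dk).pow m)
  rw [← C.pg.el_map, List.map, List.map, List.map, List.map, ← X.t, ← X.j, ← hz X] at f
  replace f := f.trans (X.pg.el_map [2, 128, 512] i)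
  exact absurd (((K 32 352 32 20 820 288 dk).odd (K 352 32 352 284 892 608 dk) o).of_eq f) (by clear_aux_decl; clear * - l; decide +kernel +revert)

/-- Solutions of `x² = 1` commuting with the last entry. -/
def LL : List (List ℕ) := [[0, 1, 3, 13, 15, 84, 86, 88, 90, 92, 94, 164, 166, 168, 170, 172, 174, 241, 243, 244, 246, 248, 250, 252, 253, 254, 255, 512, 513, 514, 515, 525, 527, 2],
  [0, 2, 86, 168, 170, 172, 174, 184, 188, 232, 236, 248, 250, 252, 254, 256, 262, 338, 340, 424, 428, 440, 444, 488, 492, 504, 508, 512, 514, 596, 598, 680, 682, 84],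
  [0, 2, 84, 168, 170, 172, 174, 248, 250, 252, 254, 266, 270, 344, 348, 418, 420, 498, 500, 512, 514, 596, 598, 680, 682, 684, 686, 760, 762, 764, 766, 778, 782, 86],
  [0, 2, 90, 164, 166, 172, 174, 180, 188, 228, 236, 244, 246, 252, 254, 256, 266, 338, 344, 420, 428, 436, 444, 484, 492, 500, 508, 512, 514, 600, 602, 676, 678, 88],
  [0, 2, 94, 164, 166, 168, 170, 180, 184, 228, 232, 244, 246, 248, 250, 256, 270, 338, 348, 420, 424, 436, 440, 484, 488, 500, 504, 512, 514, 604, 606, 676, 678, 92],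
  [0, 2, 92, 164, 166, 168, 170, 244, 246, 248, 250, 262, 266, 307, 319, 340, 344, 353, 365, 401, 413, 418, 428, 451, 463, 498, 508, 512, 514, 604, 606, 676, 678, 94],
  [0, 152, 156, 184, 188, 216, 220, 248, 252, 256, 356, 408, 412, 440, 444, 472, 476, 504, 508, 512, 612, 664, 668, 696, 700, 728, 732, 760, 764, 768, 868, 920, 924, 100],
  [0, 148, 152, 180, 184, 212, 216, 241, 244, 248, 253, 256, 364, 401, 404, 408, 413, 436, 440, 468, 472, 500, 504, 512, 620, 660, 664, 692, 696, 724, 728, 753, 756, 108],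
  [0, 152, 156, 168, 172, 216, 220, 232, 236, 256, 372, 408, 412, 424, 428, 472, 476, 488, 492, 512, 628, 664, 668, 680, 684, 728, 732, 744, 748, 768, 884, 920, 924, 116],
  [0, 148, 156, 164, 172, 212, 220, 228, 236, 256, 376, 404, 412, 420, 428, 468, 476, 484, 492, 512, 632, 660, 668, 676, 684, 724, 732, 740, 748, 768, 888, 916, 924, 120],
  [0, 148, 152, 164, 168, 212, 216, 228, 232, 256, 380, 404, 408, 420, 424, 468, 472, 484, 488, 512, 636, 660, 664, 676, 680, 724, 728, 740, 744, 768, 892, 916, 920, 124],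
  [0, 2, 88, 90, 92, 94, 104, 108, 152, 156, 168, 170, 172, 174, 246, 256, 262, 344, 348, 360, 364, 408, 412, 424, 428, 498, 500, 512, 514, 600, 602, 604, 606, 244],
  [0, 1, 2, 3, 13, 15, 51, 63, 84, 86, 88, 90, 100, 104, 148, 152, 164, 166, 168, 170, 195, 207, 241, 243, 253, 254, 255, 256, 259, 270, 271, 307, 319, 252],
  [0, 3, 15, 51, 63, 84, 88, 92, 100, 104, 108, 116, 120, 124, 148, 152, 156, 164, 168, 172, 180, 184, 188, 195, 207, 212, 216, 220, 228, 232, 236, 243, 244, 256],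
  [0, 1, 2, 3, 13, 15, 51, 63, 84, 86, 88, 90, 92, 94, 100, 104, 108, 116, 120, 124, 148, 152, 156, 164, 166, 168, 170, 172, 174, 180, 184, 188, 195, 512]]

end Ec

open Ec

theorem ga1 {β ε : Bool} (C : Cx G true) (X : St10 C.toCfg0 β true ε) : Nonempty (Q5 C.X (el C.gs 8) (el C.gs 2) (el C.gs 32)) := by
  obtain ⟨rfl, rfl⟩ := be X
  obtain ⟨ρ, n, m⟩ := rho X
  obtain ⟨σ, S⟩ := sig X
  obtain ⟨gs, h, E⟩ := X.pg.sub' [2, 1, 16, 400, 604, 116, 572, 852, 256, 512] DT 1024 dk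
  have g : gen gs = gen X.gs := Subgroup.eq_of_le_of_card_ge
    (h.gen_le_iff.2 fun _ _ => PG.mem_of_eq (E _)) (by rw [h.card, X.pg.card])
  have L : ∀ x y, EQ 1024 (hm (mul (D10 false true true)) [2, 1, 16, 400, 604, 116, 572, 852, 256, 512] x) y →
    el gs x = el X.gs y := fun x y a => by rw [E, X.pg.eq]; exact a
  have ht := (L 1 2 dk).trans X.t
  have hr := (L 2 1 dk).trans X.r
  have hz := (L 512 512 dk).trans (hz X)
  rw [← g, ← L 256 256 dk] at n
  replace m : Mp h h ρ 512 256 := by rw [Mp, L 256 256 dk, L 512 512 dk]; exact m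
  have T : ∀ x y a b, EQ 1024 (hm (mul (D10 false true true)) [2, 1, 16, 400, 604, 116, 572, 852, 256, 512] x) a ∧
      EQ 1024 (hm (mul (D10 false true true)) [2, 1, 16, 400, 604, 116, 572, 852, 256, 512] y) b ∧ a % 2 = 0 ∧ a < 1024 ∧
      EQ 1024 (hm (mul (D10 false true true)) [2, 36, 584, 16, 20, 8, 128, 256, 512] (a / 2)) b → Mp h h σ x y :=
    fun x y a b c => by rw [Mp, L x a c.1, L y b c.2.1]; exact S a b c.2.2
  have s1 := T 1 1 2 2 dk
  have s2 := T 4 4 16 16 dk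
  have s3 := T 8 8 400 400 dk
  have s4 := T 16 32 604 116 dk
  have s5 := T 32 48 116 296 dk
  have s6 := T 48 16 296 604 dk
  have s7 := T 64 960 572 104 dk
  have s8 := T 960 128 104 852 dk
  have s9 := T 128 64 852 572 dk
  have s := X.ga1
  clear T S L E g
  have tX : el gs 1 ∉ C.X := fun a => by
    obtain ⟨y, l, p, -, c⟩ := C.th h s (fun x => x % 2 = 0) dk a dk
    obtain ⟨w, e⟩ := exists_cg c
    replace e : Mp h h w 1 y := e
    have p1 := e.sq
    have p2 := e.ne .zero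
    obtain ⟨v, -, u, q, r⟩ : ∃ v ∈ [0, 17, 35, 58, 40, 147, 224, 241, 18, 417, 65, 115, 218, 242, 451, 456],
      ∃ u ∈ [2, 84, 86, 88, 92, 94, 100, 108, 116, 120, 124, 244, 252, 256, 512], EQ 1024 (cj DT y v) u := (by clear_aux_decl; clear * - l p p1 p2; decide +kernel +revert)
    obtain ⟨L, -, a, b, c⟩ : ∃ L ∈ LL, EQ 1024 (L.getD 33 0) u ∧ 33 ≤ L.length ∧ (L.map (· % 1024)).Nodup ∧
      ∀ x ∈ L, EQ 1024 (cj DT (L.getD 33 0) x) (L.getD 33 0) ∧ EQ 1024 (mul DT x x) 0 := (by clear_aux_decl; clear * - q; decide +kernel +revert)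
    exact absurd (b.trans (C.cnt h (ht ▸ (((e.tr v).r _ r).r _ a.symm).conj) L c)) (by decide)
  have M : ∀ x y u, el gs x ∈ C.X → el gs y ∈ C.X → EQ 1024 (mul DT x y) u → el gs u ∈ C.X := fun x y u a b c => by
    rw [← (h.eq _ _).2 c, ← h.mul]; exact mul_mem a b
  have J : ∀ {w x y} u, Mp h h w x y → EQ 1024 (mul DT (inv DT x) y) u → el gs u ∈ C.X := fun u a b => by
    rw [← (h.eq _ _).2 b, ← h.mul, ← h.inv]; exact C.cjX a.conj
  have Q : ∀ x u, EQ 1024 (mul DT x x) u → el gs u ∈ C.X := fun x u a => by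
    rw [← (h.eq _ _).2 a, ← h.mul]; exact C.sqX _
  have xr : el gs 2 ∈ C.X := hr ▸ C.DX
  have xz := Q 4 512 dk
  have xk := Q 16 256 dk
  have x16 := M _ _ 16 (J 272 s5 dk) xk dk
  have x32 := M _ _ 32 (J 288 s6 dk) xk dk
  have x12 := M _ _ 12 (J 524 (Mp.self h 1 4) dk) xz dk
  have W : ∀ x, IM 1010 x → el gs x ∈ C.X := fun x a => (ms_le_iff h).2 (fun i p q => by
    obtain rfl | rfl | rfl | rfl | rfl | rfl | rfl : i = 1 ∨ i = 4 ∨ i = 5 ∨ i = 6 ∨ i = 7 ∨ i = 8 ∨ i = 9 := (by clear_aux_decl; clear * - p q; decide +kernel +revert)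
    exacts [xr, x16, x32, (C.cjX' (Mp.sf h 2 16 64).conj).1 x16, (C.cjX' (Mp.sf h 2 32 128).conj).1 x32, xk, xz]) (el_mem_ms a)
  have F : ∀ x < 1024, el gs (x &&& 13) ∈ C.X → el gs x ∈ C.X := fun x l a =>
    M _ _ _ a (W (mul DT (inv DT (x &&& 13)) x % 1024) (by clear_aux_decl; clear * - l; decide +kernel +revert)) (by clear_aux_decl; clear * - l; decide +kernel +revert)
  have R : ∀ P : ℕ → Prop, (∀ x < 1024, P x → el gs x ∈ C.X) → (∀ x < 1024, ¬ P x → P (mul DT x 1 % 1024)) →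
      ∀ x < 1024, el gs x ∈ C.X ↔ P x := fun P a b x l => ⟨fun c => by_contra fun d => tX (by
    have := a _ (Nat.mod_lt _ (by decide)) (b x l d)
    rwa [el_modN h, ← h.mul, mul_mem_cancel_left c] at this), a x l⟩
  have x0 : el gs 0 ∈ C.X := el_zero gs ▸ one_mem _
  have x4 : el gs 4 ∈ C.X := by
    obtain a | a | a := C.dec (el gs 4)
    · exact a
    · rw [← ht, h.mul, (h.eq _ 9).2 dk] at a
      have := R (fun x => (x + x / 4 + x / 8) % 2 = 0) (fun x l p => F x l (by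
        obtain e | e | e | e : x &&& 13 = 0 ∨ x &&& 13 = 5 ∨ x &&& 13 = 9 ∨ x &&& 13 = 12 := (by clear_aux_decl; clear * - l p; decide +kernel +revert)
        all_goals rw [e]
        exacts [x0, (C.cjX' (Mp.sf h 1 9 5).conj).1 a, a, x12])) dk
      exact absurd (cntR h n m (fun x => (x + x / 4 + x / 8) % 2 = 0) fun x l y l' e p =>
        (this y l').1 ((C.cjX' e.conj).1 ((this x l).2 p))) dk
    · exact nomatch a.1
  have := R (fun x => x % 2 = 0) (fun x l p => F x l (by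
    obtain e | e | e | e : x &&& 13 = 0 ∨ x &&& 13 = 4 ∨ x &&& 13 = 8 ∨ x &&& 13 = 12 := (by clear_aux_decl; clear * - l p; decide +kernel +revert)
    all_goals rw [e]
    exacts [x0, x4, (C.cjX' (Mp.sf h 1 4 8).conj).1 x4, x12])) dk
  refine ⟨gs, h, s, ht, hr, hz, fun x => ?_, σ * σ * (σ * σ), C.sqX _, (s1.trans s1).trans (s1.trans s1),
    (s2.trans s2).trans (s2.trans s2), (s3.trans s3).trans (s3.trans s3), (s4.trans s5).trans (s6.trans s4),
    (s5.trans s6).trans (s4.trans s5), (s7.trans s8).trans (s9.trans s7), (s9.trans s7).trans (s8.trans s9)⟩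
  rw [← el_modN h, this _ (Nat.mod_lt _ (by decide))]; omega

end Cfsg.Lib.L33
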