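import Cfsg.Agent.Lib.L33.EdA

/-! S3140: fusion in the case `PSp₆(3)` (notation of Lib/L33/P6; helper3, design by helper5). `E = ⟨r, z⟩`, `h : E → V` (`Ed.rk`).
`zf`: an involution of `Q \ V` is not conjugate to `z` (`PG.into`, squares), the others outside `r^{S₀}` are moved into `Q \ V` by `h`.
`sc`: if `y` is conjugate in `C_X(z)` to `x ∈ Q₁` of order 4, some `g` maps `y` into `Q₁` and `N_{S₀}(⟨y⟩)` into `S₀` (`⟨x⟩ ⊴ S₀`); a conjugate of `r` inverting `y`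
is mapped into `r^{S₀}`, which centralises `Q₁`. This, `σ` and `h` exclude all classes outside `Q₁`. -/

set_option autoImplicit false
set_option synthInstance.maxSize 2048
set_option maxRecDepth 2000
set_option linter.unusedSectionVars false

namespace Cfsg.Lib.L33

open Subgroup H33

variable {G : Type*} [Group G] [Finite G]

namespace Ed

variable {C : Cx G true} (Q : Q5 C.X (el C.gs 8) (el C.gs 2) (el C.gs 32))

set_option quotPrecheck false in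
local notation "dk" => by clear_aux_decl; clear * -; decide +kernel +revert
set_option hygiene false in
local notation "𝔤" => el (Q5.gs Q)
set_option hygiene false in
local notation "𝔪" => Mp (Q5.pg Q) (Q5.pg Q)

def RL : List ℕ := [2, 338, 418, 498, 514, 850, 930, 1010]

theorem sqV {g : G} {u y : ℕ} (c : ℕ) (m : 𝔪 g u y) (l : y < 1024)
    (h : u % 2 = 0 ∧ EQ 1024 (mul DT u u) c ∧ EQ 1024 (mul DT (mul DT u u) (mul DT u u)) 0) : ∃ d, IM 768 d ∧ 𝔪 g c d := by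
  have p := (ev Q m).1 h.1
  have q := ((m.mul m).mul (m.mul m)).eq .zero h.2.2
  exact ⟨_, by clear_aux_decl; clear * - l p q; decide +kernel +revert, (m.mul m).cast _ _ ⟨h.2.1, (Nat.mod_mod _ 1024).symm⟩⟩

theorem zA {x : ℕ} (l : x < 1024) (p : IM 1020 x) (c : IsConj (𝔤 512) (𝔤 x)) : IM 768 x := by_contra fun n => by
  obtain ⟨g, e⟩ := exists_cg c
  have s := Mp.sq (h := Q.pg) (h' := Q.pg) e
  obtain ⟨g, a, b⟩ := Q.pg.into Q.syl (z := 512) dk (Q.pg.pgroup.to_le (inf_le_left : gen Q.gs ⊓ centralizer {𝔤 x} ≤ _)) c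
    fun u m => mem_cent.1 m.2
  have k : ∀ u, EQ 1024 (cj DT x u) x → ∃ y < 1024, 𝔪 g u y := fun u h => Mp.ex _ _ (b _ ⟨el_mem _ u, mem_cent.2 (Mp.sf Q.pg _ _ _ h)⟩)
  obtain ⟨y1, l1, m1⟩ := k (x &&& 12) (by clear_aux_decl; clear * - l p s; decide +kernel +revert)
  obtain ⟨y2, l2, m2⟩ := k (x &&& 48) (by clear_aux_decl; clear * - l p s; decide +kernel +revert)
  obtain ⟨d1, p1, m1⟩ := sqV Q 512 m1 l1 (by clear_aux_decl; clear * - l p s n; decide +kernel +revert)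
  obtain ⟨d2, p2, m2⟩ := sqV Q 256 m2 l2 (by clear_aux_decl; clear * - l p s n; decide +kernel +revert)
  exact n (Nat.mod_eq_of_lt l ▸ (Mp.im (h := Q.pg) a (ok 768 (by simp)) (NV Q m1 m2 (.inl rfl) p2 p1)).2 (by decide))

theorem hV {h : G} (z : 𝔪 h 512 512) (r : 𝔪 h 2 256) {u y : ℕ} (m : 𝔪 h u y) (l : y < 1024) (p : IM 768 y) : IM 514 (u % 1024) := by
  obtain rfl | rfl | rfl | rfl : y = 0 ∨ y = 256 ∨ y = 512 ∨ y = 768 := by clear_aux_decl; clear * - l p; decide +kernel +revert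
  exacts [(m.iff .zero).2 rfl ▸ by decide, (m.iff r).2 rfl ▸ by decide, (m.iff z).2 rfl ▸ by decide,
    (m.iff ((r.mul z).cast 514 768)).2 rfl ▸ by decide]

theorem hQ {h : G} (r : 𝔪 h 2 256) {u y : ℕ} (m : 𝔪 h u y) (l : y < 1024) (c : u % 2 = 0 ∧ EQ 1024 (mul DT u 2) (mul DT 2 u)) : IM 1020 y := by
  have p := (ev Q m).1 c.1
  have q := m.co r c.2
  clear_aux_decl; clear * - l p q; decide +kernel +revert

theorem zf {x : ℕ} (l : x < 1024) (c : IsConj (𝔤 512) (𝔤 x)) : IM 768 x ∨ x ∈ RL := by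
  obtain ⟨g, e⟩ := exists_cg c
  have s := Mp.sq (h := Q.pg) (h' := Q.pg) e
  have p := (ev Q e).1 rfl
  obtain a | a | ⟨v, -, a⟩ : IM 1020 x ∨ x ∈ RL ∨ ∃ v ∈ [0, 16, 18, 32, 48, 112, 160, 304], cj DT x v % 1024 ∈ [86, 90, 94] := by
    clear_aux_decl; clear * - l p s; decide +kernel +revert
  · exact .inl (zA Q l a c)
  · exact .inr a
  obtain ⟨h, -, z, r, k⟩ := rk Q
  replace c := c.trans ((Mp.self Q.pg v x).r _ (Nat.mod_mod _ 1024).symm).conj
  generalize cj DT x v % 1024 = u at a c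
  obtain ⟨y, l, m⟩ := Mp.ex Q.pg Q.pg (k u (by clear_aux_decl; clear * - a; decide +kernel +revert))
  exact absurd (hV Q z r m l (zA Q l (hQ Q r m l (by clear_aux_decl; clear * - a; decide +kernel +revert)) (c.trans m.conj)))
    (by clear_aux_decl; clear * - a; decide +kernel +revert)

theorem rz {r : ℕ} (h : r ∈ RL) : IsConj (𝔤 512) (𝔤 r) := by
  obtain ⟨ρ, -, a, -⟩ := rho0 Q
  obtain ⟨v, -, b⟩ : ∃ v ∈ [0, 64, 128, 96, 256, 16, 32, 48], EQ 1024 (cj DT 2 v) r := by clear_aux_decl; clear * - h; decide +kernel +revert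
  exact a.conj.trans (Mp.sf Q.pg _ _ _ b).conj

/-- `y` is conjugate in `C_X(z)` to an element of `Q₁`. -/
def B (y : ℕ) : Prop := ∃ g ∈ C.X, ∃ x, IM 524 x ∧ 𝔪 g 512 512 ∧ 𝔪 g x y

theorem B.tr {y y' : ℕ} (b : B Q y) {g : G} (X : g ∈ C.X) (z : 𝔪 g 512 512) (m : 𝔪 g y y') : B Q y' :=
  let ⟨_, X', x, p, z', m'⟩ := b; ⟨_, mul_mem X' X, x, p, z'.trans z, m'.trans m⟩

theorem B.cj {y v y' : ℕ} (b : B Q y) (p : v % 2 = 0) (c : EQ 1024 (cj DT y v) y') : B Q y' :=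
  b.tr Q ((Q.mX v).2 p) (zc Q (el_mem _ v)) (.sf _ _ _ _ c)

theorem rel2 {T K M : Subgroup G} (s : ¬ 2 ∣ T.relIndex K) (a : T ⊓ K ≤ M) : ¬ 2 ∣ T.relIndex (K ⊓ M) := by
  rw [← inf_relIndex_right, ← inf_assoc, inf_eq_left.2 a]
  exact PG.rel_of (inf_relIndex_right T K ▸ s) (le_inf inf_le_right a) inf_le_left

theorem B.kl {y : ℕ} (b : B Q y) (s : EQ 1024 (mul DT y y) 512) : ∃ g, ∃ x < 1024, IM 524 x ∧ 𝔪 g y x ∧ 𝔪 g 512 512 ∧
    ∀ u, u % 2 = 0 → EQ 1024 (H33.cj DT y u) y ∨ EQ 1024 (H33.cj DT y u) (inv DT y) → ∃ u' < 1024, 𝔪 g u u' := by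
  obtain ⟨g, X, x, p, z, m⟩ := b
  have l : x < 1024 := p ▸ lt_of_le_of_lt Nat.and_le_right (by norm_num)
  have N : ∀ w, 𝔪 w x x ∨ 𝔪 w x (inv DT x) → w ∈ normalizer (gen [𝔤 x] : Set G) := fun w h => norm_gen fun u q => by
    rw [List.mem_singleton.1 q]
    rcases h with h | h <;> rw [h.e]
    exacts [mem_gen (.head _), Q.pg.inv x ▸ inv_mem (mem_gen (.head _))]
  obtain ⟨w, c, d⟩ := Q.pg.sylIn (M := C.X ⊓ normalizer (gen [𝔤 x] : Set G)) (rel2 (C.sylX Q.pg Q.syl) fun u q => by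
      obtain ⟨u, l', rfl⟩ := Q.pg.ex q.1
      have := (Q.mX u).1 q.2
      exact (ms_le_iff Q.pg (m := 1022)).2 (fun i a b => N _ (Or.imp (fun h => .sf _ _ _ _ h) (fun h => .sf _ _ _ _ h) (by
        clear_aux_decl; clear * - l p a b; decide +kernel +revert))) (el_mem_ms (by clear_aux_decl; clear * - l' this; decide +kernel +revert)))
    ((Q.pg.pgroup.map (cgH g⁻¹)).to_le inf_le_left) inf_le_right
  obtain ⟨x', l', p', m'⟩ := Q.pg.ex_ms (ok 524 (by simp)) (gen_le.2 (fun u q => List.mem_singleton.1 q ▸ el_mem_ms p)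
    (cg_mem_norm (mem_gen (.head _)) c.2))
  have m2 : 𝔪 _ y x' := m.symm.trans m'
  have m3 := (m2.mul m2).l _ s
  have n := m3.ne .zero
  refine ⟨_, x', l', p', m2, m3.r _ (by clear_aux_decl; clear * - l' p' n; decide +kernel +revert), fun u q r => Mp.ex _ _ ?_⟩
  rw [← cg_cg]
  exact d _ ⟨⟨_, el_mem _ u, cgH_apply _ _⟩, C.cgX ((Q.mX u).2 q) _, N _ (r.imp (fun r => (Mp.sf _ _ _ _ r).cjg m.symm m.symm)
    fun r => (Mp.sf _ _ _ _ r).cjg m.symm m.inv.symm)⟩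

theorem B.q {y : ℕ} (b : B Q y) (l : y < 1024) (p : IM 1020 y) (s : EQ 1024 (mul DT y y) 512) : IM 524 y := by
  obtain ⟨σ, X, a⟩ := sig Q
  have z := (a 512 (by norm_num) (by decide)).r 512
  obtain h | ⟨p', u, h, s, w, -, r, -, c1, c2, c3, c4, c5, c6⟩ : IM 524 y ∨ IM 1020 (S y) ∧ ∃ u ∈ [y, S y, S (S y)], EQ 1024 (mul DT u u) 512 ∧
      ∃ w ∈ [16, 32, 48], ∃ r ∈ [2, 338, 418], (w % 2 = 0 ∧ EQ 1024 (mul DT w w) 256 ∧ EQ 1024 (mul DT (mul DT w w) (mul DT w w)) 0) ∧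
      (EQ 1024 (H33.cj DT u w) u ∨ EQ 1024 (H33.cj DT u w) (inv DT u)) ∧ EQ 1024 (H33.cj DT u r) (inv DT u) ∧
      ¬ EQ 1024 (mul DT r u) (mul DT u r) ∧ r ∈ RL ∧ r % 2 = 0 ∧ ¬ IM 768 (r % 1024) := by
    clear_aux_decl; clear * - l p s; decide +kernel +revert
  · exact h
  have b1 := b.tr Q X z (a y l p)
  have b' : B Q u := by
    simp only [List.mem_cons, List.not_mem_nil, or_false] at h
    rcases h with rfl | rfl | rfl
    exacts [b, b1, b1.tr Q X z (a _ (Nat.mod_lt _ (by norm_num)) p')]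
  obtain ⟨g, x, l, p, m, z, k⟩ := b'.kl Q s
  obtain ⟨w', l1, m1⟩ := k w c1.1 c2
  obtain ⟨r', l2, m2⟩ := k r c6.1 (.inr c3)
  obtain ⟨d, p1, m1⟩ := sqV Q 256 m1 l1 c1
  rcases zf Q l2 ((rz Q c5).trans m2.conj) with q | q
  · exact absurd ((m2.im (ok 768 (by simp)) (NV Q z m1 (.inl rfl) p1 (by decide))).2 (by rwa [Nat.mod_eq_of_lt l2])) c6.2
  · exact absurd (((m2.mul m).iff (m.mul m2)).2 (by clear_aux_decl; clear * - l p q; decide +kernel +revert)) c4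

theorem B.s {y : ℕ} (b : B Q y) (l : y < 1024) (s : EQ 1024 (mul DT y y) 512) : IM 524 y := by
  have p : y % 2 = 0 := let ⟨_, _, x, p, _, m⟩ := b; (ev Q m).1 (by
    have l : x < 1024 := p ▸ lt_of_le_of_lt Nat.and_le_right (by norm_num)
    clear_aux_decl; clear * - l p; decide +kernel +revert)
  obtain a | ⟨v, -, p, a⟩ : IM 1020 y ∨ ∃ v ∈ [0, 16, 32, 48, 64, 112, 144, 256], v % 2 = 0 ∧ H33.cj DT y v % 1024 ∈ [6, 10, 14, 258] := by
    clear_aux_decl; clear * - l p s; decide +kernel +revert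
  · exact b.q Q l a s
  replace b := b.cj Q p (Nat.mod_mod _ 1024).symm
  generalize H33.cj DT y v % 1024 = u at a b
  obtain ⟨h, X, z, r, k⟩ := rk Q
  have K : ∀ u, B Q u → IM 514 (H33.cj DT 2 u % 1024) ∧ (u % 2 = 0 ∧ EQ 1024 (mul DT u 2) (mul DT 2 u)) ∧ EQ 1024 (mul DT u u) 512 →
      ∃ y < 1024, IM 524 y ∧ 𝔪 h u y := fun u b c =>
    let ⟨y, l, m⟩ := Mp.ex Q.pg Q.pg (k u c.1); ⟨y, l, (b.tr Q X z m).q Q l (hQ Q r m l c.2.1) ((m.mul m).eq z c.2.2), m⟩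
  by_cases e : u = 258
  · subst e
    obtain ⟨u, l, m⟩ := Mp.ex Q.pg Q.pg (k 850 dk)
    have q := (zf Q l ((rz Q (by decide)).trans m.conj)).resolve_left fun p => absurd (hV Q z r m l p) (by decide)
    obtain ⟨v, -, p, c⟩ : ∃ v ∈ [0, 2, 16, 18, 32, 34, 48, 50], v % 2 = 0 ∧ EQ 1024 (H33.cj DT 258 v) (mul DT 256 u) := by
      clear_aux_decl; clear * - q; decide +kernel +revert
    exact absurd (((b.cj Q p c).tr Q (inv_mem X) z.symm ((r.mul m).l 848).symm).q Q (by norm_num) (by decide) dk) (by decide)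
  obtain ⟨y1, l1, p1, m1⟩ := K u b (by clear_aux_decl; clear * - a e; decide +kernel +revert)
  obtain ⟨y2, l2, p2, m2⟩ := K (u - 2) ⟨1, one_mem _, _, by clear_aux_decl; clear * - a e; decide +kernel +revert, cg_one' _, cg_one' _⟩
    (by clear_aux_decl; clear * - a e; decide +kernel +revert)
  exact absurd ((r.mul m2).eq m1 (by clear_aux_decl; clear * - a e; decide +kernel +revert))
    (by clear_aux_decl; clear * - l1 p1 l2 p2; decide +kernel +revert)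

theorem sc (g : G) (x y : ℕ) (z : 𝔪 g 512 512) (p : IM 524 x) (m : 𝔪 g x y) : IM 524 (y % 1024) := by
  have l : x < 1024 := p ▸ lt_of_le_of_lt Nat.and_le_right (by norm_num)
  obtain rfl | rfl | s : x = 0 ∨ x = 512 ∨ EQ 1024 (mul DT x x) 512 := by clear_aux_decl; clear * - l p; decide +kernel +revert
  · exact m.eq .zero rfl ▸ by decide
  · exact m.eq z rfl ▸ by decide
  obtain ⟨i, li, X⟩ := toX Q g
  have z' := z.trans (zc Q (el_mem _ i))
  have m' := (m.tr i).r _ (Nat.mod_mod _ 1024).symm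
  have := B.s Q ⟨_, X i (by omega) (by omega), x, p, z', m'⟩ (Nat.mod_lt _ (by norm_num)) ((m'.mul m').eq z' s)
  exact ((Mp.self Q.pg i y).im (ok 524 (by simp)) (Q.pg.nm_el (by clear_aux_decl; clear * - li; decide +kernel +revert))).2 this

end Ed

theorem q6 (C : Cx G true) (Q : Q5 C.X (el C.gs 8) (el C.gs 2) (el C.gs 32)) : Nonempty (Q6 C.X (el C.gs 8) (el C.gs 2) (el C.gs 32)) :=
  ⟨⟨Q, Ed.rho Q, Ed.del Q, Ed.rk Q, fun x l c => (Ed.zf Q l c).imp_right fun h => by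
    clear * - h; revert x; decide +kernel, Ed.sc Q⟩⟩

end Cfsg.Lib.L33
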