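import Cfsg.Agent.Lib.L33.Out

/-! S3140, fusion in the case `PSp₆(3)` (helper3): the elements `h`, `ρ`, `δ`. -/

set_option autoImplicit false
set_option synthInstance.maxSize 2048
set_option maxRecDepth 2000
set_option linter.unusedSectionVars false

namespace Cfsg.Lib.L33.Ed

open Subgroup H33 Cfsg.Lib.Transfer

variable {G : Type*} [Group G] [Finite G] {C : Cx G true} (Q : Q5 C.X (el C.gs 8) (el C.gs 2) (el C.gs 32))

set_option quotPrecheck false in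
local notation "dk" => by clear_aux_decl; clear * -; decide +kernel +revert
set_option hygiene false in
local notation "𝔤" => el (Q5.gs Q)
set_option hygiene false in
local notation "𝔪" => Mp (Q5.pg Q) (Q5.pg Q)
set_option hygiene false in
local notation "𝔑" m:max => normalizer (MS (Q5.gs Q) m : Set G)

theorem ok : ∀ m ∈ [514, 768, 1020, 780, 816, 960, 524], msOK DT 1024 m := by decide +kernel

theorem zc {y : G} (m : y ∈ gen Q.gs) : 𝔪 y 512 512 :=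
  mem_cent.1 (Q.pg.gen_le_iff.2 (fun i l => mem_cent.2 (Mp.sf Q.pg _ _ _ (by clear_aux_decl; clear * - l; decide +kernel +revert))) m)

theorem ev {g : G} {x y : ℕ} (m : 𝔪 g x y) : x % 2 = 0 ↔ y % 2 = 0 := by rw [← Q.mX, ← Q.mX]; exact C.cjX' m.conj

theorem toX (g : G) : ∃ i < 2, ∀ v < 4, v % 2 = i → g * 𝔤 v ∈ C.X := by
  obtain ⟨i, l, a⟩ : ∃ i < 2, g * 𝔤 i ∈ C.X := by
    rcases C.dec g with a | a | ⟨⟨⟩, -⟩
    exacts [⟨0, by decide, by rwa [el_zero, mul_one]⟩, ⟨1, by decide, by rwa [Q.ht]⟩]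
  refine ⟨i, l, fun v l' p => ?_⟩
  rw [← (Q.pg.eq (mul DT i (v - i)) v).2 (by clear_aux_decl; clear * - l l' p; decide +kernel +revert), ← Q.pg.mul, ← mul_assoc]
  exact mul_mem a ((Q.mX _).2 (by omega))

theorem rho0 : ∃ ρ ∈ C.X, 𝔪 ρ 512 2 ∧ 𝔪 ρ 2 514 := by
  obtain ⟨ρ, -, -, a, b⟩ := C.rho
  obtain ⟨i, l, p⟩ := toX Q ρ
  have a' : 𝔪 ρ 512 2 := by rw [Mp, Q.hz, Q.hr, a.e]
  have b' : 𝔪 ρ 2 514 := by
    rw [Mp, Q.hr, b.e, ← (Q.pg.eq (mul DT 2 512) _).2 dk, ← Q.pg.mul, Q.hz, Q.hr, C.pg.mul, C.pg.eq]; exact dk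
  exact ⟨_, p i (by omega) (by omega), (a'.tr i).r _ (by clear_aux_decl; clear * - l; decide +kernel +revert),
    (b'.tr i).r _ (by clear_aux_decl; clear * - l; decide +kernel +revert)⟩

theorem NV {y : G} {a b c : ℕ} (m : 𝔪 y 512 c) (m' : 𝔪 y a b) (h : a = 256 ∨ a = 768) (p : IM 768 b) (q : IM 768 c) : y ∈ 𝔑 768 :=
  Q.pg.nm_ms fun i l r => by
    obtain rfl | rfl : i = 8 ∨ i = 9 := by clear_aux_decl; clear * - l r; decide +kernel +revert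
    · rcases h with rfl | rfl
      · exact m'.mem p
      · rw [((m'.mul m).l (2 ^ 8)).e, ← Q.pg.mul]; exact mul_mem (el_mem_ms p) (el_mem_ms q)
    · exact m.mem q

theorem g0 : ∃ g k, (k = 256 ∨ k = 768) ∧ 𝔪 g 2 512 ∧ 𝔪 g 512 k ∧ 𝔪 g 514 (1024 - k) := by
  obtain ⟨ρ, -, r1, -⟩ := rho0 Q
  obtain ⟨g, a, b⟩ := Q.pg.into Q.syl (z := 512) dk (Q.pg.pgroup.to_le (inf_le_left : gen Q.gs ⊓ centralizer {𝔤 2} ≤ _)) r1.conj
    fun u m => mem_cent.1 m.2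
  replace a : 𝔪 g 2 512 := a
  obtain ⟨y, l, m⟩ := Mp.ex Q.pg Q.pg (b _ ⟨el_mem _ 5, mem_cent.2 (Mp.sf Q.pg 5 2 2)⟩)
  have m4 := ((m.mul m).mul (m.mul m)).cast 512 _ ⟨dk, (Nat.mod_mod _ 1024).symm⟩
  have p : IM 768 (mul DT (mul DT y y) (mul DT y y) % 1024) := by clear_aux_decl; clear * - l; decide +kernel +revert
  have l' : mul DT (mul DT y y) (mul DT y y) % 1024 < 1024 := Nat.mod_lt _ (by norm_num)
  generalize mul DT (mul DT y y) (mul DT y y) % 1024 = k at m4 p l'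
  have n1 := m4.ne .zero
  have n2 := m4.ne a
  obtain rfl | rfl : k = 256 ∨ k = 768 := by clear_aux_decl; clear * - l' p n1 n2; decide +kernel +revert
  exacts [⟨g, _, .inl rfl, a, m4, (a.mul m4).cast _ _⟩, ⟨g, _, .inr rfl, a, m4, (a.mul m4).cast _ _⟩]

theorem TV : gen Q.gs ≤ 𝔑 768 := Q.pg.gen_le_iff.2 fun i l => Q.pg.nm_el (by clear_aux_decl; clear * - l; decide +kernel +revert)

theorem rk : ∃ h ∈ C.X, 𝔪 h 512 512 ∧ 𝔪 h 2 256 ∧ ∀ x, IM 514 (cj DT 2 x % 1024) → cg (𝔤 x) h ∈ gen Q.gs := by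
  obtain ⟨ρ, -, r1, r2⟩ := rho0 Q
  obtain ⟨g, k, hk, a, -, b⟩ := g0 Q
  have h1 := r1.trans a
  have h2 := r2.trans b
  replace hk : 1024 - k = 256 ∨ 1024 - k = 768 := by omega
  generalize 1024 - k = k at hk h2
  generalize ρ * g = h at h1 h2
  have EV : MS Q.gs 514 ≤ (MS Q.gs 768).comap (cgH h) := (ms_le_iff Q.pg).2 fun i l p => by
    rw [mem_comap, cgH_apply]
    obtain rfl | rfl : i = 1 ∨ i = 9 := by clear_aux_decl; clear * - l p; decide +kernel +revert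
    exacts [h2.mem (by rcases hk with rfl | rfl <;> decide), h1.mem]
  obtain ⟨w, m, c⟩ := Q.pg.sylIn (M := 𝔑 768 ⊓ centralizer {𝔤 512}) (PG.rel_of (Q.pg.idx Q.syl) (le_inf (TV Q) fun y m => mem_cent.2 (zc Q m)) le_top)
    ((Q.pg.pgroup.to_le (inf_le_left : gen Q.gs ⊓ 𝔑 514 ≤ _)).map (cgH h)) (by
      rintro _ ⟨u, p, rfl⟩
      rw [cgH_apply]
      obtain ⟨y, -, q, m⟩ := Mp.exm (h := Q.pg) (ok 514 (by simp)) p.2 2
      obtain ⟨b, -, q', m'⟩ := Q.pg.ex_ms (ok 768 (by simp)) (EV (el_mem_ms q))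
      have z := (zc Q p.1).cjg h1 h1
      exact ⟨NV Q z (m.cjg h2 ((cgH_apply _ _).symm.trans m')) hk q' (by decide), mem_cent.2 z⟩)
  obtain ⟨k', l, p, m'⟩ := Mp.exm (h := Q.pg) (ok 768 (by simp)) m.1 k (by rcases hk with rfl | rfl <;> decide)
  have h3 : 𝔪 _ 512 512 := h1.trans (mem_cent.1 m.2)
  have h4 := h2.trans m'
  have n1 := h4.ne .zero
  have n2 := h4.ne h3
  obtain ⟨i, li, e⟩ := toX Q (h * w)
  obtain ⟨v, lv, p1, p2⟩ : ∃ v < 4, v % 2 = i ∧ EQ 1024 (cj DT k' v) 256 := by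
    clear_aux_decl; clear * - l p n1 n2 li; decide +kernel +revert
  refine ⟨_, e v lv p1, h3.trans (zc Q (el_mem _ v)), (h4.tr v).r _ p2, fun x q => ?_⟩
  rw [← cg_cg, ← cg_cg]
  refine cg_mem (c _ ⟨_, ⟨el_mem _ x, Q.pg.nm_ms fun i l r => ?_⟩, cgH_apply _ _⟩) (el_mem _ v)
  obtain rfl | rfl : i = 1 ∨ i = 9 := by clear_aux_decl; clear * - l r; decide +kernel +revert
  exacts [((Mp.self Q.pg x 2).r _ (Nat.mod_mod _ 1024).symm).mem q, (zc Q (el_mem _ x)).mem]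

theorem rho : ∃ ρ ∈ C.X ⊓ 𝔑 1020, 𝔪 ρ 512 256 ∧ 𝔪 ρ 256 768 := by
  have : Fact (Nat.Prime 2) := ⟨Nat.prime_two⟩
  obtain ⟨ρ, rX, r1, r2⟩ := rho0 Q
  obtain ⟨g, k, hk, a, b, c⟩ := g0 Q
  have m1 := r2.cjg a c
  have m2 := r1.cjg b a
  have N : ∀ w ∈ 𝔑 768, w ∈ normalizer ((C.X ⊓ rcK (MS Q.gs 768) (MS Q.gs 0) : Subgroup G) : Set G) := fun w p =>
    norm_inf (mem_norm_of_cg fun x m => C.cgX m w) (norm_rcK p (PG.nm_zero _ _))
  have F : ∀ w ∈ rcK (MS Q.gs 768) (MS Q.gs 0), ∀ x, IM 768 x → 𝔪 w x x := fun w p x q => cm_eq_one.1 (ms_zero.1 (p.2 _ (el_mem_ms q)))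
  obtain ⟨n, p, q⟩ := frattini_argument (T := gen Q.gs ⊓ (C.X ⊓ rcK (MS Q.gs 768) (MS Q.gs 0))) inf_le_right
    (Q.pg.pgroup.to_le inf_le_left) (by
      rw [inf_relIndex_right]
      exact not_dvd_relIndex_of_le_normalizer (PG.rel_of (Q.pg.idx Q.syl) (fun x m => N x (TV Q m)) le_top) le_normalizer le_rfl)
    le_rfl (N _ (NV Q m1 m2 hk (by decide) (by rcases hk with rfl | rfl <;> decide)))
  have e : gen Q.gs ⊓ (C.X ⊓ rcK (MS Q.gs 768) (MS Q.gs 0)) = MS Q.gs 1020 := le_antisymm (fun x m => by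
      obtain ⟨u, l, rfl⟩ := Q.pg.ex m.1
      have p := (Q.mX u).1 m.2.1
      have q := (F _ m.2.2 256 (by decide)).of_el
      exact el_mem_ms (by clear_aux_decl; clear * - l p q; decide +kernel +revert))
    ((ms_le_iff Q.pg).2 fun i l p => ⟨el_mem _ _, (Q.mX _).2 (by clear_aux_decl; clear * - l p; decide +kernel +revert),
      Q.pg.mem_rcK dk (PG.nm_zero _ _) fun j l' p' => ms_zero.2 (cm_eq_one.2 (Mp.sf Q.pg _ _ _ (by
        clear_aux_decl; clear * - l p l' p'; decide +kernel +revert)))⟩)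
  rw [e] at q
  have X := mul_mem p.1 (C.cgX rX g)
  have m3 := (F n p.2 512 (by decide)).trans m1
  have m4 := (F n p.2 k (by rcases hk with rfl | rfl <;> decide)).trans m2
  rcases hk with rfl | rfl
  exacts [⟨_, inv_mem ⟨X, q⟩, m4.symm, (m4.symm.mul m3.symm).cast _ _⟩, ⟨_, ⟨X, q⟩, m3, (m3.mul m4).cast _ _⟩]

theorem cA : ∀ p ∈ [(780, 512), (816, 256), (960, 768)], (∀ i < 10, Nat.testBit p.1 i = true → IM 1020 (2 ^ i) ∧ ∀ w < 1024, IM 1020 w →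
    EQ 1024 (ck DT (2 ^ i) w) 0 ∨ EQ 1024 (ck DT (2 ^ i) w) p.2) ∧ ∀ x < 1024, IM 1020 x → (∀ j < 10, Nat.testBit 1020 j = true →
      EQ 1024 (ck DT x (2 ^ j)) 0 ∨ EQ 1024 (ck DT x (2 ^ j)) p.2) → IM p.1 x := by decide +kernel

theorem mv {g : G} (N : g ∈ 𝔑 1020) (a b : ℕ) {c d : ℕ} (m : 𝔪 g c d) {x : ℕ} (h : IM a x)
    (p : (a, c) ∈ [(780, 512), (816, 256), (960, 768)] ∧ (b, d) ∈ [(780, 512), (816, 256), (960, 768)] ∧
      b ∈ [514, 768, 1020, 780, 816, 960, 524] := by decide) : ∃ y < 1024, IM b y ∧ 𝔪 g x y :=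
  Q.pg.ex_ms (ok b p.2.2) (cgH_apply g _ ▸ (ms_le_iff Q.pg (H := (MS Q.gs b).comap (cgH g))).2 (fun i l r => by
    obtain ⟨k, k'⟩ := (cA _ p.1).1 i l r
    obtain ⟨y, l', q, m'⟩ := Mp.exm (h := Q.pg) (ok 1020 (by simp)) N _ k
    rw [mem_comap, cgH_apply]
    refine m'.mem ((cA _ p.2.1).2 y l' q fun j l r => ?_)
    obtain ⟨w, l', q, m''⟩ := Mp.exm (h := Q.pg) (ok 1020 (by simp)) (inv_mem N) (2 ^ j) (by clear_aux_decl; clear * - l r; decide +kernel +revert)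
    have := m'.ck (by simpa using m''.symm)
    exact (k' w l' q).imp (this.iff .zero).1 (this.iff m).1) (el_mem_ms h))

/-- The action of `σ` on `Q`. -/
noncomputable def S (x : ℕ) : ℕ := hm (mul DT) [4, 8, 32, 48, 960, 64, 256, 512] (x / 4) % 1024

theorem sig : ∃ σ ∈ C.X, ∀ x < 1024, IM 1020 x → 𝔪 σ x (S x) := by
  obtain ⟨σ, m, -, s1, s2, s3, s4, s5, s6⟩ := Q.sig
  exact ⟨σ, m, fun x l p => (Mp.hom (.cons s1 (.cons s2 (.cons s3 (.cons s4 (.cons s5 (.cons s6 (.cons ((s3.mul s3).cast 256 256)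
    (.cons ((s1.mul s1).cast 512 512) .nil)))))))) (x / 4)).cast _ _
      ⟨by clear_aux_decl; clear * - l p; decide +kernel +revert, (Nat.mod_mod _ 1024).symm⟩⟩

/-- `δ` maps `a ↦ b ↦ a b` modulo `V`. -/
def Dr (δ : G) (a b : ℕ) : Prop := (∃ y < 1024, y % 256 = b ∧ 𝔪 δ a y) ∧ ∃ y < 1024, y % 256 = a + b ∧ 𝔪 δ b y

theorem cyc {δ : G} (a : ℕ) (h : a = 4 ∨ a = 64) (k : 𝔪 δ 256 256) (z : 𝔪 δ 512 512) (F : ∀ x < 1024, IM (3 * a + 768) x → ¬ IM 768 x →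
    ∃ y < 1024, IM (3 * a + 768) y ∧ 𝔪 δ x y ∧ ¬ IM 768 y ∧ ¬ IM 768 (mul DT (inv DT x) y % 1024)) :
    Dr Q δ a (2 * a) ∧ Dr Q (δ * δ) (2 * a) a ∨ Dr Q δ (2 * a) a ∧ Dr Q (δ * δ) a (2 * a) := by
  obtain ⟨y1, l1, p1, m1, -, n1⟩ := F a (by omega) (by rcases h with rfl | rfl <;> decide) (by rcases h with rfl | rfl <;> decide)
  obtain ⟨y2, l2, p2, m2, -, n2⟩ := F (2 * a) (by omega) (by rcases h with rfl | rfl <;> decide) (by rcases h with rfl | rfl <;> decide)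
  obtain ⟨y3, l3, -, m3, n3, n4⟩ := F (3 * a) (by omega) (by rcases h with rfl | rfl <;> decide) (by rcases h with rfl | rfl <;> decide)
  have A : ∀ x < 1024, IM (3 * a + 768) x → 𝔪 δ x (hm (mul DT) [y1, y2, 256, 512] (x / a % 4 + x / 256 * 4) % 1024) := fun x l p =>
    (Mp.hom (.cons m1 (.cons m2 (.cons k (.cons z .nil)))) _).cast _ _
      ⟨by rcases h with rfl | rfl <;> (clear_aux_decl; clear * - l p; decide +kernel +revert), (Nat.mod_mod _ 1024).symm⟩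
  have L : ∀ x, x % 1024 < 1024 := fun x => Nat.mod_lt _ (by norm_num)
  obtain rfl := (m3.eq (A _ (by omega) (by rcases h with rfl | rfl <;> decide)) rfl).eq l3 (L _)
  have n5 : ¬ IM 768 y1 := fun p => absurd (((m1.im (ok 768 (by simp)) (NV Q z k (.inl rfl) (by decide) (by decide))).2
    (by rwa [Nat.mod_eq_of_lt l1]))) (by rcases h with rfl | rfl <;> decide)
  have n6 : ¬ IM 768 y2 := fun p => absurd (((m2.im (ok 768 (by simp)) (NV Q z k (.inl rfl) (by decide) (by decide))).2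
    (by rwa [Nat.mod_eq_of_lt l2]))) (by rcases h with rfl | rfl <;> decide)
  have m4 := m1.trans (A _ l1 p1)
  have m5 := m2.trans (A _ l2 p2)
  obtain ⟨a, b, c, d⟩ | ⟨a, b, c, d⟩ : y1 % 256 = 2 * a ∧ y2 % 256 = a + 2 * a ∧ hm (mul DT) [y1, y2, 256, 512] (y2 / a % 4 + y2 / 256 * 4) % 1024 % 256 = a ∧
      hm (mul DT) [y1, y2, 256, 512] (y1 / a % 4 + y1 / 256 * 4) % 1024 % 256 = 2 * a + a ∨ y2 % 256 = a ∧ y1 % 256 = 2 * a + a ∧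
      hm (mul DT) [y1, y2, 256, 512] (y1 / a % 4 + y1 / 256 * 4) % 1024 % 256 = 2 * a ∧
      hm (mul DT) [y1, y2, 256, 512] (y2 / a % 4 + y2 / 256 * 4) % 1024 % 256 = a + 2 * a := by
    rcases h with rfl | rfl <;> (clear_aux_decl; clear * - l1 p1 n1 l2 p2 n2 n3 n4 n5 n6; revert y2; revert y1; decide +kernel)
  exacts [.inl ⟨⟨⟨_, l1, a, m1⟩, _, l2, b, m2⟩, ⟨_, L _, c, m5⟩, _, L _, d, m4⟩, .inr ⟨⟨⟨_, l2, a, m2⟩, _, l1, b, m1⟩, ⟨_, L _, c, m4⟩, _, L _, d, m5⟩]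

theorem del : ∃ δ ∈ C.X, 𝔪 δ 256 256 ∧ 𝔪 δ 512 512 ∧ ∃ i, (i = 4 ∨ i = 8) ∧
    ∀ p ∈ [(i, 12 - i), (12 - i, 12), (16, 16), (32, 32), (64, 128), (128, 192)], ∃ y < 1024, y % 256 = p.2 ∧ 𝔪 δ p.1 y := by
  obtain ⟨ρ, ⟨-, N⟩, r1, r2⟩ := rho Q
  obtain ⟨σ, X, s⟩ := sig Q
  have r3 := (r1.mul r2).cast 768 512
  have k := ((s 512 (by norm_num) (by decide)).r 512).cjg r1 r1
  have z := ((s 768 (by norm_num) (by decide)).r 768).cjg r3 r3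
  have V := fun {x y} (m : 𝔪 ρ x y) => m.im (ok 768 (by simp)) (NV Q r1 r2 (.inl rfl) (by decide) (by decide))
  have f : ∀ x, IM 816 x → 𝔪 (cg σ ρ) x x := fun x p => by
    obtain ⟨u, l, q, m⟩ := mv Q (inv_mem N) 816 780 r1.symm p
    replace m : 𝔪 ρ u x := by simpa using m.symm
    exact ((s u l (IM.trans (by decide) q)).r u (by clear_aux_decl; clear * - l q; decide +kernel +revert)).cjg m m
  have F : ∀ a b c d, 𝔪 ρ c d → (a = 816 ∧ b = 960 ∧ c = 256 ∧ d = 768 ∨ a = 960 ∧ b = 780 ∧ c = 768 ∧ d = 512) → ∀ x < 1024, IM b x → ¬ IM 768 x →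
      ∃ y < 1024, IM b y ∧ 𝔪 (cg σ ρ) x y ∧ ¬ IM 768 y ∧ ¬ IM 768 (mul DT (inv DT x) y % 1024) := fun a b c d r h x l p n => by
    obtain ⟨u, l', q, m⟩ := mv Q (inv_mem N) b a r.symm p (by rcases h with ⟨rfl, rfl, rfl, rfl⟩ | ⟨rfl, rfl, rfl, rfl⟩ <;> decide)
    replace m : 𝔪 ρ u x := by simpa using m.symm
    have n' : ¬ IM 768 (u % 1024) := fun a => n (Nat.mod_eq_of_lt l ▸ (V m).1 a)
    obtain ⟨c1, c2, c3, c4⟩ : IM 1020 u ∧ IM a (S u) ∧ ¬ IM 768 (S u % 1024) ∧ ¬ IM 768 (mul DT (inv DT u) (S u) % 1024) := by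
      rcases h with ⟨rfl, -⟩ | ⟨rfl, -⟩ <;> (clear_aux_decl; clear * - l' q n'; decide +kernel +revert)
    obtain ⟨y, l2, q2, m2⟩ := mv Q N a b r c2 (by rcases h with ⟨rfl, rfl, rfl, rfl⟩ | ⟨rfl, rfl, rfl, rfl⟩ <;> decide)
    exact ⟨y, l2, q2, (s u l' c1).cjg m m2, fun a => c3 ((V m2).2 (by rwa [Nat.mod_eq_of_lt l2])), fun a => c4 ((V (m.inv.mul m2)).2 a)⟩
  have fin : ∀ δ ∈ C.X, 𝔪 δ 256 256 → 𝔪 δ 512 512 → 𝔪 δ 16 16 → 𝔪 δ 32 32 → Dr Q δ 64 128 → Dr Q δ 4 8 ∨ Dr Q δ 8 4 →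
      ∃ δ ∈ C.X, 𝔪 δ 256 256 ∧ 𝔪 δ 512 512 ∧ ∃ i, (i = 4 ∨ i = 8) ∧
    ∀ p ∈ [(i, 12 - i), (12 - i, 12), (16, 16), (32, 32), (64, 128), (128, 192)], ∃ y < 1024, y % 256 = p.2 ∧ 𝔪 δ p.1 y := by
    rintro δ X k z a b c (d | d)
    exacts [⟨δ, X, k, z, 4, .inl rfl, by simpa using ⟨d.1, d.2, ⟨16, by norm_num, rfl, a⟩, ⟨32, by norm_num, rfl, b⟩, c⟩⟩,
      ⟨δ, X, k, z, 8, .inr rfl, by simpa using ⟨d.1, d.2, ⟨16, by norm_num, rfl, a⟩, ⟨32, by norm_num, rfl, b⟩, c⟩⟩]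
  have c1 := cyc Q 4 (.inl rfl) k z (F _ _ _ _ r3 (.inr ⟨rfl, rfl, rfl, rfl⟩))
  have X' := C.cgX X ρ
  have f1 := f 16 (by decide)
  have f2 := f 32 (by decide)
  rcases cyc Q 64 (.inr rfl) k z (F _ _ _ _ r2 (.inl ⟨rfl, rfl, rfl, rfl⟩)) with c | c
  exacts [fin _ X' k z f1 f2 c.1 (c1.imp (·.1) (·.1)),
    fin _ (mul_mem X' X') (k.trans k) (z.trans z) (f1.trans f1) (f2.trans f2) c.2 (c1.symm.imp (·.2) (·.2))]

end Cfsg.Lib.L33.Ed
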