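import Cfsg.Agent.Lib.L33.Vb
import Cfsg.Agent.Lib.Transfer.Extremal

/-! S3140 (plan by helper5, filled by helper22): `St10`, `γ = 0`, basic facts. Framework: Lib/H33/{Pc,Fw,Sy,Cfg,Cf2,C4a,E8f-i}, Lib/L33/{Cx,Tl,V0,Vb}. Codes of `T₁ = gen X.gs` (`D10 β false ε`): `r = 1, t = 2, g = 4, d = 8, p = 16, q = 32, c = 64, j = 128, k = 256, z = 512`,
`f = 704`, `u = p q k = 304` (centralises `r, f, z`; `t ↦ t f`), `M₁` = codes without `t`-bit and with `g`-bit = `p`-bit (order 256). Model: `Hol(Z₈) ≀ Z₂`. Python: tools/h33/m1.py, y3.py, y4.py.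
`thE`: `exists_conj_mem_and_conj_le` in `↥X` (cf. `TL2.thompson_ext`, `Cx.th`). `exSP`: `T₁`, or `T₁ ⊔ ⟨n⟩` with `X.ga0`. `mX`: `T₁' ` = mask 1000 (`cmX`), `r` (`DX`), `g p = q^σ`. `f ∈ X` by `n2`.
`cls`: `invk`, `cl`, `tcl`. `nfz`: move `⟨t, f⟩` into `P` with `f ↦ z` (`SP.conj` in `C(z)`); `t ↦ t''` moves `k` (`noT`), so w.l.o.g. `t'' = 2, 3` (`cls`); `z` is a square in `C_{T₁}(t'')` (`64`, `384`),
`toS` maps it to a square of `S`, the composite fixes `t` and maps `f` to a square: against `fus`. `nfk`: `R` Sylow in `C(k)` containing `P₃ = P ⊓ C(k)`; move `⟨t, f⟩` into `R` with `f ↦ k`, then `R` into `P`: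
`k = q²` or `q² z ↦ u₀`, `P₃ ↦` index `≤ 2` in `P`, so `u₀ ∈ T₁` is a product of squares commuting with `d, c ∈ Φ(P)`: `u₀ ∈ {k, kz, z}`; `nfz`, `noT`. `tX`: `thE` with `M = P₃`, `noT`. -/

set_option autoImplicit false
set_option synthInstance.maxSize 2048

namespace Cfsg.Lib.H33

open Cfsg.Lib.Calc Cfsg.Lib.Transfer Subgroup
open scoped Cfsg.Lib.Transfer

variable {G : Type*} [Group G] [Finite G] {β ε : Bool}

set_option quotPrecheck false in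
local notation "dk" => by clear_aux_decl; clear * -; decide +kernel +revert


/-- Thompson's transfer lemma in `X`, with a 2-subgroup `Q` centralising `u`. -/
theorem Cx.thE {e : Bool} (C : Cx G e) {S M Q : Subgroup G} (a : S ≤ C.X) (hS : IsPGroup 2 S) (s : ¬ 2 ∣ S.relIndex C.X) (l : M ≤ S)
    (i : ∀ x ∈ S, ∀ y ∈ S, x ∉ M → y ∉ M → x * y ∈ M) {u : G} (m : u ∈ C.X) (u2 : u * u = 1) (hQ : IsPGroup 2 Q) (b : Q ≤ C.X)
    (c : ∀ x ∈ Q, cg u x = u) : ∃ g ∈ C.X, cg u g ∈ M ∧ ∀ x ∈ Q, cg x g ∈ S := by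
  haveI : Fact (Nat.Prime 2) := ⟨Nat.prime_two⟩
  obtain ⟨S0, e⟩ := exists_sylow_of_not_dvd_relIndex hS s
  have hm : ∀ x : S0, ((x : C.X) : G) ∈ S := fun x => e.le x.2
  have I : ∀ x y : S0, x ∉ (M.subgroupOf C.X).subgroupOf (S0 : Subgroup C.X) → y ∉ (M.subgroupOf C.X).subgroupOf (S0 : Subgroup C.X) →
    x * y ∈ (M.subgroupOf C.X).subgroupOf (S0 : Subgroup C.X) := fun x y p q => i _ (hm x) _ (hm y) p q
  haveI : ((M.subgroupOf C.X).subgroupOf (S0 : Subgroup C.X)).Normal := ⟨fun x p y => by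
    by_cases q : y ∈ (M.subgroupOf C.X).subgroupOf (S0 : Subgroup C.X)
    · exact mul_mem (mul_mem q p) (inv_mem q)
    · exact I _ _ (fun r => q ((mul_mem_cancel_right p).1 r)) fun r => q (inv_mem_iff.1 r)⟩
  obtain ⟨g, p, -, q⟩ := exists_conj_mem_and_conj_le S0 (T := M.subgroupOf C.X) (by
      by_cases h : ∃ x : (S0 : Subgroup C.X), x ∉ (M.subgroupOf C.X).subgroupOf (S0 : Subgroup C.X)
      · obtain ⟨x, h⟩ := h
        refine ⟨x, fun y => ?_⟩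
        obtain ⟨y, rfl⟩ := QuotientGroup.mk_surjective y
        by_cases r : y ∈ (M.subgroupOf C.X).subgroupOf (S0 : Subgroup C.X)
        · exact ⟨0, by simpa using ((QuotientGroup.eq_one_iff y).2 r).symm⟩
        · exact ⟨1, by simpa using QuotientGroup.eq.2 (I _ _ (fun r => h (inv_mem_iff.1 r)) r)⟩
      · push Not at h
        refine ⟨1, fun y => ?_⟩
        obtain ⟨y, rfl⟩ := QuotientGroup.mk_surjective y
        exact ⟨0, by simpa using ((QuotientGroup.eq_one_iff y).2 (h y)).symm⟩)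
    (y := ⟨u, m⟩) (Subtype.ext u2) (mem_sup_left (pResidual_two_eq_top_iff.2 (fun _ => C.noidx) ▸ mem_top _))
    (C := Q.subgroupOf C.X) hQ.comap_subtype fun x hx => mem_centralizer_singleton_iff.2 (Subtype.ext (cg_eq_iff.1 (c x hx)).symm)
  rw [e] at q
  exact ⟨(g : G)⁻¹, inv_mem g.2, by simpa [cg, mem_subgroupOf] using p,
    fun x hx => by simpa [cg, mem_subgroupOf] using conj_le_iff.1 q ⟨x, b hx⟩ hx⟩

namespace St10

variable {C : Cx G true}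

set_option hygiene false in
local notation "𝔯" => el (St10.gs X)
set_option hygiene false in
local notation "𝔫" => Mp (St10.pg X) (St10.pg X)
set_option hygiene false in
local notation "𝔗" => gen (St10.gs X)

set_option hygiene false in
local notation "𝔰" => el (Cfg0.gs (Cx.toCfg0 C))
set_option hygiene false in
local notation "𝔪" => Mp (Cfg0.pg (Cx.toCfg0 C)) (Cfg0.pg (Cx.toCfg0 C))

theorem exSP (X : St10 C.toCfg0 β false ε) : ∃ P, SP X.gs P :=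
  X.pg.exSP fun h => (X.ga0 (dvd_trans (by norm_num) h)).1 (dvd_trans (by norm_num) h)

omit [Finite G] in
theorem lkf (X : St10 C.toCfg0 β false ε) : 𝔯 704 = el C.gs 16 ∧ 𝔯 512 = el C.gs 32 := by
  constructor
  · rw [← (X.pg.eq (mul (D10 β false ε) (inv (D10 β false ε) 64) 128) _).2 dk, ← X.pg.mul, ← X.pg.inv, X.c, X.j, C.pg.inv, C.pg.mul, C.pg.eq]; exact dk
  · rw [← (X.pg.eq (mul (D10 β false ε) 64 64) _).2 dk, ← X.pg.mul, X.c, C.pg.mul, C.pg.eq]; exact dk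

/-- The code in `T₁` of an element of `S`. -/
noncomputable def ph (β ε : Bool) (x : ℕ) : ℕ := hm (mul (D10 β false ε)) [585, 1, 64, 2, 704, 512] x

omit [Finite G] in
theorem lkS (X : St10 C.toCfg0 β false ε) (x y : ℕ) (h : x < 64 ∧ EQ 1024 (ph β ε x) y := by
    clear_aux_decl; clear * -; decide +kernel +revert) : 𝔰 x = 𝔯 y := by
  have K : ∀ {a b}, 𝔯 b = 𝔰 a → Mp C.pg X.pg 1 a b := fun p => (cg_one' _).trans p.symm
  have a : 𝔯 585 = 𝔰 1 := by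
    rw [← (X.pg.eq (mul (D10 β false ε) 8 1) _).2 dk, ← X.pg.mul, X.d, X.r, C.pg.mul, C.pg.eq]; exact dk
  have l := h.1
  exact (cg_one' _).symm.trans ((Mp.hom (.cons (K a) (.cons (K X.r) (.cons (K X.c) (.cons (K X.t) (.cons (K X.lkf.1)
    (.cons (K X.lkf.2) .nil)))))) x).cast _ _ ⟨(by clear_aux_decl; clear * - l; decide +kernel +revert), h.2⟩)

omit [Finite G] in
theorem tS (X : St10 C.toCfg0 β false ε) {w : G} {x' y' : ℕ} (m : 𝔫 w x' y') (x y : ℕ)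
    (h : (x < 64 ∧ EQ 1024 (ph β ε x) x') ∧ y < 64 ∧ EQ 1024 (ph β ε y) y' := by clear_aux_decl; clear * -; decide +kernel +revert) :
    𝔪 w x y := by rw [Mp, X.lkS _ _ h.1, X.lkS _ _ h.2, m.e]

omit [Finite G] in
theorem tT (X : St10 C.toCfg0 β false ε) {w : G} {x y : ℕ} (m : 𝔪 w x y) (x' y' : ℕ)
    (h : (x < 64 ∧ EQ 1024 (ph β ε x) x') ∧ y < 64 ∧ EQ 1024 (ph β ε y) y' := by clear_aux_decl; clear * -; decide +kernel +revert) :
    𝔫 w x' y' := by rw [Mp, ← X.lkS _ _ h.1, ← X.lkS _ _ h.2, m.e]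

theorem ef_sq : ∀ x ∈ [8, 32, 64, 128, 256, 512], ∃ v ∈ [30, 22, 5, 21, 73, 26, 18, 16, 24, 20, 8],
  EQ 1024 (mul (D10 β false ε) v v) x ∧ (x = 256 → v / 2 % 2 = 0) := dk

theorem mX (X : St10 C.toCfg0 β false ε) {x : ℕ} (h : x / 2 % 2 = 0 ∧ x / 4 % 2 = x / 16 % 2 := by decide) : 𝔯 x ∈ C.X := by
  have a : MS X.gs 1000 ≤ C.X := (ms_le_iff X.pg).2 fun i p q => by
    obtain ⟨v, -, e, -⟩ := ef_sq (β := β) (ε := ε) (2 ^ i) (by clear_aux_decl; clear * - p q; decide +kernel +revert)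
    rw [← (X.pg.eq _ _).2 e, ← X.pg.mul]; exact C.sqX _
  have r : 𝔯 1 ∈ C.X := X.r ▸ C.DX
  have b : 𝔯 20 ∈ C.X := by
    obtain ⟨σ, δ, s⟩ := X.sig
    exact ((Mp.hom s 16).cast 32 20).e ▸ C.cgX (a (el_mem_ms (by decide))) _
  have c : 𝔯 21 ∈ C.X := by rw [← (X.pg.eq (mul (D10 β false ε) 1 20) _).2 dk, ← X.pg.mul]; exact mul_mem r b
  rw [← el_modN X.pg]
  have l := Nat.mod_lt x (by decide : 0 < 1024)
  replace h : x % 1024 / 2 % 2 = 0 ∧ x % 1024 / 4 % 2 = x % 1024 / 16 % 2 := by omega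
  generalize x % 1024 = x at l h
  obtain ⟨v, p, q⟩ : ∃ v ∈ [0, 1, 20, 21], IM 1000 (mul (D10 β false ε) v x % 1024) := (by clear_aux_decl; clear * - l h; decide +kernel +revert)
  have := a (el_mem_ms q)
  rw [el_modN X.pg, ← X.pg.mul] at this
  refine (mul_mem_cancel_left ?_).1 this
  simp only [List.mem_cons, List.not_mem_nil, or_false] at p
  rcases p with rfl | rfl | rfl | rfl
  exacts [el_zero X.gs ▸ one_mem _, r, b, c]

/-- Involutions of `P` moving `k`. -/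
theorem cls (X : St10 C.toCfg0 β false ε) {P : Subgroup G} (S : SP X.gs P) {x : G} (a : x ∈ P) (b : x * x = 1) (c : ¬ 𝔫 x 256 256) :
    ∃ v < 1024, cg x (𝔯 v) = 𝔯 2 ∨ cg x (𝔯 v) = 𝔯 3 := by
  obtain ⟨y, l, rfl⟩ := X.pg.ex (by_contra fun d => c (X.invk S.pP S.le a (X.top.2 (S.nm a)) d b))
  rw [X.pg.mul, ← el_zero X.gs, X.pg.eq] at b
  have c' : ¬ EQ 1024 (cj (D10 β false ε) 256 y) 256 := fun h => c (.sf _ _ _ _ h)
  obtain p | ⟨-, v, p, q⟩ := cl y l b c'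
  · obtain ⟨v, p, q⟩ := tcl y l b c' p
    exact ⟨v, (by clear_aux_decl; clear * - p; decide +kernel +revert), .inl (Mp.sf X.pg _ _ _ q)⟩
  · exact ⟨v, (by clear_aux_decl; clear * - p; decide +kernel +revert), .inr (Mp.sf X.pg _ _ _ q)⟩

theorem ef_z (X : St10 C.toCfg0 β false ε) {P : Subgroup G} (S : SP X.gs P) : P ≤ centralizer {𝔯 512} :=
  fun _ h => mem_cent.2 (X.zz (X.top.2 (S.nm h))).2.2.1

/-- Conjugates of `t` in `P`. -/
theorem clt (X : St10 C.toCfg0 β false ε) {P : Subgroup G} (S : SP X.gs P) {g : G} (a : cg (𝔯 2) g ∈ P) :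
    ∃ v < 1024, 𝔫 (g * 𝔯 v) 2 2 ∨ 𝔫 (g * 𝔯 v) 2 3 := by
  simpa only [Mp, ← cg_cg] using X.cls S a (by rw [← cg_mul, X.pg.mul, (X.pg.one _).2 dk, cg_one])
    fun k => X.noT (X.top.2 (S.nm a)) k (X.t ▸ isConj_cg _ _)

theorem nfz (X : St10 C.toCfg0 β false ε) : ¬ IsConj (𝔯 512) (𝔯 704) := fun h => by
  obtain ⟨P, S⟩ := X.exSP
  obtain ⟨g, hg⟩ := exists_cg h
  replace hg : 𝔫 g 512 704 := hg
  obtain ⟨w, p, q⟩ := S.conj' (X.ef_z S) (pg_zpowers (g := 𝔯 2) (n := 1) (by rw [pow_one, sq, X.pg.mul, X.pg.one]; exact dk)) (k := g)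
    fun u m => mem_cent.2 (by
      rw [← cg_symm hg.e, ← cg_cg', mem_cent.1 (zpowers_le.2 (mem_cent.2 (Mp.sf X.pg 2 704 704)) m)])
  obtain ⟨v, l, m⟩ := X.clt S (q _ (mem_zpowers _))
  have f : 𝔫 (g⁻¹ * w * 𝔯 v) 704 512 := (hg.symm.trans (show 𝔫 w 512 512 from mem_cent.1 p)).trans (mem_cent.1 (X.ef_z S (S.le (el_mem _ _))))
  have K : ∀ y x, 𝔫 (g⁻¹ * w * 𝔯 v) 2 y → EQ 1024 (cj (D10 β false ε) y x) y ∧ EQ 1024 (mul (D10 β false ε) x x) 512 → False := fun y x m e => by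
    obtain ⟨w', a, b⟩ := C.toS X.pg (X.t ▸ m.conj)
    obtain ⟨u, lu, c⟩ := b x e.1
    have m1 : 𝔪 (g⁻¹ * w * 𝔯 v * w') 8 8 := by rw [Mp, ← X.t, (m.trans a).e, X.t]
    have m2 : 𝔪 (g⁻¹ * w * 𝔯 v * w') 16 (mul (DS true) u u % 64) := by
      rw [Mp, ← X.lkf.1, (f.trans ((c.mul c).l 512 e.2)).e, el_modN C.pg]
    exact absurd (C.fus m1 m2) (by clear_aux_decl; clear * - lu; decide +kernel +revert)
  exact m.elim (fun m => K 2 64 m dk) fun m => K 3 384 m dk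

theorem nfk (X : St10 C.toCfg0 β false ε) : ¬ IsConj (𝔯 256) (𝔯 704) := fun h => by
  haveI : Fact (Nat.Prime 2) := ⟨Nat.prime_two⟩
  obtain ⟨P, S⟩ := X.exSP
  obtain ⟨g, hg⟩ := exists_cg h
  replace hg : 𝔫 g 256 704 := hg
  obtain ⟨R, r1, r2, r3, r4⟩ := exists_sylowIn_ge (S.pP.to_le (inf_le_left : P ⊓ centralizer {𝔯 256} ≤ P)) inf_le_right
  obtain ⟨w, p, q⟩ := exists_conj_le_of_not_dvd_relIndex' r4 (pg_zpowers (g := cg (𝔯 2) g⁻¹) (n := 1) (by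
      rw [pow_one, sq, ← cg_mul, X.pg.mul, (X.pg.one _).2 dk, cg_one]))
    (zpowers_le.2 (mem_cent.2 ((Mp.sf X.pg 2 704 704).cjg hg.symm hg.symm)))
  have t1 : cg (𝔯 2) (g⁻¹ * w⁻¹) ∈ R := by simpa [cg, mul_assoc] using conj_le_iff.1 q _ (mem_zpowers _)
  obtain ⟨θ, -, hθ⟩ := S.conj le_top r3 le_top
  have t2 := hθ _ t1
  rw [cg_cg] at t2
  have c := card_cover (T := P) (R := P ⊓ centralizer {𝔯 256}) [1, 𝔯 2] fun y hy => by
    rcases (X.zz (X.top.2 (S.nm hy))).2.2.2 with k | k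
    exacts [⟨1, by simp, by rw [mul_one]; exact ⟨hy, mem_cent.2 k⟩⟩,
      ⟨𝔯 2, by simp, mul_mem hy (S.le (el_mem _ _)), mem_cent.2 ((k.tr 2).r 256)⟩]
  have le : (P ⊓ centralizer {𝔯 256}).map (cgH θ) ≤ P := by rintro _ ⟨y, a, rfl⟩; exact cgH_apply θ y ▸ hθ y (r1 a)
  have Sq : ∀ x ∈ [8, 32, 64, 128, 256, 512], cg (cg (𝔯 256) θ) (𝔯 x) = cg (𝔯 256) θ := fun x hx => by
    obtain ⟨v, -, e, -⟩ := ef_sq (β := β) (ε := ε) x hx
    obtain ⟨y, a, b⟩ := (half le (by rw [card_cg]; exact c) (S.le (el_mem _ v)) (S.le (el_mem _ v))).2 Iff.rfl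
    rw [← (X.pg.eq _ _).2 e, ← X.pg.mul, ← b, cgH_apply, ← cg_cg', mem_cent.1 a.2]
  obtain ⟨u, l, m⟩ := Mp.ex (x := 256) (w := θ) X.pg X.pg (by
    obtain ⟨v, a, e, b⟩ := ef_sq (β := β) (ε := ε) 256 (by simp)
    replace b := b rfl
    rw [← (X.pg.eq _ _).2 e, ← X.pg.mul, cg_mul]
    exact S.sq (hθ _ (r1 ⟨S.le (el_mem _ _), mem_cent.2 (Mp.sf X.pg _ _ _ (by clear_aux_decl; clear * - a b; decide +kernel +revert))⟩)))
  rw [m.e] at Sq
  have p1 := m.sq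
  have p2 := m.ne .zero
  have p3 := Mp.of_el (h := X.pg) (Sq 256 (by simp))
  have p4 := Mp.of_el (h := X.pg) (Sq 64 (by simp))
  have p5 := Mp.of_el (h := X.pg) (Sq 8 (by simp))
  have f : 𝔫 (g⁻¹ * w⁻¹ * θ) 704 u := (hg.symm.trans (show 𝔫 w⁻¹ 256 256 from mem_cent.1 (inv_mem p))).trans m
  have k := (Mp.sf X.pg 2 704 704).cjg f f
  have n := fun k => X.noT (X.top.2 (S.nm t2)) k (X.t ▸ isConj_cg _ _)
  obtain rfl | rfl | rfl : u = 256 ∨ u = 512 ∨ u = 768 := (by clear_aux_decl; clear * - l p1 p2 p3 p4 p5; decide +kernel +revert)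
  exacts [n k, X.nfz f.conj.symm, n ((k.mul (show 𝔫 _ 512 512 from mem_cent.1 (X.ef_z S t2))).cast _ _)]

theorem tX (X : St10 C.toCfg0 β false ε) : 𝔯 2 ∉ C.X := fun h => by
  haveI : Fact (Nat.Prime 2) := ⟨Nat.prime_two⟩
  haveI := C.nX
  obtain ⟨P, S⟩ := X.exSP
  obtain ⟨g, -, p, -⟩ := C.thE (S := P ⊓ C.X) (M := P ⊓ C.X ⊓ centralizer {𝔯 256}) (Q := ⊥) inf_le_right (S.pP.to_le inf_le_left)
    (by rw [inf_relIndex_right]; exact not_dvd_relIndex_of_le_normalizer S.syl le_top le_normalizer_of_normal) inf_le_left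
    (fun x a y b c d => ⟨mul_mem a b, mem_cent.2 (by
      have k := (X.zz (X.top.2 (S.nm a.1))).2.2.2.resolve_left fun k => c ⟨a, mem_cent.2 k⟩
      obtain ⟨-, -, z, k'⟩ := X.zz (X.top.2 (S.nm b.1))
      exact k.trans (((k'.resolve_left fun k => d ⟨b, mem_cent.2 k⟩).mul z).cast _ _))⟩) h
    (by rw [X.pg.mul, X.pg.one]; exact dk) .of_bot bot_le (by simp)
  exact X.noT (X.top.2 (S.nm p.1.1)) (mem_cent.1 p.2) (X.t ▸ isConj_cg _ _)

end St10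

end Cfsg.Lib.H33
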