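import Cfsg.Agent.Lib.L33.Ef

/-! S3140 (plan by helper5, filled by helper22): `St10`, `γ = 0`: an involution `n ∈ P ∖ T₁`. Framework: Lib/H33/{Pc,Fw,Sy,Cfg,Cf2,C4a,E8f-i}, Lib/L33/{Cx,Tl,V0,Vb}. Codes of `T₁ = gen X.gs` (`D10 β false ε`): `r = 1, t = 2, g = 4, d = 8, p = 16, q = 32, c = 64, j = 128, k = 256, z = 512`,
`f = 704`, `u = p q k = 304` (centralises `r, f, z`; `t ↦ t f`), `M₁` = codes without `t`-bit and with `g`-bit = `p`-bit (order 256). Model: `Hol(Z₈) ≀ Z₂`. Python: tools/h33/m1.py, y3.py, y4.py.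
`syl_fr` for `M = C.MY`, `R = ⟨MS C.gs 62, k, u⟩ ≤ T₁` (cf. `st3` in C4a) and `ρ` (`C.rho`): `T ≥ R`, `ρ' = ρ m`, `k' = k^{ρ'}, u' = u^{ρ'} ∈ T ⊓ MY`, `k' : t ↦ t r`, `u' : t ↦ t f`, so `u' = u a`, `a ∈ A` (`inA`).
`β = true`: `u² = z`, `u'² = r`, but `(u a)² ∈ {z, z f}`. `[k, u] = 1` gives `u^{k'} ∈ u⟨r⟩`. Move `T` (centralises `z`) into `P` by `θ` fixing `z`; `t^θ` moves `k` (`noT`), w.l.o.g. `t^θ = 2, 3` (`cls`).
If `t^θ = 3`: `n = k'^θ ∉ T₁` (else `r' = r^θ` with `3 r'` `T₁`-conjugate to `3`, `r' ≁ f` (`nfz`), `f' = f^θ ∉ ⟨3, r', z⟩` commuting: `decide`, y3.py), and `out` for `n` moves `3` to `t`. So `θ` fixes `t, z`; `r^θ, f^θ ∈ S` (`memS`),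
times an element of `S` it fixes `r` (`fus`) and `f` (`fixf0`). `n = k'^θ`: involution `~ k`, fixes `r, f, z`, `t ↦ t r`, so `∉ T₁`, fixes `k` (`invk`); `u^θ ∈ u A` (`inA`), so `u^n ∈ u⟨r⟩ ∩ u⟨k, z⟩` (`cX`), `u^n = u`.
`c^n ∈ c⟨k, z⟩` commutes with `t r`: `c k` or `c k z`, w.l.o.g. `c k` (replace `n` by `n r`). `g^n = x`: `x² = 1`, `[x, k] = 1`, `(c k)^x = c`; `q = g⁻¹ g^r k zᵋ`, `d = g g^t z j⁻¹`, `p = u (q k)⁻¹` give all
images; `(d^n)² = z` and `d^{n n} = d` (`Mp.hom`) leave `ε = false`, `x ∈ 36⟨k, z⟩` (y4.py). -/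

set_option autoImplicit false
set_option synthInstance.maxSize 2048

namespace Cfsg.Lib.H33

open Cfsg.Lib.Calc Cfsg.Lib.Transfer Subgroup
open scoped Cfsg.Lib.Transfer

variable {G : Type*} [Group G] [Finite G] {β ε : Bool}

set_option quotPrecheck false in
local notation "dk" => by clear_aux_decl; clear * -; decide +kernel +revert


namespace St10

variable {C : Cx G true}

set_option hygiene false in
local notation "𝔯" => el (St10.gs X)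
set_option hygiene false in
local notation "𝔫" => Mp (St10.pg X) (St10.pg X)
set_option hygiene false in
local notation "𝔗" => gen (St10.gs X)

set_option hygiene false in
local notation "𝔰" => el (Cfg0.gs (Cx.toCfg0 C))
set_option hygiene false in
local notation "𝔪" => Mp (Cfg0.pg (Cx.toCfg0 C)) (Cfg0.pg (Cx.toCfg0 C))

theorem eg_id : ∀ y < 1024, EQ 1024 (hm (mul (D10 false false ε)) [1, 2, 4, 8, 16, 32, 64, 128, 256, 512] y) y := dk

theorem eg_r : ∀ r' ∈ cond ε [104, 296, 616, 808] [232, 424, 744, 936], ∀ f' < 1024,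
  EQ 1024 (mul (D10 false false ε) f' f') 0 → EQ 1024 (mul (D10 false false ε) f' 3) (mul (D10 false false ε) 3 f') →
  EQ 1024 (mul (D10 false false ε) f' r') (mul (D10 false false ε) r' f') → ∃ i < 8, EQ 1024 f' (hm (mul (D10 false false ε)) [3, r', 512] i) := dk

omit [Finite G] in
theorem eg_fin (X : St10 C.toCfg0 false false ε) {n : G} (nN : n ∈ normalizer (𝔗 : Set G)) (n2 : n * n = 1) (nr : 𝔫 n 1 1) (nt : 𝔫 n 2 3)
    (nf : 𝔫 n 704 704) (nz : 𝔫 n 512 512) (nk : 𝔫 n 256 256) (nu : 𝔫 n 304 304) (nc : 𝔫 n 64 320) :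
    ε = false ∧ ∃ a b : Bool, List.Forall₂ (𝔫 n) [1, 2, 4, 8, 16, 32, 64, 128, 256, 512]
      [1, 3, 36 + cond a 256 0 + cond b 512 0, cond a 40 552, 272, 288, 320, 384, 256, 512] := by
  obtain ⟨x, l, m⟩ : ∃ x < 1024, 𝔫 n 4 x := X.pg.img0 nN 4
  have p1 := m.sq
  have p2 := m.co nk
  have p3 := (nc.cj m).eq ((nc.mul nk).cast 320 64)
  have nj := (nc.mul nf).cast 128 384
  have mq := ((m.inv.mul (m.cj nr)).mul (show 𝔫 n (cond ε 768 256) (cond ε 768 256) by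
    cases ε; exacts [nk, (nk.mul nz).cast _ _])).l 32
  have md := (((m.mul (m.cj nt)).mul nz).mul nj.inv).l 8
  have mp := (nu.mul (mq.mul nk).inv).l 16
  have p4 := (md.mul md).eq nz
  have p5 := ((md.r _ (Nat.mod_mod _ 1024).symm).trans ((Mp.hom (.cons nr (.cons nt (.cons m (.cons md (.cons mp (.cons mq (.cons nc (.cons nj
    (.cons nk (.cons nz .nil)))))))))) _).l _ (eg_id _ (Nat.mod_lt _ (by decide))))).of_eq (n2.trans (el_zero _).symm)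
  obtain ⟨rfl, a, b, rfl⟩ : ε = false ∧ ∃ a b : Bool, x = 36 + cond a 256 0 + cond b 512 0 :=
    (by clear_aux_decl; clear * - l p1 p2 p3 p4 p5; decide +kernel +revert)
  exact ⟨rfl, a, b, .cons nr (.cons nt (.cons m (.cons (md.r _) (.cons (mp.r _) (.cons (mq.r _) (.cons nc (.cons nj
    (.cons nk (.cons nz .nil)))))))))⟩

omit [Finite G] in
theorem eg_u (X : St10 C.toCfg0 β false ε) {n : G} (nr : 𝔫 n 1 1) (nt : 𝔫 n 2 3) (nf : 𝔫 n 704 704) (nz : 𝔫 n 512 512) {α : ℕ} (l : α < 64)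
    (p : IM 58 α) (h : 𝔫 n (mul (D10 β false ε) (ph β ε α) 304) (mul (D10 β false ε) (ph β ε α) 304) ∨
      𝔫 n (mul (D10 β false ε) (ph β ε α) 304) (mul (D10 β false ε) 1 (mul (D10 β false ε) (ph β ε α) 304))) :
    𝔫 n 304 304 ∨ 𝔫 n 304 305 := by
  obtain ⟨i, -, e, e1, e2⟩ : ∃ i < 16, EQ 1024 (mul (D10 β false ε) (inv (D10 β false ε) (hm (mul (D10 β false ε)) [1, 2, 704, 512] i))
      (mul (D10 β false ε) (ph β ε α) 304)) 304 ∧ (∃ y ∈ [304, 305], EQ 1024 (mul (D10 β false ε) (inv (D10 β false ε)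
        (hm (mul (D10 β false ε)) [1, 3, 704, 512] i)) (mul (D10 β false ε) (ph β ε α) 304)) y) ∧
      ∃ y ∈ [304, 305], EQ 1024 (mul (D10 β false ε) (inv (D10 β false ε) (hm (mul (D10 β false ε)) [1, 3, 704, 512] i))
        (mul (D10 β false ε) 1 (mul (D10 β false ε) (ph β ε α) 304))) y := (by clear_aux_decl; clear * - l p; decide +kernel +revert)
  have m := (Mp.hom (.cons nr (.cons nt (.cons nf (.cons nz .nil)))) i).inv
  obtain ⟨y, a, b⟩ : ∃ y ∈ [304, 305], 𝔫 n 304 y := h.elim (fun h => let ⟨y, a, b⟩ := e1; ⟨y, a, (m.mul h).cast _ _ ⟨e, b⟩⟩)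
    fun h => let ⟨y, a, b⟩ := e2; ⟨y, a, (m.mul h).cast _ _ ⟨e, b⟩⟩
  simp only [List.mem_cons, List.not_mem_nil, or_false] at a
  rcases a with rfl | rfl
  exacts [.inl b, .inr b]

theorem eg_a (X : St10 C.toCfg0 β false ε) {T : Subgroup G} (hT : IsPGroup 2 T) (a : MS C.gs 62 ≤ T) (b : 𝔯 304 ∈ T) {g : G}
    (c : cg (𝔯 304) g ∈ T) (d : 𝔪 (cg (𝔯 304) g) 2 2) (f : 𝔪 (cg (𝔯 304) g) 8 24) :
    ∃ α < 64, IM 58 α ∧ 𝔫 g 304 (mul (D10 β false ε) (ph β ε α) 304) := by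
  obtain ⟨α, l, p, e⟩ := C.inA hT a (mul_mem c (inv_mem b)) (d.trans (X.tS (Mp.sf X.pg 304 1 1) 2 2).symm)
    (f.trans (X.tS (Mp.sf X.pg 304 2 706) 8 24).symm)
  exact ⟨α, l, p, by rw [Mp, ← X.pg.mul, ← X.lkS α _ ⟨l, rfl⟩, ← e, inv_mul_cancel_right]⟩

theorem nn (X : St10 C.toCfg0 β false ε) {P : Subgroup G} (S : SP X.gs P) : β = false ∧ ε = false ∧ ∃ n ∈ P, n ∉ 𝔗 ∧ n * n = 1 ∧ n ∈ C.X ∧
    ∃ a b : Bool, List.Forall₂ (𝔫 n) [1, 2, 4, 8, 16, 32, 64, 128, 256, 512]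
      [1, 3, 36 + cond a 256 0 + cond b 512 0, cond a 40 552, 272, 288, 320, 384, 256, 512] := by
  obtain ⟨ρ, r1, r2, r3, r4⟩ := C.rho
  have kt0 := X.tS (Mp.sf X.pg 256 2 514) 8 40
  have ut0 := X.tS (Mp.sf X.pg 304 2 706) 8 24
  have kM := Cfg0.MY.of _ kt0 (by decide) (X.tS (Mp.sf X.pg 256 1 1) 2 2) (X.tS (Mp.sf X.pg 256 704 704) 16 16)
    (X.tS (Mp.sf X.pg 256 512 512) 32 32)
  have uM := Cfg0.MY.of _ ut0 (by decide) (X.tS (Mp.sf X.pg 304 1 1) 2 2) (X.tS (Mp.sf X.pg 304 704 704) 16 16)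
    (X.tS (Mp.sf X.pg 304 512 512) 32 32)
  obtain ⟨T, hT, a, b, c⟩ := syl_fr (M := C.MY) (R := 𝔗 ⊓ normalizer (C.MY : Set G)) (X.pg.pgroup.to_le inf_le_left) inf_le_right
  have sT : MS C.gs 62 ≤ T := fun x h => a ⟨X.le (ms_le _ _ h), Cfg0.MY.nm _ (C.pg.le_nm dk h) (C.pg.le_nm dk h)⟩
  have uT := a ⟨el_mem _ 304, le_normalizer uM⟩
  have rM := Cfg0.MY.nm _ (C.nmA r4 r1 r2 r3) (C.nmO r4 r2 r3)
  obtain ⟨m, hm', c⟩ := c ρ rM
  have kT := c _ (a ⟨el_mem _ 256, le_normalizer kM⟩) kM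
  have kM' := cg_mem_norm kM (mul_mem rM (le_normalizer hm'))
  have uM' := cg_mem_norm uM (mul_mem rM (le_normalizer hm'))
  obtain ⟨t1, l1, p1, m1⟩ := Mp.exm (h := C.pg) Cfg0.okA hm'.1 8
  have p2 : ¬ IM 50 t1 := fun h => absurd (h : IM 50 t1) (by
    have := (m1.iff (Cfg0.MY.fix _ hm' h)).2 rfl
    clear_aux_decl; clear * - l1 this; decide +kernel +revert)
  have p3 : IM 50 (t1 ^^^ 8) := (by clear_aux_decl; clear * - l1 p1 p2; decide +kernel +revert)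
  have m2 := r1.trans m1
  have m3 := r3.trans (Cfg0.MY.fix _ hm')
  have m5 := r2.trans (Cfg0.MY.fix _ hm')
  have kt := ((kt0.cjg m2 ((m2.mul m3).l 40)).mul (Cfg0.MY.fix _ kM' p3)).cast 8 10
    (by clear_aux_decl; clear * - l1 p1 p2; decide +kernel +revert)
  have ut := ((ut0.cjg m2 ((m2.mul m5).l 24)).mul (Cfg0.MY.fix _ uM' p3)).cast 8 24
    (by clear_aux_decl; clear * - l1 p1 p2; decide +kernel +revert)
  obtain ⟨α, lα, pα, mu⟩ := X.eg_a hT sT uT (c _ uT uM) (Cfg0.MY.fix _ uM') ut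
  obtain rfl : β = false := by
    cases β
    · rfl
    · exact absurd ((mu.mul mu).eq (X.tT m3 512 1)) (by clear_aux_decl; clear * - lα pα; decide +kernel +revert)
  have ku := X.eg_u (X.tT (Cfg0.MY.fix _ kM' (x := 2)) 1 1) (X.tT kt 2 3) (X.tT (Cfg0.MY.fix _ kM' (x := 16)) 704 704)
    (X.tT (Cfg0.MY.fix _ kM' (x := 32)) 512 512) lα pα (.inl ((Mp.sf X.pg 256 304 304).cjg mu mu))
  have k2 : cg (𝔯 256) (ρ * m) * cg (𝔯 256) (ρ * m) = 1 := by rw [← cg_mul, X.pg.mul, (X.pg.one _).2 dk, cg_one]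
  have kX := C.cgX (X.mX (x := 256)) (ρ * m)
  generalize cg (𝔯 256) (ρ * m) = k at kT kM' kt ku k2 kX
  obtain ⟨θ0, z0, h0⟩ := S.conj (X.ef_z S) hT (b.trans (sup_le (fun x h => mem_cent.2 (X.tT (Cfg0.MY.fix _ h (x := 32)) 512 512))
    fun x h => X.ef_z S (S.le h.1)))
  have W : ∀ {θ w}, w ∈ P → (∀ x ∈ T, cg x θ ∈ P) → ∀ x ∈ T, cg x (θ * w) ∈ P := fun p q x h => by rw [← cg_cg]; exact cg_mem (q x h) p
  obtain ⟨θ, θt, hθ⟩ : ∃ θ, 𝔫 θ 2 2 ∧ ∀ x ∈ T, cg x θ ∈ P := by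
    obtain ⟨v, -, mt⟩ := X.clt S (h0 _ (X.t ▸ sT (el_mem_ms (by decide))))
    have h1 := W (S.le (el_mem _ v)) h0
    rcases mt with mt | mt
    · exact ⟨_, mt, h1⟩
    by_cases hP : P ≤ 𝔗
    swap
    · obtain ⟨x, xP, xT⟩ := SetLike.not_le_iff_exists.1 hP
      obtain ⟨-, -, -, -, v', m'⟩ := X.out S.pP S.le xP (X.top.2 (S.nm xP)) xT
      exact ⟨_, mt.trans m'.symm, W (inv_mem (mul_mem xP (S.le (el_mem _ _)))) h1⟩
    have mz : 𝔫 (θ0 * 𝔯 v) 512 512 := Mp.trans (h' := X.pg) (mem_cent.1 z0) (mem_cent.1 (X.ef_z S (S.le (el_mem _ v))))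
    obtain ⟨n1, ln, hn⟩ := X.pg.ex (hP (h1 _ kT))
    obtain ⟨r', lr, mr⟩ := Mp.ex (x := 1) X.pg X.pg (hP (h1 _ (X.r ▸ sT (el_mem_ms (by decide)))))
    obtain ⟨f', lf, mf⟩ := Mp.ex (x := 704) X.pg X.pg (hP (h1 _ (X.lkf.1 ▸ sT (el_mem_ms (by decide)))))
    have q1 : cj (D10 false false ε) 3 n1 % 1024 ∈ [3, 67, 107, 131, 195, 235, 299, 427, 515, 579, 619, 643, 707, 747, 811, 939] :=
      (by clear_aux_decl; clear * - ln; decide +kernel +revert)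
    rw [(X.tT kt 2 3).act mt ((mr.mul mt).l 3) hn] at q1
    have q2 := mr.sq
    have q3 := mr.co mt
    have q4 := mr.ne .zero
    have q5 := mr.ne mz
    obtain ⟨w, -, q⟩ | q : (∃ w ∈ [0, 8], EQ 1024 (cj (D10 false false ε) r' w) 704) ∨ r' ∈ cond ε [104, 296, 616, 808] [232, 424, 744, 936] :=
      (by clear_aux_decl; clear * - lr q1 q2 q3 q4 q5; decide +kernel +revert)
    · exact absurd ((X.tT r3 512 1).conj.trans ((mr.tr w).r _ q).conj) X.nfz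
    · obtain ⟨i, li, q⟩ := eg_r r' q f' lf mf.sq (mf.co mt) (mf.co mr)
      exact absurd ((mf.iff (Mp.hom (.cons mt (.cons mr (.cons mz .nil))) i)).2 q) (by clear_aux_decl; clear * - li; decide +kernel +revert)
  have θt' := X.tS θt 8 8
  obtain ⟨y, -, ct⟩ := C.nS θt' fun x hx => C.memS S.pP (X.le.trans S.le) (hθ _ (sT (el_mem_ms hx))) ((C.fixt (el_mem _ x)).cjg θt' θt')
  replace hθ := W (S.le (X.le (el_mem _ y))) hθ
  generalize θ * 𝔰 y = θ at ct hθ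
  have F : ∀ {x} (y : ℕ), x ∈ C.MY → IM 50 y → 𝔪 (cg x θ) y y := fun y p q =>
    (Cfg0.MY.fix _ p q).cjg (ct.all _ (IM.trans (by decide) q)) (ct.all _ (IM.trans (by decide) q))
  have nr := X.tT (F 2 kM' (by decide)) 1 1
  have nf := X.tT (F 16 kM' (by decide)) 704 704
  have nz := X.tT (F 32 kM' (by decide)) 512 512
  have nt := X.tT (kt.cjg ct.2.2.1 (ct.all _ (by decide))) 2 3
  have nP := hθ _ kT
  have n2 : cg k θ * cg k θ = 1 := by rw [← cg_mul, k2, cg_one]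
  have nX := C.cgX kX θ
  have nT : cg k θ ∉ 𝔗 := fun h => by
    obtain ⟨x, l, e⟩ := X.pg.ex h
    exact absurd (nt.of_eq e) (by clear_aux_decl; clear * - l; decide +kernel +revert)
  have nN := S.nm nP
  have nk := X.invk S.pP S.le nP (X.top.2 nN) nT n2
  obtain ⟨α, lα, pα, mu⟩ := X.eg_a S.pP ((ms_le _ _).trans (X.le.trans S.le)) (S.le (el_mem _ _)) (hθ _ uT) (F 2 uM (by decide))
    (ut0.cjg ct.2.2.1 (ct.all _ (by decide)))
  have cx : ∀ {x y}, 𝔫 (cg k θ) x y → IM 1008 x → IM 768 (mul (D10 false false ε) (inv (D10 false false ε) x) y % 1024) := fun m p => by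
    have := (X.cX (X.top.2 nN) nk).2 _ (el_mem_ms p)
    rwa [cm, m.e, X.pg.inv, X.pg.mul, X.pg.mem_ms (ok _ (by simp))] at this
  have nu := (X.eg_u nr nt nf nz lα pα (ku.imp (fun h => h.cjg mu mu) fun h => h.cjg mu (((X.tT ct.1 1 1).mul mu).l 305))).resolve_right
    fun h => absurd (cx h (by decide)) dk
  obtain ⟨c1, lc, mc⟩ : ∃ x < 1024, 𝔫 (cg k θ) 64 x := X.pg.img0 nN 64
  have q1 := cx mc (by decide)
  have q2 := mc.co nt
  generalize cg k θ = n at *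
  obtain rfl | rfl : c1 = 320 ∨ c1 = 832 := (by clear_aux_decl; clear * - lc q1 q2; decide +kernel +revert)
  · obtain ⟨e, h⟩ := X.eg_fin nN n2 nr nt nf nz nk nu mc
    exact ⟨rfl, e, n, nP, nT, n2, nX, h⟩
  · have n2' : n * 𝔯 1 * (n * 𝔯 1) = 1 := by
      rw [show n * 𝔯 1 * (n * 𝔯 1) = n * n * (cg (𝔯 1) n * 𝔯 1) by simp [cg, mul_assoc], n2, nr.e, X.pg.mul, (X.pg.one _).2 dk, one_mul]
    obtain ⟨e, h⟩ := X.eg_fin (mul_mem nN (le_normalizer (el_mem _ 1))) n2' ((nr.tr 1).r _) ((nt.tr 1).r _) ((nf.tr 1).r _) ((nz.tr 1).r _)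
      ((nk.tr 1).r _) ((nu.tr 1).r _) ((mc.tr 1).r _)
    exact ⟨rfl, e, _, mul_mem nP (S.le (el_mem _ _)), fun h => nT ((mul_mem_cancel_right (el_mem _ _)).1 h), n2', mul_mem nX X.mX, h⟩

end St10

end Cfsg.Lib.H33
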