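import Cfsg.Agent.Lib.L33.Fa
import Cfsg.Agent.Lib.Char.Burnside

/-! Facts on `L₃(3)` and its automorphism group (helper3, for S3140). -/

set_option autoImplicit false

namespace Cfsg.Lib.L33

open Subgroup Matrix Cfsg.Lib.Linear
open scoped MatrixGroups
open MulAut (conj)

variable {a b c g i j s x y z : L3} {τ β : MulAut L3}

theorem card_L3 : Nat.card L3 = 5616 := by
  have b := card_SL_mul (ι := Fin 3) (F := F3)
  rw [card_GL, ZMod.card, Fintype.card_fin] at b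
  exact Nat.eq_of_mul_eq_mul_left zero_lt_two (b.trans (by decide))

theorem center_L3 : center L3 = ⊥ := card_eq_one.1 (card_center_SL.trans (by decide))

/-- `L₃(3) = SL₃(3)`. -/
noncomputable def eP : PSL(3, F3) ≃* L3 := (QuotientGroup.quotientMulEquivOfEq center_L3).trans QuotientGroup.quotientBot

theorem eP_mk (x : L3) : eP x = x := rfl

theorem simple : IsSimpleGroup L3 :=
  haveI := isSimpleGroup_PSL_fin (F := F3) (n := 3) (by decide) (by decide)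
  eP.symm.isSimpleGroup

theorem cen1 (h : ∀ y, y * x = x * y) : x = 1 := mem_bot.1 (center_L3.le (mem_center_iff.2 h))

theorem cj_inj (h : conj a = conj b) : a = b := inv_mul_eq_one.1 (cen1 fun c => by
  simpa [mul_assoc] using congrArg (fun α : MulAut L3 => a⁻¹ * α c * b) h)

theorem cj_cj (β : MulAut L3) (x : L3) : β * conj x * β⁻¹ = conj (β x) := MulEquiv.ext fun y => by simp

theorem fix_iff : β * conj x = conj x * β ↔ β x = x :=
  ⟨fun h => cj_inj (by rw [← cj_cj, h, mul_inv_cancel_right]), fun h => by rw [← mul_inv_eq_iff_eq_mul, cj_cj, h]⟩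

theorem aut (β : MulAut L3) : ∃ g, β = conj g ∨ β = conj g * graphSL := by
  obtain ⟨g, s, e⟩ := aut_PSL_decomp (by decide) (MulAut.congr eP.symm β)
  obtain ⟨y, p⟩ := innDiag_mem_inn_iff.2 (⟨_, by rw [Fintype.card_fin, pow_succ, ZMod.units_pow_card_sub_one_eq_one 3, one_mul]⟩ :
    ∃ u : F3ˣ, u ^ Fintype.card (Fin 3) = GeneralLinearGroup.det g)
  obtain ⟨y, rfl⟩ := QuotientGroup.mk_surjective y
  rw [Subsingleton.elim s 1, map_one, mul_one, ← p] at e
  refine ⟨y, e.imp (fun e => MulEquiv.ext fun x => ?_) fun e => MulEquiv.ext fun x => ?_⟩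
  · simpa [eP_mk] using congrArg (fun α : MulAut PSL(3, F3) => eP (α x)) e
  · simpa [eP_mk, graphAut_mk] using congrArg (fun α : MulAut PSL(3, F3) => eP (α x)) e.2

theorem inn_cj (x : L3) : conj x ∈ Inn L3 := ⟨x, rfl⟩

theorem out2 (α β : MulAut L3) : α ∈ Inn L3 ∨ β ∈ Inn L3 ∨ α * β ∈ Inn L3 := by
  obtain ⟨g, rfl | rfl⟩ := aut α
  · exact .inl (inn_cj _)
  obtain ⟨h, rfl | rfl⟩ := aut β
  · exact .inr (.inl (inn_cj _))
  refine .inr (.inr ⟨g * graphSL h, ?_⟩)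
  rw [map_mul, ← cj_cj, inv_eq_of_mul_eq_one_right graphSL_mul_self]
  simp only [mul_assoc]

theorem inn_sq (α : MulAut L3) : α * α ∈ Inn L3 := by
  rcases out2 α α with h | h | h
  exacts [mul_mem h h, mul_mem h h, h]

theorem inn_cm (α β : MulAut L3) : α * β * α⁻¹ * β⁻¹ ∈ Inn L3 := by
  rcases out2 α β with p | p | p
  · simpa [mul_assoc] using mul_mem p ((innNormal L3).conj_mem _ (inv_mem p) β)
  · exact mul_mem ((innNormal L3).conj_mem _ p α) (inv_mem p)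
  · simpa [mul_assoc] using mul_mem p ((innNormal L3).conj_mem _ (inv_mem p) β)

theorem inn_odd {n : ℕ} (o : Odd n) (h : β ^ n ∈ Inn L3) : β ∈ Inn L3 := by
  obtain ⟨k, rfl⟩ := o
  rw [pow_succ, pow_mul, sq] at h
  exact (mul_mem_cancel_left (pow_mem (inn_sq β) k)).1 h

theorem card_aut : Nat.card (MulAut L3) ∣ 2 * 5616 := by
  rw [← (Inn L3).index_mul_card, ← card_L3, ← Nat.card_congr (MonoidHom.ofInjective (f := (conj : L3 →* _)) fun _ _ => cj_inj).toEquiv]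
  refine Nat.mul_dvd_mul_right ?_ _
  by_cases h : Inn L3 = ⊤
  · rw [h, index_top]; exact one_dvd _
  obtain ⟨γ, -, n⟩ := SetLike.exists_of_lt (lt_top_iff_ne_top.2 h)
  refine (index_eq_two_iff.2 ⟨γ, fun β => ?_⟩).dvd
  by_cases p : β ∈ Inn L3
  · exact .inr ⟨p, fun q => n ((mul_mem_cancel_left p).1 q)⟩
  · exact .inl ⟨((out2 β γ).resolve_left p).resolve_left n, p⟩

theorem ext9 (x : L3) : ∃ a b c d e f g h i, x.1 = !![a, b, c; d, e, f; g, h, i] := ⟨_, _, _, _, _, _, _, _, _, eta_fin_three _⟩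

theorem dt3x (x : L3) : dt3 x.1 = 1 := (dt3_eq _).trans x.2

/-- One class of involutions. -/
theorem invc (g2 : g * g = 1) (g1 : g ≠ 1) : ∃ c, g = c * z3 * c⁻¹ := by
  obtain ⟨a, b, c, d, e, f, k, h, i, p⟩ := ext9 g
  have q : g.1 * g.1 = 1 := congrArg Subtype.val g2
  have r := dt3x g
  rw [p] at q r
  have q' := q
  rw [mul_fin_three] at q'
  rcases cI a b c d k (congrFun₂ q' 0 0) e h (congrFun₂ q' 0 1) f i (congrFun₂ q' 0 2) q r with u | ⟨n, -, -, u, v⟩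
  · exact absurd (Subtype.ext (p.trans u)) g1
  · exact ⟨⟨mk3 n, (dt3_eq _).symm.trans u⟩, eq_mul_inv_of_mul_eq (Subtype.ext (by rw [← p] at v; exact v.symm))⟩

theorem gr_fix : graphSL x = x ↔ x.1 * x.1ᵀ = 1 := by
  have k : x⁻¹.1ᵀ * x.1ᵀ = 1 := by
    rw [← transpose_mul, show x.1 * x⁻¹.1 = 1 from congrArg Subtype.val (mul_inv_cancel x), transpose_one]
  refine ⟨fun h => ?_, fun h => Subtype.ext ?_⟩
  · rwa [← graphSL_coe, h] at k
  · rw [graphSL_coe, ← one_mul x⁻¹.1ᵀ, ← h, mul_assoc, mul_eq_one_comm.1 k, mul_one]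

/-- One class of outer involutions. -/
theorem outc (t2 : τ * τ = 1) (o : τ ∉ Inn L3) : ∃ c, τ = conj c * graphSL * (conj c)⁻¹ := by
  obtain ⟨g, rfl | rfl⟩ := aut τ
  · exact absurd (inn_cj g) o
  have h : g * graphSL g = 1 := cj_inj (by
    rw [map_mul, ← cj_cj, inv_eq_of_mul_eq_one_right graphSL_mul_self, map_one, ← t2]; simp only [mul_assoc])
  have h' : g.1ᵀ = g.1 := by
    rw [← inv_eq_iff_mul_eq_one] at h
    have := congrArg (fun x : L3 => x.1) (congrArg (·⁻¹) h)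
    simp only [inv_inv, ← map_inv, graphSL_coe] at this
    exact this.symm
  obtain ⟨a, b, c, d, e, f, k, l, i, p⟩ := ext9 g
  have r := dt3x g
  rw [p] at h' r
  obtain rfl : b = d := congrFun₂ h' 1 0
  obtain rfl : c = k := congrFun₂ h' 2 0
  obtain rfl : f = l := congrFun₂ h' 2 1
  obtain ⟨n, -, -, u, v⟩ := cS a b c e f i r
  let w : L3 := ⟨mk3 n, (dt3_eq _).symm.trans u⟩
  refine ⟨w, ?_⟩
  have : g = w * graphSL w⁻¹ := Subtype.ext (by
    rw [p, ← v]; exact congrArg (fun y : L3 => mk3 n * y.1ᵀ) (inv_inv w).symm)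
  rw [this, map_mul, ← cj_cj, map_inv, mul_assoc, mul_assoc, inv_mul_cancel, mul_one, mul_assoc]

theorem in24 (h : graphSL x = x) : ∃ p ∈ s24, mk3 p = x.1 := by
  obtain ⟨a, b, c, d, e, f, k, l, i, p⟩ := ext9 x
  have q := gr_fix.1 h
  have r := dt3x x
  rw [p] at q r ⊢
  rw [show !![a, b, c; d, e, f; k, l, i]ᵀ = !![a, d, k; b, e, l; c, f, i] by ext u v; fin_cases u <;> fin_cases v <;> rfl,
    mul_fin_three] at q
  obtain ⟨n, u, -, v⟩ := cF a b c (congrFun₂ q 0 0) d e f (congrFun₂ q 0 1) (congrFun₂ q 1 1) k l i (congrFun₂ q 0 2) (congrFun₂ q 1 2) r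
  exact ⟨n, u, v⟩

theorem in48 (h : x * z3 = z3 * x) : ∃ p ∈ c48, mk3 p = x.1 := by
  obtain ⟨a, b, c, d, e, f, k, l, i, p⟩ := ext9 x
  have q : x.1 * z3.1 = z3.1 * x.1 := congrArg Subtype.val h
  have r := dt3x x
  rw [p] at q r ⊢
  rw [z3, mul_fin_three, mul_fin_three] at q
  have h1 : ∀ a b c f i : F3, a * 0 + b * 0 + c * 1 = 2 * c + 0 * f + 0 * i → c = 0 := by decide
  have h2 : ∀ a b c f i : F3, a * 0 + b * 0 + f * 1 = 0 * c + 2 * f + 0 * i → f = 0 := by decide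
  have h3 : ∀ a b c f i : F3, c * 2 + a * 0 + b * 0 = 0 * f + 0 * i + 1 * c → c = 0 := by decide
  have h4 : ∀ a b c f i : F3, a * 0 + c * 2 + b * 0 = 0 * f + 0 * i + 1 * c → c = 0 := by decide
  obtain rfl := h1 _ _ _ _ _ (congrFun₂ q 0 2)
  obtain rfl := h2 _ _ _ _ _ (congrFun₂ q 1 2)
  obtain rfl := h3 _ _ _ _ _ (congrFun₂ q 2 0)
  obtain rfl := h4 _ _ _ _ _ (congrFun₂ q 2 1)
  obtain ⟨n, u, -, v⟩ := cB a b d e i r
  exact ⟨n, u, v⟩

theorem z3_sq : z3 * z3 = 1 := by decide +kernel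
theorem z3_ne : z3 ≠ 1 := by decide +kernel

/-- The underlying matrix. -/
def vl : L3 →* Mt3 := ⟨⟨fun x => x.1, rfl⟩, fun _ _ => rfl⟩
theorem vl_eq : vl x = vl y ↔ x = y := Subtype.ext_iff.symm
theorem vl_one : vl x = 1 ↔ x = 1 := vl_eq (y := 1)
theorem vl_val (x : L3) : x.1 = vl x := rfl

theorem gQ (h : x * z3 = z3 * x) : x ^ 24 = 1 ∧ (x * x = z3 → ∀ y, y * z3 = z3 * y → y * y = z3 → (x * y) ^ 4 = 1 ∧
    (x * y = y * x ∨ ∀ w, w * z3 = z3 * w → x * w = w * x → y * w = w * y → w = 1 ∨ w = z3)) := by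
  obtain ⟨p, m, e⟩ := in48 h
  obtain ⟨u, v⟩ := cQ p m
  simp only [e, vl_val, ← map_mul, ← map_pow, vl_eq, vl_one] at u v
  refine ⟨u, fun k y h l => ?_⟩
  obtain ⟨q, n, f⟩ := in48 h
  have v := v k q n
  simp only [f, vl_val, ← map_mul, ← map_pow, vl_eq, vl_one] at v
  refine (v l).imp_right (.imp_right fun v w h => ?_)
  obtain ⟨r, l, g⟩ := in48 h
  simpa only [g, vl_val, ← map_mul, vl_eq, vl_one] using v r l

theorem gV (h : b * z3 = z3 * b) (b2 : b * b = 1) (h' : x * z3 = z3 * x) :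
    b = 1 ∨ b = z3 ∨ (b * x = x * b → x = 1 ∨ x = z3 ∨ x = b ∨ x = z3 * b) := by
  obtain ⟨p, m, e⟩ := in48 h
  obtain ⟨q, n, f⟩ := in48 h'
  have u := cV p m
  simp only [e, vl_val, ← map_mul, vl_eq, vl_one] at u
  refine (u b2).imp_right (.imp_right fun v => ?_)
  simpa only [f, vl_val, ← map_mul, vl_eq, vl_one] using v q n

theorem gF (h : graphSL x = x) : x ^ 12 = 1 ∧ (x * x = 1 ∨ ∀ y, graphSL y = y → x * x = y * y → x * y = y * x) := by
  obtain ⟨p, m, e⟩ := in24 h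
  obtain ⟨u, v⟩ := cF2 p m
  simp only [e, vl_val, ← map_mul, ← map_pow, vl_one] at u v
  refine ⟨u, v.imp_right fun v y h => ?_⟩
  obtain ⟨q, n, f⟩ := in24 h
  simpa only [f, vl_val, ← map_mul, vl_eq] using v q n

theorem cm_cj {G : Type*} [Group G] {x y : G} (c : G) (h : x * y = y * x) : c * x * c⁻¹ * (c * y * c⁻¹) = c * y * c⁻¹ * (c * x * c⁻¹) := by
  rw [conj_mul, conj_mul, h]

theorem invc' (g2 : g * g = 1) (g1 : g ≠ 1) : ∃ e : MulAut L3, g = e z3 := let ⟨c, e⟩ := invc g2 g1; ⟨conj c, e⟩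

theorem outc' (t2 : τ * τ = 1) (o : τ ∉ Inn L3) : ∃ e : MulAut L3, ∀ x, τ (e x) = e (graphSL x) :=
  let ⟨c, e⟩ := outc t2 o; ⟨conj c, fun x => by rw [e, MulAut.mul_apply, MulAut.inv_apply_self, MulAut.mul_apply]⟩

theorem pow24 (g2 : g * g = 1) (g1 : g ≠ 1) (h : x * g = g * x) : x ^ 24 = 1 := by
  obtain ⟨e, rfl⟩ := invc' g2 g1
  obtain ⟨x, rfl⟩ := e.surjective x
  simp only [← map_mul, ← map_pow, EmbeddingLike.apply_eq_iff_eq, EmbeddingLike.map_eq_one_iff] at h ⊢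
  exact (gQ h).1

/-- An involutory automorphism fixes no element of order 13. -/
theorem pow24a (t2 : τ * τ = 1) (t1 : τ ≠ 1) (h : τ x = x) : x ^ 24 = 1 := by
  by_cases o : τ ∈ Inn L3
  · obtain ⟨g, rfl⟩ := o
    exact pow24 (cj_inj (by rw [map_mul, t2, map_one])) (fun e => t1 (by rw [e, map_one])) (by
      rw [MulAut.conj_apply, mul_inv_eq_iff_eq_mul] at h; exact h.symm)
  obtain ⟨e, p⟩ := outc' t2 o
  obtain ⟨x, rfl⟩ := e.surjective x
  rw [p, EmbeddingLike.apply_eq_iff_eq] at h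
  rw [← map_pow, show 24 = 12 * 2 from rfl, pow_mul, (gF h).1, one_pow, map_one]

theorem sol_cent (t2 : τ * τ = 1) (t1 : τ ≠ 1) : Group.IsSolvable (centralizer {τ}) := by
  refine Char.isSolvable_of_card_dvd_pow_mul_pow _ (a := 5) (b := 3) Nat.prime_two Nat.prime_three
    (Nat.Coprime.dvd_of_dvd_mul_right (k := Nat.card (centralizer {τ})) (n := 13) ?_ ((card_subgroup_dvd_card _).trans card_aut))
  refine ((Nat.Prime.coprime_iff_not_dvd (by decide)).2 fun h => ?_).symm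
  have : Fact (Nat.Prime 13) := ⟨by decide⟩
  obtain ⟨⟨β, m⟩, o⟩ := exists_prime_orderOf_dvd_card' 13 h
  rw [← orderOf_coe] at o
  obtain ⟨x, rfl⟩ := inn_odd (β := β) (n := 13) (by decide) (by rw [← o, pow_orderOf_eq_one]; exact one_mem _)
  have := orderOf_dvd_of_pow_eq_one (show conj x ^ 24 = 1 by
    rw [← map_pow, pow24a t2 t1 (fix_iff.1 (mem_centralizer_singleton_iff.1 m).symm), map_one])
  rw [o] at this
  omega

/-- Four-groups are self-centralising. -/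
theorem fV0 (a2 : a * a = 1) (a1 : a ≠ 1) (b2 : b * b = 1) (b1 : b ≠ 1) (ab : b ≠ a) (c : b * a = a * b) (xa : x * a = a * x)
    (xb : b * x = x * b) : x = 1 ∨ x = a ∨ x = b ∨ x = a * b := by
  obtain ⟨e, rfl⟩ := invc' a2 a1
  obtain ⟨b, rfl⟩ := e.surjective b
  obtain ⟨x, rfl⟩ := e.surjective x
  simp only [← map_mul, Ne, EmbeddingLike.apply_eq_iff_eq, EmbeddingLike.map_eq_one_iff] at b2 b1 ab c xa xb ⊢
  exact ((gV c b2 xa).resolve_left b1).resolve_left ab xb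

/-- The centraliser of `A₄` is trivial. -/
theorem fV (a2 : a * a = 1) (a1 : a ≠ 1) (h1 : s * a * s⁻¹ = b) (h2 : s * b * s⁻¹ = a * b) (xa : x * a = a * x) (xb : x * b = b * x)
    (xs : x * s = s * x) : x = 1 := by
  have b2 : b * b = 1 := by rw [← h1, conj_mul, a2, mul_one, mul_inv_cancel]
  have b1 : b ≠ 1 := fun e => a1 (conj_eq_one_iff.1 (h1.trans e))
  have ab : b ≠ a := fun e => a1 (by rw [e] at h2 h1; rw [← h1, h2, a2])
  have c : b * a = a * b := by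
    have : a * b * (a * b) = 1 := by rw [← h2, conj_mul, b2, mul_one, mul_inv_cancel]
    rw [← inv_eq_of_mul_eq_one_right this, _root_.mul_inv_rev, inv_eq_of_mul_eq_one_right a2, inv_eq_of_mul_eq_one_right b2]
  have xs' : s * x * s⁻¹ = x := by rw [← xs, mul_inv_cancel_right]
  rcases fV0 a2 a1 b2 b1 ab c xa xb.symm with e | rfl | rfl | rfl
  · exact e
  · exact absurd (h1.symm.trans xs') ab
  · exact absurd (mul_eq_right.1 (h2.symm.trans xs')) a1
  · rw [← conj_mul, h1, h2, ← mul_assoc, c, mul_assoc, b2, mul_one] at xs'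
    exact absurd (mul_eq_left.1 xs'.symm) b1

theorem fQ (z2 : z * z = 1) (z1 : z ≠ 1) (i2 : i * i = z) (j2 : j * j = z) : (i * j) ^ 4 = 1 ∧ (i * j ≠ j * i →
    ∀ x, i * x = x * i → j * x = x * j → x = 1 ∨ x = z) := by
  obtain ⟨e, rfl⟩ := invc' z2 z1
  obtain ⟨i, rfl⟩ := e.surjective i
  obtain ⟨j, rfl⟩ := e.surjective j
  rw [e.surjective.forall]
  simp only [← map_mul, ← map_pow, Ne, EmbeddingLike.apply_eq_iff_eq, EmbeddingLike.map_eq_one_iff] at i2 j2 ⊢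
  obtain ⟨u, v⟩ := (gQ (x := i) (by rw [← i2, mul_assoc])).2 i2 j (by rw [← j2, mul_assoc]) j2
  exact ⟨u, fun k x xi xj => v.resolve_left k x (by rw [← i2, ← mul_assoc, ← xi, mul_assoc, ← xi, mul_assoc]) xi xj⟩

/-- An outer involution fixes no quaternion group. -/
theorem fQ2 (t2 : τ * τ = 1) (o : τ ∉ Inn L3) (ti : τ i = i) (tj : τ j = j) (h : i * i = j * j) (i1 : i * i ≠ 1) : i * j = j * i := by
  obtain ⟨e, p⟩ := outc' t2 o
  obtain ⟨i, rfl⟩ := e.surjective i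
  obtain ⟨j, rfl⟩ := e.surjective j
  simp only [p, ← map_mul, Ne, EmbeddingLike.apply_eq_iff_eq, EmbeddingLike.map_eq_one_iff] at ti tj h i1 ⊢
  exact (gF ti).2.resolve_left i1 j tj h

def i0 : L3 := ⟨!![0, 1, 0; 2, 0, 0; 0, 0, 1], by rw [det_fin_three]; decide⟩
def j0 : L3 := ⟨!![2, 1, 0; 1, 1, 0; 0, 0, 1], by rw [det_fin_three]; decide⟩
def s0 : L3 := ⟨!![1, 0, 0; 1, 1, 0; 0, 0, 1], by rw [det_fin_three]; decide⟩
def pm0 : L3 := ⟨!![0, 1, 0; 0, 0, 1; 1, 0, 0], by rw [det_fin_three]; decide⟩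

theorem gen13 {H : Subgroup L3} (h3 : ∀ x, x * z3 = z3 * x → x ∈ H) (h1 : ∀ x, x * z1 = z1 * x → x ∈ H) : H = ⊤ := by
  have k : ∀ (i j : Fin 3) (h : i ≠ j) (c : F3), i.1 + j.1 ≠ 2 → SpecialLinearGroup.transvection h c ∈ H := fun i j h c e => by
    by_cases u : i.1 + j.1 = 1
    · exact h3 _ (by clear * - u; revert i j c; decide +kernel)
    · exact h1 _ (by clear * - u e; revert i j c; decide +kernel)
  refine eq_top_of_transvection_mem H fun i j h c => ?_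
  by_cases e : i.1 + j.1 = 2
  · have u : i ≠ 1 := by omega
    have v : 1 ≠ j := by omega
    rw [← one_mul c, ← commutator_transvection u v h]
    have p := k i 1 u 1 (by omega)
    have q := k 1 j v c (by omega)
    exact mul_mem (mul_mem (mul_mem p q) (inv_mem p)) (inv_mem q)
  · exact k i j h c e

/-- The centraliser of an involution. -/
theorem exQ (z2 : z * z = 1) (h1 : z ≠ 1) : ∃ i j s r : L3, (i * i = z ∧ j * j = z ∧ i * j ≠ j * i ∧ s * i * s⁻¹ = j ∧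
    s * j * s⁻¹ = i * j ∧ r * r = 1 ∧ r ≠ 1 ∧ r * z = z * r) ∧
      ∀ H : Subgroup L3, (∀ x, x * z = z * x → x ∈ H) → (∀ x, x * r = r * x → x ∈ H) → H = ⊤ := by
  obtain ⟨e, rfl⟩ := invc' z2 h1
  refine ⟨e i0, e j0, e s0, e z1, ?_, fun H p q => ?_⟩
  · simp only [← map_mul, Ne, EmbeddingLike.apply_eq_iff_eq, EmbeddingLike.map_eq_one_iff, mul_inv_eq_iff_eq_mul]
    decide +kernel
  · exact comap_injective (f := e.toMonoidHom) e.surjective ((gen13 (fun x h => p (e x) (by rw [← map_mul, h, map_mul]))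
      fun x h => q (e x) (by rw [← map_mul, h, map_mul])).trans (comap_top _).symm)

/-- The fixed points of an outer involution. -/
theorem exA (t2 : τ * τ = 1) (o : τ ∉ Inn L3) : ∃ a b s : L3, τ a = a ∧ τ b = b ∧ τ s = s ∧ a * a = 1 ∧ a ≠ 1 ∧ s * a * s⁻¹ = b ∧
    s * b * s⁻¹ = a * b := by
  obtain ⟨e, p⟩ := outc' t2 o
  refine ⟨e z1, e z3, e pm0, ?_⟩
  simp only [p, ← map_mul, Ne, EmbeddingLike.apply_eq_iff_eq, EmbeddingLike.map_eq_one_iff, mul_inv_eq_iff_eq_mul, gr_fix]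
  decide +kernel

/-- `O(C(g)) = 1`. -/
theorem odd_nrm (g2 : g * g = 1) (g1 : g ≠ 1) {M : Subgroup L3} (o : ∀ x ∈ M, Odd (orderOf x)) (l : ∀ x ∈ M, x * g = g * x)
    (n : ∀ c, c * g = g * c → ∀ x ∈ M, c * x * c⁻¹ ∈ M) (m : x ∈ M) : x = 1 := by
  have k : ∀ y ∈ M, y ^ 4 = 1 → y = 1 := fun y p q => orderOf_eq_one_iff.1 (Nat.eq_one_of_dvd_coprimes
    ((Nat.coprime_two_right.2 (o y p)).pow_right 2) dvd_rfl (orderOf_dvd_of_pow_eq_one q))
  have k' : ∀ i, i * i = g → i * x = x * i := fun i e => by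
    have c : i * g = g * i := by rw [← e, mul_assoc]
    have := k _ (mul_mem (n i c x m) (inv_mem m)) (by
      simpa [mul_assoc] using (fQ g2 g1 e (j := x * i⁻¹ * x⁻¹) (by
        rw [conj_mul, ← _root_.mul_inv_rev, e, inv_eq_of_mul_eq_one_right g2, l x m, mul_inv_cancel_right])).1)
    rwa [mul_inv_eq_one, mul_inv_eq_iff_eq_mul] at this
  obtain ⟨i, j, -, -, ⟨i2, j2, ij, -⟩, -⟩ := exQ g2 g1
  exact ((fQ g2 g1 i2 j2).2 ij x (k' i i2) (k' j j2)).elim id fun e => k x m (by rw [show 4 = 2 * 2 from rfl, pow_mul, sq x, e, g2, one_pow])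

end Cfsg.Lib.L33
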