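import Cfsg.Agent.Lib.H33.Pc

/-! Models of power-conjugate presentations by `4 × 4` matrices modulo the centre (helper21). -/

set_option autoImplicit false

namespace Cfsg.Lib.L33.Mo

open Subgroup Matrix H33 Calc

theorem rel_len {G : Type*} [Group G] {gs : List G} {D : Dat} (h : Rel gs D) : gs.length = D.length := by
  induction gs generalizing D with
  | nil => cases D; exacts [rfl, h.elim]
  | cons g gs ih =>
    obtain _ | ⟨d, D⟩ := D
    · exact h.elim
    · simp [ih h.2.2]

/-- A presented group embeds in any group where the relations hold and no normal form collapses. -/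
theorem emb {G Q : Type*} [Group G] [Group Q] {gs : List G} {D : Dat} {N : ℕ} (h : PG gs D N) {hs : List Q} (r : Rel hs D)
    (hi : ∀ x < N, el hs x = 1 → x = 0) : ∃ φ : gen gs →* Q, Function.Injective φ := by
  have e : 2 ^ hs.length = N := by rw [rel_len r, ← rel_len h.rel, h.len]
  have k : ∀ x y, el gs x = el gs y → el hs x = el hs y := fun x y a => by
    rw [← el_mod hs x, e, (h.inj _ _).1 a, ← e, el_mod]
  choose f f1 f2 using fun g : gen gs => h.ex g.2
  refine ⟨MonoidHom.mk' (fun g => el hs (f g)) fun a b => ?_, (injective_iff_map_eq_one _).2 fun a ha => ?_⟩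
  · rw [← r.mul]
    exact k _ _ (by rw [← f2, ← h.mul, ← f2, ← f2]; rfl)
  · exact Subtype.ext (by rw [f2, hi _ (f1 a) ha, el_zero]; rfl)

theorem sylow {G Q : Type*} [Group G] [Group Q] [Finite Q] {gs : List G} {D : Dat} {N : ℕ} (h : PG gs D N) {hs : List Q}
    (r : Rel hs D) (hi : ∀ x < N, el hs x = 1 → x = 0) (hN : N = 2 ^ (Nat.card Q).factorization 2) (P : Sylow 2 Q) :
    Nonempty (gen gs ≃* (P : Subgroup Q)) := by
  haveI : Fact (Nat.Prime 2) := ⟨Nat.prime_two⟩
  obtain ⟨φ, hφ⟩ := emb h r hi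
  let e := MonoidHom.ofInjective hφ
  let S : Sylow 2 Q := Sylow.ofCard φ.range (by rw [← Nat.card_congr e.toEquiv, h.card, hN])
  exact ⟨e.trans (Sylow.equiv S P)⟩

/-- Entry `(i, j)` of a code. -/
def en (c i j : ℕ) : ℕ := get 4 c (Nat.add (Nat.mul 4 i) j)

/-- Product of codes. -/
noncomputable def mm (p c d : ℕ) : ℕ := forceN c fun c => forceN d fun d =>
  pack 4 (fun k => forceN (Nat.div k 4) fun i => forceN (Nat.mod k 4) fun j =>
    Nat.mod (Nat.add (Nat.add (Nat.mul (en c i 0) (en d 0 j)) (Nat.mul (en c i 1) (en d 1 j)))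
      (Nat.add (Nat.mul (en c i 2) (en d 2 j)) (Nat.mul (en c i 3) (en d 3 j)))) p) 16

theorem en_mm {p : ℕ} (h0 : 0 < p) (hp : p ≤ 16) (c d : ℕ) {i j : ℕ} (hi : i < 4) (hj : j < 4) : en (mm p c d) i j =
    (en c i 0 * en d 0 j + en c i 1 * en d 1 j + (en c i 2 * en d 2 j + en c i 3 * en d 3 j)) % p := by
  rw [mm, forceN_eq, forceN_eq, en, get_pack (fun k _ => by
    rw [forceN_eq, forceN_eq]; exact (Nat.mod_lt _ h0).trans_le hp) (show Nat.add (Nat.mul 4 i) j < 16 from (by omega : 4 * i + j < 16)), forceN_eq, forceN_eq,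
    show Nat.div (Nat.add (Nat.mul 4 i) j) 4 = i from (by omega : (4 * i + j) / 4 = i),
    show Nat.mod (Nat.add (Nat.mul 4 i) j) 4 = j from (by omega : (4 * i + j) % 4 = j)]
  rfl

/-- The code of the identity. -/
def c1 : ℕ := 1152921504606846976 + 1099511627776 + 1048576 + 1

/-- The code of a normal form. -/
noncomputable def elc (p : ℕ) (cs : List ℕ) : ℕ → ℕ :=
  List.rec (fun _ => c1) (fun c _ ih x => forceN x fun x => forceN (ih (Nat.div x 2)) fun u => cnd (od x) (mm p c u) u) cs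

theorem elc_cons (p c : ℕ) (cs : List ℕ) (x : ℕ) :
    elc p (c :: cs) x = if x % 2 = 1 then mm p c (elc p cs (x / 2)) else elc p cs (x / 2) := by
  change (forceN x fun x => forceN (elc p cs (Nat.div x 2)) fun u => cnd (od x) (mm p c u) u) = _
  rw [forceN_eq, forceN_eq, cnd_od]; rfl

/-- Equal up to a scalar. -/
noncomputable def eqs (p c d : ℕ) : Bool := forceB c fun c => forceB d fun d =>
  anyLt p fun s => allLt 4 fun i => allLt 4 fun j => Nat.beq (Nat.mod (en c i j) p) (Nat.mod (Nat.mul s (en d i j)) p)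

/-- Different. -/
noncomputable def neq (p c d : ℕ) : Bool := forceB c fun c => forceB d fun d =>
  anyLt 4 fun i => anyLt 4 fun j => !Nat.beq (Nat.mod (en c i j) p) (Nat.mod (en d i j) p)

/-- The relations hold up to scalars. -/
noncomputable def relc (p : ℕ) (cs : List ℕ) : Dat → Bool :=
  List.rec (fun D => D.isEmpty) (fun c cs ih D => List.rec false (fun d D _ =>
    band (band (eqs p (mm p c c) (elc p cs d.1))
      (decide (List.Forall₂ (fun h e => eqs p (mm p h c) (mm p c (elc p cs e)) = true) cs d.2))) (ih D)) D) cs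

/-- No non-trivial normal form is central. -/
noncomputable def ncc (p : ℕ) (cs : List ℕ) (N : ℕ) : Bool :=
  allLt N fun x => bor (Nat.beq x 0) (forceB (elc p cs x) fun e => !allL cs fun c => !neq p (mm p e c) (mm p c e))

/-- A numbering of an index type with four elements. -/
structure Ix (ι : Type) [Fintype ι] [DecidableEq ι] where
  ix : ι → ℕ
  lt : ∀ i, ix i < 4
  sur : ∀ k < 4, ∃ i, ix i = k
  inj : Function.Injective ix
  sum : ∀ {R : Type} [AddCommMonoid R] (f : ℕ → R), ∑ l, f (ix l) = f 0 + f 1 + (f 2 + f 3)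

variable {ι : Type} [Fintype ι] [DecidableEq ι] (X : Ix ι) {p : ℕ}

/-- The matrix of a code. -/
def mat (p c : ℕ) : Matrix ι ι (ZMod p) := of fun i j => (en c (X.ix i) (X.ix j) : ZMod p)

theorem mat_mm (h0 : 0 < p) (hp : p ≤ 16) (c d : ℕ) : mat X p (mm p c d) = mat X p c * mat X p d := by
  ext i j
  rw [mul_apply]
  refine Eq.trans ?_ (X.sum fun l => (en c (X.ix i) l : ZMod p) * (en d l (X.ix j) : ZMod p)).symm
  rw [mat, of_apply, en_mm h0 hp _ _ (X.lt i) (X.lt j), ZMod.natCast_mod]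
  push_cast; rfl

theorem mat_c1 : mat X p c1 = 1 := by
  ext i j
  have : ∀ a < 4, ∀ b < 4, en c1 a b = if a = b then 1 else 0 := by decide +kernel
  rw [mat, of_apply, this _ (X.lt i) _ (X.lt j), one_apply]
  simp [X.inj.eq_iff]

theorem of_eqs {c d : ℕ} (h : eqs p c d = true) : ∃ s : ZMod p, mat X p c = s • mat X p d := by
  rw [eqs, forceB_eq, forceB_eq] at h
  obtain ⟨s, -, h⟩ := anyLt_iff.1 h
  refine ⟨s, ?_⟩
  ext i j
  have := beq_iff.1 (of_allLt (of_allLt h (X.lt i)) (X.lt j))
  rw [Matrix.smul_apply, mat, mat, of_apply, of_apply, smul_eq_mul, ← Nat.cast_mul]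
  exact (ZMod.natCast_eq_natCast_iff' _ _ _).2 this

theorem of_neq {c d : ℕ} (h : neq p c d = true) : mat X p c ≠ mat X p d := fun e => by
  rw [neq, forceB_eq, forceB_eq] at h
  obtain ⟨a, ha, h⟩ := anyLt_iff.1 h
  obtain ⟨b, hb, h⟩ := anyLt_iff.1 h
  obtain ⟨i, rfl⟩ := X.sur a ha
  obtain ⟨j, rfl⟩ := X.sur b hb
  have := (ZMod.natCast_eq_natCast_iff' _ _ _).1 (congrFun (congrFun e i) j)
  rw [beq_iff.2 (show Nat.mod _ p = Nat.mod _ p from this)] at h
  exact absurd h (by decide)

variable {G : Type*} [Group G] (ρ : G →* Matrix ι ι (ZMod p))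

theorem rho_el (h0 : 0 < p) (hp : p ≤ 16) {ms : List G} {cs : List ℕ}
    (h : List.Forall₂ (fun g c => ρ g = mat X p c) ms cs) (x : ℕ) : ρ (el ms x) = mat X p (elc p cs x) := by
  induction h generalizing x with
  | nil => exact (map_one ρ).trans (mat_c1 X).symm
  | cons e _ ih =>
    rw [elc_cons, el, map_mul]
    split_ifs
    · rw [mat_mm X h0 hp, e, ih]
    · rw [map_one, one_mul, ih]

theorem el_map {Q : Type*} [Group Q] (π : G →* Q) (ms : List G) (x : ℕ) : el (ms.map π) x = π (el ms x) := by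
  induction ms generalizing x with
  | nil => exact (map_one π).symm
  | cons g ms ih => rw [List.map_cons, el, el, map_mul, ih]; split_ifs <;> simp

theorem mk_eq (hρ : Function.Injective ρ) {a b : G} {s : ZMod p} (h : ρ a = s • ρ b) :
    QuotientGroup.mk' (center G) a = QuotientGroup.mk' (center G) b := by
  have e : ρ (a * b⁻¹) = s • 1 := by rw [map_mul, h, smul_mul_assoc, ← map_mul, mul_inv_cancel, map_one]
  rw [← mul_inv_eq_one, ← map_inv, ← map_mul, QuotientGroup.mk'_apply, QuotientGroup.eq_one_iff, mem_center_iff]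
  exact fun g => hρ (by rw [map_mul ρ g, map_mul ρ _ g, e]; simp)

theorem comp2 {α β γ : Type*} {R : α → β → Prop} {S : β → γ → Prop} {T : α → γ → Prop} {a : List α} {b : List β} {c : List γ}
    (h : List.Forall₂ R a b) (k : List.Forall₂ S b c) (t : ∀ x y z, R x y → S y z → T x z) : List.Forall₂ T a c := by
  induction h generalizing c with
  | nil => cases k; exact .nil
  | cons e _ ih => cases k with | cons e' k => exact .cons (t _ _ _ e e') (ih k)

theorem rel_of (h0 : 0 < p) (hp : p ≤ 16) (hρ : Function.Injective ρ) {ms : List G} {cs : List ℕ}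
    (h : List.Forall₂ (fun g c => ρ g = mat X p c) ms cs) {D : Dat} (r : relc p cs D = true) :
    Rel (ms.map (QuotientGroup.mk' (center G))) D := by
  induction h generalizing D with
  | nil =>
    obtain rfl : D = [] := by simpa [relc] using r
    trivial
  | @cons g c ms cs e h ih =>
    obtain _ | ⟨d, D⟩ := D
    · exact absurd r (by simp [relc])
    obtain ⟨r1, r3⟩ := band_eq_true.1 r
    obtain ⟨r1, r2⟩ := band_eq_true.1 r1
    refine ⟨?_, ?_, ih r3⟩
    · obtain ⟨s, a⟩ := of_eqs X r1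
      rw [el_map, ← map_mul]
      exact mk_eq ρ hρ (s := s) (by rw [map_mul, e, rho_el X ρ h0 hp h, ← a, mat_mm X h0 hp])
    · rw [List.forall₂_map_left_iff]
      refine comp2 h (of_decide_eq_true r2) fun a u x ea eu => ?_
      obtain ⟨s, b⟩ := of_eqs X eu
      rw [el_map, cg, mul_assoc, inv_mul_eq_iff_eq_mul, ← map_mul, ← map_mul]
      exact mk_eq ρ hρ (s := s) (by
        rw [map_mul, map_mul, e, ea, rho_el X ρ h0 hp h, ← mat_mm X h0 hp, b, mat_mm X h0 hp])

theorem exists_list {cs : List ℕ} (h : ∀ c ∈ cs, ∃ g, ρ g = mat X p c) :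
    ∃ ms : List G, List.Forall₂ (fun g c => ρ g = mat X p c) ms cs := by
  induction cs with
  | nil => exact ⟨[], .nil⟩
  | cons c cs ih =>
    obtain ⟨g, e⟩ := h c (.head _)
    obtain ⟨ms, e'⟩ := ih fun c hc => h c (.tail _ hc)
    exact ⟨g :: ms, .cons e e'⟩

theorem model [Finite G] (h0 : 0 < p) (hp : p ≤ 16) (hρ : Function.Injective ρ) (cs : List ℕ)
    (h : ∀ c ∈ cs, ∃ g, ρ g = mat X p c) {D : Dat} {N : ℕ} (r : relc p cs D = true) (n : ncc p cs N = true)
    (hN : N = 2 ^ (Nat.card (G ⧸ center G)).factorization 2) {H : Type*} [Group H] {gs : List H} (hg : PG gs D N)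
    (P : Sylow 2 (G ⧸ center G)) : Nonempty (gen gs ≃* (P : Subgroup (G ⧸ center G))) := by
  obtain ⟨ms, e⟩ := exists_list X ρ h
  refine sylow hg (rel_of X ρ h0 hp hρ e r) (fun x hx a => ?_) hN P
  rcases bor_eq_true.1 (of_allLt n hx) with b | b
  · exact beq_iff.1 b
  rw [forceB_eq, Bool.not_eq_true', ← Bool.not_eq_true, allL_iff] at b
  refine absurd (fun c hc => ?_) b
  obtain ⟨g, k⟩ := h c hc
  rw [Bool.not_eq_true', ← Bool.not_eq_true]
  refine fun b => of_neq X b ?_
  rw [el_map, QuotientGroup.mk'_apply, QuotientGroup.eq_one_iff, mem_center_iff] at a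
  rw [mat_mm X h0 hp, mat_mm X h0 hp, ← k, ← rho_el X ρ h0 hp e, ← map_mul, ← map_mul, a]

end Cfsg.Lib.L33.Mo
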