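import Cfsg.Agent.Lib.L33.Def
import Cfsg.Agent.Lib.H33.Sy
import Cfsg.Agent.Lib.L33.ModA
import Cfsg.Agent.Lib.Symp.Group
import Cfsg.Agent.S0243

/-! S3140 (helper5; proofs helper21): models of the Sylow 2-subgroups of `L₄(3)` and `PSp₄(3)`.
Two groups with the same presentation `PG` are isomorphic (`el gs x ↦ el gs' x`, `PG.mul`, `PG.inj`, `PG.ex`). For the models build `PG` in
the quotient with `PG.cons` (or check `Rel` for matrices modulo `±1` and count), then compare orders (`|L₄(3)|₂ = 128`, `|PSp₄(3)|₂ = 64`).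
`DB = D₈ ≀ 2`, generators `w x₁ y₁ x₂ y₂ u z`; matrices in `SL₄(3)` (rows), correct modulo `±1`:
`w = [0100;2000;0011;0012]`, `x₁ = [0001;0011;1200;2000]`, `y₁ = [0010;0001;1000;0100]`, `x₂ = [0010;0012;2000;2100]`,
`y₂ = [0012;0022;2100;1100]`, `u = [1100;1200;0022;0021]`, `z = diag(1,1,2,2)`.
`DM` (type `M₂₂`, Sylow of `L₄(5)`, order 128), generators `s y₁ y₂ u k r z`, matrices in `SL₄(5)` correct modulo scalars: `[0100;1000;0010;0004]`,
`[0100;4000;0001;0040]`, `[0001;0010;0100;1000]`, `diag(1,2,2,4)`, `diag(1,1,3,2)`, `diag(1,4,4,1)`, `diag(1,1,4,4)`.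
`DW = (Q₈ ≀ 2)/Z`, generators `r a₂ b₂ a₃ b₃ k`: `r` swaps two hyperbolic planes, `a_i, b_i` generate `Q₈ ≤ SL₂(3)` on the planes. -/

set_option autoImplicit false

namespace Cfsg.Lib.L33

open Subgroup Matrix H33
open scoped MatrixGroups

def DB : Dat := [(0, [4, 8, 1, 2, 48, 32]), (0, [9, 2, 4, 8, 16]), (0, [1, 2, 4, 8]), (0, [7, 2, 4]), (0, [1, 2]), (0, [1]), (0, [])]

def DM : Dat := [(0, [1, 3, 60, 8, 48, 32]), (0, [1, 26, 20, 8, 16]), (0, [5, 14, 4, 8]), (2, [1, 2, 4]), (2, [1, 2]), (0, [1]), (0, [])]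

instance fact5 : Fact (Nat.Prime 5) := ⟨Nat.prime_five⟩

def DW : Dat := [(0, [4, 8, 1, 2, 16]), (8, [9, 2, 4, 8]), (4, [1, 2, 4]), (2, [3, 2]), (1, [1]), (0, [])]

def ix4 : Mo.Ix (Fin 4) where
  ix := Fin.val
  lt := Fin.is_lt
  sur k h := ⟨⟨k, h⟩, rfl⟩
  inj := Fin.val_injective
  sum f := by simp [Fin.sum_univ_four, add_assoc]

def ix22 : Mo.Ix (Fin 2 ⊕ Fin 2) where
  ix := Sum.elim Fin.val fun i => 2 + i.val
  lt := by decide
  sur := by decide
  inj := by decide
  sum f := by simp [Fintype.sum_sum_type, Fin.sum_univ_two]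

theorem modSL {p : ℕ} [Fact p.Prime] (hp : p ≤ 16) (cs : List ℕ) (h : ∀ c ∈ cs, (Mo.mat ix4 p c).det = 1) {D : Dat} {N n : ℕ}
    (r : Mo.relc p cs D = true) (k : Mo.ncc p cs N = true)
    (hn : Nat.gcd 4 (p - 1) * ((p - 1) * n) = ∏ i : Fin 4, (p ^ 4 - p ^ (i : ℕ))) (hN : N = 2 ^ n.factorization 2)
    {H : Type*} [Group H] {gs : List H} (hg : PG gs D N) (P : Sylow 2 PSL(4, ZMod p)) :
    Nonempty (gen gs ≃* (P : Subgroup PSL(4, ZMod p))) := by
  have h1 := (Fact.out : p.Prime).one_lt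
  have : NeZero p := ⟨by omega⟩
  have c := (Cfsg.Agent.S0243.result (ZMod.card p) 4 (by decide)).trans hn.symm
  have c := Nat.eq_of_mul_eq_mul_left (by omega) (Nat.eq_of_mul_eq_mul_left (Nat.gcd_pos_of_pos_left _ (by decide)) c)
  exact Mo.model ix4 (G := SL(4, ZMod p)) (SpecialLinearGroup.coeMonoidHom) (by omega) hp Subtype.val_injective cs
    (fun c hc => ⟨⟨_, h c hc⟩, rfl⟩) r k (c ▸ hN) hg P

theorem modB {H : Type*} [Group H] {gs : List H} (h : PG gs DB 128) (P : Sylow 2 PSL(4, F3)) :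
    Nonempty (gen gs ≃* (P : Subgroup PSL(4, F3))) :=
  modSL (p := 3) (n := 6065280) (by decide) [2377919294949425168, 563091972558848, 4503604190773504, 5066558724374784,
    4785152483926272, 1297074076080209937, 2305845208237998081] (by decide +kernel) (by decide +kernel) (by decide +kernel)
    (by decide +kernel) (by rw [Nat.factorization_def _ Nat.prime_two]; decide +kernel) h P

theorem modM {H : Type*} [Group H] {gs : List H} (h : PG gs DM 128) (P : Sylow 2 PSL(4, ZMod 5)) :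
    Nonempty (gen gs ≃* (P : Subgroup PSL(4, ZMod 5))) :=
  modSL (p := 5) (n := 7254000000) (by decide) [4611687117939081232, 288247968338018320, 281543712968704, 4611688217452740609,
    2305846307749625857, 1152925902657552385, 4611690416474947585] (by decide +kernel) (by decide +kernel) (by decide +kernel)
    (by decide +kernel) (by rw [Nat.factorization_def _ Nat.prime_two]; decide +kernel) h P

theorem modW {H : Type*} [Group H] {gs : List H} (h : PG gs DW 64) (P : Sylow 2 (PSp 2 F3)) :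
    Nonempty (gen gs ≃* (P : Subgroup (PSp 2 F3))) := by
  have a := Symp.card_psp_mul (l := Fin 2) (F := F3)
  rw [Symp.card_sp, Nat.card_zmod, Fintype.card_fin] at a
  have a : Nat.card (PSp 2 F3) = 25920 := Nat.eq_of_mul_eq_mul_left two_pos (a.trans (by decide))
  have : ∀ c ∈ [72075186224037904, 1152921508902863360, 1152923707926118657, 4504699675869185, 2310347708622176257,
      1152923703631151106], Mo.mat ix22 3 c * J (Fin 2) F3 * (Mo.mat ix22 3 c)ᵀ = J (Fin 2) F3 := by decide +kernel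
  exact Mo.model ix22 (symplecticGroup (Fin 2) F3).subtype (by decide) (by decide) Subtype.val_injective _
    (fun c hc => ⟨⟨_, SymplecticGroup.mem_iff.2 (this c hc)⟩, rfl⟩) (by decide +kernel) (by decide +kernel)
    (by rw [a, Nat.factorization_def _ Nat.prime_two]; decide +kernel) h P

end Cfsg.Lib.L33
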