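import Cfsg.Agent.Lib.L33.Tl
import Cfsg.Agent.Lib.L33.P6
import Cfsg.Agent.Lib.L33.Mod

/-! S3140 (helper5): the possible outcomes of the 2-local analysis. -/

set_option autoImplicit false

namespace Cfsg.Lib.L33

open Subgroup H33

variable {G : Type*} [Group G]

/-- `P5` without reference to `L`. -/
structure Q5 (X : Subgroup G) (t r z : G) where
  gs : List G
  pg : PG gs DT 1024
  syl : ¬ 2 * 1024 ∣ Nat.card G
  ht : el gs 1 = t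
  hr : el gs 2 = r
  hz : el gs 512 = z
  mX : ∀ x, el gs x ∈ X ↔ x % 2 = 0
  sig : ∃ σ ∈ X, Mp pg pg σ 1 1 ∧ Mp pg pg σ 4 4 ∧ Mp pg pg σ 8 8 ∧ Mp pg pg σ 16 32 ∧ Mp pg pg σ 32 48 ∧ Mp pg pg σ 64 960 ∧
    Mp pg pg σ 128 64

/-- `P6` without reference to `L`. -/
structure Q6 (X : Subgroup G) (t r z : G) extends Q5 X t r z where
  rho : ∃ ρ ∈ X ⊓ normalizer (MS gs 1020 : Set G), Mp pg pg ρ 512 256 ∧ Mp pg pg ρ 256 768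
  del : ∃ δ ∈ X, Mp pg pg δ 256 256 ∧ Mp pg pg δ 512 512 ∧ ∃ i, (i = 4 ∨ i = 8) ∧
    ∀ p ∈ [(i, 12 - i), (12 - i, 12), (16, 16), (32, 32), (64, 128), (128, 192)], ∃ y < 1024, y % 256 = p.2 ∧ Mp pg pg δ p.1 y
  rk : ∃ h ∈ X, Mp pg pg h 512 512 ∧ Mp pg pg h 2 256 ∧ ∀ x, IM 514 (cj DT 2 x % 1024) → cg (el gs x) h ∈ gen gs
  zf : ∀ x < 1024, IsConj (el gs 512) (el gs x) → IM 768 x ∨ ∃ v < 1024, v % 2 = 0 ∧ EQ 1024 (cj DT 2 v) x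
  sc : ∀ g x y, Mp pg pg g 512 512 → IM 524 x → Mp pg pg g x y → IM 524 (y % 1024)

/-- A Sylow 2-subgroup of `X` is `Z₈ ≀ Z₂`. -/
def OutA (X : Subgroup G) : Prop := ∃ S ≤ X, Nat.card S = 128 ∧ ¬ 2 * 128 ∣ Nat.card X ∧ IsWreathed S

/-- A Sylow 2-subgroup of `X` is of type `L₄(3)` or `L₄(5)`, with centre generated by a conjugate of `z`. -/
def OutB (X : Subgroup G) (z : G) : Prop :=
  ∃ gs D, (D = DB ∨ D = DM) ∧ PG gs D 128 ∧ gen gs ≤ X ∧ ¬ 2 * 128 ∣ Nat.card X ∧ IsConj z (el gs 64)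

def Out {e : Bool} (C : Cx G e) : Prop :=
  OutA C.X ∨ OutB C.X (el C.gs 32) ∨ e = true ∧ Nonempty (Q6 C.X (el C.gs 8) (el C.gs 2) (el C.gs 32))

end Cfsg.Lib.L33
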