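import Cfsg.Agent.Lib.L33.Fb

/-! S3140 (helper5; proof helper21): pairs of commuting involutions of `L₃(3)` are conjugate. -/

set_option autoImplicit false
set_option synthInstance.maxSize 2048

namespace Cfsg.Lib.L33

open Subgroup


theorem cP : ∀ p ∈ c48, mk3 p * mk3 p = 1 → mk3 p = 1 ∨ mk3 p = z3.1 ∨ ∃ q ∈ c48, dt3 (mk3 q) = 1 ∧ mk3 q * z3.1 = z3.1 * mk3 q ∧
    mk3 q * z1.1 = mk3 p * mk3 q := by decide +kernel

theorem pair {g h : L3} (g2 : g * g = 1) (h2 : h * h = 1) (g1 : g ≠ 1) (h1 : h ≠ 1) (n : g ≠ h) (c : g * h = h * g) :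
    ∃ w : L3, w * z1 * w⁻¹ = g ∧ w * z3 * w⁻¹ = h := by
  obtain ⟨u, rfl⟩ := invc h2 h1
  obtain ⟨x, rfl⟩ : ∃ x, g = u * x * u⁻¹ := ⟨u⁻¹ * g * u, by group⟩
  rw [conj_mul, conj_mul, mul_left_inj, mul_right_inj] at c
  rw [conj_mul, conj_eq_one_iff] at g2
  obtain ⟨p, m, e⟩ := in48 c
  obtain a | a | ⟨q, -, a, b, d⟩ := cP p m (by rw [e]; exact congrArg Subtype.val g2)
  · exact absurd (conj_eq_one_iff.2 (show x = 1 from Subtype.ext (e.symm.trans a))) g1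
  · exact absurd (by rw [show x = z3 from Subtype.ext (e.symm.trans a)]) n
  · let v : L3 := ⟨mk3 q, (dt3_eq _).symm.trans a⟩
    have b : v * z3 * v⁻¹ = z3 := mul_inv_eq_of_eq_mul (Subtype.ext b)
    have d : v * z1 * v⁻¹ = x := mul_inv_eq_of_eq_mul (Subtype.ext (d.trans (by rw [e]; rfl)))
    exact ⟨u * v, by rw [← d]; group, by nth_rw 2 [← b]; group⟩

end Cfsg.Lib.L33
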