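import Cfsg.Agent.Lib.L33.P6
import Cfsg.Agent.Lib.L33.Img
import Cfsg.Agent.Lib.BG.Quo

/-! S3140, case `PSp₆(3)` (helper11): the group `T` with presentation `DT` inside any finite group; action on `Q/V`. -/

set_option autoImplicit false

namespace Cfsg.Lib.H33

open Subgroup

variable {G H : Type*} [Group G] [Group H] {gs : List G} {D : Dat} {N : ℕ}

theorem ms_map (φ : G →* H) (gs : List G) (m : ℕ) : MS (gs.map φ) m = (MS gs m).map φ := by
  rw [MS, MS, MonoidHom.map_closure]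
  congr 1
  ext x
  exact ⟨fun ⟨i, a, b⟩ => ⟨_, ⟨i, a, rfl⟩, by rw [b, el_mapl]⟩, fun ⟨_, ⟨i, a, b⟩, c⟩ => ⟨i, a, by rw [el_mapl, ← b, c]⟩⟩

theorem PG.map' (φ : G →* H) (h : PG gs D N) (i : ∀ x ∈ gen gs, φ x = 1 → x = 1) : PG (gs.map φ) D N := by
  induction gs generalizing D N with
  | nil => exact ⟨by cases D; exacts [trivial, h.rel], trivial, h.len⟩
  | cons g gs ih =>
    obtain _ | ⟨d, D⟩ := D
    · exact h.rel.elim
    obtain rfl : 2 * 2 ^ gs.length = N := (pow_succ' _ _).symm.trans h.len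
    have p := ih h.tail fun x m => i x (gen_tail _ _ m)
    refine p.cons (fun m => h.ind.1 ?_) (by rw [← map_mul, h.rel.1, el_mapl])
      (List.forall₂_map_left_iff.2 (h.rel.2.1.imp fun _ _ e => by rw [← cg_map, e, el_mapl]))
    obtain ⟨x, -, e⟩ := p.ex m
    rw [el_mapl, ← inv_mul_eq_one, ← map_inv, ← map_mul] at e
    exact inv_mul_eq_one.1 (i _ (mul_mem (inv_mem (mem_gen (.head _))) (gen_tail _ _ (el_mem _ _))) e) ▸ el_mem _ _

theorem PG.lift' (h : PG gs D N) {K : Subgroup G} (l : gen gs ≤ K) :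
    ∃ gs' : List K, PG gs' D N ∧ (∀ x, ((el gs' x : K) : G) = el gs x) ∧ ∀ m, MS gs' m = (MS gs m).subgroupOf K := by
  obtain ⟨gs', rfl⟩ : ∃ gs' : List K, gs'.map K.subtype = gs :=
    ⟨gs.pmap Subtype.mk fun x m => l (mem_gen m), by simp [List.map_pmap]⟩
  exact ⟨gs', h.of_map _ K.subtype_injective, fun x => (el_mapl K.subtype _ _).symm, fun m => by
    rw [ms_map, ← comap_subtype, comap_map_eq_self_of_injective K.subtype_injective]⟩

theorem PG.card_ms [Finite G] (h : PG gs D N) {m : ℕ} (k : msOK D N m) :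
    Nat.card (MS gs m) = ((Finset.range N).filter (IM m)).card := by
  rw [← Nat.card_eq_finsetCard]
  refine (Nat.card_eq_of_bijective (fun x : (Finset.range N).filter (IM m) =>
    (⟨el gs x, el_mem_ms (Finset.mem_filter.1 x.2).2⟩ : MS gs m)) ⟨fun x y e => ?_, fun g => ?_⟩).symm
  · have := (h.inj _ _).1 (congrArg Subtype.val e)
    rw [Nat.mod_eq_of_lt (Finset.mem_range.1 (Finset.mem_filter.1 x.2).1),
      Nat.mod_eq_of_lt (Finset.mem_range.1 (Finset.mem_filter.1 y.2).1)] at this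
    exact Subtype.ext this
  · obtain ⟨x, a, b, c⟩ := h.ex_ms k g.2
    exact ⟨⟨x, Finset.mem_filter.2 ⟨Finset.mem_range.2 a, b⟩⟩, Subtype.ext c.symm⟩

theorem mem_of_sq [Finite G] {K : Subgroup G} {y : G} (o : Odd (orderOf y)) (h : y * y ∈ K) : y ∈ K := by
  obtain ⟨k, e⟩ := o
  have := pow_mem h (k + 1)
  rwa [← sq, ← pow_mul, mul_add, mul_one, show 2 * k + 2 = 2 * k + 1 + 1 from rfl, ← e, pow_succ,
    pow_orderOf_eq_one, one_mul] at this

theorem rcK_norm [Finite G] {Q V B : Subgroup G} (a : V ≤ B) (b : B ≤ Q) : rcK Q V ≤ normalizer (B : Set G) :=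
  fun g hg => mem_norm_of_cg fun x hx => by simpa [cm] using mul_mem hx (a (hg.2 x (b hx)))

end Cfsg.Lib.H33

namespace Cfsg.Lib.L33

open Subgroup H33 Cfsg.Lib.BG

theorem okV : msOK DT 1024 768 := by decide +kernel
theorem okQ : msOK DT 1024 1020 := by decide +kernel
theorem okS : msOK DT 1024 1022 := by decide +kernel
theorem okA : msOK DT 1024 524 := by decide +kernel
theorem okW : msOK DT 1024 1010 := by decide +kernel
theorem okZ : msOK DT 1024 512 := by decide +kernel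
theorem okL : msOK DT 1024 514 := by decide +kernel
theorem okE : msOK DT 1024 515 := by decide +kernel

/-- Congruence modulo `V`. -/
def EV (x y : ℕ) : Prop := IM 768 (mul DT (inv DT x) y % 1024)

noncomputable instance decEV (x y : ℕ) : Decidable (EV x y) := decIM _ _

/-- The generators of `Q` modulo `V`. -/
def xs : List ℕ := [4, 8, 16, 32, 64, 128]

/-- The action with images `cs` of the generators. -/
noncomputable def FF (cs : List ℕ) (x : ℕ) : ℕ := hm (mul DT) cs (x % 256 / 4)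

/-- The action has order 3 and is inverted by `u`. -/
def Ok3 (cs : List ℕ) : Prop := (∀ j < 64, IM 1020 (hm (mul DT) cs j % 1024)) ∧ ∀ i < 8, 2 ≤ i →
  EV (FF cs (cj DT (FF cs (cj DT (2 ^ i) (inv DT 3))) 3)) (2 ^ i) ∧ EV (FF cs (FF cs (FF cs (2 ^ i)))) (2 ^ i)

noncomputable instance decOk3 (cs : List ℕ) : Decidable (Ok3 cs) := by unfold Ok3; infer_instance

/-- `m` is the set of elements of `Q` with commutators in `⟨c⟩`. -/
def ZOK (m c : ℕ) : Prop := msOK DT 1024 m ∧ IM 1020 m ∧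
  (∀ x < 1024, IM m x → ∀ y < 256, EQ 1024 (ck DT x (4 * y)) 0 ∨ EQ 1024 (ck DT x (4 * y)) c) ∧
  ∀ x < 1024, IM 1020 x → (∀ j < 8, 2 ≤ j → EQ 1024 (ck DT x (2 ^ j)) 0 ∨ EQ 1024 (ck DT x (2 ^ j)) c) → IM m x

noncomputable instance decZOK (m c : ℕ) : Decidable (ZOK m c) := by unfold ZOK; infer_instance

theorem zk1 : ZOK 780 512 := by decide +kernel
theorem zk2 : ZOK 816 256 := by decide +kernel
theorem zk3 : ZOK 960 768 := by decide +kernel

def cSg : List ℕ := [4, 8, 32, 48, 960, 64]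
def cD (i : ℕ) : List ℕ := if i = 4 then [8, 12, 16, 32, 128, 192] else [12, 4, 16, 32, 128, 192]

theorem okcS : Ok3 cSg := by decide +kernel
theorem okcD (i : ℕ) : Ok3 (cD i) := by unfold cD; split_ifs <;> decide +kernel

/-- Elements obtained from `x`. -/
noncomputable def LL (cd : List ℕ) (x : ℕ) : List ℕ :=
  let c := mul DT (inv DT x) (FF cSg x)
  let d := mul DT (inv DT c) (FF cd c)
  [x, FF cd x, FF cd (FF cd x), c, FF cSg c, FF cSg (FF cSg c), d, FF cSg d, FF cSg (FF cSg d)]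

theorem okL3 (i : ℕ) : ∀ x < 1024, IM 1020 x → ¬ IM 768 x → ∃ p ∈ [2, 4, 6],
    (∃ y ∈ LL (cD i) x, EV y (2 ^ p)) ∧ ∃ y ∈ LL (cD i) x, EV y (2 ^ (p + 1)) := by
  unfold cD; split_ifs <;> decide +kernel

variable {H : Type*} [Group H] [Finite H] {gs : List H} {h : PG gs DT 1024} {g g' : H} {x y x' y' w : ℕ}
  {B M : Subgroup H} {cs : List ℕ}

local notation "𝐕" => MS gs 768
local notation "𝐓" => MS gs 1020

section
variable (h)
include h

theorem nV (x : ℕ) : el gs x ∈ 𝐍(𝐕) := h.le_nm (k := 1023) (by decide +kernel) (h.ms_top.ge (el_mem _ _))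
theorem nQ (x : ℕ) : el gs x ∈ 𝐍(𝐓) := h.le_nm (k := 1023) (by decide +kernel) (h.ms_top.ge (el_mem _ _))
theorem ev_iff : (el gs x)⁻¹ * el gs y ∈ 𝐕 ↔ EV x y := by rw [h.inv, h.mul, h.mem_ms okV]; rfl

theorem V_sq {v : H} (m : v ∈ 𝐕) : v * v = 1 := by
  obtain ⟨x, a, b, rfl⟩ := h.ex_ms okV m
  rw [h.mul, h.one]
  clear m; revert x; decide +kernel

theorem V_cases {v : H} (m : v ∈ 𝐕) : v = 1 ∨ v = el gs 256 ∨ v = el gs 512 ∨ v = el gs 768 := by
  obtain ⟨x, a, b, rfl⟩ := h.ex_ms okV m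
  have : x = 0 ∨ x = 256 ∨ x = 512 ∨ x = 768 := by clear m; revert x; decide +kernel
  rcases this with rfl | rfl | rfl | rfl <;> simp [el_zero]

omit [Finite H] in
theorem mem_cV : g ∈ 𝐂(𝐕) ↔ Mp h h g 256 256 ∧ Mp h h g 512 512 :=
  ⟨fun m => ⟨cg_eq_iff.2 (BG.mem_cent.1 m _ (el_mem_ms (by decide))), cg_eq_iff.2 (BG.mem_cent.1 m _ (el_mem_ms (by decide)))⟩,
    fun m => le_cent1_iff.1 ((ms_le_iff h).2 fun i a b => by
      have : i = 8 ∨ i = 9 := by revert i; decide +kernel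
      rcases this with rfl | rfl
      exacts [mem_cent1.2 (cg_eq_iff.1 m.1), mem_cent1.2 (cg_eq_iff.1 m.2)])⟩

omit [Finite H] in
theorem Q_cV : 𝐓 ≤ 𝐂(𝐕) := (ms_le_iff h).2 fun i a b => (mem_cV h).2
  ⟨.sf h _ _ _ (by revert i; decide +kernel), .sf h _ _ _ (by revert i; decide +kernel)⟩

theorem zi {m c : ℕ} (k : ZOK m c) : g ∈ MS gs m ↔ g ∈ 𝐓 ∧ ∀ y ∈ 𝐓, cm g y = 1 ∨ cm g y = el gs c := by
  constructor
  · intro a'
    obtain ⟨x, a, b, rfl⟩ := h.ex_ms k.1 a'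
    refine ⟨el_mem_ms (k.2.1.trans b), fun y u => ?_⟩
    obtain ⟨y, d, e, rfl⟩ := h.ex_ms okQ u
    rw [h.cm, ← el_zero gs, h.eq, h.eq]
    have : 4 * (y / 4) = y := by clear u; revert y; decide +kernel
    exact this ▸ k.2.2.1 x a b (y / 4) (by omega)
  · rintro ⟨a', e⟩
    obtain ⟨x, a, b, rfl⟩ := h.ex_ms okQ a'
    refine el_mem_ms (k.2.2.2 x a b fun j p q => ?_)
    rw [← h.eq, ← h.eq, el_zero, ← h.cm]
    exact e _ (ms_gen (by revert j; decide))

end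

theorem zi_cg {m c m' c' : ℕ} (k : ZOK m c) (k' : ZOK m' c') (n : g ∈ 𝐍(𝐓)) (a : Mp h h g c c') {u : H}
    (b : u ∈ MS gs m) : cg u g ∈ MS gs m' := by
  rw [zi h k] at b
  refine (zi h k').2 ⟨cg_mem_norm b.1 n, fun y hy => ?_⟩
  rw [← cg_inv_cg y g, ← cg_cm]
  exact (b.2 _ (cg_mem_norm hy (inv_mem n))).imp (fun e => by rw [e, cg_one]) fun e => by rw [e, a]

/-- `g` maps `x` to `y` modulo `V`. -/
def Mq (_ : PG gs DT 1024) (g : H) (x y : ℕ) : Prop := (el gs y)⁻¹ * cg (el gs x) g ∈ 𝐕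

namespace Mq

theorem of (a : Mp h h g x y) (e : EV y' y := by clear_aux_decl; clear * -; decide +kernel +revert) : Mq h g x y' := by
  rw [Mq, a]; exact (ev_iff h).2 e

omit [Finite H] in
theorem of' (a : Mp h h g x y) : Mq h g x y := by rw [Mq, a, inv_mul_cancel]; exact one_mem _

theorem mul (a : Mq h g x y) (b : Mq h g x' y') : Mq h g (mul DT x x') (mul DT y y') := by
  have := mul_mem (cg_mem_norm a (nV h y')) b
  rw [Mq, ← h.mul, ← h.mul, cg_mul]
  simpa [cg, mul_assoc] using this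

omit [Finite H] in
theorem trans (a : Mq h g x y) (b : Mq h g' y w) (n : g' ∈ 𝐍(𝐕)) : Mq h (g * g') x w := by
  have := mul_mem b (cg_mem_norm a n)
  simpa [Mq, cg, mul_assoc] using this

omit [Finite H] in
theorem symm (a : Mq h g x y) (n : g ∈ 𝐍(𝐕)) : Mq h g⁻¹ y x := by
  have := cg_mem_norm (inv_mem a) (inv_mem n)
  simpa [Mq, cg, mul_assoc] using this

theorem cast (a : Mq h g x y) (n : g ∈ 𝐍(𝐕)) (x' y' : ℕ)
    (e : EV x x' ∧ EV y' y := by clear_aux_decl; clear * -; decide +kernel +revert) : Mq h g x' y' := by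
  have := mul_mem (mul_mem ((ev_iff h).2 e.2) a) (cg_mem_norm ((ev_iff h).2 e.1) n)
  simpa [Mq, cg, mul_assoc] using this

omit [Finite H] in
theorem mem (a : Mq h g x y) (n : g ∈ 𝐍(B)) (l : 𝐕 ≤ B) : el gs x ∈ B ↔ el gs y ∈ B :=
  ⟨fun m => by simpa using mul_mem (cg_mem_norm m n) (inv_mem (l a)),
    fun m => mem_of_cg_mem (by simpa using mul_mem m (l a)) n⟩

theorem hom {xs : List ℕ} (a : List.Forall₂ (Mq h g) xs cs) (i : ℕ) :
    Mq h g (hm (H33.mul DT) xs i) (hm (H33.mul DT) cs i) := by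
  induction a generalizing i with
  | nil => exact of' .zero
  | cons a _ ih =>
    rw [hm_cons, hm_cons]
    split_ifs
    exacts [of' .zero, a.mul (ih _), ih _]

theorem ff (a : List.Forall₂ (Mq h g) xs cs) (n : g ∈ 𝐍(𝐕)) (m : el gs x ∈ 𝐓) : Mq h g x (FF cs x) := by
  have b : ∀ x < 1024, IM 1020 x → EV (hm (H33.mul DT) xs (x % 256 / 4)) x := by decide +kernel
  have c := (ev_iff h).2 (b _ (Nat.mod_lt x (by decide)) ((h.mem_ms okQ x).1 m))
  rw [el_modN h, Nat.mod_mod_of_dvd x (by decide : 256 ∣ 1024), ev_iff h] at c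
  exact (hom a _).cast n _ _ ⟨c, (ev_iff h).1 (by rw [FF, inv_mul_cancel]; exact one_mem _)⟩

end Mq

omit [Finite H] in
theorem V_le_Q : 𝐕 ≤ 𝐓 := ms_mono (by decide)

theorem mem_rc (n : g ∈ 𝐍(𝐕)) (a : ∀ i < 8, 2 ≤ i → Mq h g (2 ^ i) (2 ^ i)) : g ∈ rcK 𝐓 𝐕 :=
  h.mem_rcK (by decide +kernel) n fun i p q => by
    by_cases e : i < 8
    · exact a i e (by revert i; decide +kernel)
    · have m : el gs (2 ^ i) ∈ 𝐕 := ms_gen (by revert i; decide +kernel)
      exact mul_mem (inv_mem m) (cg_mem_norm m n)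

theorem ff_mem (h : PG gs DT 1024) (k : Ok3 cs) (x : ℕ) : el gs (FF cs x) ∈ 𝐓 := (h.mem_ms okQ _).2 (k.1 _ (by omega))

theorem nQ_of (a : List.Forall₂ (Mq h g) xs cs) (n : g ∈ 𝐍(𝐕)) (k : Ok3 cs) : g ∈ 𝐍(𝐓) :=
  h.nm_ms fun i _ q => by simpa using mul_mem (ff_mem h k (2 ^ i)) (V_le_Q (Mq.ff a n (ms_gen q)))

/-- If `[g, u]` normalises `B` so does `g`. -/
theorem nrm3 (a : List.Forall₂ (Mq h g) xs cs) (n : g ∈ 𝐍(𝐕)) (k : Ok3 cs) (l : 𝐕 ≤ B) (l' : B ≤ 𝐓)
    (e : cm g (el gs 3) ∈ 𝐍(B)) : g ∈ 𝐍(B) := by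
  have m : ∀ i < 8, 2 ≤ i → el gs (2 ^ i) ∈ 𝐓 := fun i p q => ms_gen (by revert i; decide)
  have c := fun x y (m : el gs x ∈ 𝐓) => h.cg x y ▸ cg_mem_norm m (nQ h y)
  have c1 : cg g (el gs 3) * g ∈ rcK 𝐓 𝐕 := mem_rc (h := h) (mul_mem (cg_mem n (nV h 3)) n) fun i p q => by
    have := (((Mq.of' (.self h (inv DT 3) (2 ^ i))).trans (Mq.ff a n (c _ _ (m i p q))) n).trans (.of' (.self h 3 _))
      (nV h 3)).trans (Mq.ff a n (c _ _ (ff_mem h k _))) n
    rw [← h.inv] at this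
    exact (ev_iff h).2 (k.2 i p q).1 |> fun b => by simpa [Mq, cg, mul_assoc] using mul_mem (inv_mem b) this
  have c2 : g * g * g ∈ rcK 𝐓 𝐕 := mem_rc (h := h) (mul_mem (mul_mem n n) n) fun i p q => by
    have := ((Mq.ff a n (m i p q)).trans (Mq.ff a n (ff_mem h k _)) n).trans (Mq.ff a n (ff_mem h k _)) n
    exact (ev_iff h).2 (k.2 i p q).2 |> fun b => by simpa [Mq, cg, mul_assoc] using mul_mem (inv_mem b) this
  have := mul_mem (mul_mem (rcK_norm l l' c2) (inv_mem (rcK_norm l l' (cg_mem_norm c1 (norm_rcK (nQ_of a n k) n))))) e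
  simpa [cm, cg, mul_assoc] using this

theorem irr {σ δ ρ : H} {i : ℕ} (l : 𝐕 ≤ B) (l' : B ≤ 𝐓) (a : List.Forall₂ (Mq h σ) xs cSg) (n : σ ∈ 𝐍(𝐕))
    (n' : σ ∈ 𝐍(B)) (b : List.Forall₂ (Mq h δ) xs (cD i)) (m : δ ∈ 𝐍(𝐕)) (m' : δ ∈ 𝐍(B)) (r : ρ ∈ 𝐍(𝐓))
    (r' : ρ ∈ 𝐍(B)) (r1 : Mp h h ρ 512 256) (r2 : Mp h h ρ 256 768) : B = 𝐕 ∨ B = 𝐓 := by
  refine or_iff_not_imp_left.2 fun e => l'.antisymm ?_
  obtain ⟨_, u, e⟩ := SetLike.not_le_iff_exists.1 fun c => e (le_antisymm c l)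
  obtain ⟨x, p, q, rfl⟩ := h.ex_ms okQ (l' u)
  have s := fun x (u : el gs x ∈ B) => ((Mq.ff a n (l' u)).mem n' l).1 u
  have d := fun x (u : el gs x ∈ B) => ((Mq.ff b m (l' u)).mem m' l).1 u
  have c : ∀ x y, el gs x ∈ B → el gs y ∈ B → el gs (mul DT (inv DT x) y) ∈ B := fun x y u v =>
    h.mul _ _ ▸ h.inv _ ▸ mul_mem (inv_mem u) v
  have f : ∀ y ∈ LL (cD i) x, ∀ w, EV y w → el gs w ∈ B := fun y v w k => by
    have c1 := c _ _ u (s _ u)
    have c2 := c _ _ c1 (d _ c1)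
    refine (mul_mem_cancel_left (inv_mem (?_ : el gs y ∈ B))).1 (l ((ev_iff h).2 k))
    simp only [LL, List.mem_cons, List.not_mem_nil, or_false] at v
    rcases v with rfl | rfl | rfl | rfl | rfl | rfl | rfl | rfl | rfl
    exacts [u, d _ u, d _ (d _ u), c1, s _ c1, s _ (s _ c1), c2, s _ c2, s _ (s _ c2)]
  have k : ∀ {m c m' c' : ℕ}, ZOK m c → ZOK m' c' → Mp h h ρ c c' → MS gs m ≤ B → MS gs m' ≤ B :=
    fun k k' a b y v => by simpa using cg_mem_norm (b (zi_cg k' k (inv_mem r) a.symm v)) r'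
  have k1 := k zk1 zk2 r1
  have k2 := k zk2 zk3 r2
  have k3 := k zk3 zk1 ((r2.mul r1).cast 768 512)
  have t : MS gs 780 ≤ B → 𝐓 ≤ B := fun a => (ms_le_iff h).2 fun j p q => by
    have : (780).testBit j ∨ (816).testBit j ∨ (960).testBit j := by revert j; decide +kernel
    exact this.elim (fun b => a (ms_gen b)) (·.elim (fun b => k1 a (ms_gen b)) fun b => k2 (k1 a) (ms_gen b))
  obtain ⟨j, v, ⟨y, y1, y2⟩, w, w1, w2⟩ := okL3 i x p q fun b => e (el_mem_ms b)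
  have o : MS gs (768 + 3 * 2 ^ j) ≤ B := (ms_le_iff h).2 fun a b c => by
    have : a = j ∨ a = j + 1 ∨ (768).testBit a := by
      clear y2 w2; simp only [List.mem_cons, List.not_mem_nil, or_false] at v
      rcases v with rfl | rfl | rfl <;> revert a <;> decide +kernel
    rcases this with rfl | rfl | this
    exacts [f y y1 _ y2, f w w1 _ w2, l (ms_gen this)]
  simp only [List.mem_cons, List.not_mem_nil, or_false] at v
  rcases v with rfl | rfl | rfl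
  exacts [t o, t (k3 (k2 o)), t (k3 o)]

theorem odd_core (h : PG gs DT 1024) (sol : Group.IsSolvable M) (o : pPrimeCore 2 M = ⊥) (s : Syl 2 𝐓 M)
    (c : M ≤ 𝐂(𝐕)) : M ≤ 𝐍(𝐓) ∧ M ⊓ rcK 𝐓 𝐕 ≤ 𝐓 := by
  have n := Core.le_normalizer_pCoreOf 2 M
  have l := s.ge_of_nml ⟨Core.pCoreOf_le 2 M, n⟩ (PiGrp.p_iff.2 (Core.pCoreOf_isPGroup 2 M))
  have k : M ⊓ rcK ((pCore 2 M).map M.subtype) 𝐕 ≤ (pCore 2 M).map M.subtype :=
    Core.le_pCoreOf inf_le_left (BG.norm_inf (le_norm M) fun g m => norm_rcK (n m) (norm_of_cent c m)) fun g => by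
      obtain ⟨j, e⟩ := pow_of_pg (Core.pCoreOf_isPGroup 2 M) (Core.inf_centralizer_pCoreOf_le_of_isSolvable sol o
        (x := g * g) ⟨mul_mem g.2.1 g.2.1, BG.mem_cent.2 fun r m => cg_eq_iff.1 (by
          have v := g.2.2.2 r m
          have a : cg r g = r * cm r g := by simp [cm]
          rw [← cg_cg, a, cg_mul, a, cg_eq_iff.2 (BG.mem_cent.1 (c g.2.1) _ v), mul_assoc, V_sq h v, mul_one])⟩)
      exact ⟨j + 1, Subtype.ext (by rw [pow_succ', pow_mul, sq]; exact e)⟩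
  have q : 𝐓 ≤ rcK 𝐓 𝐕 := (ms_le_iff h).2 fun i p q => mem_rc (h := h) (nV h _) fun j a b =>
    .of (.self h _ _) (by revert i j; decide +kernel)
  have e := l.antisymm fun g m => k ⟨s.le m, (q m).1, fun x u => (q m).2 x (l u)⟩
  rw [e] at n k
  exact ⟨n, k⟩

theorem odd_rc (h : PG gs DT 1024) (n : g ∈ 𝐍(𝐓)) (c : g ∈ 𝐂(𝐕)) (o : Odd (orderOf g)) (hx : x % 4 = 3)
    (e : cg (el gs x) g = el gs x) : g ∈ rcK 𝐓 𝐕 := by
  have nv := cent_le_norm _ c
  have c := (mem_cV h).1 c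
  have hx' : x % 1024 % 4 = 3 := by omega
  rw [← el_modN h] at e
  have lt := Nat.mod_lt x (by decide : 0 < 1024)
  generalize x % 1024 = x at hx' e lt
  have key : ∀ m c a b, ZOK m c → Mp h h g c c → IM m a → ¬ IM 768 (a % 1024) → ¬ IM 768 (mul DT a b % 1024) →
      (∀ p < 1024, IM m p → IM 768 (p % 1024) ∨ EV a p ∨ EV b p ∨ EV (mul DT a b) p) → Mq h (el gs x) a b →
      Mq h (el gs x) b a → EV (mul DT a b) (mul DT b a) ∧ IM 768 (mul DT (mul DT a b) (mul DT a b) % 1024) →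
      Mq h (g * g) a a ∧ Mq h (g * g) b b := fun m c a b k r i n1 n2 d s1 s2 s3 => by
    have t : ∀ q q', Mq h g a q → Mq h (el gs x) q q' → Mq h g b q' := fun q q' u v => by
      have := ((s1.symm (nV h x)).trans u nv).trans v (nV h x)
      rwa [show (el gs x)⁻¹ * g * el gs x = g from cg_comm e] at this
    obtain ⟨p, p1, p2, p3⟩ := h.ex_ms k.1 (zi_cg k k n r (el_mem_ms i))
    have v := fun x y (u : Mq h g x y) (w : IM 768 (y % 1024)) =>
      (h.mem_ms okV _).1 ((u.mem nv le_rfl).2 ((h.mem_ms okV _).2 w))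
    rcases d p p1 p2 with d | d | d | d
    · exact (n1 (v _ _ (.of' p3) d)).elim
    · exact ⟨(Mq.of p3 d).trans (.of p3 d) nv, (t _ _ (.of p3 d) s1).trans (t _ _ (.of p3 d) s1) nv⟩
    · exact ⟨(Mq.of p3 d).trans (t _ _ (.of p3 d) s2) nv, (t _ _ (.of p3 d) s2).trans (.of p3 d) nv⟩
    · refine (n2 (v _ _ ((Mq.of p3 d).mul (t _ _ (.of p3 d) ?_)) s3.2)).elim
      have := mul_mem ((ev_iff h).2 s3.1) (s1.mul s2)
      simpa [Mq, mul_assoc] using this
  have s : ∀ j < 8, 2 ≤ j → Mq h (el gs x) (2 ^ j) (2 ^ (j ^^^ 1)) := fun j a b =>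
    .of (.self h _ _) (by clear key e; revert j x; decide +kernel)
  have k1 := key 780 512 4 8 zk1 c.2 (by decide) (by decide) (by decide +kernel) (by decide +kernel)
    (s 2 (by decide) le_rfl) (s 3 (by decide) (by decide)) (by decide +kernel)
  have k2 := key 816 256 16 32 zk2 c.1 (by decide) (by decide) (by decide +kernel) (by decide +kernel)
    (s 4 (by decide) (by decide)) (s 5 (by decide) (by decide)) (by decide +kernel)
  have k3 := key 960 768 64 128 zk3 ((c.1.mul c.2).cast 768 768) (by decide) (by decide) (by decide +kernel)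
    (by decide +kernel) (s 6 (by decide) (by decide)) (s 7 (by decide) (by decide)) (by decide +kernel)
  refine mem_of_sq o (mem_rc (h := h) (mul_mem nv nv) fun i a b => ?_)
  interval_cases i
  exacts [k1.1, k1.2, k2.1, k2.2, k3.1, k3.2]

end Cfsg.Lib.L33
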