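import Cfsg.Agent.Lib.L33.Cx

/-! S3140 (helper5): counting and extremal-conjugate tools. -/

set_option autoImplicit false
set_option synthInstance.maxSize 2048

namespace Cfsg.Lib.H33

open Cfsg.Lib.Calc Cfsg.Lib.Transfer Subgroup
open scoped Cfsg.Lib.Transfer

variable {G : Type*} [Group G] [Finite G]

set_option quotPrecheck false in
local notation "dk" => by clear_aux_decl; clear * -; decide +kernel +revert

namespace PG

variable {gs gs' : List G} {D D' : Dat} {N N' : ℕ} (h : PG gs D N)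
include h

omit [Finite G] in
/-- Counting along a conjugation. -/
theorem count (h' : PG gs' D' N') {w : G} {L L' : List ℕ} (n : (L.map (· % N)).Nodup) (a : ∀ x ∈ L, ∃ y ∈ L', Mp h h' w x y) :
    L.length ≤ L'.length := by
  classical
  have : ((L.map (· % N)).map fun x => H33.cg (el gs x) w).Nodup := n.map_on fun x p y q e => by
    obtain ⟨x, -, rfl⟩ := List.mem_map.1 p
    obtain ⟨y, -, rfl⟩ := List.mem_map.1 q
    simpa [EQ] using (h.eq _ _).1 (cg_inj.1 e)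
  simpa using (List.subperm_of_subset this (l₂ := L'.map (el gs')) fun g m => by
    obtain ⟨_, p, rfl⟩ := List.mem_map.1 m
    obtain ⟨x, p', rfl⟩ := List.mem_map.1 p
    obtain ⟨y, q, e⟩ := a x p'
    exact List.mem_map.2 ⟨y, q, by rw [el_modN h, e.e]⟩).length_le

/-- Commutators lie in subgroups of index 2. -/
theorem par_cm {P : ℕ → Prop} (k : parOK D N P) {x y : G} (a : x ∈ gen gs) (b : y ∈ gen gs) {u : ℕ} (c : u < N)
    (e : H33.cm x y = el gs u) : P u := by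
  obtain ⟨x, l, rfl⟩ := h.ex a
  obtain ⟨y, l', rfl⟩ := h.ex b
  obtain ⟨v, l1, e1⟩ := h.ex (mul_mem a b)
  obtain ⟨v', l2, e2⟩ := h.ex (mul_mem b a)
  have := h.par k l l' l1 e1
  have := h.par k l' l l2 e2
  have := h.par k l2 c l1 (by rw [← e1, ← e2, ← e]; simp [H33.cm, H33.cg, mul_assoc])
  tauto

/-- Sylow's theorem inside a subgroup `M`. -/
theorem sylIn {M : Subgroup G} (s : ¬ 2 ∣ (gen gs).relIndex M) {P : Subgroup G} (hP : IsPGroup 2 P) (l : P ≤ M) :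
    ∃ g ∈ M, ∀ y ∈ P, H33.cg y g ∈ gen gs :=
  haveI : Fact (Nat.Prime 2) := ⟨Nat.prime_two⟩
  let ⟨x, m, e⟩ := exists_conj_le_of_not_dvd_relIndex' s hP l
  ⟨x⁻¹, inv_mem m, fun y a => by simpa [H33.cg] using conj_le_iff.1 e y a⟩

omit h [Finite G] in
theorem rel_of {T M K : Subgroup G} (s : ¬ 2 ∣ T.relIndex K) (a : T ≤ M) (b : M ≤ K) : ¬ 2 ∣ T.relIndex M := fun c =>
  s (relIndex_mul_relIndex T M K a b ▸ c.mul_right _)

/-- Moving a conjugate `x = z^k` (`k ∈ M`) of a generator `z` of a cyclic normal subgroup of the Sylow subgroup `T` of `M`. -/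
theorem intoN {M : Subgroup G} (s : ¬ 2 ∣ (gen gs).relIndex M) (l : gen gs ≤ M) {z : G}
    (zc : ∀ u ∈ gen gs, H33.cg z u = z ∨ H33.cg z u = z⁻¹) {P : Subgroup G} (hP : IsPGroup 2 P) (l' : P ≤ M) {k : G} (m : k ∈ M)
    (a : ∀ u ∈ P, H33.cg (H33.cg z k) u = H33.cg z k ∨ H33.cg (H33.cg z k) u = (H33.cg z k)⁻¹) :
    ∃ g ∈ M, (H33.cg (H33.cg z k) g = z ∨ H33.cg (H33.cg z k) g = z⁻¹) ∧ ∀ u ∈ P, H33.cg u g ∈ gen gs := by
  let K : Subgroup G :=
    { carrier := {u | H33.cg z u = z ∨ H33.cg z u = z⁻¹}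
      one_mem' := .inl (cg_one' _)
      mul_mem' := by rintro u v (a | a) (b | b) <;> simp [← cg_cg, a, b, cg_inv]
      inv_mem' := by
        rintro u (a | a)
        exacts [.inl (cg_symm a), .inr (by rw [← inv_inj, ← cg_inv, cg_symm a, inv_inv])] }
  obtain ⟨g, c, e⟩ := h.sylIn (M := M ⊓ K) (rel_of s (le_inf l zc) inf_le_left) (hP.map (cgH k⁻¹)) (by
    rintro _ ⟨u, p, rfl⟩
    refine ⟨by rw [cgH_apply]; exact cg_mem (l' p) (inv_mem m), ?_⟩
    have : H33.cg z (cgH k⁻¹ u) = H33.cg (H33.cg (H33.cg z k) u) k⁻¹ := by simp [cgH_apply, H33.cg, mul_assoc]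
    exact (a u p).imp (fun e => by rw [this, e, cg_cg_inv]) fun e => by rw [this, e, cg_inv, cg_cg_inv])
  exact ⟨k⁻¹ * g, mul_mem (inv_mem m) c.1, by rw [← cg_cg, cg_cg_inv]; exact c.2, fun u p => by
    rw [← cg_cg]; exact e _ ⟨u, p, cgH_apply _ _⟩⟩

end PG

namespace Cfg0

variable {e : Bool} (C : Cfg0 G e) {gs : List G} {D : Dat} {N : ℕ}

set_option hygiene false in
local notation "𝔰" => el (Cfg0.gs C)
set_option hygiene false in
local notation "𝔪" => Mp (Cfg0.pg C) (Cfg0.pg C)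

/-- The centraliser in `T` of a conjugate of `t` is mapped into `S`. -/
theorem toS (h : PG gs D N) {y : ℕ} (c : IsConj (𝔰 8) (el gs y)) :
    ∃ w, Mp h C.pg w y 8 ∧ ∀ x, EQ N (cj D y x) y → ∃ u < 64, Mp h C.pg w x u := by
  obtain ⟨w, a, b⟩ := C.into' (h.pgroup.to_le (inf_le_left : gen gs ⊓ centralizer {el gs y} ≤ _)) c fun u m => mem_cent.1 m.2
  exact ⟨w, a, fun x p => Mp.ex _ _ (b _ ⟨el_mem _ _, mem_cent.2 (Mp.sf h _ _ _ p)⟩)⟩

theorem cnt64 (h : PG gs D N) {y : ℕ} (c : IsConj (𝔰 8) (el gs y)) (L : List ℕ)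
    (a : (L.map (· % N)).Nodup ∧ ∀ x ∈ L, EQ N (cj D y x) y) : L.length ≤ 64 :=
  let ⟨_, _, b⟩ := C.toS h c
  (h.count C.pg (L' := List.range 64) a.1 fun x p => let ⟨u, l, m⟩ := b x (a.2 x p); ⟨u, List.mem_range.2 l, m⟩).trans (by simp)

/-- Counting involutions commuting with a conjugate of `t`. -/
theorem cnt (h : PG gs D N) {y : ℕ} (c : IsConj (𝔰 8) (el gs y)) (L : List ℕ)
    (a : (L.map (· % N)).Nodup ∧ ∀ x ∈ L, EQ N (cj D y x) y ∧ EQ N (mul D x x) 0) : L.length ≤ cond e 32 24 :=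
  let ⟨_, _, b⟩ := C.toS h c
  (h.count C.pg (L' := (List.range 64).filter fun u => EQ 64 (mul (DS e) u u) 0) a.1 fun x p =>
    let ⟨u, l, m⟩ := b x (a.2 x p).1; ⟨u, List.mem_filter.2 ⟨List.mem_range.2 l, decide_eq_true (m.sq (a.2 x p).2)⟩, m⟩).trans dk

theorem arf (C : Cfg0 G true) {x : ℕ} (l : x < 64) (a : x % 2 = 1) (b : EQ 64 (mul (DS true) x x) 0) :
    IsConj (𝔰 16) (𝔰 x) ∨ IsConj (𝔰 24) (𝔰 x) := by
  obtain ⟨σ, s1, s2, s3, -⟩ := C.sig rfl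
  have m := (s2.mul s3.inv).l 16
  obtain ⟨v, -, p | p⟩ : ∃ v < 64, EQ 64 (cj (DS true) (mul (DS true) 20 (inv (DS true) 3)) v) x ∨
    EQ 64 (cj (DS true) (mul (DS true) 8 (mul (DS true) 20 (inv (DS true) 3))) v) x := (by clear_aux_decl; clear * - l a b; decide +kernel +revert)
  exacts [.inl ((m.tr v).r _ p).conj, .inr ((((s1.mul m).l 24).tr v).r _ p).conj]

/-- Dihedral groups of order 16 centralising a conjugate of `t`. -/
theorem d8 (h : PG gs D N) {y u v : ℕ} (c : IsConj (𝔰 8) (el gs y)) (a : EQ N (cj D y u) y ∧ EQ N (cj D y v) y ∧ EQ N (mul D u u) 0 ∧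
    EQ N (mul D v v) 0 ∧ ¬ EQ N (mul D (mul D (mul D u v) (mul D u v)) (mul D (mul D u v) (mul D u v))) 0) :
    e = true ∧ ∃ x, (x = u ∨ x = v) ∧ (IsConj (𝔰 16) (el gs x) ∨ IsConj (𝔰 24) (el gs x)) ∧
      (IsConj (𝔰 16) (el gs (mul D x y)) ∨ IsConj (𝔰 24) (el gs (mul D x y))) := by
  obtain ⟨w, m, b⟩ := C.toS h c
  obtain ⟨u1, l1, m1⟩ := b u a.1
  obtain ⟨v1, l2, m2⟩ := b v a.2.1
  have p1 := m1.sq a.2.2.1
  have p2 := m2.sq a.2.2.2.1
  have p3 := (((m1.mul m2).mul (m1.mul m2)).mul ((m1.mul m2).mul (m1.mul m2))).ne .zero a.2.2.2.2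
  obtain ⟨rfl, p⟩ : e = true ∧ (u1 % 2 = 1 ∨ v1 % 2 = 1) := (by clear_aux_decl; clear * - l1 l2 p1 p2 p3; decide +kernel +revert)
  have k : ∀ {x x1}, Mp h C.pg w x x1 → x1 < 64 → x1 % 2 = 1 → EQ 64 (mul (DS true) x1 x1) 0 →
      (IsConj (𝔰 16) (el gs x) ∨ IsConj (𝔰 24) (el gs x)) ∧ (IsConj (𝔰 16) (el gs (mul D x y)) ∨ IsConj (𝔰 24) (el gs (mul D x y))) :=
    fun {x x1} a l p q => by
      have a' := (a.mul m).r _ (Nat.mod_mod _ 64).symm
      exact ⟨(C.arf l p q).imp (·.trans a.conj.symm) (·.trans a.conj.symm),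
        (C.arf (Nat.mod_lt _ (by decide)) (by clear_aux_decl; clear * - l p; decide +kernel +revert) (by clear_aux_decl; clear * - l q; decide +kernel +revert)).imp (·.trans a'.conj.symm) (·.trans a'.conj.symm)⟩
  exact ⟨rfl, p.elim (fun p => ⟨_, .inl rfl, k m1 l1 p p1⟩) fun p => ⟨_, .inr rfl, k m2 l2 p p2⟩⟩

end Cfg0

end Cfsg.Lib.H33
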