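import Cfsg.Agent.Lib.L33.Out

/-! S3140 (helper5): the case `St5` (Lib/H33/Vb, Vc), definitions. Codes of `T = gen gs` (order 512, `D5 e l`):
`d = 1, b = 2, s = 4, t = 8, v = 16, y = 32, r = 64, z = 128, f = 256`; `c = d² = s r z = 196`, `κ = cond e 452 256` (`c f` or `f`),
`T' ` = mask 230, `T₃ = C_T(y)` = mask 503, `J` = mask 502, `τ = a b t y = 43`. Python: `tools/h33/v5.py` (`T5(e,l)`), w1.py, x7.py, x8.py. -/

set_option autoImplicit false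

namespace Cfsg.Lib.H33

open Subgroup

variable {G : Type*} [Group G]

/-- `St5` with `S` moved into `T` (`a ↦ d tⁱ`) and `y ~ v`. -/
structure V5 {e : Bool} (C : Cfg0 G e) (l i : Bool) extends St5 C l where
  fr : ∃ x, ∃ k ∈ [0, 128], List.Forall₂ (Mp C.pg pg x) [1, 2, 4, 8, 16, 32] [cond i 9 1 + k, 64, 196, 8, 256, 128]
  rho : ∃ ρ, Mp pg pg ρ 8 8 ∧ Mp pg pg ρ 256 256 ∧ Mp pg pg ρ 128 64 ∧ Mp pg pg ρ 64 192 ∧ (Mp pg pg ρ 32 16 ∨ Mp pg pg ρ 32 80)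

/-- A Sylow 2-subgroup containing `gen gs` with index at most 2. -/
structure SP (gs : List G) (P : Subgroup G) : Prop where
  pP : IsPGroup 2 P
  le : gen gs ≤ P
  nm : P ≤ normalizer (gen gs : Set G)
  syl : ¬ 2 ∣ P.relIndex ⊤
  two : ∀ x ∈ P, ∀ y ∈ P, x ∉ gen gs → y ∉ gen gs → x * y ∈ gen gs

end Cfsg.Lib.H33
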