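import Cfsg.Agent.Lib.L33.V0

/-! S3140 (helper5): normalising `St5` to `V5`. -/

set_option autoImplicit false
set_option synthInstance.maxSize 2048

namespace Cfsg.Lib.H33

open Cfsg.Lib.Calc Cfsg.Lib.Transfer Subgroup
open scoped Cfsg.Lib.Transfer

variable {G : Type*} [Group G] [Finite G] {e l i : Bool}


namespace St5

variable {C : Cfg0 G e} (X : St5 C l)

theorem rn {j : ℕ} (a : j ∈ cond e [0] [0, 256]) {ζ : ℕ} (b : ζ ∈ cond e [0, 128, 256, 384] [0, 128]) : ∃ Y : St5 C l, ∀ x, el Y.gs x =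
    el X.gs (hm (mul (D5 e l)) [1 + j, if ζ < 256 then 2 else 130, 4, 8, 16 + ζ, 32, 64, 128, 256] x) := by
  obtain ⟨g4, h4, E4⟩ := X.X.pg.sub' [1, 2, 4 + ζ / 4, 8, 16, 32, 64] (D4 false) 128 (by clear_aux_decl; clear * - b; decide +kernel +revert)
  obtain ⟨g5, h5, E5⟩ := X.pg.sub' [1 + j, if ζ < 256 then 2 else 130, 4, 8, 16 + ζ, 32, 64, 128, 256] (D5 e l) 512 (by clear_aux_decl; clear * - a b; decide +kernel +revert)
  have W : ∀ x ∈ [1, 2, 8, 16, 32, 40, 48, 64], el g4 x = el X.X.gs x := fun x p => by rw [E4, X.X.pg.eq]; exact (by clear_aux_decl; clear * - b p; decide +kernel +revert)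
  have V : ∀ x ∈ [8, 256, 264], el g5 x = el X.gs x := fun x p => by rw [E5, X.pg.eq]; exact (by clear_aux_decl; clear * - a b p; decide +kernel +revert)
  have T : ∀ {w x y}, x ∈ [1, 2, 8, 16, 32, 40, 48, 64] ∧ y ∈ [1, 2, 8, 16, 32, 40, 48, 64] → Mp X.X.pg X.X.pg w x y → Mp h4 h4 w x y :=
    fun p m => by rw [Mp, W _ p.1, W _ p.2]; exact m
  obtain ⟨K, K1, K2, K3⟩ := X.X.chi
  obtain ⟨K', K4, K5⟩ := X.chi
  obtain ⟨ρ, r1, r2, r3, r4, ⟨y1, l1, p1, r5⟩, y2, l2, p2, r6⟩ := X.X.rho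
  obtain ⟨u1, l3, p3, q3⟩ : ∃ u < 128, u % 16 = 4 ∧ EQ 128 (hm (mul (D4 false)) [1, 2, 4 + ζ / 4, 8, 16, 32, 64] u) y1 := (by clear_aux_decl; clear * - b l1 p1; decide +kernel +revert)
  have r7 := (Mp.hom (.cons r6 (.cons r3 (.cons r2 .nil))) (1 + ζ / 64)).l (4 + ζ / 4) (by clear_aux_decl; clear * - b; decide +kernel +revert)
  obtain ⟨u2, l4, p4, q4⟩ : ∃ u < 128, u % 16 = 12 ∧ EQ 128 (hm (mul (D4 false)) [1, 2, 4 + ζ / 4, 8, 16, 32, 64] u)
    (hm (mul (D4 false)) [y2, 16, 64] (1 + ζ / 64)) := (by clear_aux_decl; clear * - b l2 p2; decide +kernel +revert)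
  refine ⟨⟨g5, h5, (V 8 (by decide)).trans X.t, (V 256 (by decide)).trans X.f, by rw [V 8 (by decide), V 264 (by decide)]; exact X.n2,
    ⟨K', K4, by rwa [V 256 (by decide)]⟩, ⟨g4, h4, (W 1 (by decide)).trans X.X.s, (W 2 (by decide)).trans X.X.t,
      (W 16 (by decide)).trans X.X.r, (W 32 (by decide)).trans X.X.z, (W 64 (by decide)).trans X.X.f, X.X.n1, X.X.n2,
      X.X.ak.imp (T (by decide)) (T (by decide)), ⟨ρ, T (by decide) r1, T (by decide) r2, T (by decide) r3, T (by decide) r4,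
        ⟨u1, l3, p3, by rw [Mp, W 8 (by decide), E4, (X.X.pg.eq _ _).2 q3]; exact r5⟩, u2, l4, p4,
        by rw [Mp, E4, E4, (X.X.pg.eq _ _).2 q4, (X.X.pg.eq _ (4 + ζ / 4)).2 (by clear_aux_decl; clear * - b; decide +kernel +revert)]; exact r7⟩, K, K1, K2, fun x => ?_⟩,
    fun x p => ?_, ?_⟩, E5⟩
  · rw [← el_modN h4, E4, ← el_modN X.X.pg, K3, show x / 64 % 2 = x % 128 / 64 % 2 by omega]
    have := Nat.mod_lt x (by norm_num : 0 < 128)
    generalize x % 128 = x at this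
    exact (by clear_aux_decl; clear * - b this; decide +kernel +revert)
  · rw [E5, E4, ← el_modN X.X.pg, ← X.lk _ (Nat.mod_lt _ (by norm_num)), X.pg.eq]
    exact (by clear_aux_decl; clear * - a b p; decide +kernel +revert)
  · obtain rfl | ⟨rfl, rfl⟩ : j = 0 ∨ e = false ∧ j = 256 := (by clear_aux_decl; clear * - a; decide +kernel +revert)
    · rw [E5, (X.pg.eq _ 1).2 (by clear_aux_decl; clear * - b; decide +kernel +revert)]; exact X.ct
    · rw [E5, (X.pg.eq _ (mul (D5 false l) 256 1)).2 (by clear_aux_decl; clear * - b; decide +kernel +revert), ← X.pg.mul, X.f, mul_assoc]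
      exact ⟨(Mp.sf C.pg 16 2 2).trans X.ct.1, (Mp.sf C.pg 16 4 4).trans X.ct.2.1, (Mp.sf C.pg 16 8 8).trans X.ct.2.2.1,
        (Mp.sf C.pg 16 16 16).trans X.ct.2.2.2.1, (Mp.sf C.pg 16 32 32).trans X.ct.2.2.2.2⟩

omit [Finite G] in
theorem lk5 (x y : ℕ) (h : ∃ i < 32, EQ 512 (hm (mul (D5 e l)) [4, 8, 64, 128, 256] i) y ∧
    EQ 64 (hm (mul (DS e)) [6, 8, 2, 32, 16] i) x := by clear_aux_decl; clear * -; decide +kernel +revert) : el X.gs y = el C.gs x := by
  have K : ∀ {a b}, a < 128 → el X.X.gs a = el C.gs b → Mp X.pg C.pg 1 (4 * a) b := fun l p => (cg_one' _).trans ((X.lk _ l).trans p)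
  obtain ⟨i, -, h⟩ := h
  exact (cg_one' _).symm.trans ((Mp.hom (.cons (K (a := 1) (by decide) X.X.s) (.cons (K (a := 2) (by decide) X.X.t)
    (.cons (K (a := 16) (by decide) X.X.r) (.cons (K (a := 32) (by decide) X.X.z) (.cons (K (a := 64) (by decide) X.X.f) .nil))))) i).cast _ _ h)

theorem frm : ∃ w, C.CT w ∧ ∃ d < 64, Mp X.pg C.pg w 1 d := by
  have K : ∀ y ∈ MS X.gs 461, cg (el C.gs 8) y = el C.gs 8 := fun y a => mem_cent.1 ((ms_le_iff X.pg (H := centralizer {_})).2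
    (fun j p q => mem_cent.2 (X.t ▸ Mp.sf X.pg _ _ _ (by clear_aux_decl; clear * - p q; decide +kernel +revert))) a)
  obtain ⟨x, a, b⟩ := C.into _ (X.pg.pgroup.to_le (ms_le _ 461)) K
  obtain ⟨y, -, c⟩ := C.nS a fun u p => b _ ((ms_le_iff C.pg (H := MS X.gs 461)).2 (fun j p q => by
    obtain rfl | rfl | rfl | rfl | rfl : j = 1 ∨ j = 2 ∨ j = 3 ∨ j = 4 ∨ j = 5 := (by clear_aux_decl; clear * - p q; decide +kernel +revert)
    exacts [X.lk5 2 64 ▸ el_mem_ms (by decide), X.lk5 4 196 ▸ el_mem_ms (by decide), X.t ▸ el_mem_ms (by decide),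
      X.f ▸ el_mem_ms (by decide), X.lk5 32 128 ▸ el_mem_ms (by decide)]) (el_mem_ms p))
  exact ⟨_, c, Mp.ex _ _ (by rw [← cg_cg]; exact cg_mem (b _ (el_mem_ms (by decide))) (el_mem _ _))⟩

include X in
theorem v5 : ∃ i, Nonempty (V5 C l i) := by
  obtain ⟨w, c, d, l1, m⟩ := X.frm
  have K : ∀ x y, el X.gs y = el C.gs x → IM 62 x → Mp X.pg C.pg w y x := fun x y a b => by rw [Mp, a]; exact c.all C b
  have mr := K 2 64 (X.lk5 _ _) (by decide)
  have mc := K 4 196 (X.lk5 _ _) (by decide)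
  have mt := K 8 8 X.t (by decide)
  have mf := K 16 256 X.f (by decide)
  have mz := K 32 128 (X.lk5 _ _) (by decide)
  have p1 := (m.mul m).eq mc
  have p2 := (mr.cj m).eq (K 38 132 (X.lk5 _ _) (by decide))
  obtain ⟨K, K1, -, K3⟩ := X.X.chi
  obtain ⟨ρ, r1, r2, r3, r4, ⟨y, l2, p3, r5⟩, -⟩ := X.X.rho
  have p4 : e = true ∨ y / 64 % 2 = 0 := (K3 y).1 (by
    have := mul_mem ((K3 8).2 (.inr rfl)) (K1 (el X.X.gs 8) ρ)
    rwa [cm, mul_inv_cancel_left, r5.e] at this)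
  have T : ∀ {x y}, x < 128 → y < 128 → Mp X.X.pg X.X.pg ρ x y → Mp X.pg X.pg ρ (4 * x) (4 * y) := fun a b m => by
    rw [Mp, X.lk _ a, X.lk _ b]; exact m
  have a : d / 16 % 2 * 256 ∈ cond e [0] [0, 256] := (by clear_aux_decl; clear * - l1 p1 p2; decide +kernel +revert)
  have b : y / 32 * 128 ∈ cond e [0, 128, 256, 384] [0, 128] := (by clear_aux_decl; clear * - l2 p4; decide +kernel +revert)
  obtain ⟨Y, E⟩ := X.rn a b
  have V : ∀ x ∈ [8, 32, 64, 128, 192, 196, 256], el Y.gs x = el X.gs x := fun x p => by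
    rw [E, X.pg.eq]; generalize d / 16 % 2 * 256 = j at a; generalize y / 32 * 128 = j at b; exact (by clear_aux_decl; clear * - a b p; decide +kernel +revert)
  have F : ∀ {x y}, y ∈ [8, 32, 64, 128, 192, 196, 256] → Mp X.pg C.pg w y x → Mp C.pg Y.pg w⁻¹ x y := fun p m => by
    rw [Mp, V _ p]; exact m.symm
  have R : ∀ {x y}, x ∈ [8, 32, 64, 128, 192, 196, 256] ∧ y ∈ [8, 32, 64, 128, 192, 196, 256] → Mp X.pg X.pg ρ x y → Mp Y.pg Y.pg ρ x y :=
    fun p m => by rw [Mp, V _ p.1, V _ p.2]; exact m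
  have m1 := (Mp.hom (.cons m (.cons mt (.cons mf (.cons mz .nil)))) (1 + d / 8 * 2)).r 1 (by clear_aux_decl; clear * - l1 p1 p2; decide +kernel +revert)
  refine ⟨d / 8 % 2 = 1, ⟨⟨Y, ⟨w⁻¹, d / 32 * 128, (by clear_aux_decl; clear * - l1; decide +kernel +revert), .cons ?_ (.cons (F (by decide) mr) (.cons (F (by decide) mc) (.cons (F (by decide) mt)
    (.cons (F (by decide) mf) (.cons (F (by decide) mz) .nil)))))⟩, ρ, R (by decide) (T (by decide) (by decide) r1),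
    R (by decide) (T (by decide) (by decide) r2), R (by decide) (T (by decide) (by decide) r3), R (by decide) (T (by decide) (by decide) r4), ?_⟩⟩⟩
  · rw [Mp, E]
    refine m1.symm.r _ ?_
    generalize y / 32 * 128 = j at b; exact (by clear_aux_decl; clear * - l1 p1 p2 b; decide +kernel +revert)
  · have r := T (by decide) l2 r5
    rw [Mp, Mp, V 32 (by decide), E, E, r.e, X.pg.eq, X.pg.eq]
    generalize d / 16 % 2 * 256 = j at a; exact (by clear_aux_decl; clear * - l2 p3 p4 a; decide +kernel +revert)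

end St5

end Cfsg.Lib.H33
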