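import Cfsg.Agent.Lib.L33.V0

/-! S3140 (helper5): basic facts on `SP` and `V5`. -/

set_option autoImplicit false
set_option synthInstance.maxSize 2048

namespace Cfsg.Lib.H33

open Cfsg.Lib.Calc Cfsg.Lib.Transfer Subgroup
open scoped Cfsg.Lib.Transfer

variable {G : Type*} [Group G] [Finite G] {e l i : Bool}

set_option quotPrecheck false in
local notation "dk" => by clear_aux_decl; clear * -; decide +kernel +revert


/-- Subgroups of index at most 2. -/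
theorem half {H P : Subgroup G} (l : H ≤ P) (c : Nat.card P ≤ 2 * Nat.card H) {x y : G} (a : x ∈ P) (b : y ∈ P) :
    x * y ∈ H ↔ (x ∈ H ↔ y ∈ H) := by
  have e := card_mul_relIndex l
  have p : 0 < Nat.card H := Nat.card_pos
  have n : H.relIndex P ≠ 0 := index_ne_zero_of_finite
  obtain i | i : H.relIndex P = 1 ∨ H.relIndex P = 2 := by
    have : H.relIndex P ≤ 2 := Nat.le_of_mul_le_mul_left (by omega) p
    omega
  · have := relIndex_eq_one.1 i
    exact iff_of_true (this (mul_mem a b)) (iff_of_true (this a) (this b))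
  · exact mul_mem_iff_of_index_two i (a := ⟨x, a⟩) (b := ⟨y, b⟩)

theorem card_cg (H : Subgroup G) (g : G) : Nat.card (H.map (cgH g)) = Nat.card H :=
  card_map_of_injective fun x y h => cg_inj.1 (by simpa [cgH_apply] using h)

theorem PG.exSP {gs : List G} {D : Dat} {N : ℕ} (h : PG gs D N) (s : ¬ 4 * N ∣ Nat.card G) : ∃ P, SP gs P := by
  haveI : Fact (Nat.Prime 2) := ⟨Nat.prime_two⟩
  by_cases a : 2 * N ∣ Nat.card G
  swap
  · exact ⟨_, h.pgroup, le_rfl, le_normalizer, h.idx a, fun _ a _ _ b => absurd a b⟩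
  obtain ⟨n, n1, n2, n3⟩ := h.climb a
  have P := pg_sup' h.pgroup n3 n1
  refine ⟨_, P, le_sup_left, sup_le le_normalizer (zpowers_le.2 n1), fun b => s ?_, fun x a y b c d => ?_⟩
  · obtain ⟨k, e⟩ := P.index ((gen gs).subgroupOf _)
    obtain _ | k := k
    · exact absurd (relIndex_eq_one.1 e (mem_sup_right (mem_zpowers n))) n2
    rw [← (gen gs ⊔ zpowers n).card_mul_index, ← card_mul_relIndex (le_sup_left : gen gs ≤ _ ⊔ zpowers n), h.card, relIndex, e,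
      ← relIndex_top_right]
    obtain ⟨m, b⟩ := b
    exact ⟨2 ^ k * m, by rw [b]; ring⟩
  · have := mul_mem (mul_mem n3 (cg_mem_norm ((mem_sup_zp n3 n1 a).resolve_left c) n1)) ((mem_sup_zp n3 n1 b).resolve_left d)
    simpa [H33.cg, mul_assoc] using this

theorem St5.exSP {C : Cfg0 G e} (X : St5 C l) : ∃ P, SP X.gs P := X.pg.exSP X.main

theorem SP.sylA {gs : List G} {D : Dat} {N : ℕ} (h : PG gs D N) (S : SP gs (gen gs)) : ¬ 2 * N ∣ Nat.card G := fun a => S.syl (by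
  rw [← (gen gs).card_mul_index, h.card, mul_comm, ← relIndex_top_right] at a
  exact Nat.dvd_of_mul_dvd_mul_left h.pos a)

omit [Finite G] in
theorem SP.sq {gs : List G} {P : Subgroup G} (S : SP gs P) {x : G} (h : x ∈ P) : x * x ∈ gen gs := by
  by_cases a : x ∈ gen gs
  exacts [mul_mem a a, S.two _ h _ h a a]

theorem SP.card {gs : List G} {D : Dat} {N : ℕ} (h : PG gs D N) {P : Subgroup G} (S : SP gs P) : Nat.card P ≤ 2 * N := by
  by_cases a : P ≤ gen gs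
  · have := Subgroup.card_le_of_le a
    rw [h.card] at this; omega
  obtain ⟨n, a, b⟩ := SetLike.not_le_iff_exists.1 a
  refine (card_cover (R := gen gs) [1, n] fun y hy => ?_).trans (by rw [h.card]; rfl)
  by_cases c : y ∈ gen gs
  exacts [⟨1, by simp, by simpa⟩, ⟨n, by simp, S.two _ hy _ a c b⟩]

/-- Sylow's theorem inside a subgroup `M ≥ P`. -/
theorem SP.conj {gs : List G} {P : Subgroup G} (S : SP gs P) {M Q : Subgroup G} (a : P ≤ M) (hQ : IsPGroup 2 Q) (b : Q ≤ M) :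
    ∃ g ∈ M, ∀ u ∈ Q, cg u g ∈ P :=
  haveI : Fact (Nat.Prime 2) := ⟨Nat.prime_two⟩
  let ⟨x, m, e⟩ := exists_conj_le_of_not_dvd_relIndex' (PG.rel_of S.syl a le_top) hQ b
  ⟨x⁻¹, inv_mem m, fun y a => by simpa [cg] using conj_le_iff.1 e y a⟩

/-- `SP.conj` for a conjugate `M^k`. -/
theorem SP.conj' {gs : List G} {P : Subgroup G} (S : SP gs P) {M Q : Subgroup G} (a : P ≤ M) (hQ : IsPGroup 2 Q) {k : G}
    (b : ∀ u ∈ Q, cg u k⁻¹ ∈ M) : ∃ g ∈ M, ∀ u ∈ Q, cg u (k⁻¹ * g) ∈ P :=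
  let ⟨g, m, e⟩ := S.conj a (hQ.map (cgH k⁻¹)) (by rintro _ ⟨u, p, rfl⟩; rw [cgH_apply]; exact b u p)
  ⟨g, m, fun u p => by rw [← cg_cg]; exact e _ ⟨u, p, cgH_apply _ _⟩⟩

/-- No conjugate of `t` centralises an elementary abelian group of order 32. -/
theorem Cfg0.noE (C : Cfg0 G e) {gs : List G} {D : Dat} {N : ℕ} (h : PG gs D N) (cs : List ℕ) {i : ℕ}
    (a : subOK D N cs [(0, [1, 2, 4, 8]), (0, [1, 2, 4]), (0, [1, 2]), (0, [1]), (0, [])] = true ∧ 2 ^ cs.length = 32) :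
    ¬ IsConj (el C.gs 8) (el gs (hm (mul D) cs i)) := fun c => by
  obtain ⟨hs, p, E⟩ := h.sub' cs _ _ a
  rw [← E, ← el_modN p] at c
  have l := Nat.mod_lt i (by norm_num : 0 < 32)
  generalize i % 32 = i at c l
  cases e
  · exact absurd (C.cnt p c (List.range 32) (by clear_aux_decl; clear * - l; decide +kernel +revert)) (by decide)
  · have A : ∀ x ∈ gen hs, ∀ y ∈ gen hs, cg x y = x := fun x a y b => by
      obtain ⟨x, l1, rfl⟩ := p.ex a
      obtain ⟨y, l2, rfl⟩ := p.ex b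
      exact Mp.sf p _ _ _ (by clear_aux_decl; clear * - l1 l2; decide +kernel +revert)
    exact absurd (C.noAb rfl p.pgroup c (A _ (el_mem _ _)) A) (by rw [p.card]; decide)

namespace V5

variable {C : Cx G e} (V : V5 C.toCfg0 l i)

set_option hygiene false in
local notation "𝔯" => el (St5.gs (V5.toSt5 V))
set_option hygiene false in
local notation "𝔫" => Mp (St5.pg (V5.toSt5 V)) (St5.pg (V5.toSt5 V))
set_option hygiene false in
local notation "𝔗" => gen (St5.gs (V5.toSt5 V))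


omit [Finite G] in
theorem lk5 (x y : ℕ) (h : ∃ i < 32, EQ 512 (hm (mul (D5 e l)) [4, 8, 64, 128, 256] i) y ∧
    EQ 64 (hm (mul (DS e)) [6, 8, 2, 32, 16] i) x := by clear_aux_decl; clear * -; decide +kernel +revert) : 𝔯 y = el C.gs x := by
  have K : ∀ {a b}, a < 128 → el V.X.gs a = el C.gs b → Mp V.pg C.pg 1 (4 * a) b := fun l p => (cg_one' _).trans ((V.lk _ l).trans p)
  obtain ⟨i, -, h⟩ := h
  exact (cg_one' _).symm.trans ((Mp.hom (.cons (K (a := 1) (by decide) V.X.s) (.cons (K (a := 2) (by decide) V.X.t)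
    (.cons (K (a := 16) (by decide) V.X.r) (.cons (K (a := 32) (by decide) V.X.z) (.cons (K (a := 64) (by decide) V.X.f) .nil))))) i).cast _ _ h)

/-- `N(T)` normalises `T'`. -/
theorem nT' {w : G} (hw : w ∈ normalizer (𝔗 : Set G)) : w ∈ normalizer (MS V.gs 230 : Set G) := by
  replace hw : w ∈ normalizer (MS V.gs 511 : Set G) := by rw [← V.pg.ms_top] at hw; exact hw
  exact V.pg.nm_cm (fun i => if i = 1 then (1, 16, 0) else if i = 2 then (12, 17, 0) else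
    if i = 5 then (2, 4, 0) else if i = 6 then (8, 16, 0) else (64, 4, 0)) (St5.ok _ (by simp)) dk hw hw (PG.nm_zero _ _)

omit [Finite G] in
theorem yv : IsConj (𝔯 32) (𝔯 16) := by
  obtain ⟨ρ, -, -, -, -, m | m⟩ := V.rho
  exacts [m.conj, ((m.tr 8).r 16).conj]

omit [Finite G] in
theorem zr : IsConj (𝔯 128) (𝔯 64) := let ⟨_, _, _, m, _⟩ := V.rho; m.conj

omit [Finite G] in
theorem zv : IsConj (𝔯 128) (𝔯 144) := by
  refine (V.zr.trans (Mp.sf V.pg 2 64 96).conj).trans ?_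
  obtain ⟨ρ, -, -, -, r, m | m⟩ := V.rho
  exacts [(((m.mul r).tr 8).cast _ _).conj, ((m.mul r).cast _ _).conj]

omit [Finite G] in
theorem yf : IsConj (𝔯 288) (𝔯 272) := by
  obtain ⟨ρ, -, f, -, -, m | m⟩ := V.rho
  exacts [((m.mul f).cast _ _).conj, (((m.mul f).tr 8).cast _ _).conj]

omit [Finite G] in
theorem rf : IsConj (𝔯 384) (𝔯 320) := let ⟨_, _, f, m, _⟩ := V.rho; ((m.mul f).cast _ _).conj

omit [Finite G] in
theorem zf : IsConj (𝔯 384) (𝔯 400) := by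
  refine (V.rf.trans (Mp.sf V.pg 2 320 352).conj).trans ?_
  obtain ⟨ρ, -, f, -, r, m | m⟩ := V.rho
  exacts [((((m.mul r).mul f).tr 8).cast _ _).conj, (((m.mul r).mul f).cast _ _).conj]

omit [Finite G] in
theorem n1 : ¬ IsConj (𝔯 8) (𝔯 256) := by rw [V.t, V.f]; exact V.X.n1

/-- `⟨d tⁱ, v⟩T' ≤ X`. -/
theorem mX {x : ℕ} (h : x < 256 ∧ x / 8 % 2 = cond i (x % 2) 0 := by decide) : 𝔯 x ∈ C.X := by
  have K : ∀ a b u, EQ 512 (ck (D5 e l) a b) u → 𝔯 u ∈ C.X := fun a b u p => by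
    rw [← (V.pg.eq _ _).2 p, ← V.pg.cm]; exact C.cmX _ _
  have z := K 64 4 128 dk
  have y := K 2 4 32 dk
  have M : MS V.gs 246 ≤ C.X := (ms_le_iff V.pg).2 fun j p q => by
    obtain rfl | rfl | rfl | rfl | rfl | rfl : j = 1 ∨ j = 2 ∨ j = 4 ∨ j = 5 ∨ j = 6 ∨ j = 7 := (by clear_aux_decl; clear * - p q; decide +kernel +revert)
    exacts [K 1 16 2 dk, K 12 17 4 dk, (C.cjX' V.yv).1 y, y, K 8 16 64 dk, z]
  have d : 𝔯 (cond i 9 1) ∈ C.X := by
    obtain ⟨x, k, p, m⟩ := V.fr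
    have := C.cgX (C.DX (x := 1)) x
    rw [(List.forall₂_cons.1 m).1.e] at this
    obtain rfl | rfl : k = 0 ∨ k = 128 := by simpa using p
    · exact this
    · rw [← (V.pg.eq (mul (D5 e l) (cond i 9 1 + 128) 128) _).2 dk, ← V.pg.mul]; exact mul_mem this z
  obtain ⟨a, b⟩ := h
  obtain p | p : IM 246 x ∨ IM 246 (mul (D5 e l) (cond i 9 1) x % 512) := (by clear_aux_decl; clear * - a b; decide +kernel +revert)
  · exact M (el_mem_ms p)
  · have := M (el_mem_ms p)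
    rwa [el_modN V.pg, ← V.pg.mul, mul_mem_cancel_left d] at this

/-- For `e = false`, elements of `T ∩ X` have no `f`. -/
theorem fX (he : e = false) {x : ℕ} (l1 : x < 512) (h : 𝔯 x ∈ C.X) : x < 256 := by
  by_contra a
  obtain ⟨u, p, q⟩ : ∃ u ∈ [256, 264], mul (D5 e l) x u % 512 < 256 ∧ mul (D5 e l) x u % 512 / 8 % 2 = cond i (mul (D5 e l) x u % 512 % 2) 0 :=
    (by clear_aux_decl; clear * - l1 a; decide +kernel +revert)
  have := V.mX q
  rw [el_modN V.pg, ← V.pg.mul, mul_mem_cancel_left h] at this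
  obtain rfl | rfl : u = 256 ∨ u = 264 := by simpa using p
  · exact absurd (C.fX he (V.f ▸ this)) (by decide)
  · exact absurd (C.fX he (V.lk5 24 264 ▸ this)) (by decide)

/-- The involutions `a s f` (`e = true`) are conjugate to `f` or `t f`. -/
theorem asf {C : Cx G true} (V : V5 C.toCfg0 l i) : IsConj (𝔯 256) (𝔯 261) ∨ IsConj (𝔯 264) (𝔯 261) := by
  obtain ⟨x, k, p, m⟩ := V.fr
  obtain ⟨u, l1, a, b, g, -, q⟩ : ∃ u < 64, u % 2 = 1 ∧ EQ 64 (mul (DS true) u u) 0 ∧ ∃ g < 2, EQ 512 (cj (D5 true l)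
    (hm (mul (D5 true l)) [cond i 9 1 + k, 64, 196, 8, 256, 128] u) (256 * g)) 261 := (by clear_aux_decl; clear * - p; decide +kernel +revert)
  have := ((((Mp.hom m u).l u (by clear_aux_decl; clear * - l1; decide +kernel +revert)).tr _).r _ q).conj
  rw [V.f, V.lk5 24 264]
  exact (C.arf l1 a b).imp (·.trans this) (·.trans this)

/-- No conjugate of `t` in `T` centralises `y`. -/
theorem k1 {x : ℕ} (h : EQ 512 (cj (D5 e l) 32 x) 32) : ¬ IsConj (𝔯 8) (𝔯 x) := fun c => by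
  replace h := Mp.of_el (h := V.pg) (el_modN V.pg x ▸ Mp.sf V.pg _ _ _ h)
  rw [← el_modN V.pg x] at c
  have l1 := Nat.mod_lt x (by norm_num : 0 < 512)
  generalize x % 512 = x at *
  obtain ⟨w, m⟩ := exists_cg c
  have p := Mp.sq (h := V.pg) (h' := V.pg) m
  obtain ⟨g, -, j, -, q | ⟨rfl, q⟩⟩ | ⟨rfl, -, g, -, q⟩ : (∃ g < 2, ∃ j < 32,
    EQ 512 (cj (D5 e l) x g) (hm (mul (D5 e l)) [16, 32, 64, 128, 256] j) ∨
      l = false ∧ EQ 512 (cj (D5 e l) x g) (hm (mul (D5 e l)) [6, 16, 32, 128, 256] j)) ∨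
    (e = true ∧ x % 2 = 1 ∧ ∃ g < 128, EQ 512 (cj (D5 e l) x g) 261) := (by clear_aux_decl; clear * - l1 h p; decide +kernel +revert)
  · exact C.noE V.pg _ dk (V.t ▸ c.trans (Mp.sf V.pg _ _ _ q).conj)
  · exact C.noE V.pg _ dk (V.t ▸ c.trans (Mp.sf V.pg _ _ _ q).conj)
  · have := c.trans (Mp.sf V.pg _ _ _ q).conj
    exact V.asf.elim (fun a => V.n1 (this.trans a.symm)) fun a => V.n2 (this.trans a.symm)

/-- Conjugates of `t` in `T`. -/
theorem tcl {x : ℕ} (h : IsConj (𝔯 8) (𝔯 x)) : ∃ g < 512, IM 503 g ∧ ∃ u ∈ [8, 43, cond e 267 299], EQ 512 (cj (D5 e l) x g) u := by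
  have c := h
  rw [← el_modN V.pg x] at c
  have l1 := Nat.mod_lt x (by norm_num : 0 < 512)
  have a : ¬ _ := fun p => V.k1 p c
  obtain ⟨w, m⟩ := exists_cg c
  have p := Mp.sq (h := V.pg) (h' := V.pg) m
  obtain ⟨g, b, u, d, q⟩ : ∃ g ∈ [0, 2, 16, 18, 32, 34, 48, 50], ∃ u ∈ [264, 8, 43, cond e 267 299], EQ 512 (cj (D5 e l) (x % 512) g) u := by
    generalize x % 512 = x at *
    exact (by clear_aux_decl; clear * - l1 a p; decide +kernel +revert)
  have m1 := Mp.sf V.pg _ _ _ q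
  rcases List.mem_cons.1 d with rfl | d
  · exact absurd (c.trans m1.conj) V.n2
  · exact ⟨g, (by clear_aux_decl; clear * - b; decide +kernel +revert), (by clear_aux_decl; clear * - b; decide +kernel +revert), u, d, Mp.of_el (h := V.pg) (by rwa [Mp, el_modN V.pg] at m1)⟩

theorem lA {C : Cx G e} (V : V5 C.toCfg0 true i) {P : Subgroup G} (S : SP V.gs P) : P = 𝔗 := by
  refine le_antisymm (fun n a => by_contra fun b => ?_) S.le
  obtain ⟨τ, l1, p, m, -⟩ := V.vA (S.nm a) b (S.sq a)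
  obtain ⟨x, l2, q, m1⟩ := Mp.exm (h := V.pg) (St5.ok 230 (by simp)) (V.nT' (S.nm a)) 64
  have p1 := m.sq
  have p2 := m1.sq
  have p3 := m1.co m
  have p4 := m1.ne .zero
  have p5 := m1.ne (V.v0 (S.nm a)).2.2.2
  clear_aux_decl; clear * - l1 p l2 q p1 p2 p3 p4 p5; revert p5 p4 p3 p2 q l2 x; revert p1 p l1 τ; revert e; decide +kernel

variable {P : Subgroup G} (S : SP V.gs P)
include S

theorem Pz : P ≤ centralizer {𝔯 128} := fun _ a => mem_cent.2 (V.v0 (S.nm a)).2.2.2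

theorem Py {x : G} (a : x ∈ P) : 𝔫 x 32 32 ∨ 𝔫 x 32 160 := V.imy (V.v0 (S.nm a)).2.2.1 (V.v0 (S.nm a)).2.2.2

theorem c3 : Nat.card P ≤ 2 * Nat.card (P ⊓ centralizer {𝔯 32} : Subgroup G) := card_cover [1, 𝔯 8] fun y hy => by
  rcases V.Py S hy with a | a
  exacts [⟨1, by simp, by rw [mul_one]; exact ⟨hy, mem_cent.2 a⟩⟩,
    ⟨_, by simp, mul_mem hy (S.le (el_mem _ 8)), mem_cent.2 ((a.tr 8).r 32)⟩]

/-- Moving a conjugate of `z` to `z`. -/
theorem into {x : G} (c : IsConj (𝔯 128) x) {Q : Subgroup G} (hQ : IsPGroup 2 Q) (a : ∀ u ∈ Q, cg x u = x) :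
    ∃ g, cg x g = 𝔯 128 ∧ ∀ u ∈ Q, cg u g ∈ P := by
  obtain ⟨k, rfl⟩ := exists_cg c
  obtain ⟨g, m, e⟩ := S.conj' (V.Pz S) hQ (k := k) fun u p => by rw [mem_cent, ← cg_cg_inv (𝔯 128) k, ← cg_cg', a u p]
  exact ⟨_, by rw [← cg_cg, cg_cg_inv, mem_cent.1 m], e⟩

/-- Images of `y`, `z` under a map `C_P(y) → P`. -/
theorem loc {k : G} (hk : ∀ u ∈ P ⊓ centralizer {𝔯 32}, cg u k ∈ P) {a : ℕ} (ha : a = 32 ∨ a = 128) : ∃ u ∈ [32, 128, 160], 𝔫 k a u := by
  obtain ⟨x, p, q⟩ : ∃ x ∈ [1, 17, 21], EQ 512 (cj (D5 e l) 32 x) 32 ∧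
    EQ 512 (mul (D5 e l) (mul (D5 e l) x x) (mul (D5 e l) x x)) a := by rcases ha with rfl | rfl <;> exact dk
  obtain ⟨y, l1, m⟩ := Mp.ex (x := mul (D5 e l) x x) (w := k) V.pg V.pg (by
    rw [← V.pg.mul, cg_mul]; exact S.sq (hk _ ⟨S.le (el_mem _ _), mem_cent.2 (Mp.sf V.pg _ _ _ q.1)⟩))
  have m1 := ((m.mul m).l a q.2).r _ (Nat.mod_mod _ 512).symm
  have K : ∀ g, EQ 512 (cj (D5 e l) (mul (D5 e l) y y % 512) (mul (D5 e l) g g)) (mul (D5 e l) y y % 512) := fun g => by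
    obtain ⟨v, b, f⟩ := (half (H := (P ⊓ centralizer {𝔯 32}).map (cgH k)) (by rintro _ ⟨u, b, rfl⟩; exact cgH_apply k u ▸ hk u b)
      (by rw [card_cg]; exact V.c3 S) (S.le (el_mem _ g)) (S.le (el_mem _ g))).2 Iff.rfl
    refine Mp.of_el (h := V.pg) ?_
    rw [← V.pg.mul, ← f, cgH_apply]
    refine Mp.cjg ?_ m1 m1
    rcases ha with rfl | rfl
    exacts [mem_cent.1 b.2, mem_cent.1 (V.Pz S b.1)]
  have p1 := K 24
  have p2 := K (cj (D5 e l) 24 1)
  have p3 : EQ 512 (mul (D5 e l) (mul (D5 e l) y y % 512) (mul (D5 e l) y y % 512)) 0 := m1.sq (by rcases ha with rfl | rfl <;> exact dk)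
  have p4 := m1.ne .zero (by rcases ha with rfl | rfl <;> decide)
  exact ⟨_, (by clear_aux_decl; clear * - l1 p1 p2 p3 p4; decide +kernel +revert), m1⟩

omit S in
theorem nol {C : Cx G e} (V : V5 C.toCfg0 true i) : False := by
  obtain ⟨P, S⟩ := V.exSP
  obtain ⟨g, a, b⟩ := V.into S ((V.zv.trans (Mp.sf V.pg 2 144 48).conj).trans ((Mp.sf V.pg 4 48 16).conj.trans V.yv.symm))
    (S.pP.to_le (inf_le_left : P ⊓ centralizer {𝔯 32} ≤ P)) fun u p => mem_cent.1 p.2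
  obtain ⟨u, p, m⟩ := V.loc S b (.inr rfl)
  have q := m.ne (a : 𝔫 g 32 128)
  have := V.pg.count V.pg (w := g) (L := (List.range 512).filter fun x => x / 8 % 2 = 0 ∧ EQ 512 (mul (D5 e true) x x) 128)
    (L' := (List.range 512).filter fun x => EQ 512 (mul (D5 e true) x x) u) dk fun x h => by
      obtain ⟨l1, h⟩ := List.mem_filter.1 h
      rw [List.mem_range] at l1
      obtain ⟨h1, h2⟩ := of_decide_eq_true h
      obtain ⟨y, l2, m1⟩ := Mp.ex (x := x) (w := g) V.pg V.pg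
        (V.lA S ▸ b _ ⟨S.le (el_mem _ _), mem_cent.2 (Mp.sf V.pg _ _ _ (by clear_aux_decl; clear * - l1 h1; decide +kernel +revert))⟩)
      exact ⟨y, List.mem_filter.2 ⟨List.mem_range.2 l2, decide_eq_true ((m1.mul m1).eq m h2)⟩, m1⟩
  exact absurd this (by clear_aux_decl; clear * - p q; decide +kernel +revert)

/-- Moving `⟨c^g, y, z⟩` to `⟨c, y, z⟩`. -/
theorem intoA {g : G} (gy : 𝔫 g 32 32) (gz : 𝔫 g 128 128) {w : ℕ} (gc : 𝔫 g 196 w) {Q : Subgroup G} (hQ : IsPGroup 2 Q)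
    (a : ∀ u ∈ Q, 𝔫 u 128 128 ∧ (𝔫 u 32 32 ∨ 𝔫 u 32 160) ∧ ∃ k ∈ [0, 32, 128, 160], 𝔫 u w (mul (D5 e l) w k)) :
    ∃ h, 𝔫 h 32 32 ∧ 𝔫 h 128 128 ∧ (∃ c ∈ [68, 100, 196, 228], 𝔫 h w c) ∧ ∀ u ∈ Q, cg u h ∈ P := by
  cases l
  swap
  · exact V.nol.elim
  obtain ⟨hs, p, E⟩ := V.pg.sub' [196, 32, 128] [(2, [1, 2]), (0, [1]), (0, [])] 8 dk
  have A : ∀ x ∈ [0, 32, 128, 160, 68, 100, 196, 228], 𝔯 x ∈ gen hs := fun x h => by
    obtain ⟨j, -, q⟩ : ∃ j < 8, EQ 512 (hm (mul (D5 e false)) [196, 32, 128] j) x := (by clear_aux_decl; clear * - h; decide +kernel +revert)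
    rw [← (V.pg.eq _ _).2 q, ← E]; exact el_mem _ _
  have K : ∀ {x c y}, 𝔫 x 128 128 → 𝔫 x 32 y → y = 32 ∨ y = 160 → 𝔫 x 196 c → c ∈ [68, 100, 196, 228] →
      x ∈ centralizer {𝔯 128} ⊓ normalizer (MS V.gs 160 : Set G) ⊓ normalizer (gen hs : Set G) := fun {x c y} a b d f k => by
    refine ⟨⟨mem_cent.2 a, V.pg.nm_ms fun j p q => ?_⟩, mem_norm_of_cg fun u hu => ?_⟩
    · obtain rfl | rfl : j = 5 ∨ j = 7 := (by clear_aux_decl; clear * - p q; decide +kernel +revert)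
      exacts [b.mem (by rcases d with rfl | rfl <;> decide), a.mem]
    · refine (p.gen_le_iff (H := (gen hs).comap (cgH x))).2 (fun j l1 => ?_) hu |> fun h => cgH_apply x u ▸ h
      rw [mem_comap, cgH_apply, E]
      obtain rfl | rfl | rfl : j = 0 ∨ j = 1 ∨ j = 2 := (by clear_aux_decl; clear * - l1; decide +kernel +revert)
      · rw [(f.l _ dk).e]; exact A _ (by simp only [List.mem_cons] at k ⊢; tauto)
      · rw [(b.l _ dk).e]; exact A _ (by rcases d with rfl | rfl <;> decide)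
      · rw [(a.l _ dk).e]; exact A _ (by decide)
  obtain ⟨h, ⟨⟨h1, h2⟩, h3⟩, k⟩ := S.conj' (fun x b => by
    obtain ⟨c, l1, q, m⟩ := Mp.exm (h := V.pg) (St5.ok 230 (by simp)) (V.nT' (S.nm b)) 196
    have z := (V.v0 (S.nm b)).2.2.2
    have q' := (m.mul m).eq z
    rcases V.Py S b with y | y
    exacts [K z y (.inl rfl) m (by clear_aux_decl; clear * - l1 q q'; decide +kernel +revert), K z y (.inr rfl) m (by clear_aux_decl; clear * - l1 q q'; decide +kernel +revert)]) hQ (k := g) fun u b => by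
      obtain ⟨z, y, k, d, m⟩ := a u b
      have gk : 𝔫 g k k := by
        obtain ⟨j, -, q⟩ : ∃ j < 4, EQ 512 (hm (mul (D5 e false)) [32, 128] j) k := (by clear_aux_decl; clear * - d; decide +kernel +revert)
        exact (Mp.hom (.cons gy (.cons gz .nil)) j).cast _ _ ⟨q, q⟩
      have m1 := (m.cjg gc.symm (gc.mul gk).symm).r _ (Nat.mod_mod _ 512).symm
      rcases y with y | y
      exacts [K (z.cjg gz.symm gz.symm) (y.cjg gy.symm gy.symm) (.inl rfl) m1 (by clear_aux_decl; clear * - d; decide +kernel +revert),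
        K (z.cjg gz.symm gz.symm) (y.cjg gy.symm ((gy.mul gz).cast 160 160).symm) (.inr rfl) m1 (by clear_aux_decl; clear * - d; decide +kernel +revert)]
  have z : 𝔫 h 128 128 := mem_cent.1 h1
  obtain ⟨j, l1, m⟩ := p.ex (cg_mem_norm (A 196 (by decide)) h3)
  rw [E, ← el_modN V.pg] at m
  replace m : 𝔫 h 196 _ := m
  have q := (m.mul m).eq z
  rcases V.imy h2 z with y | y
  · exact ⟨_, gy.symm.trans y, gz.symm.trans z, ⟨_, (by clear_aux_decl; clear * - l1 q; decide +kernel +revert), gc.symm.trans m⟩, k⟩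
  · exact ⟨g⁻¹ * h * 𝔯 8, ((gy.symm.trans y).tr 8).r _, ((gz.symm.trans z).tr 8).r _,
      ⟨_, (by clear_aux_decl; clear * - l1 q; decide +kernel +revert), ((gc.symm.trans m).tr 8).r _ (Nat.mod_mod _ 512).symm⟩, fun u b => by
        rw [← cg_cg]; exact cg_mem (k u b) (S.le (el_mem _ _))⟩

end V5

end Cfsg.Lib.H33
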