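import Cfsg.Agent.Lib.L33.Vb

/-! S3140 (helper5): using `σ` (`C.sig`, `C.sig0`) in `T`. Framework: Lib/H33/{Pc,Fw,Sy,Cfg,Cf2,Vb,Vc} (codes, `Mp`, `MS`; `St5.v0/cent/back/vA/vB/main`), Lib/L33/{Cx,Tl,V0,Vb}; codes in V0.lean; python models in `tools/h33` (v5.py, x7.py, x8.py).
Let `W = 65 + 8 i` (`d tⁱ r`), `Q = ⟨c, W⟩ ≅ Q₈`, `κ = cond e 452 256`. Transport by `x` of `V.fr` (`Mp.hom`, `Mp.cjg`; if `k = 128` conjugate `σ` by `c`): `σ` fixes `t, κ`, `c ↦ W ↦ c W`.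
(CQ) a 2-group `P₀ ∋ κ` centralising `t, c, W` lies in `⟨t, κ, z⟩`: move `⟨c, W⟩ ⊔ P₀` into `S` by `C.into` after `x⁻¹` (`C.fus` keeps `c, W` in `D`; `C_S(Q) = ⟨t, κ, z⟩` has order 8).
(FR) if `R ≤ M`, `R` is a maximal 2-subgroup of `M` and `σ ∈ N(M)`, then `σ k ∈ N(R)` for some `k ∈ M` (`syl_fr`).
Step 1: `y' = y` (`i = 0`), `y' = c⁻¹ y = 100` (`i = 1`), `R₁ = ⟨y', t, κ⟩` (order 16, `y' : t ↦ t z`), `M₁ = C(c, W) ⊓ N(⟨t, z⟩)`: maximal by `ntz` and (CQ); `g₁ = σ k₁`.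
`i = 0`: `g₁ : t ↦ t, tz`, so `g₁²` fixes `y` modulo `z` (images of `t, y, κ` in `R₁`, `Mp.hom`), `c ↦ c W = 133`; multiply by `t` if needed.
Step 2 (`i = 1`): `R = ⟨R₁, w'⟩ = C_T(Q)`, `w' = 11` (order 32), `M₂ = C(c, W) ⊓ N(R₁)`: maximal since the conjugates of `t` in `R₁` are `8, 108, 136, 236` (`tcl`), one `R`-class, and (CQ).
`g₂ = g₁ k₂` normalises `R₁, R`; `g₂ : c ↦ W`, `100 ↦ 100, 228`, so `y = c · 100 ↦` class of `43`; `g₂² : c ↦ 141`, `w' ↦ 11, 111, 139, 239`, so `c w'` (class of `43`) `↦` class of `6`. -/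

set_option autoImplicit false
set_option synthInstance.maxSize 2048

namespace Cfsg.Lib.H33

open Cfsg.Lib.Calc Cfsg.Lib.Transfer Subgroup
open scoped Cfsg.Lib.Transfer

variable {G : Type*} [Group G] [Finite G] {e l i : Bool}

set_option quotPrecheck false in
local notation "dk" => by clear_aux_decl; clear * -; decide +kernel +revert


theorem PG.exL {gs : List G} {D : Dat} {N : ℕ} (h : PG gs D N) {cs : List ℕ} (D' : Dat) {N' : ℕ}
    (e : subOK D N cs D' = true ∧ 2 ^ cs.length = N') {u : G} (a : u ∈ gen (cs.map (el gs))) : ∃ j < N', u = el gs (hm (H33.mul D) cs j) :=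
  let ⟨j, l, p⟩ := (h.sub e.1 e.2).ex a
  ⟨j, l, p.trans (h.el_map _ _)⟩

omit [Finite G] in
theorem PG.inL {gs : List G} {D : Dat} {N : ℕ} (h : PG gs D N) {cs : List ℕ} {x : ℕ}
    (a : ∃ j < 2 ^ cs.length, EQ N (hm (H33.mul D) cs j) x) : el gs x ∈ gen (cs.map (el gs)) :=
  let ⟨j, _, p⟩ := a
  (h.eq _ _).2 p ▸ h.el_map cs j ▸ el_mem _ _

omit [Finite G] in
theorem leL {gs : List G} {cs : List ℕ} {H : Subgroup G} : gen (cs.map (el gs)) ≤ H ↔ ∀ x ∈ cs, el gs x ∈ H := by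
  rw [gen_le, List.forall_mem_map]

omit [Finite G] in
theorem PG.pL {gs : List G} {D : Dat} {N : ℕ} (h : PG gs D N) (cs : List ℕ) : IsPGroup 2 (gen (cs.map (el gs))) :=
  h.pgroup.to_le (leL.2 fun _ _ => el_mem _ _)

/-- Frattini argument for a maximal 2-subgroup. -/
theorem frat {M R : Subgroup G} (hR : IsPGroup 2 R) (l : R ≤ M) (mx : ∀ T : Subgroup G, IsPGroup 2 T → R ≤ T → T ≤ M → T ≤ R) {ρ : G}
    (h : ρ ∈ normalizer (M : Set G)) : ∃ m ∈ M, ∀ x ∈ R, cg x (ρ * m) ∈ R :=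
  let ⟨T, a, b, c, d⟩ := syl_fr hR (l.trans le_normalizer)
  let ⟨m, p, q⟩ := d ρ h
  ⟨m, p, fun x k => mx T a b (c.trans (sup_le le_rfl l)) (q x (b k) (l k))⟩

namespace V5

set_option hygiene false in
local notation "𝔯" => el (St5.gs (V5.toSt5 V))
set_option hygiene false in
local notation "𝔫" => Mp (St5.pg (V5.toSt5 V)) (St5.pg (V5.toSt5 V))
set_option hygiene false in
local notation "𝔗" => gen (St5.gs (V5.toSt5 V))

section
variable {C : Cx G e} (V : V5 C.toCfg0 false i)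

omit [Finite G] in
theorem sg : ∃ σ, 𝔫 σ 8 8 ∧ 𝔫 σ 196 (cond i 73 65) ∧ 𝔫 σ (cond i 73 65) (cond i 141 133) := by
  obtain ⟨x, k, p, m⟩ := V.fr
  obtain ⟨σ, s1, s2, s3⟩ := C.sig0
  have t := (Mp.hom m 8).cast 8 8 (by clear_aux_decl; clear * - p; decide +kernel +revert)
  have c := (Mp.hom m 4).cast 4 196 (by clear_aux_decl; clear * - p; decide +kernel +revert)
  have w := (Mp.hom m 3).cast 3 (cond i 73 65 + k) (by clear_aux_decl; clear * - p; decide +kernel +revert)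
  have t' := Mp.sf V.pg (k / 128 * 196) 8 8 (by clear_aux_decl; clear * - p; decide +kernel +revert)
  have c' := Mp.sf V.pg (k / 128 * 196) 196 196 (by clear_aux_decl; clear * - p; decide +kernel +revert)
  have w' := Mp.sf V.pg (k / 128 * 196) (cond i 73 65 + k) (cond i 73 65) (by clear_aux_decl; clear * - p; decide +kernel +revert)
  exact ⟨_, (s1.cjg t t).cjg t' t', (s2.cjg c w).cjg c' w', ((s3.cjg w (c.mul w)).cjg w' (c'.mul w')).r _⟩

/-- The centraliser of `Q`. -/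
def CQ : Subgroup G := centralizer {𝔯 196} ⊓ centralizer {𝔯 (cond i 73 65)}

omit [Finite G] in
theorem mCQ {u : G} : u ∈ V.CQ ↔ 𝔫 u 196 196 ∧ 𝔫 u (cond i 73 65) (cond i 73 65) := and_congr mem_cent mem_cent

theorem nC {g : G} (a : 𝔫 g 196 (cond i 73 65)) (b : 𝔫 g (cond i 73 65) (cond i 141 133)) : g ∈ normalizer (V.CQ : Set G) :=
  mem_norm_of_cg fun _ h => have p := (V.mCQ.1 h).1.cjg a a
    V.mCQ.2 ⟨(((V.mCQ.1 h).2.cjg b b).mul p.inv).cast _ _, p⟩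

theorem cq {P : Subgroup G} (hP : IsPGroup 2 P) (a : P ≤ V.CQ) (b : P ≤ centralizer {𝔯 8}) (k : 𝔯 (cond e 452 256) ∈ P) {u : G}
    (hu : u ∈ P) : ∃ j < 8, u = 𝔯 (hm (mul (D5 e false)) [8, cond e 452 256, 128] j) := by
  obtain ⟨x, n, p, m⟩ := V.fr
  obtain ⟨w, t, h⟩ := C.into (P ⊔ gen ([196, cond i 73 65].map 𝔯)) (hP.to_sup_of_normal_right' (V.pg.pL _) fun u p => norm_gen fun y q => by
      obtain rfl | rfl : y = 𝔯 196 ∨ y = 𝔯 (cond i 73 65) := by simpa using q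
      exacts [(V.mCQ.1 (a p)).1.e.symm ▸ mem_gen q, (V.mCQ.1 (a p)).2.e.symm ▸ mem_gen q])
    fun u p => V.t ▸ mem_cent.1 (sup_le b (leL.2 fun y q => mem_cent.2 (Mp.sf V.pg _ _ _ (by clear_aux_decl; clear * - q; decide +kernel +revert))) p)
  replace t : Mp V.pg C.pg w 8 8 := by rw [Mp, V.t]; exact t
  obtain ⟨c, l1, mc⟩ := Mp.ex (x := 196) V.pg C.pg (h _ (mem_sup_right (mem_gen (by simp))))
  have t' := ((Mp.hom m 8).cast 8 8 (by clear_aux_decl; clear * - p; decide +kernel +revert)).trans t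
  have p0 := C.fus t' (((Mp.hom m 4).cast 4 196 (by clear_aux_decl; clear * - p; decide +kernel +revert)).trans mc)
  obtain ⟨d, l2, md⟩ := Mp.ex (x := cond i 73 65) V.pg C.pg (h _ (mem_sup_right (mem_gen (by simp))))
  have p1 : d / 8 % 4 = 0 := (C.fus t' ((Mp.hom m (3 + n / 4)).cast (3 + n / 4) _ (by clear_aux_decl; clear * - p; decide +kernel +revert) |>.trans md)).symm.trans (by clear_aux_decl; clear * - p; decide +kernel +revert)
  have p2 := (mc.mul md).ne (md.mul mc)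
  have z := (mc.mul mc).l 128
  have p8 := z.ne .zero
  have p9 := z.sq
  have p10 := (md.mul md).eq z
  obtain ⟨k', l3, mk⟩ := Mp.ex V.pg C.pg (h _ (mem_sup_left k))
  have p3 := mc.co mk
  have p4 := md.co mk
  have p5 : ∀ j < 4, ¬ EQ 64 k' (hm (mul (DS e)) [8, mul (DS e) c c] j) := fun j l =>
    mk.ne (Mp.hom (.cons t (.cons z .nil)) j) (by clear_aux_decl; clear * - l; decide +kernel +revert)
  obtain ⟨v, l4, mu⟩ := C.pg.ex (h u (mem_sup_left hu))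
  have p6 := (V.mCQ.1 (a hu)).1.act mc mc mu
  have p7 := (V.mCQ.1 (a hu)).2.act md md mu
  obtain ⟨j, l, q⟩ : ∃ j < 8, EQ 64 (hm (mul (DS e)) [8, k', mul (DS e) c c] j) v := (by clear_aux_decl; clear * - l1 p0 l2 p1 p2 l3 p3 p4 p5 l4 p6 p7 p8 p9 p10; decide +kernel +revert)
  exact ⟨j, l, cg_inj.1 (mu.trans ((Mp.hom (.cons t (.cons mk (.cons z .nil))) j).r v q).e.symm)⟩

theorem mx {cs : List ℕ} {T : Subgroup G} (hT : IsPGroup 2 T) (l : gen (cs.map 𝔯) ≤ T) (c : T ≤ V.CQ)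
    (k : ∀ x ∈ [8, cond e 452 256, 128], x ∈ cs) (a : ∀ u ∈ T, ∃ ρ ∈ gen (cs.map 𝔯), 𝔫 (u * ρ) 8 8) : T ≤ gen (cs.map 𝔯) := fun u p => by
  have K : ∀ x ∈ [8, cond e 452 256, 128], 𝔯 x ∈ gen (cs.map 𝔯) := fun x q => mem_gen (List.mem_map_of_mem (k x q))
  obtain ⟨ρ, q, m⟩ := a u p
  obtain ⟨j, -, r⟩ := V.cq (hT.to_le (inf_le_left : T ⊓ centralizer {𝔯 8} ≤ T)) (inf_le_left.trans c) inf_le_right
    ⟨l (K _ (by simp)), mem_cent.2 (Mp.sf V.pg _ _ _)⟩ ⟨mul_mem p (l q), mem_cent.2 m⟩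
  rw [← mul_mem_cancel_right q, r, ← V.pg.el_map]
  exact leL.2 K (el_mem _ _)

theorem tz {u : G} (a : u ∈ normalizer (MS V.gs 136 : Set G)) (z : 𝔫 u 128 128) : 𝔫 u 8 8 ∨ 𝔫 u 8 136 := by
  obtain ⟨x, l1, p, m⟩ := Mp.exm (h := V.pg) dk a 8
  have q := m.ne .zero
  have r := m.ne z
  obtain rfl | rfl : x = 8 ∨ x = 136 := (by clear_aux_decl; clear * - l1 p q r; decide +kernel +revert)
  exacts [.inl m, .inr m]

theorem st1 : ∃ g, 𝔫 g 196 (cond i 73 65) ∧ 𝔫 g (cond i 73 65) (cond i 141 133) ∧ (𝔫 g 8 8 ∨ 𝔫 g 8 136) ∧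
    g ∈ normalizer (gen ([cond i 100 32, 8, cond e 452 256, 128].map 𝔯) : Set G) := by
  obtain ⟨σ, s1, s2, s3⟩ := V.sg
  have z := (s2.mul s2).cast 128 128
  have n : σ ∈ normalizer (MS V.gs 136 : Set G) := V.pg.nm_ms fun j p q => by
    obtain rfl | rfl : j = 3 ∨ j = 7 := (by clear_aux_decl; clear * - p q; decide +kernel +revert)
    exacts [s1.mem, z.mem]
  obtain ⟨k, ⟨p, q⟩, h⟩ := frat (M := V.CQ ⊓ normalizer (MS V.gs 136 : Set G)) (V.pg.pL [cond i 100 32, 8, cond e 452 256, 128])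
    (leL.2 fun x p => ⟨V.mCQ.2 ⟨Mp.sf V.pg _ _ _ (by clear_aux_decl; clear * - p; decide +kernel +revert), Mp.sf V.pg _ _ _ (by clear_aux_decl; clear * - p; decide +kernel +revert)⟩, V.pg.nm_el (by clear_aux_decl; clear * - p; decide +kernel +revert)⟩)
    (fun T a b c => V.mx a b (c.trans inf_le_left) (by simp) fun u p => by
      have := (V.mCQ.1 (c p).1).1
      rcases V.tz (c p).2 ((this.mul this).cast _ _) with m | m
      exacts [⟨1, one_mem _, by rwa [mul_one]⟩, ⟨_, mem_gen (List.mem_map_of_mem (.head _)), (m.tr _).r _⟩])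
    (norm_inf (V.nC s2 s3) (norm_norm n))
  obtain ⟨p1, p2⟩ := V.mCQ.1 p
  exact ⟨_, s2.trans p2, s3.trans ((p1.mul p2).cast _ _), V.tz (mul_mem n q) (z.trans ((p1.mul p1).cast _ _)), mem_norm_of_cg h⟩

theorem ex1 {g : G} (n : g ∈ normalizer (gen ([cond i 100 32, 8, cond e 452 256, 128].map 𝔯) : Set G)) (x : ℕ)
    (h : ∃ j < 2 ^ 4, EQ 512 (hm (mul (D5 e false)) [cond i 100 32, 8, cond e 452 256, 128] j) x := by
      clear_aux_decl; clear * -; decide +kernel +revert) :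
    ∃ j < 16, 𝔫 g x (hm (mul (D5 e false)) [cond i 100 32, 8, cond e 452 256, 128] j) :=
  V.pg.exL [(cond i 4 0, [5, 2, 4]), (0, [1, 2]), (cond e 1 0, [1]), (0, [])] dk (cg_mem_norm (V.pg.inL h) n)

end

theorem l1a {C : Cx G e} (V : V5 C.toCfg0 false false) : ∃ g, 𝔫 g 32 32 ∧ 𝔫 g 128 128 ∧ 𝔫 g 196 133 := by
  obtain ⟨g, a, b, c, n⟩ := V.st1
  have z := (a.mul a).cast 128 128
  obtain ⟨x, p, t⟩ : ∃ x ∈ [8, 136], 𝔫 g 8 x := c.elim (fun c => ⟨_, by simp, c⟩) fun c => ⟨_, by simp, c⟩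
  obtain ⟨j, l1, y⟩ := V.ex1 n 32
  have p1 := (t.cj y).eq (t.mul z)
  obtain ⟨k, l2, m⟩ := V.ex1 n (cond e 452 256)
  have p2 := m.co y
  have p3 := m.co t
  have p4 := m.ne .zero
  have p5 := m.ne z
  have p6 := y.sq
  have m1 := y.trans (Mp.hom (.cons y (.cons t (.cons m (.cons z .nil)))) j)
  obtain ⟨u, q, r⟩ : ∃ u ∈ [0, 8], EQ 512 (cj (D5 e false) (hm (mul (D5 e false)) [hm (mul (D5 e false)) [cond false 100 32, 8, cond e 452 256, 128] j, x,
    hm (mul (D5 e false)) [cond false 100 32, 8, cond e 452 256, 128] k, 128] j) u) 32 := (by clear_aux_decl; clear * - p l1 p1 l2 p2 p3 p4 p5 p6; decide +kernel +revert)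
  exact ⟨_, (m1.tr u).r _ r, ((z.trans z).tr u).r _ (by clear_aux_decl; clear * - q; decide +kernel +revert), ((a.trans b).tr u).r _ (by clear_aux_decl; clear * - q; decide +kernel +revert)⟩

theorem tR {C : Cx G e} (V : V5 C.toCfg0 false true) {u : G}
    (n : u ∈ normalizer (gen ([cond true 100 32, 8, cond e 452 256, 128].map 𝔯) : Set G)) {a : ℕ} (h : a ∈ [8, 108] := by decide) :
    ∃ x ∈ [8, 108, 136, 236], 𝔫 u a x := by
  obtain ⟨j, l1, m⟩ := V.ex1 n a (by clear_aux_decl; clear * - h; decide +kernel +revert)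
  have c : IsConj (𝔯 8) _ := (show IsConj (𝔯 8) (𝔯 a) by
    obtain rfl | rfl : a = 8 ∨ a = 108 := by simpa using h
    exacts [.refl _, (Mp.sf V.pg 111 108 8).conj.symm]).trans m.conj
  have p1 : ¬ _ := fun p => V.k1 p c
  have p2 := m.sq (by clear_aux_decl; clear * - h; decide +kernel +revert)
  have p3 : ∀ g ∈ [0, 11, 100, 111], ¬ _ := fun g _ p => V.n2 (c.trans (Mp.sf V.pg g _ 264 p).conj)
  exact ⟨_, (by clear_aux_decl; clear * - l1 p1 p2 p3; decide +kernel +revert), m.r _ (Nat.mod_mod _ 512).symm⟩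

theorem l1b {C : Cx G e} (V : V5 C.toCfg0 false true) : IsConj (𝔯 32) (𝔯 43) ∧ IsConj (𝔯 32) (𝔯 6) := by
  obtain ⟨σ, s2, s3, -, n⟩ := V.st1
  obtain ⟨k, ⟨p, q⟩, h⟩ := frat (M := V.CQ ⊓ normalizer (gen ([cond true 100 32, 8, cond e 452 256, 128].map 𝔯) : Set G))
    (V.pg.pL [11, 100, 8, cond e 452 256, 128])
    (leL.2 fun x p => ⟨V.mCQ.2 ⟨Mp.sf V.pg _ _ _ (by clear_aux_decl; clear * - p; decide +kernel +revert), Mp.sf V.pg _ _ _ (by clear_aux_decl; clear * - p; decide +kernel +revert)⟩, norm_gen (List.forall_mem_map.2 fun y q => by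
      rw [V.pg.cg]; exact V.pg.inL (by revert y; exact (by clear_aux_decl; clear * - p; decide +kernel +revert)))⟩)
    (fun T a b c => V.mx a b (c.trans inf_le_left) (by simp) fun u p => by
      obtain ⟨x, q, m⟩ := V.tR (a := 8) (c p).2
      obtain ⟨g, r, s⟩ : ∃ g ∈ [0, 11, 100, 111], EQ 512 (cj (D5 e false) x g) 8 := (by clear_aux_decl; clear * - q; decide +kernel +revert)
      exact ⟨_, V.pg.inL (by clear_aux_decl; clear * - r; decide +kernel +revert), (m.tr g).r _ s⟩)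
    (norm_inf (V.nC s2 s3) (norm_norm n))
  obtain ⟨p1, p2⟩ := V.mCQ.1 p
  have a := s2.trans p2
  have b := s3.trans ((p1.mul p2).cast _ 141)
  have z := (a.mul a).cast 128 128
  replace n := mul_mem n q
  generalize σ * k = g at *
  obtain ⟨x, q1, t⟩ := V.tR (a := 8) n
  obtain ⟨x', q2, t'⟩ := V.tR (a := 108) n
  have q3 := (t.cj t').eq (t.mul z)
  have y := (t.mul t').cast 100 _ ⟨dk, (Nat.mod_mod _ 512).symm⟩
  have q4 : mul (D5 e false) x x' % 512 ∈ [100, 228] := (by clear_aux_decl; clear * - q1 q2 q3; decide +kernel +revert)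
  generalize mul (D5 e false) x x' % 512 = v at y q4
  have c1 : IsConj (𝔯 32) (𝔯 43) := by
    obtain ⟨u, -, r⟩ : ∃ u ∈ [17, 18], EQ 512 (cj (D5 e false) (mul (D5 e false) (cond true 73 65) v) u) 43 := (by clear_aux_decl; clear * - q4; decide +kernel +revert)
    exact (((a.mul y).tr u).cast 32 43 ⟨dk, r⟩).conj
  obtain ⟨j, l1, m⟩ := V.ex1 n (cond e 452 256)
  have q5 := m.co y
  have q6 := m.co t
  have q7 := m.ne .zero
  have q8 := m.ne z
  have q9 := (m.mul m).eq (Mp.hom (.cons z .nil) (cond e 1 0))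
  obtain ⟨i, l2, w⟩ := V.pg.exL [(8, [9, 3, cond e 12 4, 8]), (4, [5, 2, 4]), (0, [1, 2]), (cond e 1 0, [1]), (0, [])] (N' := 32) dk
    (h (𝔯 11) (mem_gen (by simp)))
  replace w : 𝔫 g 11 _ := w
  have r1 := (w.mul w).eq z
  have r2 := (t.cj w).eq (y.mul t)
  have m1 := w.trans (Mp.hom (.cons w (.cons y (.cons t (.cons m (.cons z .nil))))) i)
  obtain ⟨u, -, r⟩ : ∃ u ∈ [1, 10], EQ 512 (cj (D5 e false) (mul (D5 e false) 141 (hm (mul (D5 e false))
      [hm (mul (D5 e false)) [11, 100, 8, cond e 452 256, 128] i, v, x,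
        hm (mul (D5 e false)) [cond true 100 32, 8, cond e 452 256, 128] j, 128] i)) u) 6 := (by clear_aux_decl; clear * - q1 q4 l1 q5 q6 q7 q8 q9 l2 r1 r2; decide +kernel +revert)
  exact ⟨c1, c1.trans ((Mp.sf V.pg 2 207 43).conj.symm.trans ((((a.trans b).mul m1).tr u).cast 207 6 ⟨dk, r⟩).conj)⟩

end V5

end Cfsg.Lib.H33
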