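import Cfsg.Agent.Lib.L33.Vb

/-! S3140 (helper5): `f ≁ z`, `y ≁ z`, and moving conjugates of `y`.
`nfz`: `C_T(f)` goes to `H ≤ P` of index `≤ 4`, `f ↦ z`; two of five involutions of `2^{1+4}_- ≤ T` lie in one coset of `H`, so `z` is a square in `H`, but `f` is no square in `T`.
`k3`: `θ : C_P(y) → P`, `y ↦ z`, `z ↦ y, y z`; the squares `d²`, `(d v)²` and one of `d, v, d v` go into `T`, which is impossible. -/

set_option autoImplicit false
set_option synthInstance.maxSize 2048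

namespace Cfsg.Lib.H33

open Cfsg.Lib.Calc Cfsg.Lib.Transfer Subgroup
open scoped Cfsg.Lib.Transfer

variable {G : Type*} [Group G] [Finite G] {e l i : Bool}

set_option quotPrecheck false in
local notation "dk" => by clear_aux_decl; clear * -; decide +kernel +revert


theorem card_pack {H P : Subgroup G} (l : H ≤ P) {n : ℕ} (x : Fin n → G) (a : ∀ i, x i ∈ P) (b : ∀ i j, x i * (x j)⁻¹ ∈ H → i = j) :
    Nat.card H * n ≤ Nat.card P := by
  have := Nat.card_le_card_of_injective (fun p : H × Fin n => (⟨p.1 * x p.2, mul_mem (l p.1.2) (a _)⟩ : P)) fun p q h => by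
    replace h : p.1 * x p.2 = q.1 * x q.2 := congrArg Subtype.val h
    have e := b p.2 q.2 (by
      rw [eq_inv_mul_iff_mul_eq.2 h, mul_assoc, mul_inv_cancel_right]; exact mul_mem (inv_mem p.1.2) q.1.2)
    rw [e] at h
    exact Prod.ext (Subtype.ext (mul_right_cancel h)) e
  simpa [Nat.card_prod] using this

namespace V5

set_option hygiene false in
local notation "𝔯" => el (St5.gs (V5.toSt5 V))
set_option hygiene false in
local notation "𝔫" => Mp (St5.pg (V5.toSt5 V)) (St5.pg (V5.toSt5 V))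
set_option hygiene false in
local notation "𝔗" => gen (St5.gs (V5.toSt5 V))


theorem nfz {C : Cx G true} (V : V5 C.toCfg0 false i) : ¬ IsConj (𝔯 128) (𝔯 256) := fun c => by
  obtain ⟨P, S⟩ := V.exSP
  obtain ⟨g, a, b⟩ := V.into S c (V.pg.pgroup.to_le (inf_le_left : 𝔗 ⊓ centralizer {𝔯 256} ≤ _)) fun u p => mem_cent.1 p.2
  have h1 := card_cover (T := 𝔗) (R := 𝔗 ⊓ centralizer {𝔯 256}) [𝔯 0, 𝔯 1] fun y hy => by
    obtain ⟨y, l1, rfl⟩ := V.pg.ex hy
    obtain ⟨v, p, q⟩ : ∃ v ∈ [0, 1], EQ 512 (cj (D5 true false) 256 (mul (D5 true false) y v)) 256 := (by clear_aux_decl; clear * - l1; decide +kernel +revert)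
    exact ⟨_, List.mem_map_of_mem (f := 𝔯) p, by rw [V.pg.mul]; exact ⟨el_mem _ _, mem_cent.2 (Mp.sf V.pg _ _ _ q)⟩⟩
  have h2 := card_pack (H := (𝔗 ⊓ centralizer {𝔯 256}).map (cgH g)) (P := P) (by rintro _ ⟨u, p, rfl⟩; exact cgH_apply g u ▸ b u p)
    (fun j : Fin 5 => 𝔯 ([8, 32, 45, 105, 108].getD j 0)) (fun _ => S.le (el_mem _ _)) fun j k ⟨u, p, q⟩ => by
      obtain ⟨x, l1, rfl⟩ := V.pg.ex p.1
      rw [cgH_apply, V.pg.inv, V.pg.mul] at q
      replace q : 𝔫 g x _ := q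
      have := (q.mul q).iff (a : 𝔫 g 256 128)
      have n : ¬ EQ 512 (mul (D5 true false) x x) 256 := (by clear_aux_decl; clear * - l1; decide +kernel +revert)
      replace n := mt this.2 n
      exact (by clear_aux_decl; clear * - n; decide +kernel +revert)
  have h3 := S.card V.pg
  rw [card_cg] at h2
  rw [V.pg.card] at h1
  simp only [List.length_cons, List.length_nil] at h1
  omega

theorem k3 {C : Cx G e} (V : V5 C.toCfg0 false i) : ¬ IsConj (𝔯 128) (𝔯 32) := fun c => by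
  obtain ⟨P, S⟩ := V.exSP
  obtain ⟨g, a, b⟩ := V.into S c (S.pP.to_le (inf_le_left : P ⊓ centralizer {𝔯 32} ≤ P)) fun u p => mem_cent.1 p.2
  obtain ⟨u, p, m⟩ := V.loc S b (.inr rfl)
  replace a : 𝔫 g 32 128 := a
  have q := m.ne a
  have M : ∀ x ∈ [1, 16, 17], cg (𝔯 x) g ∈ P := fun x h => b _ ⟨S.le (el_mem _ _), mem_cent.2 (Mp.sf V.pg _ _ _ (by clear_aux_decl; clear * - h; decide +kernel +revert))⟩
  have K : ∀ x ∈ [1, 16, 17], ∃ w < 512, 𝔫 g (mul (D5 e false) x x) w := fun x h =>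
    Mp.ex _ _ (by rw [← V.pg.mul, cg_mul]; exact S.sq (M x h))
  have L : ∀ {x w}, x ∈ [32, 160] → 𝔫 g (mul (D5 e false) w w) x → (∃ c < 512, 𝔫 g w c) → ∃ c ∈ [2, 20, 34, 52, 82, 114, 130, 148, 162, 180, 210, 242, 258,
      276, 290, 308, 338, 370, 386, 404, 418, 436, 466, 498, 70, 84, 86, 102, 116, 118, 198, 212, 214, 230, 244, 246, 326, 340, 342, 358,
      372, 374, 454, 468, 470, 486, 500, 502], 𝔫 g w c := fun {x _} h m ⟨c, l, n⟩ => ⟨c, by
    have := (n.mul n).eq m rfl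
    clear m n; revert c; revert x; exact dk, n⟩
  replace p : u ∈ [32, 160] := (by clear_aux_decl; clear * - p q; decide +kernel +revert)
  obtain ⟨c', l1, mc⟩ := L p (m.l _) (K 1 (by decide))
  have p1 := (mc.mul mc).eq m
  obtain ⟨b', l2, mb⟩ := L (x := 192 - u) (by clear_aux_decl; clear * - p; decide +kernel +revert) ((a.mul m).cast _ _ (by clear_aux_decl; clear * - p; decide +kernel +revert)) (K 17 (by decide))
  have p2 := (mb.mul mb).eq (a.mul m)
  have p3 := mc.co mb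
  obtain ⟨x, hx, h⟩ : ∃ x ∈ [1, 16, 17], cg (𝔯 x) g ∈ 𝔗 := by
    by_contra! n
    have := S.two _ (M 1 (by decide)) _ (M 16 (by decide)) (n _ (by decide)) (n _ (by decide))
    rw [← cg_mul, V.pg.mul, (V.pg.eq _ 17).2 dk] at this
    exact n _ (by decide) this
  obtain ⟨a', l3, ma⟩ := Mp.ex V.pg V.pg h
  have Z : ∀ u ∈ [32, 160], ∀ a < 512, EQ 512 (mul (D5 e false) u a) (mul (D5 e false) a u) →
      ∀ c ∈ [2, 34, 130, 162, 258, 290, 386, 418, 70, 102, 198, 230, 326, 358, 454, 486], EQ 512 (mul (D5 e false) c c) u →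
      EQ 512 (mul (D5 e false) a a) c ∨ EQ 512 (cj (D5 e false) c a) (mul (D5 e false) c 128) →
      ∀ b ∈ [2, 34, 130, 162, 258, 290, 386, 418, 70, 102, 198, 230, 326, 358, 454, 486], EQ 512 (mul (D5 e false) b b) (mul (D5 e false) 128 u) →
      EQ 512 (mul (D5 e false) b a) (mul (D5 e false) a b) → ¬ (EQ 512 (mul (D5 e false) a a) c ∨ EQ 512 (mul (D5 e false) a a) 0 ∨
        EQ 512 (mul (D5 e false) a a) b) := dk
  have p4 : c' ∈ [2, 34, 130, 162, 258, 290, 386, 418, 70, 102, 198, 230, 326, 358, 454, 486] ∧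
    b' ∈ [2, 34, 130, 162, 258, 290, 386, 418, 70, 102, 198, 230, 326, 358, 454, 486] := (by clear_aux_decl; clear * - p l1 p1 l2 p2 p3; decide +kernel +revert)
  replace Z := fun a => Z u p a' l3 (m.co ma (by clear_aux_decl; clear * - hx; decide +kernel +revert)) c' p4.1 p1 a b' p4.2 p2 (mb.co ma (by clear_aux_decl; clear * - hx; decide +kernel +revert))
  obtain rfl | rfl | rfl : x = 1 ∨ x = 16 ∨ x = 17 := by simpa using hx
  exacts [Z (.inl ((ma.mul ma).eq mc)) (.inl ((ma.mul ma).eq mc)), Z (.inr ((mc.cj ma).eq (mc.mul a))) (.inr (.inl ma.sq)),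
    Z (.inr ((mc.cj ma).eq (mc.mul a))) (.inr (.inr ((ma.mul ma).eq mb)))]

theorem ky {C : Cx G e} (V : V5 C.toCfg0 false i) {P : Subgroup G} (S : SP V.gs P) {x : G} (c : IsConj (𝔯 32) x) {Q : Subgroup G}
    (hQ : IsPGroup 2 Q) (a : ∀ u ∈ Q, cg x u = x) : ∃ g, cg x g = 𝔯 32 ∧ ∀ u ∈ Q, cg u g ∈ P := by
  haveI : Fact (Nat.Prime 2) := ⟨Nat.prime_two⟩
  obtain ⟨w, rfl⟩ := exists_cg c
  obtain ⟨R, l, -, hR, j⟩ := exists_sylowIn_ge (S.pP.to_le inf_le_left) (inf_le_right : P ⊓ centralizer {𝔯 32} ≤ _)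
  obtain ⟨v, vC, E⟩ := exists_conj_le_of_not_dvd_relIndex' j (hQ.map (cgH w⁻¹)) (by
    rintro _ ⟨u, p, rfl⟩
    rw [mem_cent, cgH_apply, ← cg_cg_inv (𝔯 32) w, ← cg_cg', a u p])
  obtain ⟨k, -, f⟩ := S.conj le_top hR le_top
  obtain ⟨u, p, m⟩ := V.loc S (fun u p => f u (l p)) (.inl rfl)
  have q : u ≠ 128 := fun h => V.k3 (h ▸ m.conj).symm
  obtain ⟨s, -, r⟩ : ∃ s ∈ [0, 8], EQ 512 (cj (D5 e false) u s) 32 := (by clear_aux_decl; clear * - p q; decide +kernel +revert)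
  refine ⟨w⁻¹ * (v⁻¹ * (k * 𝔯 s)), by rw [← cg_cg, cg_cg_inv, ← cg_cg, mem_cent.1 (inv_mem vC)]; exact (m.tr s).r _ r, fun u p => ?_⟩
  rw [← cg_cg, ← cg_cg, ← cg_cg]
  exact cg_mem (f _ (by simpa [H33.cg] using conj_le_iff.1 E _ ⟨u, p, cgH_apply _ _⟩)) (S.le (el_mem _ _))

end V5

end Cfsg.Lib.H33
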