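import Cfsg.Agent.Lib.L33.Ve

/-! S3140 (helper3): `f` and `t f` are not conjugate to `y`, `z` when no conjugate of `t` centralises `y`. -/

set_option autoImplicit false
set_option synthInstance.maxSize 2048

namespace Cfsg.Lib.H33

open Cfsg.Lib.Calc Cfsg.Lib.Transfer Subgroup
open scoped Cfsg.Lib.Transfer

variable {G : Type*} [Group G] [Finite G] {e l i : Bool}

set_option quotPrecheck false in
local notation "dk" => by clear_aux_decl; clear * -; decide +kernel +revert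


namespace V5

set_option hygiene false in
local notation "𝔯" => el (St5.gs (V5.toSt5 V))
set_option hygiene false in
local notation "𝔫" => Mp (St5.pg (V5.toSt5 V)) (St5.pg (V5.toSt5 V))
set_option hygiene false in
local notation "𝔗" => gen (St5.gs (V5.toSt5 V))


/-- `f` and `t f` are not conjugate to `y`, `z`. -/
theorem nph {C : Cx G e} (V : V5 C.toCfg0 false i) {P : Subgroup G} (S : SP V.gs P) (K : ∀ x ∈ P, 𝔫 x 32 32 → ¬ IsConj (𝔯 8) x)
    {φ : ℕ} (h : φ = 256 ∨ φ = 264) : ¬ (IsConj (𝔯 128) (𝔯 φ) ∨ IsConj (𝔯 32) (𝔯 φ)) := by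
  have a : ∀ u ∈ MS V.gs 8, cg (𝔯 φ) u = 𝔯 φ := fun u m => mem_cent.1 ((ms_le_iff V.pg).2 (fun j l p => mem_cent.2 (Mp.sf V.pg _ _ _ (by
    rcases h with rfl | rfl <;> (clear_aux_decl; clear * - l p; decide +kernel +revert)))) m)
  have t : 𝔫 (𝔯 8) φ φ := a _ (el_mem_ms (by decide))
  rintro (c | c)
  · obtain ⟨g, p, q⟩ := V.into S c (V.pg.pgroup.to_le (ms_le _ 8)) a
    have m := q _ (el_mem_ms (x := 8) (by decide))
    have e1 := ((V.Py S m).resolve_left fun b => K _ m b (isConj_cg _ _)).swap 128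
    have : IsConj (𝔯 8) (𝔯 8 * 𝔯 φ) := ((isConj_cg _ g).trans (isConj_cg _ (𝔯 32))).trans (by
      rw [e1, ← p, ← cg_mul]; exact (isConj_cg _ g).symm)
    rw [V.pg.mul] at this
    rcases h with rfl | rfl
    exacts [V.n2 ((V.pg.eq (mul (D5 e false) 8 256) 264).2 dk ▸ this), V.n1 ((V.pg.eq (mul (D5 e false) 8 264) 256).2 dk ▸ this)]
  · obtain ⟨g, p, q⟩ := V.ky S c (V.pg.pgroup.to_le (ms_le _ 8)) a
    exact K _ (q _ (el_mem_ms (x := 8) (by decide))) (t.cjg p p) (isConj_cg _ _)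

omit [Finite G] in
/-- `f` or `t f` lies in `X`. -/
theorem phi {C : Cx G true} (V : V5 C.toCfg0 false i) : ∃ φ, (φ = 256 ∨ φ = 264) ∧ 𝔯 φ ∈ C.X := by
  rcases C.dec (el C.gs 16) with b | b | ⟨⟨⟩, -⟩
  · exact ⟨_, .inl rfl, V.f ▸ b⟩
  · rw [C.pg.mul, (C.pg.eq _ 24).2 dk] at b
    exact ⟨_, .inr rfl, V.lk5 24 264 ▸ b⟩

end V5

end Cfsg.Lib.H33
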