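import Cfsg.Agent.Lib.L33.Vd
import Cfsg.Agent.Lib.L33.Ve
import Cfsg.Agent.Lib.L33.VfA

/-! S3140 (plan by helper5, proof by helper3): the case `T` Sylow, and `i = 1`. Framework: Lib/H33/{Pc,Fw,Sy,Cfg,Cf2,Vb,Vc} (codes, `Mp`, `MS`; `St5.v0/cent/back/vA/vB/main`), Lib/L33/{Cx,Tl,V0,Vb}; codes in V0.lean; python models in `tools/h33` (v5.py, x7.py, x8.py).
`vA0`: `l1a`, `intoA` with `Q = ⟨b⟩` (`133^b = 133 · y`): `α = b^h ∈ T`, `α² = y`, `[c', α] = y` with `c' ∈ c⟨y, z⟩`, `α ∈ C(y)`: impossible (`decide`).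
`vA1`: `t ∉ X` by `C.th` (`P x` = no `t`-bit, i.e. `T₃`) and `k1`. `e = false`: `T ∩ X` = codes of `mX` (`fX`), the codes `[43, 18, 16, 80, 22, 32, 128]` satisfy `DB` (`PG.sub'`, `C.card`).
`e = true`: `φ = f` or `t f` is in `X` (`C.dec`); `C.th` (`P x` = no `f`-bit, resp. `d`-bit = `t`-bit) gives a conjugate of `φ` among the codes of `mX`, whose involutions are `T`-conjugate to
`4, 6, 16, 32, 43, 54 ~ 144, 128`, all `~ y` or `~ z` (`zr, yv, zv, l1b`). `φ ~ z`: `into` for `⟨t, f⟩`, `t ↦ t''` not centralising `y` (`k1`), so `t''^y = t'' z`, `t ~ t φ` against `n1`, `n2`. `φ ~ y`: `ky`, `k1`.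
`vB1`: `n ∈ P ∖ T`, `t^n = τ` (`vA`, `tcl`) in the class of `43` (`~ y` by `l1b`, against `k1`) or of `cond e 267 299`. `e = false`: `t τ ∈ X` gives `t f ∈ X` (`mX`, `fX`).
`e = true`: `s^n ∈ T'` (`nT'`) is an involution `≠ z` commuting with `τ`, so in the class of `6`: `z ~ s ~ 6 ~ y` against `k3`. -/

set_option autoImplicit false
set_option synthInstance.maxSize 2048
set_option linter.unusedTactic false

namespace Cfsg.Lib.H33

open Cfsg.Lib.Calc Cfsg.Lib.Transfer Subgroup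
open scoped Cfsg.Lib.Transfer

variable {G : Type*} [Group G] [Finite G] {e l i : Bool}

set_option quotPrecheck false in
local notation "dk" => by clear_aux_decl; clear * -; decide +kernel +revert


namespace V5

set_option hygiene false in
local notation "𝔯" => el (St5.gs (V5.toSt5 V))
set_option hygiene false in
local notation "𝔫" => Mp (St5.pg (V5.toSt5 V)) (St5.pg (V5.toSt5 V))
set_option hygiene false in
local notation "𝔗" => gen (St5.gs (V5.toSt5 V))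


theorem vA0 {C : Cx G e} (V : V5 C.toCfg0 false false) (S : SP V.gs 𝔗) : False := by
  obtain ⟨g, gy, gz, gc⟩ := V.l1a
  obtain ⟨h, hy, -, ⟨c, p, hc⟩, k⟩ := V.intoA S gy gz gc (V.pg.pgroup.to_le (ms_le _ 34)) fun u m => by
    obtain ⟨u, l, p, rfl⟩ := V.pg.ex_ms dk m
    obtain ⟨a, b, k, c, d⟩ : EQ 512 (cj (D5 e false) 128 u) 128 ∧ (EQ 512 (cj (D5 e false) 32 u) 32 ∨ EQ 512 (cj (D5 e false) 32 u) 160) ∧
      ∃ k ∈ [0, 32, 128, 160], EQ 512 (cj (D5 e false) 133 u) (mul (D5 e false) 133 k) := by clear_aux_decl; clear * - l p; decide +kernel +revert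
    exact ⟨.sf _ _ _ _ a, b.imp (fun h => .sf _ _ _ _ h) fun h => .sf _ _ _ _ h, k, c, .sf _ _ _ _ d⟩
  obtain ⟨α, l, m⟩ := Mp.ex V.pg V.pg (k _ (el_mem_ms (x := 2) (by decide)))
  have p1 := (m.mul m).eq hy
  have p2 := (hc.cj m).eq (hc.mul hy)
  clear_aux_decl; clear * - p l p1 p2; revert p2 p c p1 l α; revert e; decide +kernel

theorem vA1 {C : Cx G e} (V : V5 C.toCfg0 false true) (S : SP V.gs 𝔗) : L33.OutB C.X (el C.gs 32) := by
  have s := S.sylA V.pg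
  have tX : 𝔯 8 ∉ C.X := fun m => by
    obtain ⟨y, l, p, -, c⟩ := C.th V.pg s (· / 8 % 2 = 0) dk m dk
    exact V.k1 (by clear_aux_decl; clear * - l p; decide +kernel +revert) c
  have D : ∀ y < 512, 𝔯 y ∈ C.X → (y < 256 ∧ y / 8 % 2 = y % 2) ∨ (𝔯 256 ∈ C.X ∧ ¬ y / 256 % 2 = 0) ∨ 𝔯 264 ∈ C.X ∧ ¬ y % 2 = y / 8 % 2 := fun y l m => by
    obtain a | ⟨u, p, a, b⟩ : (y < 256 ∧ y / 8 % 2 = y % 2) ∨ ∃ u ∈ [8, 256, 264], (mul (D5 e false) y u % 512 < 256 ∧
      mul (D5 e false) y u % 512 / 8 % 2 = mul (D5 e false) y u % 512 % 2) ∧ (u = 256 → ¬ y / 256 % 2 = 0) ∧ (u = 264 → ¬ y % 2 = y / 8 % 2) := by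
      clear_aux_decl; clear * - l; decide +kernel +revert
    · exact .inl a
    have := V.mX a
    rw [el_modN V.pg, ← V.pg.mul, mul_mem_cancel_left m] at this
    obtain rfl | rfl | rfl : u = 8 ∨ u = 256 ∨ u = 264 := by simpa using p
    exacts [absurd this tX, .inr (.inl ⟨this, b.1 rfl⟩), .inr (.inr ⟨this, b.2 rfl⟩)]
  cases e
  · obtain ⟨gs, h, E⟩ := V.pg.sub' [43, 18, 16, 80, 22, 32, 128] L33.DB 128 dk
    have lX : gen gs ≤ C.X := h.gen_le_iff.2 fun j l => E _ ▸ V.mX (by clear_aux_decl; clear * - l; decide +kernel +revert)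
    refine ⟨gs, _, .inl rfl, h, lX, C.card V.pg s h (le_antisymm (le_inf (h.gen_le_iff.2 fun j l => E _ ▸ el_mem _ _) lX) fun x m => ?_),
      by rw [E, ← V.lk5 32 128, (V.pg.eq (hm _ _ 64) 128).2 dk]⟩
    obtain ⟨u, l, rfl⟩ := V.pg.ex m.1
    have a := ((D u l m.2).resolve_right fun a => a.elim (fun a => absurd (V.fX rfl (by decide) a.1) (by decide))
      fun a => absurd (V.fX rfl (by decide) a.1) (by decide))
    obtain ⟨x, -, b⟩ : ∃ x < 128, EQ 512 u (hm (mul (D5 false false)) [43, 18, 16, 80, 22, 32, 128] x) := by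
      obtain ⟨a, b⟩ := a
      clear_aux_decl; clear * - a b; decide +kernel +revert
    exact ((V.pg.eq _ _).2 b).trans (E x).symm ▸ el_mem _ x
  obtain ⟨φ, h, m⟩ := V.phi
  have n : 𝔯 256 ∈ C.X → 𝔯 264 ∉ C.X := fun a b => tX (by
    have := mul_mem b a
    rwa [V.pg.mul, (V.pg.eq _ 8).2 dk] at this)
  obtain ⟨y, l, a, c⟩ : ∃ y < 512, (y < 256 ∧ y / 8 % 2 = y % 2) ∧ IsConj (𝔯 φ) (𝔯 y) := by
    rcases h with rfl | rfl
    · obtain ⟨y, l, p, m', c⟩ := C.th V.pg s (· / 256 % 2 = 0) dk m dk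
      exact ⟨y, l, (D y l m').resolve_right fun a => a.elim (·.2 p) (n m ·.1), c⟩
    · obtain ⟨y, l, p, m', c⟩ := C.th V.pg s (fun x => x % 2 = x / 8 % 2) dk m dk
      exact ⟨y, l, (D y l m').resolve_right fun a => a.elim (n ·.1 m) (·.2 p), c⟩
  obtain ⟨g, f⟩ := exists_cg c
  have p1 := Mp.sq (h := V.pg) (h' := V.pg) f (by rcases h with rfl | rfl <;> exact dk)
  have p2 := Mp.ne (h := V.pg) (h' := V.pg) f .zero (by rcases h with rfl | rfl <;> decide)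
  obtain ⟨w, -, u, p, q⟩ : ∃ w ∈ [0, 9, 5, 10, 23, 84, 31, 62, 3, 8], ∃ u ∈ [64, 144, 128, 6, 16, 32, 43], EQ 512 (cj (D5 true false) y w) u := by
    clear_aux_decl; clear * - l a p1 p2; decide +kernel +revert
  have j := (c.trans (Mp.sf V.pg _ _ _ q).conj).symm
  refine absurd ?_ (V.nph S (fun x a b c => ?_) h)
  · simp only [List.mem_cons, List.not_mem_nil, or_false] at p
    rcases p with rfl | rfl | rfl | rfl | rfl | rfl | rfl
    exacts [.inl (V.zr.trans j), .inl (V.zv.trans j), .inl j, .inr (V.l1b.2.trans j), .inr (V.yv.trans j), .inr j, .inr (V.l1b.1.trans j)]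
  · obtain ⟨x, -, rfl⟩ := V.pg.ex a
    exact V.k1 b.of_el c

theorem vB1 {C : Cx G e} (V : V5 C.toCfg0 false true) {P : Subgroup G} (S : SP V.gs P) (n : P ≠ 𝔗) : False := by
  obtain ⟨x, a, b⟩ := SetLike.not_le_iff_exists.1 fun h => n (le_antisymm h S.le)
  obtain ⟨τ, -, -, m, -⟩ := V.vA (S.nm a) b (S.sq a)
  obtain ⟨g, -, -, u, p, q⟩ := V.tcl m.conj
  have m1 := (m.tr g).r _ q
  have a1 := mul_mem a (S.le (el_mem _ g))
  obtain rfl | rfl | rfl : u = 8 ∨ u = 43 ∨ u = cond e 267 299 := by simpa using p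
  · exact b ((mul_mem_cancel_right (el_mem _ g)).1 (V.cent S.pP S.le a1 m1))
  · exact V.k1 (x := 32) dk (m1.conj.trans V.l1b.1.symm)
  cases e
  · have := C.cjX m1.conj
    rw [V.pg.inv, V.pg.mul, (V.pg.eq _ 455).2 dk] at this
    exact absurd (V.fX rfl (by decide) this) (by decide)
  obtain ⟨y, l, p, m2⟩ := Mp.exm (h := V.pg) (St5.ok 230 (by simp)) (V.nT' (S.nm a1)) 4
  have p1 := m2.sq
  have p2 := m2.ne .zero
  have p3 := m2.ne (V.v0 (S.nm a1)).2.2.2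
  have p4 := m2.co m1
  obtain ⟨w, -, q⟩ : ∃ w ∈ [0, 1, 10, 13], EQ 512 (cj (D5 true false) y w) 6 := by clear * - l p p1 p2 p3 p4; decide +kernel +revert
  exact V.k3 (((V.zr.trans (Mp.sf V.pg 1 4 64).conj.symm).trans ((m2.tr w).r _ q).conj).trans V.l1b.2.symm)

end V5

end Cfsg.Lib.H33
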