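import Cfsg.Agent.Lib.L33.Vd
import Cfsg.Agent.Lib.L33.Ve

/-! S3140 (plan by helper5, proof by helper3): the Sylow subgroup of order `2¹⁰`, `i = 0`. Framework: Lib/H33/{Pc,Fw,Sy,Cfg,Cf2,Vb,Vc} (codes, `Mp`, `MS`; `St5.v0/cent/back/vA/vB/main`), Lib/L33/{Cx,Tl,V0,Vb}; codes in V0.lean; python models in `tools/h33` (v5.py, x7.py, x8.py).
`l1a`, `intoA` with `Q = ⟨b, 133, c, y, z, κ, t⟩ ≤ T` give `h`; `t^h ∈ P` is an involution moving `y`, so in `T` (`vB`); by `tcl`, `vA` (`n ∈ P ∖ T` fixing `y`, `t^n` in the class of `43` or of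
`cond e 267 299`; the other class is not `~ t`: `fX` resp. it contains `(t f)^n`, `n2`) some `u ∈ P₃` maps it to `t`; `P` normalises `⟨c, y, z⟩` (`nT'`). So `θ = h u` fixes `t, y, z`, `133 ↦ c^±`, `c ↦ w ∈ C_P(t) ≤ T` (`cent`),
`w ∈ {5, 133, 65, 193}` (`fX`), w.l.o.g. `w = 5` (times `r, s`), `κ ↦ κ^±`. `α = b^θ ∈ P ∩ X`: `α² = y`, fixes `y, z, w, κ`, `c ↦ c y = 228` (so `α ∉ T`), `α α^t = (b b^t)^θ = w`, so `t^α = y w t = 173`.
`v^α = x < 512`; `r^α = [x, 173]`, `s = c z r`, `d = w s`, `b = v^d v` give all images; the relations (`w^v = 39`, `α² = y`, …), `fX` and `k3` (`yv`, `zv`: `x ≁ 144`) leave `x = 18, 50` (x8.py). `PG.cons'`. -/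

set_option autoImplicit false
set_option synthInstance.maxSize 2048
set_option linter.unusedTactic false

namespace Cfsg.Lib.H33

open Cfsg.Lib.Calc Cfsg.Lib.Transfer Subgroup
open scoped Cfsg.Lib.Transfer

variable {G : Type*} [Group G] [Finite G] {e l i : Bool}

set_option quotPrecheck false in
local notation "dk" => by clear_aux_decl; clear * -; decide +kernel +revert


namespace V5

set_option hygiene false in
local notation "𝔯" => el (St5.gs (V5.toSt5 V))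
set_option hygiene false in
local notation "𝔫" => Mp (St5.pg (V5.toSt5 V)) (St5.pg (V5.toSt5 V))
set_option hygiene false in
local notation "𝔗" => gen (St5.gs (V5.toSt5 V))


def _root_.Cfsg.Lib.H33.D6 (e p : Bool) : Dat :=
  (32, [cond p 131 3, 34, cond p 166 38, 173, cond p 50 18, 32, cond p 194 66, 128, cond e 288 256]) :: D5 e false

/-- A conjugate of `t` in `P` moving `y` is mapped to `t` by `C_P(y)`. -/
theorem tP {C : Cx G e} (V : V5 C.toCfg0 false false) {P : Subgroup G} (S : SP V.gs P) (n : P ≠ 𝔗) {x : G} (a : x ∈ P)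
    (c : IsConj (𝔯 8) x) (b : 𝔫 x 32 160) : ∃ u ∈ P, 𝔫 u 32 32 ∧ cg x u = 𝔯 8 := by
  have xT : x ∈ 𝔗 := by_contra fun k => absurd (b.eq (V.vB (S.nm a) k (by
    obtain ⟨g, rfl⟩ := exists_cg c
    rw [← cg_mul, V.pg.mul, (V.pg.eq _ 0).2 dk, el_zero, cg_one])) rfl) (by decide)
  obtain ⟨τ, -, rfl⟩ := V.pg.ex xT
  obtain ⟨g, lg, pg, u, pu, q⟩ := V.tcl c
  have gy : 𝔫 (𝔯 g) 32 32 := .sf _ _ _ _ (by clear_aux_decl; clear * - lg pg; decide +kernel +revert)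
  have gP := S.le (el_mem _ g)
  have m := Mp.sf V.pg _ _ _ q
  obtain ⟨n, nP, nT, ny⟩ : ∃ n ∈ P, n ∉ 𝔗 ∧ 𝔫 n 32 32 := by
    obtain ⟨n, a, b⟩ := SetLike.not_le_iff_exists.1 fun h => n (le_antisymm h S.le)
    rcases V.Py S a with y | y
    exacts [⟨n, a, b, y⟩, ⟨_, mul_mem a (S.le (el_mem _ 8)), fun k => b ((mul_mem_cancel_right (el_mem _ 8)).1 k), (y.tr 8).r 32⟩]
  obtain ⟨τ0, -, m0⟩ : ∃ y < 512, 𝔫 n 8 y := V.pg.img0 (S.nm nP) 8
  obtain ⟨g0, lg0, pg0, u0, pu0, q0⟩ := V.tcl m0.conj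
  have m1 := (m0.tr g0).r _ q0
  have y1 : 𝔫 (n * 𝔯 g0) 32 32 := (ny.tr g0).r _ (by clear_aux_decl; clear * - lg0 pg0; decide +kernel +revert)
  have P1 := mul_mem nP (S.le (el_mem _ g0))
  have T1 : n * 𝔯 g0 ∉ 𝔗 := fun k => nT ((mul_mem_cancel_right (el_mem _ g0)).1 k)
  generalize n * 𝔯 g0 = n1 at *
  have c1 := c.trans m.conj
  by_cases k : u = 8
  · exact ⟨_, gP, gy, k ▸ m⟩
  by_cases k' : u = u0
  · exact ⟨_, mul_mem gP (inv_mem P1), gy.trans y1.symm, m.trans (k' ▸ m1.symm)⟩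
  have k0 : u0 ≠ 8 := fun k => T1 (V.cent S.pP S.le P1 (k ▸ m1))
  exfalso
  cases e
  · have : IsConj (𝔯 8) (𝔯 299) := by
      obtain rfl | rfl : u = 299 ∨ u0 = 299 := by clear_aux_decl; clear * - pu pu0 k k' k0; revert k' k0; revert pu0 u0; revert k; revert pu u; decide +kernel
      exacts [c1, m1.conj]
    have := C.cjX this
    rw [V.pg.inv, V.pg.mul, (V.pg.eq _ 455).2 dk] at this
    exact absurd (V.fX rfl (by decide) this) (by decide)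
  obtain ⟨-, -, -, -, f⟩ := V.vA (S.nm P1) T1 (S.sq P1)
  obtain ⟨φ, pφ, f⟩ : ∃ φ ∈ [288, 416], 𝔫 n1 256 φ := (f rfl).elim (⟨_, by simp, ·⟩) (⟨_, by simp, ·⟩)
  obtain ⟨w, -, q⟩ : ∃ w ∈ [0, 1, 10], EQ 512 (cj (D5 true false) (mul (D5 true false) u0 φ) w) u := by
    clear_aux_decl; clear * - pu pu0 k k' k0 pφ; revert pφ φ; revert k' k0; revert pu0 u0; revert k; revert pu u; decide +kernel
  exact V.n2 (c1.trans ((((m1.mul f).l 264).tr w).r _ q).conj.symm)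

/-- The element `α`. -/
theorem al {C : Cx G e} (V : V5 C.toCfg0 false false) {P : Subgroup G} (S : SP V.gs P) (n : P ≠ 𝔗) :
    ∃ α ∈ P, α ∈ C.X ∧ α * α = 𝔯 32 ∧ 𝔫 α 8 173 ∧ 𝔫 α 196 228 ∧ 𝔫 α 5 5 ∧ 𝔫 α 32 32 ∧ 𝔫 α 256 (cond e 288 256) := by
  obtain ⟨g, gy, gz, gc⟩ := V.l1a
  obtain ⟨h, hy, hz, ⟨c, pc, hc⟩, k⟩ := V.intoA S gy gz gc (V.pg.pgroup.to_le (inf_le_left : 𝔗 ⊓ rcR (𝔯 133) (MS V.gs 160) ≤ _)) fun u m => by
    obtain ⟨u, l, rfl⟩ := V.pg.ex m.1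
    have p := m.2.2
    rw [V.pg.cm, V.pg.mem_ms (St5.ok 160 (by simp))] at p
    obtain ⟨a, b, k, c, d⟩ : EQ 512 (cj (D5 e false) 128 u) 128 ∧ (EQ 512 (cj (D5 e false) 32 u) 32 ∨ EQ 512 (cj (D5 e false) 32 u) 160) ∧
      ∃ k ∈ [0, 32, 128, 160], EQ 512 (cj (D5 e false) 133 u) (mul (D5 e false) 133 k) := by clear_aux_decl; clear * - l p; decide +kernel +revert
    exact ⟨.sf _ _ _ _ a, b.imp (fun h => .sf _ _ _ _ h) fun h => .sf _ _ _ _ h, k, c, .sf _ _ _ _ d⟩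
  replace k : ∀ x ∈ [2, 8, 196, cond e 452 256], cg (𝔯 x) h ∈ P := fun x p => k _ ⟨el_mem _ _, (V.v0 (le_normalizer (el_mem _ _))).2.2.1, by
    rw [V.pg.cm, V.pg.mem_ms (St5.ok 160 (by simp))]; clear_aux_decl; clear * - p; decide +kernel +revert⟩
  obtain ⟨u, uP, uy, ut⟩ := V.tP S n (k 8 (by simp)) (isConj_cg _ _) ((Mp.sf V.pg 8 32 160).cjg hy ((hy.mul hz).cast 160 160))
  rw [cg_cg] at ut
  replace ut : 𝔫 (h * u) 8 8 := ut
  have uz : 𝔫 u 128 128 := (V.v0 (S.nm uP)).2.2.2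
  obtain ⟨c1, l1, q1, m1⟩ := Mp.exm (h := V.pg) (St5.ok 230 (by simp)) (V.nT' (S.nm uP)) c (by clear_aux_decl; clear * - pc; decide +kernel +revert)
  replace m1 := hc.trans m1
  replace hy := hy.trans uy
  replace hz := hz.trans uz
  replace k : ∀ x ∈ [2, 8, 196, cond e 452 256], cg (𝔯 x) (h * u) ∈ P := fun x p => by rw [← cg_cg]; exact cg_mem (k x p) uP
  generalize h * u = θ at *
  have q2 := (m1.mul m1).eq hz
  have q3 := m1.co ut
  obtain ⟨w, lw, mw⟩ := Mp.ex V.pg V.pg (V.cent S.pP S.le (k 196 (by simp)) ((Mp.sf V.pg 196 8 8).cjg ut ut))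
  have p1 := (mw.mul mw).eq hz
  have p2 := mw.co hy
  have p3 := mw.co ut
  have p4 := (m1.cj mw).eq m1.inv
  have p5 : e = true ∨ w < 256 := by
    cases e
    exacts [.inr (V.fX rfl lw (mw.e ▸ C.cgX V.mX θ)), .inl rfl]
  obtain ⟨j, pj, q4, c2, pc2, q5⟩ : ∃ j ∈ [0, 64, 4, 68], EQ 512 (cj (D5 e false) w j) 5 ∧ ∃ c2 ∈ [68, 196], EQ 512 (cj (D5 e false) c1 j) c2 := by
    clear_aux_decl; clear * - l1 q1 q2 q3 lw p1 p2 p3 p4 p5; revert p5 p4 p3 p2 p1 lw w; revert q3 q2 q1 l1 c1; revert e; decide +kernel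
  replace mw := (mw.tr j).r _ q4
  replace m1 := (m1.tr j).r _ q5
  replace ut := (ut.tr j).r 8 (by clear_aux_decl; clear * - pj; decide +kernel +revert)
  replace hy := (hy.tr j).r 32 (by clear_aux_decl; clear * - pj; decide +kernel +revert)
  replace hz := (hz.tr j).r 128 (by clear_aux_decl; clear * - pj; decide +kernel +revert)
  replace k : ∀ x ∈ [2, 8, 196, cond e 452 256], cg (𝔯 x) (θ * 𝔯 j) ∈ P := fun x p => by rw [← cg_cg]; exact cg_mem (k x p) (S.le (el_mem _ _))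
  generalize θ * 𝔯 j = θ at *
  have ay := (Mp.sf V.pg 2 32 32).cjg hy hy
  have az := (Mp.sf V.pg 2 128 128).cjg hz hz
  have ac : 𝔫 (cg (𝔯 2) θ) 196 228 := by
    have := (Mp.sf V.pg 2 133 165).cjg m1 ((m1.mul hy).l 165)
    obtain rfl | rfl : c2 = 68 ∨ c2 = 196 := by simpa using pc2
    exacts [(this.mul az).cast _ _, this.r _]
  have a2 : cg (𝔯 2) θ * cg (𝔯 2) θ = 𝔯 32 := by rw [← cg_mul, V.pg.mul, (V.pg.eq _ 32).2 dk, hy.e]
  refine ⟨_, k 2 (by simp), C.cgX V.mX θ, a2, ?_, ac, (Mp.sf V.pg 2 196 196).cjg mw mw, ay, ?_⟩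
  · exact (Mp.sf V.pg 2 8 108).cjg ut (((hy.mul mw).mul ut).cast 108 173)
  cases e
  · rw [Mp, cond_false, V.f]; exact C.cen rfl _
  obtain ⟨κ, lκ, mκ⟩ := Mp.ex V.pg V.pg (V.cent S.pP S.le (k 452 (by simp)) ((Mp.sf V.pg 452 8 8).cjg ut ut))
  have r1 := (mκ.mul mκ).eq hz
  have r2 := mκ.co hy
  have r3 := mκ.co ut
  have r4 := mκ.co mw
  have r5 := mκ.co m1 
  have := (Mp.sf V.pg 2 452 452).cjg mκ mκ
  obtain rfl | rfl : κ = 324 ∨ κ = 452 := by clear_aux_decl; clear * - pc2 lκ r1 r2 r3 r4 r5; revert r5 r4 r3 r2 r1 lκ κ; revert c2; decide +kernel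
  exacts [(ac.mul this).cast _ _, (ac.inv.mul this).cast _ _]

theorem nf {C : Cx G e} (V : V5 C.toCfg0 false false) {P : Subgroup G} (S : SP V.gs P) (n : P ≠ 𝔗) :
    ∃ p gs, PG gs (D6 e p) 1024 ∧ gen gs = P ∧ (∀ x, 𝔯 x = el gs (2 * x)) ∧ el gs 1 ∈ C.X := by
  obtain ⟨α, aP, aX, a2, mt, mc, mw, my, mf⟩ := V.al S n
  have mz : 𝔫 α 128 128 := (V.v0 (S.nm aP)).2.2.2
  obtain ⟨x, l, mv⟩ : ∃ y < 512, 𝔫 α 16 y := V.pg.img0 (S.nm aP) 16
  have mr := (mv.ck mt).l 64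
  have ms := ((mc.mul mz).mul mr).l 4
  have md := (mw.mul ms).l 1
  have mb := ((mv.cj md).mul mv).l 2
  have p1 := mv.sq
  have p2 := (mc.cj mv).eq ((mc.mul my).l 228)
  have p3 := (md.mul md).eq mc
  have p4 := (mv.trans ((Mp.hom (.cons md (.cons mb (.cons ms (.cons mt (.cons mv (.cons my (.cons mr (.cons mz (.cons mf .nil))))))))) x).l x
    (by clear_aux_decl; clear * - l; decide +kernel +revert))).of_eq a2
  have p5 : e = true ∨ x < 256 := by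
    cases e
    exacts [.inr (V.fX rfl l (mv.e ▸ C.cgX V.mX α)), .inl rfl]
  obtain ⟨p, rfl⟩ | ⟨w, -, q⟩ : (∃ p : Bool, x = cond p 50 18) ∨ ∃ w ∈ [1, 3], EQ 512 (cj (D5 e false) x w) 144 := by
    clear_aux_decl; clear * - l p1 p2 p3 p4 p5; revert p4 p5 p3 p2 p1 l x; revert e; decide +kernel
  swap
  · exact absurd (V.zv.trans ((V.yv.trans ((mv.tr w).r _ q).conj).symm)) V.k3
  obtain ⟨gs, h, e1, E⟩ := V.pg.cons' (g := α) (fun a => by
      obtain ⟨x, l, rfl⟩ := V.pg.ex a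
      exact absurd mt.of_el (by clear_aux_decl; clear * - l; decide +kernel +revert)) a2
    (V.pg.fa [cond p 131 3, 34, cond p 166 38, 173, cond p 50 18, 32, cond p 194 66, 128, cond e 288 256] (by simp) fun i a => by
      simp only [List.length] at a
      interval_cases i
      exacts [md.r _, mb.r _, ms.r _, mt, mv, my, mr.r _, mz, mf])
  refine ⟨p, gs, h, Subgroup.eq_of_le_of_card_ge (h.gen_le_iff.2 fun i _ => ?_) (h.card ▸ S.card V.pg), E, e1 ▸ aX⟩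
  obtain _ | i := i
  exacts [e1 ▸ aP, by rw [pow_succ', ← E]; exact S.le (el_mem _ _)]

end V5

end Cfsg.Lib.H33
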