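import Cfsg.Agent.Lib.L33.ZcD

/-! S3140: the case `St4 true` (helper3; design by helper5). `T` is one of 16 groups of order 512 (`ZcT`, codes `s y₁ y₂ t u k r z f`);
`Cfg0.d8` with `s t` kills half of them, transfer shows that `T ⊓ X = ⟨s, y₁, y₂, u, k, r, z⟩` in the others. -/

set_option autoImplicit false
set_option synthInstance.maxSize 2048

namespace Cfsg.Lib.L33

open Subgroup H33

variable {G : Type*} [Group G] [Finite G]

set_option quotPrecheck false in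
local notation "dk" => by clear_aux_decl; clear * -; decide +kernel +revert
set_option hygiene false in
set_option quotPrecheck false in
local notation "dv" => by clear_aux_decl; clear * - v; decide +kernel +revert
set_option hygiene false in
local notation "𝔇" => ZcT e p.1 p.2.1 p.2.2
set_option hygiene false in
local notation "𝔈" => ZcT e q.1.1 q.1.2.1 q.1.2.2

theorem z4 {e : Bool} (C : Cx G e) (X : St4 C.toCfg0 true) : OutA C.X ∨ OutB C.X (el C.gs 32) := by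
  obtain ⟨p, v, ⟨Y⟩⟩ := X.yt
  have h := Y.pg
  obtain ⟨ρ, R⟩ := Y.rho
  have M : ∀ x y u, EQ 512 (mul 𝔇 x y) u → el Y.gs u = el Y.gs x * el Y.gs y := fun x y u a => ((h.mul _ _).trans ((h.eq _ _).2 a)).symm
  have et := Y.t.trans X.t
  have ef := Y.f.trans X.f
  have ez := Y.z.trans X.z
  have etf : el Y.gs 264 = el C.gs 24 := by rw [M 8 256 _ dv, et, ef, C.pg.mul, C.pg.eq]; exact dk
  have rz : IsConj (el Y.gs 128) (el Y.gs 64) := ((R 64).cast 128 64 dv).conj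
  have sz : IsConj (el Y.gs 128) (el Y.gs 1) := rz.trans (Y.r ▸ Y.s ▸ X.as.conj.symm)
  have ts : IsConj (el Y.gs 8) (el Y.gs 9) := by
    rw [M 1 8 9 dv, Y.s, Y.t, X.pg.mul, (X.pg.eq (mul _ 1 2) 3).2 dk]; exact X.cts
  have n1 : ¬ IsConj (el Y.gs 8) (el Y.gs 256) := et ▸ ef ▸ X.n1
  have n2 : ¬ IsConj (el Y.gs 8) (el Y.gs 264) := et ▸ etf ▸ X.n2
  obtain ⟨k, k'⟩ := Zc.k1 e p v
  have ZX := @Zc.zx' _ _ _ _ _ _ h Y.syl 128 dv _ _ k
  have nf : e = true → ∀ {x}, IsConj (el Y.gs 128) x ∨ IsConj (el Y.gs 8) x → ¬ (IsConj (el Y.gs 256) x ∨ IsConj (el Y.gs 264) x) := by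
    rintro he x (a | a) (b | b)
    exacts [n2 (ZX 264 (fun _ _ _ _ => .inl he) (a.trans b.symm) dv), n1 (ZX 256 (fun _ _ _ _ => .inl he) (a.trans b.symm) dv),
      n1 (a.trans b.symm), n2 (a.trans b.symm)]
  obtain ⟨q, v', rfl⟩ | ⟨u, -, a, w, -, b⟩ := k'
  swap
  · obtain ⟨he, x, c, d, d'⟩ := C.d8 h (et ▸ ts) a
    rw [← ef, ← etf] at d d'
    rcases c with rfl | rfl
    · exact (nf he (.inl sz) d).elim
    · exact (b.elim (fun b => nf he (.inl (sz.trans (Mp.sf h _ _ _ b).conj)) d) fun b => nf he (.inr (ts.trans (Mp.sf h _ _ _ b).conj)) d').elim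
  replace v := v'
  obtain ⟨c1, c2, c3⟩ := Zc.k2 e q v
  have y1 : el Y.gs 2 ∈ C.X := let ⟨x, y, a⟩ := Y.cm; a ▸ C.cmX x y
  have T0 : MS Y.gs 247 ≤ C.X := (ms_le_iff h).2 fun i a b => by
    obtain rfl | rfl | rfl | rfl | rfl | rfl | rfl : i = 0 ∨ i = 1 ∨ i = 2 ∨ i = 4 ∨ i = 5 ∨ i = 6 ∨ i = 7 := by
      clear_aux_decl; clear * - a b; decide +kernel +revert
    exacts [(Y.s.trans X.s).symm ▸ C.DX, y1, (C.cjX' ((R 1).cast 2 4 dv).conj).1 y1, (h.eq (ck 𝔈 4 8) (2 ^ 4)).2 dv ▸ h.cm 4 8 ▸ C.cmX _ _,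
      (h.eq (ck 𝔈 2 8) (2 ^ 5)).2 dv ▸ h.cm 2 8 ▸ C.cmX _ _, (Y.r.trans X.r).symm ▸ C.DX, ez.symm ▸ C.DX]
  have D : ∀ u < 512, el Y.gs u ∈ C.X → el Y.gs (u &&& 264) ∈ C.X := fun u l a => by
    have := T0 (el_mem_ms (c1 u l))
    rwa [el_modN h, ← h.mul, ← h.inv, C.X.mul_mem_cancel_left a, C.X.inv_mem_iff] at this
  have lt : ∀ u < 512, el Y.gs u ∈ C.X → e = true ∨ u < 256 := fun u l a => by
    cases e
    · have := D u l a
      obtain b | b | b : u < 256 ∨ u &&& 264 = 256 ∨ u &&& 264 = 264 := by clear_aux_decl; clear * - l; decide +kernel +revert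
      exacts [.inr b, absurd (C.fX rfl (ef ▸ b ▸ this)) (by decide), absurd (C.fX rfl (etf ▸ b ▸ this)) (by decide)]
    · exact .inl rfl
  obtain ⟨w, -, a⟩ : ∃ w ∈ [64, 94, 4], EQ 512 (cj 𝔈 1 w) (mul 𝔈 q.2.1 1) := dv
  have yz := (sz.trans (Mp.sf h _ _ _ a).conj).trans (ZX (x := q.2.1) (mul 𝔈 q.2.1 1) (fun g u l a => lt u l (a ▸ C.cgX (T0 (el_mem_ms dv)) g)) sz dv).symm
  have yz' := yz.trans ((R (q.2.1 / 2)).cast _ q.2.2.1 dv).conj
  have CL : ∀ u, el Y.gs u ∈ C.X → u < 512 ∧ EQ 512 (mul 𝔈 u u) 0 ∧ ¬ u / cond e 256 8 % 2 = 0 →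
      IsConj (el Y.gs 128) (el Y.gs u) ∨ e = true ∧ IsConj (el Y.gs 8) (el Y.gs u) := fun u m a => by
    obtain ⟨y, l, b, m', c⟩ := C.th h Y.syl _ c2 m a
    obtain ⟨g, f⟩ := exists_cg c
    have l' : y < 256 := (lt y l m').elim (fun he => by rw [he] at b; change y / 256 % 2 = 0 at b; omega) id
    obtain rfl | ⟨w, -, d⟩ := c3 y l' (Mp.sq (h := h) (h' := h) f a.2.1)
    · have := Mp.eq (h := h) (h' := h) (Mp.symm f) .zero rfl
      exact absurd (by rw [this.eq a.1, Nat.zero_div]) a.2.2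
    have j := (c.trans ((Mp.self h w y).r _ (Nat.mod_mod _ 512).symm).conj).symm
    simp only [List.mem_cons, List.not_mem_nil, or_false] at d
    rcases d with (d | d | d | d | d) | ⟨o, d⟩
    exacts [.inl (sz.trans (d ▸ j)), .inl (rz.trans (d ▸ j)), .inl (d ▸ j), .inl (yz.trans (d ▸ j)), .inl (yz'.trans (d ▸ j)),
      .inr ⟨by cases e; exacts [absurd (o.symm.trans b) (by decide), rfl], d.elim (· ▸ j) fun d => ts.trans (d ▸ j)⟩]
  cases e
  swap
  · have : ∀ u, u = 256 ∨ u = 264 → el Y.gs u ∉ C.X := fun u b m => nf rfl ((CL u m (by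
      rcases b with rfl | rfl <;> exact dv)).imp_right (·.2)) (by rcases b with rfl | rfl; exacts [.inl (.refl _), .inr (.refl _)])
    rcases C.dec (el C.gs 16) with b | b | ⟨⟨⟩, -⟩
    · exact (this _ (.inl rfl) (ef ▸ b)).elim
    · rw [C.pg.mul, (C.pg.eq _ 24).2 dk] at b
      exact (this _ (.inr rfl) (etf ▸ b)).elim
  have tX : el Y.gs 8 ∉ C.X := fun m => C.ntz (et ▸ ez ▸ ((CL 8 m dv).resolve_right fun a => nomatch a.1).symm)
  obtain ⟨d1, d2, d3, d4⟩ := Zc.k3 q v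
  obtain ⟨gs, h', E⟩ := h.sub' _ _ _ d1
  have lX : gen gs ≤ C.X := h'.gen_le_iff.2 fun i l => E _ ▸ T0 (el_mem_ms (d2 i l))
  have cd := C.card h Y.syl h' (le_antisymm (le_inf (h'.gen_le_iff.2 fun i l => E _ ▸ el_mem _ _) lX) fun x m => by
    obtain ⟨u, l, rfl⟩ := h.ex m.1
    have b := (lt u l m.2).resolve_left (by decide)
    refine (ms_le_iff h (m := 247)).2 (fun i a b => let ⟨x, _, c⟩ := d3 i a b; ((h.eq _ _).2 c).trans (E x).symm ▸ el_mem _ x)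
      (el_mem_ms (by_contra fun n => tX ?_))
    exact (by clear_aux_decl; clear * - b n; decide +kernel +revert : u &&& 264 = 8) ▸ D u l m.2)
  by_cases j : q.1.1 = 1
  · rw [if_pos j] at h'
    exact .inl ⟨_, lX, h'.card, cd, Zc.wr h'⟩
  · rw [if_neg j] at h'
    exact .inr ⟨gs, _, .inr rfl, h', lX, cd, by rw [E, ← (h.eq _ _).2 (d4.resolve_left j), ez]⟩

end Cfsg.Lib.L33
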