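import Cfsg.Agent.Lib.L33.Out

/-! S3140, the case `St4 true` (helper3): coprime action on `U₂ = T ∩ MZ`. -/

set_option autoImplicit false
set_option synthInstance.maxSize 2048

namespace Cfsg.Lib.H33

open Cfsg.Lib.Calc Cfsg.Lib.Transfer Subgroup

variable {G : Type*} [Group G] [Finite G] {e : Bool} {C : Cfg0 G e}

set_option hygiene false in
local notation "𝔯" => el (St4.gs X)
set_option hygiene false in
local notation "𝔫" => Mp (St4.pg X) (St4.pg X)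
set_option hygiene false in
local notation "𝔑" m:max => normalizer (MS (St4.gs X) m : Set G)
set_option quotPrecheck false in
local notation "dk" => by clear_aux_decl; clear * -; decide +kernel +revert

omit [Finite G] in
theorem fixo {θ x a : G} {o n : ℕ} (ho : Odd o) (h1 : θ ^ o = 1) (ha : cg a θ = a) (a2 : a ^ 2 ^ n = 1) (e : cg x θ = x * a) :
    cg x θ = x := by
  have k : ∀ j, cg x (θ ^ j) = x * a ^ j := fun j => by
    induction j with
    | zero => simp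
    | succ j ih => rw [pow_succ, ← cg_cg, ih, cg_mul, e, cg_pow, ha, mul_assoc, ← pow_succ']
  have := k o
  rw [h1, cg_one', left_eq_mul] at this
  rw [e, (pow_eq_one_iff_of_coprime ((Nat.coprime_two_right.2 ho).pow_right n)).1 ⟨this, a2⟩, mul_one]

namespace St4

theorem h256 (X : St4 C true) : 2 ^ 8 ∣ Nat.card G := by_contra fun n => by
  obtain ⟨g, p⟩ := X.pg.syl n C.pg.pgroup
  obtain ⟨y, l, m⟩ := Mp.ex C.pg X.pg (p _ (el_mem _ 8))
  have c := C.pg.count X.pg (L := List.range 64) (L' := (List.range 128).filter fun u => EQ 128 (cj (D4 true) y u) y) dk fun x _ =>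
    let ⟨u, l', m'⟩ := Mp.ex C.pg X.pg (p _ (el_mem _ x))
    ⟨u, List.mem_filter.2 ⟨List.mem_range.2 l', decide_eq_true ((C.fixt (el_mem _ x)).act m m m')⟩, m'⟩
  have q := m.sq
  have k : IM 112 y := by clear_aux_decl; clear * - l q c; decide +kernel +revert
  have := X.theta l (IM.trans (by decide) k) (X.t ▸ m.conj)
  clear_aux_decl; clear * - l k this; revert y; decide +kernel

variable {X : St4 C true} (Z : X.ZT)

namespace ZT

theorem odd {θ : G} {o : ℕ} (ho : Odd o) (h1 : θ ^ o = 1) (N : θ ∈ normalizer ((Z.T ⊓ X.MZ : Subgroup G) : Set G)) (M : θ ∈ X.MZ)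
    (t : 𝔫 θ 2 2) (f : 𝔫 θ 64 64) {x : G} (m : x ∈ Z.T ⊓ X.MZ) : cg x θ = x := by
  have F : ∀ m, (∀ i < 7, m.testBit i = true → 𝔫 θ (2 ^ i) (2 ^ i)) → ∀ y ∈ MS X.gs m, cg y θ = y := fun m c y p =>
    cg_comm (mem_cent.1 ((ms_le_iff X.pg).2 (fun i a b => mem_cent.2 (cg_comm (c i a b))) p))
  have O := F 112 fun i a b => by
    obtain rfl | rfl | rfl : i = 4 ∨ i = 5 ∨ i = 6 := by clear_aux_decl; clear * - a b; decide +kernel +revert
    exacts [MZ.r X M, MZ.z X M, f]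
  have U := F 126 fun i a b => by
    by_cases c : i = 1
    · exact c ▸ t
    have p := M.2.2 _ (ms_gen (m := 124) (i := i) (by clear_aux_decl; clear * - a b c; decide +kernel +revert))
    obtain ⟨n, q⟩ := pow_of_pg (X.pR 112) p
    exact fixo ho h1 (O _ p) q (mul_inv_cancel_left _ _).symm
  have c := mul_mem (cg_mem_norm m N) (inv_mem m)
  obtain ⟨y, -, p, q⟩ := Z.tr0 c ⟨2, by norm_num, rfl, by
    rw [Mp, ← cg_cg, ← t.e, ← cg_cg', t.e, U _ (cg_mem_norm (el_mem_ms (by decide)) m.2.1), cg_cg_inv]⟩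
  obtain ⟨n, r⟩ := pow_of_pg Z.pT (inv_mem c.1)
  have := fixo (x := x⁻¹) ho h1 (by rw [q]; exact U _ (inv_mem (el_mem_ms p))) r (by simp [cg_inv])
  rwa [cg_inv, inv_inj] at this

theorem rho3 : ∃ ρ ∈ normalizer ((Z.T ⊓ X.MZ : Subgroup G) : Set G), X.Rho ρ ∧ 𝔫 ρ 2 2 ∧ 𝔫 ρ 64 64 ∧
    ∀ x ∈ Z.T ⊓ X.MZ, cg (cg (cg x ρ) ρ) ρ = x := by
  obtain ⟨t1, l1, p1, m1⟩ := X.exTr Z.rho.1 (Z.rho.n1 X)
  obtain ⟨u, -, u1, v, lv, v1, m⟩ := Z.back l1 p1 m1.conj
  have k : u * 𝔯 v ∈ Z.T ⊓ X.MZ := mul_mem u1 ⟨Z.RT (el_mem _ v), MZ.el X lv (IM.trans (by decide) v1)⟩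
  have rN := mul_mem Z.rN (le_normalizer k)
  have r := Z.rho.mul X k.2
  have rt := m1.trans m
  generalize Z.ρ * (u * 𝔯 v) = ρ at rN r rt
  have rf := X.fixf rt (X.pg.nm_sup (k := 2) (l := 112) (X.nm [(2, 2)] (by simp [rt]) dk) r.2.1)
  have M : ∀ {ρ}, X.Rho ρ → ρ * ρ * ρ ∈ X.MZ := fun {ρ} r =>
    have s : 𝔫 ρ 48 32 := ((r.r X).mul (r.z X)).cast _ _
    MZ.of X (mul_mem (mul_mem r.1 r.1) r.1) (mul_mem (mul_mem (r.n1 X) (r.n1 X)) (r.n1 X)) (mul_mem (mul_mem r.2.1 r.2.1) r.2.1)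
      (((r.r X).trans s).trans (r.z X)) (((r.z X).trans (r.r X)).trans s)
  obtain ⟨n, o, ho, e⟩ := Nat.exists_eq_two_pow_mul_odd (orderOf_pos ρ).ne'
  have e4 : ρ ^ 4 ^ n = ρ * (ρ * ρ * ρ) ^ (4 ^ n / 3) := by
    rw [← pow_three', ← pow_mul, ← pow_succ']
    exact congrArg _ (by have : 4 ^ n % 3 = 1 := by simp [Nat.pow_mod]
                         omega)
  have r' : X.Rho (ρ ^ 4 ^ n) := e4 ▸ r.mul X (pow_mem (M r) _)
  have N := pow_mem rN (4 ^ n)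
  have t := rt.pow (4 ^ n)
  have f := rf.pow (4 ^ n)
  refine ⟨_, N, r', t, f, fun x m => ?_⟩
  rw [cg_cg, cg_cg, ← mul_assoc]
  refine Z.odd ho ?_ (mul_mem (mul_mem N N) N) (M r') ((t.trans t).trans t) ((f.trans f).trans f) m
  rw [← pow_three', ← pow_mul, ← pow_mul, ← orderOf_dvd_iff_pow_eq_one, e, mul_left_comm]
  exact (Nat.mul_dvd_mul_right (pow_dvd_pow_of_dvd (by norm_num) n) o).mul_left 3

theorem sg (s : ¬ 2 ∣ Z.T.relIndex ⊤) {g : G} (N : g ∈ normalizer ((Z.T ⊓ X.MZ : Subgroup G) : Set G)) (M : g ∈ X.MZ)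
    (t : 𝔫 g 2 2) (f : 𝔫 g 64 64) : ∃ c < 128, IM 114 c ∧ ∀ x ∈ Z.T ⊓ X.MZ, cg x g = cg x (𝔯 c) := by
  obtain ⟨b, hb, o, ho, ⟨n, b2⟩, oo, e⟩ := exists_p_part_mul_p'_part (p := 2) g
  have bN := zpowers_le.2 N hb
  have bW : b ∈ Z.T ⊓ X.MZ := (eq_of_not_dvd_relIndex_of_le (H := X.MZ) (by
      rw [inf_relIndex_right]
      exact not_dvd_relIndex_of_le_normalizer (PG.rel_of s (fun x m =>
        let ⟨⟨⟨⟨a, b⟩, c⟩, _⟩, _⟩ := Z.TN m; MZ.nm X a b c) le_top) le_normalizer le_rfl) (pg_sup (Z.pT.to_le inf_le_left) b2 bN)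
    (sup_le inf_le_right (zpowers_le.2 (zpowers_le.2 M hb))) le_sup_left).ge (mem_sup_right (mem_zpowers b))
  have z : ∀ {y} u, cg y g = y → u ∈ zpowers g → cg y u = y := fun u a m => mem_cent.1 (zpowers_le.2 (mem_cent.2 a) m)
  obtain ⟨c, l, p, rfl⟩ := Z.cent bW.1 (z b t hb)
  have q := (MZ.r X bW.2).of_el
  exact ⟨c, l, by clear_aux_decl; clear * - l p q; decide +kernel +revert, fun x m => by
    rw [e, ← cg_cg, Z.odd (Nat.coprime_two_right.1 oo) (pow_orderOf_eq_one o) (zpowers_le.2 N ho) (zpowers_le.2 M ho) (z o t ho)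
      (z o f ho) (cg_mem m bW)]⟩

end ZT

end St4

end Cfsg.Lib.H33
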