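import Cfsg.Agent.Lib.L33.ZcA

/-! S3140, the case `St4 true` (helper3): a presentation of `U₂`. Codes `y₁ y₂ t u k r z f`. -/

set_option autoImplicit false
set_option synthInstance.maxSize 2048

namespace Cfsg.Lib.H33

open Cfsg.Lib.Calc Cfsg.Lib.Transfer Subgroup

variable {G : Type*} [Group G] [Finite G] {e : Bool} {C : Cfg0 G e}

set_option hygiene false in
local notation "𝔯" => el (St4.gs X)
set_option hygiene false in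
local notation "𝔫" => Mp (St4.pg X) (St4.pg X)
set_option quotPrecheck false in
local notation "dk" => by clear_aux_decl; clear * -; decide +kernel +revert

def ZcU : Dat := [(0, [5, 10, 4, 8, 16]), (2, [1, 2, 4, 8]), (2, [1, 2, 4]), (0, [1, 2]), (0, [1]), (0, [])]

def ZcW (e : Bool) (j : ℕ) : Dat :=
  (2 * (4 * j), [1, 2 * 21, 2 * (26 - j % 2 * 24), 2 * (20 - j % 2 * 16), 2 * 8, 2 * 16, 2 * cond e 48 32]) ::
    (j % 2 * 2 + (j / 2 % 2 * 24 ^^^ j / 4 * 8), [11, 10 - j % 2 * 8, 28 - j % 2 * 24, 8, 16, cond e 40 32]) :: ZcU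

noncomputable def zcA (e : Bool) (a b : ℕ) : List ℕ := [21, mul ZcU 2 a, mul ZcU 4 b, 8, 16, cond e 48 32]

noncomputable def zcB (e : Bool) (ν a b : ℕ) : List ℕ := [11, hm (mul ZcU) [1, ν, 2, 24, 8, 32] (hm (mul ZcU) (zcA e a b) 4),
  hm (mul ZcU) [1, ν, 2, 24, 8, 32] (hm (mul ZcU) (zcA e a b) ν), 8, 16, cond e 40 32]

theorem zc1 : ∀ e : Bool, ∀ ν < 64, EQ 64 (mul ZcU ν ν) 24 → EQ 64 (hm (mul ZcU) [1, ν, 2, 24, 8, 32] ν) 4 → ∀ a < 64, IM 24 a →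
    ∀ b < 64, IM 24 b → EQ 64 (cj ZcU 1 0) (hm (mul ZcU) (zcB e ν a b) (hm (mul ZcU) (zcA e a b) (hm (mul ZcU) [1, ν, 2, 24, 8, 32] 11))) →
    ∀ η < 64, e = true ∨ η < 32 → EQ 64 (hm (mul ZcU) (zcA e a b) η) η →
    EQ 64 (cj ZcU 1 η) (hm (mul ZcU) (zcA e a b) (hm (mul ZcU) (zcA e a b) 1)) →
    ν = 30 ∧ ∃ j < 8, η = 4 * j ∧ a = 24 - j % 2 * 24 ∧ b = 16 - j % 2 * 16 := by decide +kernel

theorem zc0 : ∀ y < 128, y % 16 = 10 → ∀ y' < 128, y' % 16 = 6 →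
    subOK (D4 true) 128 [2, mul (D4 true) y' 2, mul (D4 true) y 2, 16, 32, 64] ZcU = true ∧
    (∀ i < 7, (126 : ℕ).testBit i = true → ∃ c < 64, EQ 128 (2 ^ i) (hm (mul (D4 true)) [2, mul (D4 true) y' 2, mul (D4 true) y 2, 16, 32, 64] c)) ∧
    (mul (D4 true) y' 2 / 64 % 2 = 0 → mul (D4 true) y 2 / 64 % 2 = 0 → ∀ η < 64,
      hm (mul (D4 true)) [2, mul (D4 true) y' 2, mul (D4 true) y 2, 16, 32, 64] η / 64 % 2 = 0 → η < 32) ∧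
    EQ 128 y (hm (mul (D4 true)) [2, mul (D4 true) y' 2, mul (D4 true) y 2, 16, 32, 64] 21) ∧
    EQ 128 y' (hm (mul (D4 true)) [2, mul (D4 true) y' 2, mul (D4 true) y 2, 16, 32, 64] 11) ∧
    IM 124 (mul (D4 true) y' 2) ∧ IM 124 (mul (D4 true) y 2) ∧ mul (D4 true) y' 2 < 128 ∧ mul (D4 true) y 2 < 128 ∧
    cj (D4 true) y 1 % 128 % 16 = 10 ∧ cj (D4 true) y' 1 % 128 % 16 = 14 := by decide +kernel

namespace St4

variable {X : St4 C true} (Z : X.ZT)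

structure YW (j α β : ℕ) where
  gs : List G
  pg : PG gs (ZcW e j) 256
  ρ : G
  rN : ρ ∈ normalizer ((Z.T ⊓ X.MZ : Subgroup G) : Set G)
  rho : X.Rho ρ
  rt : 𝔫 ρ 2 2
  rf : 𝔫 ρ 64 64
  ac : Ac pg ρ [2, inv (ZcW e j) 3, 4, 120, 8, 96, 32, 128]
  t : el gs 4 = 𝔯 2
  r : el gs 32 = 𝔯 16
  z : el gs 64 = 𝔯 32
  f : el gs 128 = 𝔯 64
  le : gen gs ≤ Z.T ⊓ X.MZ
  sa : Mp pg pg (𝔯 1) 1 (4 * α + 1)
  sb : Mp pg pg (𝔯 1) 2 (4 * β + 3)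
  cm : ∃ x y, el gs 1 = cm x y

theorem ZT.sN : 𝔯 1 ∈ normalizer ((Z.T ⊓ X.MZ : Subgroup G) : Set G) := norm_inf (le_normalizer (Z.RT (el_mem _ _)))
  (MZ.nm X (X.pg.nm_el dk) (X.pg.nm_el dk) (X.pg.nm_el dk))

theorem ZT.yw : ∃ j < 8, ∃ α < 64, ∃ β < 64, Nonempty (YW Z j α β) := by
  obtain ⟨ρ, rN, r, rt, rf, r3⟩ := Z.rho3
  obtain ⟨K, K1, K2, K3⟩ := X.chi
  have w0 := cg_mem_norm Z.m2 rN
  have w1 : cm Z.x2 ρ ∈ Z.T ⊓ X.MZ := mul_mem (inv_mem Z.m2) w0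
  have t1 : X.Tr (cm Z.x2 ρ) 10 := (ZT.trinv Z.m2.2 Z.t2).mul X w0.2 (r.tr X w0.2 Z.t2 rfl)
  have f1 : 𝔫 (cm Z.x2 ρ) 64 (cond e 96 64) := by
    have a : 𝔫 ρ (cond e 16 0) (cond e 48 0) := by cases e; exacts [.zero, r.r X]
    have b : 𝔫 (cm Z.x2 ρ) (cond e 16 0) (cond e 16 0) := by cases e; exacts [.zero, MZ.r X w1.2]
    exact ((Z.f2.symm.trans (Z.f2.cjg rf ((rf.mul a).l _))).mul b).cast _ _
  have e1 : cm Z.x2 ρ * cg (cm Z.x2 ρ) ρ * cg (cg (cm Z.x2 ρ) ρ) ρ = 1 := by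
    simp only [cm, cg_mul, cg_inv, r3 _ Z.m2]; group
  have c1 : ∃ x y, cm Z.x2 ρ = cm x y := ⟨_, _, rfl⟩
  generalize cm Z.x2 ρ = y1 at w1 t1 f1 e1 c1
  have w2 := cg_mem_norm w1 rN
  have t2 : X.Tr (cg y1 ρ) 6 := r.tr X w2.2 t1 rfl
  have f2 : 𝔫 (cg y1 ρ) 64 (cond e 80 64) := f1.cjg rf (by cases e; exacts [rf, (rf.mul (r.z X)).cast _ _])
  have t3 : X.Tr (y1 * cg y1 ρ) 14 := t1.mul X w2.2 t2
  have r4 := r3 _ w1
  generalize e2 : cg y1 ρ = y2 at w2 t2 f2 t3 e1 r4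
  obtain ⟨y, l, p, m⟩ := id t1
  obtain ⟨y', l', p', m'⟩ := id t2
  obtain ⟨u1, u2, u3, u4, u5, u6, u7, u8, u9, u10, u11⟩ := zc0 y l p y' l' p'
  have mr : 𝔫 ρ y y' := by rw [Mp, ← m.e, cg_cg', rt.e, e2, m'.e]
  have k1 := (K3 (mul (D4 true) y 2)).1 (by
    have := K1 y1 (𝔯 2)
    rwa [show cm y1 (𝔯 2) = (cm (𝔯 2) y1)⁻¹ by simp [cm, cg, mul_assoc], K.inv_mem_iff, cm, m.e, K.mul_mem_cancel_left (inv_mem ((K3 2).2 (.inr rfl))),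
      ← K.mul_mem_cancel_right ((K3 2).2 (.inr rfl)), X.pg.mul] at this)
  have k2 := (K3 (mul (D4 true) y' 2)).1 (by
    have := K1 y2 (𝔯 2)
    rwa [show cm y2 (𝔯 2) = (cm (𝔯 2) y2)⁻¹ by simp [cm, cg, mul_assoc], K.inv_mem_iff, cm, m'.e, K.mul_mem_cancel_left (inv_mem ((K3 2).2 (.inr rfl))),
      ← K.mul_mem_cancel_right ((K3 2).2 (.inr rfl)), X.pg.mul] at this)
  have mk := mr.mul rt
  have mk3 := r3 (𝔯 (mul (D4 true) y 2)) ⟨Z.RT (el_mem _ _), MZ.el X u9 (IM.trans (by decide) u7)⟩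
  have c2 := Z.cmE w1 u8 u6
  have c4 := Z.cmE w1 u9 u7
  have s1 : X.Tr (cg y1 (𝔯 1)) 10 := ⟨_, Nat.mod_lt _ (by norm_num), u10, (m.cjg (.sf _ 1 2 2) (.self _ 1 y)).r _ (Nat.mod_mod _ 128).symm⟩
  have s2 : X.Tr (cg y2 (𝔯 1)) 14 := ⟨_, Nat.mod_lt _ (by norm_num), u11, (m'.cjg (.sf _ 1 2 2) (.self _ 1 y')).r _ (Nat.mod_mod _ 128).symm⟩
  have hU := X.pg.sub u1 (rfl : _ = 64)
  have E := X.pg.el_map [2, mul (D4 true) y' 2, mul (D4 true) y 2, 16, 32, 64]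
  have E1 := (E 21).trans ((X.pg.eq _ _).2 u4).symm
  have E2 := (E 11).trans ((X.pg.eq _ _).2 u5).symm
  have hK : ∀ η < 64, y1 * y1 = el _ η → e = true ∨ η < 32 := fun η l h => by
    have := (K3 _).1 (E η ▸ h ▸ K2 y1)
    rcases k1 with k1 | k1; · exact .inl k1
    exact k2.elim .inl fun k2 => this.imp_right (u3 k2 k1 η l)
  have mU : MS X.gs 126 ≤ gen _ := (ms_le_iff X.pg).2 fun i a b => let ⟨c, _, q⟩ := u2 i a b; ((X.pg.eq _ _).2 q).trans (E c).symm ▸ el_mem _ c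
  have lU : gen (List.map 𝔯 [2, mul (D4 true) y' 2, mul (D4 true) y 2, 16, 32, 64]) ≤ Z.T ⊓ X.MZ := gen_le.2 fun x h => by
    obtain ⟨c, a, rfl⟩ := List.mem_map.1 h
    refine ⟨Z.RT (el_mem _ _), ?_⟩
    simp only [List.mem_cons, List.not_mem_nil, or_false] at a
    rcases a with rfl | rfl | rfl | rfl | rfl | rfl
    exacts [MZ.el X (by decide) (by decide), MZ.el X u8 (IM.trans (by decide) u6), MZ.el X u9 (IM.trans (by decide) u7),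
      MZ.el X (by decide) (by decide), MZ.el X (by decide) (by decide), MZ.el X (by decide) (by decide)]
  generalize hus : List.map 𝔯 [2, mul (D4 true) y' 2, mul (D4 true) y 2, 16, 32, 64] = us at hU E1 E2 hK mU lU
  obtain ⟨g1, g2, g4, g8, g16, g32⟩ : el us 1 = 𝔯 2 ∧ el us 2 = 𝔯 (mul (D4 true) y' 2) ∧ el us 4 = 𝔯 (mul (D4 true) y 2) ∧
    el us 8 = 𝔯 16 ∧ el us 16 = 𝔯 32 ∧ el us 32 = 𝔯 64 := by subst hus; simp [el]
  have tr : ∀ {w a b a' b'}, el us a = 𝔯 a' → el us b = 𝔯 b' → 𝔫 w a' b' → Mp hU hU w a b := fun p q m => by rw [Mp, p, q, m.e]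
  have g24 : el us 24 = 𝔯 48 := by rw [← (hU.eq (mul ZcU 8 16) _).2 dk, ← hU.mul, g8, g16, X.pg.mul, X.pg.eq]; exact dk
  have gf : ∀ {w a b}, (a = 8 ∧ b = 80 ∨ a = 16 ∧ b = 96) → 𝔫 w 64 (cond e b 64) → Mp hU hU w 32 (cond e (a + 32) 32) := fun {w a b} h m => by
    rw [Mp, g32, m.e]
    cases e
    · exact g32.symm
    · rcases h with ⟨rfl, rfl⟩ | ⟨rfl, rfl⟩
      · rw [cond_true, cond_true, ← (hU.eq (mul ZcU 8 32) _).2 dk, ← hU.mul, g8, g32, X.pg.mul, X.pg.eq]; exact dk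
      · rw [cond_true, cond_true, ← (hU.eq (mul ZcU 16 32) _).2 dk, ← hU.mul, g16, g32, X.pg.mul, X.pg.eq]; exact dk
  have ex : ∀ v ∈ Z.T ⊓ X.MZ, ∀ w ∈ Z.T ⊓ X.MZ, ∀ j, j % 4 = 2 → X.Tr v j → X.Tr w j → ∃ c < 64, w = v * el us c := fun v a w b j c p q => by
    obtain ⟨x, -, u, h⟩ := Z.tr0 (mul_mem (inv_mem a) b) (by simpa using (ZT.trinv a.2 p).mul X b.2 q c)
    obtain ⟨c, l, h'⟩ := hU.ex (mU (h ▸ el_mem_ms u))
    exact ⟨c, l, by rw [← h', mul_inv_cancel_left]⟩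
  have O : ∀ {v : ℕ} {g}, el us v = g → cm g y1 ∈ MS X.gs 48 → ∃ a < 64, IM 24 a ∧ Mp hU hU y1 v (mul ZcU v a) := fun {v g} h m => by
    obtain ⟨a, l, p, q⟩ := hU.ex_ms (m := 24) dk ((ms_le_iff X.pg).2 (fun i p q => by
      obtain rfl | rfl : i = 4 ∨ i = 5 := by clear_aux_decl; clear * - p q; decide +kernel +revert
      exacts [g8 ▸ el_mem_ms (by decide), g16 ▸ el_mem_ms (by decide)]) m)
    exact ⟨a, l, p, by rw [Mp, ← hU.mul, ← q, h, cm, mul_inv_cancel_left]⟩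
  obtain ⟨ν, lν, mν⟩ := Mp.ex (x := 2) hU hU (mU (g2 ▸ cg_mem_norm (el_mem_ms (IM.trans (by decide) u6)) r.1))
  have R4 := tr g4 g2 mk
  have R8 := tr g8 g24 (r.r X)
  have R : Ac hU ρ [1, ν, 2, 24, 8, 32] := .of rfl fun i l => by
    obtain rfl | rfl | rfl | rfl | rfl | rfl : i = 0 ∨ i = 1 ∨ i = 2 ∨ i = 3 ∨ i = 4 ∨ i = 5 := by have : i < 6 := l; omega
    exacts [tr g1 g1 rt, mν, R4, R8, tr g16 g8 (r.z X), tr g32 g32 rf]
  have Rν : Mp hU hU ρ ν 4 := by rw [Mp, ← mν.e, ← R4.e, g4, mk3]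
  obtain ⟨a, la, pa, ma⟩ := O g2 c2
  obtain ⟨b, lb, pb, mb⟩ := O g4 c4
  have m1 := tr g1 E1 m
  have m2 := tr g1 E2 m'
  have A : Ac hU y1 (zcA e a b) := .of rfl fun i l => by
    obtain rfl | rfl | rfl | rfl | rfl | rfl : i = 0 ∨ i = 1 ∨ i = 2 ∨ i = 3 ∨ i = 4 ∨ i = 5 := by have : i < 6 := l; omega
    exacts [m1, ma, mb, tr g8 g8 (MZ.r X w1.2), tr g16 g16 (MZ.z X w1.2), gf (.inr ⟨rfl, rfl⟩) f1]
  have B : Ac hU y2 (zcB e ν a b) := .of rfl fun i l => by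
    obtain rfl | rfl | rfl | rfl | rfl | rfl : i = 0 ∨ i = 1 ∨ i = 2 ∨ i = 3 ∨ i = 4 ∨ i = 5 := by have : i < 6 := l; omega
    exacts [m2, e2 ▸ (A 4).cjg R4 (R _), e2 ▸ (A ν).cjg Rν (R _), tr g8 g8 (MZ.r X w2.2),
      tr g16 g16 (MZ.z X w2.2), gf (.inl ⟨rfl, rfl⟩) f2]
  obtain ⟨η, lη, hη⟩ := ex 1 (one_mem _) _ (mul_mem w1 w1) 2 rfl ⟨2, by norm_num, rfl, cg_one' _⟩ (t1.mul X w1.2 t1)
  rw [one_mul] at hη
  have e3 : cg y2 ρ = (y1 * y2)⁻¹ := eq_inv_of_mul_eq_one_right e1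
  obtain ⟨rfl, j, lj, rfl, rfl, rfl⟩ := zc1 e ν lν ((mν.mul mν).eq R8) ((R ν).eq Rν rfl) a la pa b lb pb
    ((((m2.cjg (tr g1 g1 rt) (R 11)).trans (A _)).trans (B _)).of_eq (by rw [e3, el_zero]; group)) η lη (hK η lη hη)
    ((A η).eq (by rw [Mp, ← hη, cg_mul, cg_self]) rfl) (((A 1).trans (A _)).of_eq hη)
  have A' := A.cast [21, 26 - j % 2 * 24, 20 - j % 2 * 16, 8, 16, cond e 48 32] (by clear_aux_decl; clear * - lj; decide +kernel +revert)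
  have B' := B.cast [11, 10 - j % 2 * 8, 28 - j % 2 * 24, 8, 16, cond e 40 32] (by clear_aux_decl; clear * - lj; decide +kernel +revert)
  have q2 := (R (4 * j)).r (j % 2 * 2 + (j / 2 % 2 * 24 ^^^ j / 4 * 8)) (by clear_aux_decl; clear * - lj; decide +kernel +revert)
  have h2 : y2 * y2 = el us (j % 2 * 2 + (j / 2 % 2 * 24 ^^^ j / 4 * 8)) := by rw [← q2.e, ← hη, cg_mul, e2]
  have co : cg y2 y1 = y2 := by
    have := (R (j % 2 * 2 + (j / 2 % 2 * 24 ^^^ j / 4 * 8))).r (inv ZcU (mul ZcU (4 * j) (j % 2 * 2 + (j / 2 % 2 * 24 ^^^ j / 4 * 8))))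
      (by clear_aux_decl; clear * - lj; decide +kernel +revert)
    rw [Mp, ← hU.inv, ← hU.mul, ← h2, ← hη, cg_mul, e3, ← mul_inv_rev, inv_inj, mul_assoc, mul_assoc, mul_right_inj, ← mul_assoc,
      ← mul_assoc, mul_left_inj] at this
    exact cg_eq_iff.2 this
  have h1 := hU.cons (g := y2) (fun h => by
    obtain ⟨x, l, q⟩ := hU.ex h
    have := m2.of_eq q
    clear_aux_decl; clear * - l this; revert x; decide +kernel) h2 (B'.fa rfl (by clear_aux_decl; clear * - lj; decide +kernel +revert))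
  have h0 : PG (y1 :: y2 :: us) (ZcW e j) 256 := h1.cons (fun h => by
    obtain ⟨x, l, q⟩ := h1.ex h
    have := Mp.of_eq (h := h1) (x := 2 * 1) (y := 2 * 21) (by rw [Mp, el_even, el_even, m1.e]) q
    clear_aux_decl; clear * - lj l this; revert x; decide +kernel +revert) (by rw [el_even, hη])
    (.cons (co.trans (by simp [el, el_zero])) (List.forall₂_map_right_iff.2
      ((A'.fa rfl (by clear_aux_decl; clear * - lj; decide +kernel +revert)).imp fun _ _ e => e.trans (el_even _ _ _).symm)))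
  have V : ∀ x, el (y1 :: y2 :: us) (2 * (2 * x)) = el us x := fun x => by rw [el_even, el_even]
  have V1 : el (y1 :: y2 :: us) 1 = y1 := by simp [el, el_zero]
  have V2 : el (y1 :: y2 :: us) 2 = y2 := by simp [el, el_zero]
  have L : ∀ x y, Mp hU hU ρ x y → Mp h0 h0 ρ (2 * (2 * x)) (2 * (2 * y)) := fun x y m => by rw [Mp, V, V, m.e]
  obtain ⟨α, lα, hα⟩ := ex _ w1 _ (cg_mem_norm w1 Z.sN) 10 rfl t1 s1
  obtain ⟨β, lβ, hβ⟩ := ex _ (mul_mem w1 w2) _ (cg_mem_norm w2 Z.sN) 14 rfl t3 s2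
  refine ⟨j, lj, α, lα, β, lβ, _, h0, ρ, rN, r, rt, rf, .of rfl fun i l => ?_, (V 1).trans g1, (V 8).trans g8, (V 16).trans g16,
    (V 32).trans g32, gen_le.2 (List.forall_mem_cons.2 ⟨w1, List.forall_mem_cons.2 ⟨w2, gen_le.1 lU⟩⟩), ?_, ?_, V1.symm ▸ c1⟩
  · obtain rfl | rfl | rfl | rfl | rfl | rfl | rfl | rfl : i = 0 ∨ i = 1 ∨ i = 2 ∨ i = 3 ∨ i = 4 ∨ i = 5 ∨ i = 6 ∨ i = 7 := by
      have : i < 8 := l; omega
    exacts [(congrArg (cg · ρ) V1).trans (e2.trans V2.symm), (congrArg (cg · ρ) V2).trans (e3.trans (Eq.trans (by simp [el, el_zero]) (h0.inv 3))), L 1 1 (R.ap _ _), L 2 30 mν, L 4 2 R4,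
      L 8 24 R8, L 16 8 (R.ap _ _), L 32 32 (R.ap _ _)]
  · rw [Mp, V1, hα, show 4 * α + 1 = 2 * (2 * α) + 1 by omega, el_odd, el_even]
  · rw [Mp, V2, hβ, show 4 * β + 3 = 2 * (2 * β + 1) + 1 by omega, el_odd, el_odd, mul_assoc]

end St4

end Cfsg.Lib.H33
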