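import Cfsg.Agent.Lib.L33.ZcB

/-! S3140, the case `St4 true` (helper3): a presentation of the Sylow subgroup. Codes `s y₁ y₂ t u k r z f`. -/

set_option autoImplicit false
set_option synthInstance.maxSize 2048

namespace Cfsg.Lib.H33

open Cfsg.Lib.Calc Cfsg.Lib.Transfer Subgroup

variable {G : Type*} [Group G] [Finite G] {e : Bool} {C : Cfg0 G e}

set_option hygiene false in
local notation "𝔯" => el (St4.gs X)
set_option hygiene false in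
local notation "𝔫" => Mp (St4.pg X) (St4.pg X)
set_option quotPrecheck false in
local notation "dk" => by clear_aux_decl; clear * -; decide +kernel +revert

def ZcT (e : Bool) (j α β : ℕ) : Dat := (0, [4 * α + 1, 4 * β + 3, 4, 120 - α % 16 * 24, 16 + α % 16 * 16, 96, 64, 128]) :: ZcW e j

noncomputable def zcS (e : Bool) (j α β : ℕ) : List ℕ :=
  [4 * α + 1, 4 * β + 3, 4, ck (ZcW e j) (4 * β + 3) 4, ck (ZcW e j) (4 * α + 1) 4, 96, 64, 128]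

def zcV : List (ℕ × ℕ × ℕ) := [(1, 0, 30), (1, 4, 24), (1, 16, 6), (1, 20, 0), (0, 0, 0), (0, 16, 24), (4, 4, 6), (4, 20, 30),
  (5, 0, 6), (5, 4, 0), (5, 16, 30), (5, 20, 24), (0, 4, 30), (0, 20, 6), (4, 0, 24), (4, 16, 0)]

theorem zc2 : ∀ e : Bool, ∀ j < 8, ∀ α < 64,
    EQ 256 (mul (ZcW e j) (4 * α + 1) (4 * α + 1)) (hm (mul (ZcW e j)) [ck (ZcW e j) (4 * α + 1) 4, 96, 64] j) →
    EQ 256 (cj (ZcW e j) (ck (ZcW e j) (4 * α + 1) 4) (4 * α + 1)) (hm (mul (ZcW e j)) [ck (ZcW e j) (4 * α + 1) 4, 96, 64] (5 - j % 2 * 4)) →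
    ∀ β < 64, EQ 256 (cj (ZcW e j) 2 0) (hm (mul (ZcW e j)) (zcS e j α β) (4 * β + 3)) →
    IM 42 (hm (mul (ZcW e j)) [2, inv (ZcW e j) 3, 4, 120, 8, 96, 32, 128] (hm (mul (ZcW e j)) (zcS e j α β)
      (hm (mul (ZcW e j)) [2, inv (ZcW e j) 3, 4, 120, 8, 96, 32, 128] (4 * β + 3))) % 256) → (j, α, β) ∈ zcV := by
  intro e; cases e <;> decide +kernel

namespace St4

structure YT (X : St4 C true) (j α β : ℕ) where
  gs : List G
  pg : PG gs (ZcT e j α β) 512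
  syl : ¬ 2 * 512 ∣ Nat.card G
  s : el gs 1 = 𝔯 1
  t : el gs 8 = 𝔯 2
  r : el gs 64 = 𝔯 16
  z : el gs 128 = 𝔯 32
  f : el gs 256 = 𝔯 64
  rho : ∃ ρ, ∀ x, Mp pg pg ρ (2 * x) (2 * hm (mul (ZcW e j)) [2, inv (ZcW e j) 3, 4, 120, 8, 96, 32, 128] x)
  cm : ∃ x y, el gs 2 = cm x y

theorem yt (X : St4 C true) : ∃ p ∈ zcV, Nonempty (X.YT p.1 p.2.1 p.2.2) := by
  obtain ⟨Z⟩ := X.exZT X.h256
  obtain ⟨j, lj, α, lα, β, lβ, ⟨Y⟩⟩ := Z.yw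
  have h := Y.pg
  have tr : ∀ {w a b a' b'}, el Y.gs a = 𝔯 a' → el Y.gs b = 𝔯 b' → 𝔫 w a' b' → Mp h h w a b := fun p q m => by rw [Mp, p, q, m.e]
  have rz : el Y.gs 96 = 𝔯 48 := by
    rw [← (h.eq (mul (ZcW e j) 32 64) _).2 (by clear_aux_decl; clear * - lj; decide +kernel +revert), ← h.mul, Y.r, Y.z, X.pg.mul, X.pg.eq]
    exact dk
  have st := tr Y.t Y.t (.sf _ 1 _ _)
  have sr := tr Y.r rz (.sf _ 1 _ _)
  have sz := tr Y.z Y.z (.sf _ 1 _ _)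
  have sk := (Y.sa.ck st).l 16 (by clear_aux_decl; clear * - lj; decide +kernel +revert)
  have a : ∀ i < 8, Mp h h (𝔯 1) (2 ^ i) ((zcS e j α β).getD i 0) := fun i l => by
    obtain rfl | rfl | rfl | rfl | rfl | rfl | rfl | rfl : i = 0 ∨ i = 1 ∨ i = 2 ∨ i = 3 ∨ i = 4 ∨ i = 5 ∨ i = 6 ∨ i = 7 := by omega
    exacts [Y.sa, Y.sb, st, (Y.sb.ck st).l 8 (by clear_aux_decl; clear * - lj; decide +kernel +revert), sk, sr, sz, tr Y.f Y.f (.sf _ 1 _ _)]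
  have l8 : 2 ^ (zcS e j α β).length = 256 := by simp [zcS]
  have A : Ac h (𝔯 1) (zcS e j α β) := .of l8 a
  have s2 : 𝔯 1 * 𝔯 1 = el Y.gs 0 := by rw [el_zero, X.pg.mul, X.pg.one]; exact dk
  have n : 𝔯 1 ∉ gen Y.gs := fun m => absurd (MZ.r X (Y.le m).2).of_el dk
  have sy : ¬ 2 * 512 ∣ Nat.card G := Z.main
  have h1 := h.cons n s2 (h.fa _ l8 a)
  have eT : gen (𝔯 1 :: Y.gs) = Z.T := eq_of_le_of_card_ge (gen_le.2 (List.forall_mem_cons.2 ⟨Z.RT (el_mem _ _),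
    gen_le.1 (Y.le.trans inf_le_left)⟩)) (h1.card ▸ Z.card)
  have N : ∀ m, 𝔯 1 ∈ normalizer (MS X.gs m : Set G) → Y.ρ ∈ normalizer (MS X.gs m : Set G) →
    𝔯 1 * Y.ρ * (𝔯 1 * Y.ρ) ∈ normalizer (MS X.gs m : Set G) := fun m a b => mul_mem (mul_mem a b) (mul_mem a b)
  have g1 := (Mp.sf X.pg 1 16 48).trans (((Y.rho.z X).mul (Y.rho.r X)).cast 48 32)
  have g2 := (Mp.sf X.pg 1 32 32).trans (Y.rho.z X)
  have g3 := (Mp.sf X.pg 1 2 2).trans Y.rt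
  have g4 := (Mp.sf X.pg 1 64 64).trans Y.rf
  obtain ⟨c, -, p, q⟩ := Z.sg (eT ▸ h1.idx sy) (mul_mem (mul_mem Z.sN Y.rN) (mul_mem Z.sN Y.rN))
    (MZ.of X (N _ (X.pg.nm_el dk) Y.rho.1) (N _ (X.pg.nm_el dk) (Y.rho.n1 X)) (N _ (X.pg.nm_el dk) Y.rho.2.1) (g1.trans g2) (g2.trans g1))
    (g3.trans g3) (g4.trans g4)
  obtain ⟨c', l', p', q'⟩ := h.ex_ms (m := 228) (by clear_aux_decl; clear * - lj; decide +kernel +revert) ((ms_le_iff X.pg).2 (fun i p q => by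
    obtain rfl | rfl | rfl | rfl : i = 1 ∨ i = 4 ∨ i = 5 ∨ i = 6 := by clear_aux_decl; clear * - p q; decide +kernel +revert
    exacts [Y.t ▸ el_mem_ms (by decide), Y.r ▸ el_mem_ms (by decide), Y.z ▸ el_mem_ms (by decide), Y.f ▸ el_mem_ms (by decide)]) (el_mem_ms p))
  have k := ((Y.sb.trans (Y.ac _)).trans ((A _).trans (Y.ac _))).eq ((q _ (Y.le (el_mem _ 2))).trans (q' ▸ h.cg 2 c')) rfl
  have H := Mp.hom (.cons sk (.cons sr (.cons sz .nil)))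
  have v := zc2 e j lj α lα ((Y.sa.mul Y.sa).eq (H j) (by clear_aux_decl; clear * - lj; decide +kernel +revert))
    ((sk.cj Y.sa).eq (H _) (by clear_aux_decl; clear * - lj; decide +kernel +revert)) β lβ ((Y.sb.trans (A _)).of_eq s2)
    (by rw [k]; clear_aux_decl; clear * - lj l' p'; decide +kernel +revert)
  have c : (zcS e j α β).map (· % 256) = (ZcT e j α β).head!.2 ∧ ∀ i < 8, EQ 256 (hm (mul (ZcW e j)) (ZcT e j α β).head!.2 (2 ^ i))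
      ((ZcT e j α β).head!.2.getD i 0) := (by decide +kernel : ∀ e : Bool, ∀ p ∈ zcV, (zcS e p.1 p.2.1 p.2.2).map (· % 256) =
        (ZcT e p.1 p.2.1 p.2.2).head!.2 ∧ ∀ i < 8, EQ 256 (hm (mul (ZcW e p.1)) (ZcT e p.1 p.2.1 p.2.2).head!.2 (2 ^ i))
          ((ZcT e p.1 p.2.1 p.2.2).head!.2.getD i 0)) e _ v
  have V := el_even (𝔯 1) Y.gs
  exact ⟨_, v, ⟨_, h.cons n s2 ((A.cast _ c.1).fa (by simp [ZcT]) c.2), sy, by simp [el, el_zero], (V 4).trans Y.t, (V 32).trans Y.r, (V 64).trans Y.z,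
    (V 128).trans Y.f, ⟨Y.ρ, fun x => (congrArg (cg · Y.ρ) (V x)).trans ((Y.ac x).e.trans (V _).symm)⟩, (V 1).symm ▸ Y.cm⟩⟩

end St4

end Cfsg.Lib.H33
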