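import Cfsg.Agent.Lib.L33.ZcC

/-! S3140, the case `St4 true` (helper3): computations in the Sylow subgroup. -/

set_option autoImplicit false
set_option synthInstance.maxSize 2048

namespace Cfsg.Lib.L33

open Subgroup H33

variable {G : Type*} [Group G] [Finite G]

set_option quotPrecheck false in
local notation "dk" => by clear_aux_decl; clear * -; decide +kernel +revert
set_option hygiene false in
local notation "𝔇" => ZcT e p.1 p.2.1 p.2.2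
set_option hygiene false in
local notation "𝔈" => ZcT e q.1.1 q.1.2.1 q.1.2.2

namespace Zc

theorem zx' {gs : List G} {D : Dat} {N : ℕ} (h : PG gs D N) (s : ¬ 2 * N ∣ Nat.card G) {z : ℕ}
    (zc : ∀ i < N.log2, EQ N (cj D z (2 ^ i)) z) {Q : ℕ → Prop} {V : List ℕ}
    (k : ∀ x < N, Q x → EQ N (mul D x x) 0 → EQ N x 0 ∨ EQ N x z ∨ ∃ v ∈ V, EQ N (cj D x v) (mul D x z)) {x y : ℕ} (w : ℕ)
    (q : ∀ g, ∀ u < N, cg (el gs x) g = el gs u → Q u) (c : IsConj (el gs z) (el gs y))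
    (a : EQ N (cj D y x) y ∧ EQ N (mul D x x) 0 ∧ ¬ EQ N x 0 ∧ ¬ EQ N x y ∧ EQ N (mul D x y) w) : IsConj (el gs x) (el gs w) := by
  obtain ⟨g, e, p⟩ := h.into s zc (pg_zpowers (n := 1) ((sq _).trans ((h.mul x x).trans ((h.one _).2 (by simpa [EQ] using a.2.1))))) c
    fun u m => mem_cent.1 (zpowers_le.2 (mem_cent.2 (Mp.sf h _ _ _ a.1)) m)
  obtain ⟨u, l, f⟩ := Mp.ex h h (p _ (mem_zpowers _))
  obtain r | r | ⟨v, -, r⟩ := k u l (q g u l f) (f.sq a.2.1)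
  · exact absurd r (f.ne .zero a.2.2.1)
  · exact absurd r (f.ne e a.2.2.2.1)
  · exact (f.conj.trans (Mp.sf h v _ _ r).conj).trans ((f.mul e).l _ a.2.2.2.2).conj.symm

def D8 : Dat := [(0, [2, 1, 8, 4, 32, 16]), (2, [1, 2, 4, 8, 16]), (2, [1, 2, 4, 8]), (2, [1, 2, 4]), (2, [1, 2]), (0, [1]), (0, [])]

theorem wr {gs : List G} (h : PG gs D8 128) : IsWreathed (gen gs) := by
  have : Fact (Nat.Prime 2) := ⟨Nat.prime_two⟩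
  have M : ∀ x y u, EQ 128 (mul D8 x y) u → el gs x * el gs y = el gs u := fun x y u a => (h.mul _ _).trans ((h.eq _ _).2 a)
  have p : el gs 2 ^ 2 ^ 2 = el gs 32 := by rw [sq, pow_mul, sq, sq, M 2 2 8 dk, M 8 8 32 dk]
  refine ⟨3, by norm_num, h.card, ⟨_, el_mem gs 2⟩, ⟨_, el_mem gs 4⟩, ⟨_, el_mem gs 1⟩, orderOf_eq_prime_pow (fun e => ?_) (Subtype.ext ?_),
    Subtype.ext ((M 2 4 6 dk).trans (M 4 2 6 dk).symm), eq_bot_iff.2 fun w m => Subtype.ext ?_, orderOf_eq_prime (Subtype.ext ?_) fun e => ?_,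
    Subtype.ext (mul_inv_eq_of_eq_mul ((M 1 2 3 dk).trans (M 4 1 3 dk).symm))⟩
  · exact absurd ((h.one _).1 (p.symm.trans (congrArg Subtype.val e))) (by decide)
  · exact (pow_mul _ (2 ^ 2) 2).trans (by rw [p, sq, M 32 32 0 dk, el_zero])
  · obtain ⟨u, l, a, b⟩ := h.ex_ms (m := 42) dk ((zpowers_le (H := (MS gs 42).subgroupOf _)).2 (el_mem_ms (by decide)) m.1)
    have := (h.mem_ms (m := 84) dk u).1 (b ▸ (zpowers_le (H := (MS gs 84).subgroupOf _)).2 (el_mem_ms (by decide)) m.2)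
    exact b.trans ((h.one _).2 (by clear_aux_decl; clear * - l a this; decide +kernel +revert))
  · exact (sq _).trans ((M 1 1 0 dk).trans (el_zero _))
  · exact absurd ((h.one _).1 (congrArg Subtype.val e)) (by decide)

def L : List ((ℕ × ℕ × ℕ) × ℕ × ℕ × List ℕ) := [((1, 0, 30), 128, 64, [1, 4, 246, 16, 240, 64, 192]), ((1, 4, 24), 128, 64, [1, 4, 198, 16, 48, 64, 192]),
  ((1, 16, 6), 128, 64, [1, 4, 54, 16, 240, 64, 192]), ((1, 20, 0), 128, 64, [1, 4, 6, 16, 48, 64, 192]),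
  ((0, 0, 0), 2, 4, [1, 2, 4, 16, 32, 64, 128]), ((0, 16, 24), 66, 196, [1, 66, 6, 48, 160, 192, 128]),
  ((4, 4, 6), 50, 164, [1, 50, 22, 48, 224, 192, 128]), ((4, 20, 30), 18, 244, [1, 18, 102, 48, 224, 192, 128])]

theorem k1 : ∀ e : Bool, ∀ p ∈ zcV, (∀ x < 512, e = true ∨ x < 256 → EQ 512 (mul 𝔇 x x) 0 → EQ 512 x 0 ∨ EQ 512 x 128 ∨
      ∃ v ∈ [32, 352, 1, 64, 2, 16, 48], EQ 512 (cj 𝔇 x v) (mul 𝔇 x 128)) ∧ ((∃ q ∈ L, q.1 = p) ∨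
    ∃ v ∈ [51, 3, 19, 67, 2, 66, 50, 18], (EQ 512 (cj 𝔇 9 1) 9 ∧ EQ 512 (cj 𝔇 9 v) 9 ∧ EQ 512 (mul 𝔇 1 1) 0 ∧ EQ 512 (mul 𝔇 v v) 0 ∧
      ¬ EQ 512 (mul 𝔇 (mul 𝔇 (mul 𝔇 1 v) (mul 𝔇 1 v)) (mul 𝔇 (mul 𝔇 1 v) (mul 𝔇 1 v))) 0) ∧
      ∃ w ∈ [12, 6, 4, 70], EQ 512 (cj 𝔇 1 w) v ∨ EQ 512 (cj 𝔇 9 w) (mul 𝔇 v 9)) := by
  intro e; cases e <;> decide +kernel

theorem k2 : ∀ e : Bool, ∀ q ∈ L, (∀ u < 512, IM 247 (mul 𝔈 u (inv 𝔈 (u &&& 264)) % 512)) ∧ PG.parOK 𝔈 512 (· / cond e 256 8 % 2 = 0) ∧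
    (∀ x < 256, EQ 512 (mul 𝔈 x x) 0 → x = 0 ∨ ∃ v ∈ [0, 13, 16, 29, 76, 92, 17, 32, 10, 45, 61, 51, 354, 39, 339, 23, 48, 14, 8, 5, 21],
      cj 𝔈 x v % 512 ∈ [1, 64, 128, q.2.1, q.2.2.1] ∨ x / 8 % 2 = 1 ∧ cj 𝔈 x v % 512 ∈ [8, 9]) := by
  intro e; cases e <;> decide +kernel

theorem k3 : ∀ q ∈ L, (subOK (ZcT false q.1.1 q.1.2.1 q.1.2.2) 512 q.2.2.2 (if q.1.1 = 1 then D8 else DM) = true ∧ 2 ^ q.2.2.2.length = 128) ∧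
    (∀ i < Nat.log2 128, IM 247 (hm (mul (ZcT false q.1.1 q.1.2.1 q.1.2.2)) q.2.2.2 (2 ^ i))) ∧
    (∀ i < Nat.log2 512, (247 : ℕ).testBit i = true → ∃ x < 128, EQ 512 (2 ^ i) (hm (mul (ZcT false q.1.1 q.1.2.1 q.1.2.2)) q.2.2.2 x)) ∧
    (q.1.1 = 1 ∨ EQ 512 128 (hm (mul (ZcT false q.1.1 q.1.2.1 q.1.2.2)) q.2.2.2 64)) := by decide +kernel

end Zc

end Cfsg.Lib.L33
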